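import Cfsg.Agent.Char.Kernel
import Mathlib.Analysis.Fourier.FiniteAbelian.PontryaginDuality
import Mathlib.LinearAlgebra.PID

/-! Components of a character with respect to an abelian subgroup, parametrised by an additive
group `A` through `ζ : AddChar A G`. -/

set_option autoImplicit false

namespace Cfsg.Lib.Char

open scoped ComplexConjugate

variable {G : Type*} [Group G] {A : Type*} [AddCommGroup A] [Fintype A]

/-- the trace of `g` on the `l`-eigenspace of `ζ(A)` -/
noncomputable def acomp (ζ : AddChar A G) (χ : G → ℂ) (l : AddChar A ℂ) (g : G) : ℂ :=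
  (Fintype.card A : ℂ)⁻¹ * ∑ a, l (-a) * χ (g * ζ a)

variable {ζ : AddChar A G} {χ : G → ℂ}

theorem card_cast_ne_zero (A : Type*) [AddCommGroup A] [Fintype A] : (Fintype.card A : ℂ) ≠ 0 := by
  exact_mod_cast Fintype.card_ne_zero

theorem sum_acomp (ζ : AddChar A G) (χ : G → ℂ) (g : G) : ∑ l, acomp ζ χ l g = χ g := by
  classical
  unfold acomp
  rw [← Finset.mul_sum, Finset.sum_comm]
  simp_rw [← Finset.sum_mul, AddChar.sum_apply_eq_ite]
  rw [Finset.sum_eq_single 0]
  · have := card_cast_ne_zero A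
    simp only [neg_zero, if_true, AddChar.map_zero_eq_one, mul_one]
    field_simp
  · intro a _ ha
    simp [ha]
  · simp

theorem acomp_mul (l : AddChar A ℂ) (g : G) (a : A) :
    acomp ζ χ l (g * ζ a) = l a * acomp ζ χ l g := by
  unfold acomp
  rw [mul_left_comm, Finset.mul_sum _ _ (l a), ← Equiv.sum_comp (Equiv.addLeft a)
    (fun b => l a * (l (-b) * χ (g * ζ b)))]
  congr 1
  refine Finset.sum_congr rfl fun b _ => ?_
  rw [Equiv.coe_addLeft, ← mul_assoc (l a), ← AddChar.map_add_eq_mul, AddChar.map_add_eq_mul ζ,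
    mul_assoc g]
  congr 2
  rw [neg_add, add_neg_cancel_left]

theorem apply_eq_sum_acomp (ζ : AddChar A G) (χ : G → ℂ) (g : G) (a : A) :
    χ (g * ζ a) = ∑ l : AddChar A ℂ, l a * acomp ζ χ l g := by
  rw [← sum_acomp ζ χ]
  simp_rw [acomp_mul]

theorem zeta_comm (ζ : AddChar A G) (a b : A) : ζ a * ζ b = ζ b * ζ a := by
  rw [← AddChar.map_add_eq_mul, add_comm, AddChar.map_add_eq_mul]

theorem acomp_mul_left (hχ : IsClassFunction G χ) (l : AddChar A ℂ) (g : G) (a : A) :
    acomp ζ χ l (ζ a * g) = l a * acomp ζ χ l g := by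
  rw [← acomp_mul]
  unfold acomp
  congr 1
  refine Finset.sum_congr rfl fun b _ => ?_
  rw [mul_assoc, hχ.apply_mul_comm, mul_assoc, mul_assoc, zeta_comm ζ b a]

theorem acomp_eq_zero (hχ : IsClassFunction G χ) {l : AddChar A ℂ} {g : G} {a a' : A}
    (h : g * ζ a = ζ a' * g) (hl : l a ≠ l a') : acomp ζ χ l g = 0 := by
  have h1 := acomp_mul (ζ := ζ) (χ := χ) l g a
  rw [h, acomp_mul_left hχ] at h1
  exact (mul_eq_mul_right_iff.1 h1).resolve_left hl.symm

theorem acomp_conj (hχ : IsClassFunction G χ) {l l' : AddChar A ℂ} {γ : G} (φ : A ≃ A)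
    (h : ∀ a, γ * ζ a = ζ (φ a) * γ) (hl : ∀ a, l (φ a) = l' a) (g : G) :
    acomp ζ χ l (γ * g * γ⁻¹) = acomp ζ χ l' g := by
  unfold acomp
  congr 1
  rw [← Equiv.sum_comp φ]
  refine Finset.sum_congr rfl fun a _ => ?_
  rw [AddChar.map_neg_eq_inv, AddChar.map_neg_eq_inv, hl, ← hχ.apply_conj (g * ζ a) γ]
  congr 2
  have : ζ (φ a) = γ * ζ a * γ⁻¹ := by rw [h]; group
  rw [this]
  group

theorem isCharacter_acomp (hχ : IsCharacter G χ) {l : AddChar A ℂ} {H : Type*} [Group H]
    (s : H →* G) (hs : ∀ h, ∃ φ : A ≃ A, (∀ a, s h * ζ a = ζ (φ a) * s h) ∧ ∀ a, l (φ a) = l a) :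
    IsCharacter H fun h => acomp ζ χ l (s h) := by
  obtain ⟨n, ρ, rfl⟩ := hχ
  have hc := card_cast_ne_zero A
  let P : (Fin n → ℂ) →ₗ[ℂ] (Fin n → ℂ) := (Fintype.card A : ℂ)⁻¹ • ∑ a, l (-a) • ρ (ζ a)
  have hP : ∀ h, ρ (s h) * P = P * ρ (s h) := by
    intro h
    obtain ⟨φ, h1, h2⟩ := hs h
    simp only [P, mul_smul_comm, smul_mul_assoc, Finset.mul_sum, Finset.sum_mul, ← map_mul, h1]
    congr 1
    rw [← Equiv.sum_comp φ (fun a => l (-a) • ρ (ζ a * s h))]
    refine Finset.sum_congr rfl fun a _ => ?_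
    rw [AddChar.map_neg_eq_inv, AddChar.map_neg_eq_inv, h2]
  have hζ : ∀ a, ρ (ζ a) * P = l a • P := by
    intro a
    simp only [P, mul_smul_comm, Finset.mul_sum, ← map_mul, ← AddChar.map_add_eq_mul]
    rw [smul_comm, Finset.smul_sum (r := l a), ← Equiv.sum_comp (Equiv.addLeft a)
      (fun b => l a • l (-b) • ρ (ζ b))]
    congr 1
    refine Finset.sum_congr rfl fun b _ => ?_
    rw [Equiv.coe_addLeft, smul_smul, ← AddChar.map_add_eq_mul]
    congr 2
    rw [neg_add, add_neg_cancel_left]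
  have hPP : P * P = P := by
    conv_lhs => enter [1]; simp only [P]
    rw [smul_mul_assoc, Finset.sum_mul]
    simp only [smul_mul_assoc, hζ, smul_smul, ← AddChar.map_add_eq_mul, neg_add_cancel,
      AddChar.map_zero_eq_one, one_smul, Finset.sum_const, Finset.card_univ]
    rw [← Nat.cast_smul_eq_nsmul ℂ, smul_smul, inv_mul_cancel₀ hc, one_smul]
  have hmem : ∀ h x, (ρ (s h) * P) x ∈ LinearMap.range P := fun h x => by
    rw [hP]; exact ⟨_, rfl⟩
  have hid : ∀ x ∈ LinearMap.range P, P x = x := by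
    rintro _ ⟨y, rfl⟩
    rw [← Module.End.mul_apply, hPP]
  let τ : Representation ℂ H (LinearMap.range P) :=
    { toFun := fun h => (ρ (s h) * P).restrict fun x _ => hmem h x
      map_one' := by
        ext x
        simp [LinearMap.restrict_apply, hid x.1 x.2]
      map_mul' := fun h h' => by
        ext x
        have := hid _ (hmem h' x.1)
        simp only [Module.End.mul_apply] at this
        simp [LinearMap.restrict_apply, this] }
  convert isCharacter_rep τ using 2 with h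
  change _ = LinearMap.trace ℂ _ ((ρ (s h) * P).restrict fun x _ => hmem h x)
  rw [LinearMap.trace_restrict_eq_of_forall_mem _ _ (hmem h)]
  simp only [P, mul_smul_comm, Finset.mul_sum, ← map_mul, map_smul, map_sum, smul_eq_mul, acomp,
    Representation.character]

/-- the elements normalising `ζ(A)` and fixing `l` -/
def acStab (ζ : AddChar A G) (l : AddChar A ℂ) : Subgroup G where
  carrier := {g | ∃ φ : A ≃ A, (∀ a, g * ζ a = ζ (φ a) * g) ∧ ∀ a, l (φ a) = l a}
  one_mem' := ⟨Equiv.refl A, fun a => by simp, fun _ => rfl⟩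
  mul_mem' := by
    rintro g g' ⟨φ, h1, h2⟩ ⟨φ', h1', h2'⟩
    refine ⟨φ'.trans φ, fun a => ?_, fun a => ?_⟩
    · rw [mul_assoc, h1', ← mul_assoc, h1, mul_assoc]; rfl
    · rw [Equiv.trans_apply, h2, h2']
  inv_mem' := by
    rintro g ⟨φ, h1, h2⟩
    refine ⟨φ.symm, fun a => ?_, fun a => ?_⟩
    · have := h1 (φ.symm a)
      rw [Equiv.apply_symm_apply] at this
      rw [inv_mul_eq_iff_eq_mul, ← mul_assoc, this]; group
    · rw [← h2, Equiv.apply_symm_apply]

theorem isCharacter_acStab (hχ : IsCharacter G χ) (l : AddChar A ℂ) :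
    IsCharacter (acStab ζ l) fun h => acomp ζ χ l h :=
  isCharacter_acomp hχ (acStab ζ l).subtype fun h => h.2

theorem exists_acomp_one (hχ : IsCharacter G χ) (ζ : AddChar A G) (l : AddChar A ℂ) :
    ∃ m : ℕ, acomp ζ χ l 1 = m :=
  (isCharacter_acStab hχ l).exists_nat_degree

theorem norm_acomp_le [Finite G] (hχ : IsCharacter G χ) {l : AddChar A ℂ} {g : G}
    (hg : g ∈ acStab ζ l) : ‖acomp ζ χ l g‖ ≤ (acomp ζ χ l 1).re :=
  (isCharacter_acStab hχ l).norm_le_re ⟨g, hg⟩

theorem acomp_comp {Z : Type*} [AddCommGroup Z] [Fintype Z] [DecidableEq (AddChar Z ℂ)]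
    (ι : Z →+ A) (ψ : AddChar Z ℂ) (g : G) :
    acomp (ζ.compAddMonoidHom ι) χ ψ g =
      ∑ l : AddChar A ℂ, if l.compAddMonoidHom ι = ψ then acomp ζ χ l g else 0 := by
  classical
  have hc := card_cast_ne_zero Z
  rw [acomp]
  simp only [AddChar.compAddMonoidHom_apply, apply_eq_sum_acomp ζ χ g, Finset.mul_sum]
  rw [Finset.sum_comm]
  refine Finset.sum_congr rfl fun l _ => ?_
  have := AddChar.sum_eq_ite (l.compAddMonoidHom ι - ψ)
  simp only [sub_eq_zero, AddChar.sub_apply, AddChar.compAddMonoidHom_apply] at this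
  rw [← Finset.mul_sum]
  simp_rw [← mul_assoc, mul_comm (ψ _), ← Finset.sum_mul, this]
  split_ifs
  · field_simp
  · simp

theorem acomp_one_of_const {τ : ℂ} (h : ∀ a, a ≠ 0 → χ (ζ a) = τ) (l : AddChar A ℂ)
    [Decidable (l = 0)] :
    acomp ζ χ l 1 = (Fintype.card A : ℂ)⁻¹ * (χ 1 - τ) + if l = 0 then τ else 0 := by
  classical
  have hc := card_cast_ne_zero A
  have h1 : ∑ a, l (-a) * χ (1 * ζ a) = (χ 1 - τ) + (∑ a, l (-a)) * τ := by
    rw [Finset.sum_mul, ← Finset.add_sum_erase _ _ (Finset.mem_univ 0),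
      ← Finset.add_sum_erase _ _ (Finset.mem_univ 0), Finset.sum_congr rfl
        (fun a ha => by rw [one_mul, h a (Finset.ne_of_mem_erase ha)])]
    simp only [neg_zero, AddChar.map_zero_eq_one, one_mul, mul_one]
    ring
  have h2 : ∑ a, l (-a) = _ := (Equiv.sum_comp (Equiv.neg A) l).trans (AddChar.sum_eq_ite l)
  rw [acomp, h1, h2]
  split_ifs
  · field_simp
  · simp

end Cfsg.Lib.Char
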