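import Cfsg.Agent.Char.Clifford
import Cfsg.Agent.Char.CharCenter
import Cfsg.Agent.Solv.MinNormal
import Mathlib.GroupTheory.FiniteAbelian.Duality
import Mathlib.Algebra.Group.MinimalAxioms
import Mathlib.RingTheory.RootsOfUnity.AlgebraicallyClosed
import Mathlib.Analysis.Complex.Polynomial.Basic

/-!
# Groups of central type: the Heisenberg extension and Gagola's embedding

`Heis φ` is the group of transformations `(t, x) ↦ (t * c * l x, m * φ k x)` of `ℂˣ × M`.
-/

set_option autoImplicit false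

namespace Cfsg.Lib.Char.CType

open Cfsg Cfsg.Lib.Char

universe u

variable {M K : Type u} [CommGroup M] [Group K]

/-- The Heisenberg group of `M` extended by `K`. -/
@[ext] structure Heis (φ : K →* MulAut M) : Type u where
  c : ℂˣ
  hc : c ^ Monoid.exponent M = 1
  l : M →* ℂˣ
  m : M
  k : K

variable {φ : K →* MulAut M}

theorem l_pow (l : M →* ℂˣ) (x : M) : l x ^ Monoid.exponent M = 1 := by
  rw [← map_pow, Monoid.pow_exponent_eq_one, map_one]

namespace Heis

noncomputable instance : Mul (Heis φ) :=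
  ⟨fun x y => ⟨x.c * y.c * x.l y.m, by rw [mul_pow, mul_pow, x.hc, y.hc, l_pow]; simp,
    y.l * x.l.comp (φ y.k).toMonoidHom, x.m * φ x.k y.m, x.k * y.k⟩⟩

noncomputable instance : One (Heis φ) := ⟨⟨1, one_pow _, 1, 1, 1⟩⟩

noncomputable instance : Inv (Heis φ) :=
  ⟨fun x => ⟨x.c⁻¹ * (x.l (φ x.k⁻¹ x.m⁻¹))⁻¹,
    by rw [mul_pow, inv_pow, inv_pow, x.hc, l_pow]; simp,
    (x.l.comp (φ x.k⁻¹).toMonoidHom)⁻¹, φ x.k⁻¹ x.m⁻¹, x.k⁻¹⟩⟩

@[simp] theorem mul_c (x y : Heis φ) : (x * y).c = x.c * y.c * x.l y.m := rfl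
@[simp] theorem mul_l (x y : Heis φ) (a : M) : (x * y).l a = y.l a * x.l (φ y.k a) := rfl
@[simp] theorem mul_m (x y : Heis φ) : (x * y).m = x.m * φ x.k y.m := rfl
@[simp] theorem mul_k (x y : Heis φ) : (x * y).k = x.k * y.k := rfl
@[simp] theorem one_c : (1 : Heis φ).c = 1 := rfl
@[simp] theorem one_l : (1 : Heis φ).l = 1 := rfl
@[simp] theorem one_m : (1 : Heis φ).m = 1 := rfl
@[simp] theorem one_k : (1 : Heis φ).k = 1 := rfl
@[simp] theorem inv_c (x : Heis φ) : x⁻¹.c = x.c⁻¹ * (x.l (φ x.k⁻¹ x.m⁻¹))⁻¹ := rfl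
@[simp] theorem inv_l (x : Heis φ) (a : M) : x⁻¹.l a = (x.l (φ x.k⁻¹ a))⁻¹ := rfl
@[simp] theorem inv_m (x : Heis φ) : x⁻¹.m = φ x.k⁻¹ x.m⁻¹ := rfl
@[simp] theorem inv_k (x : Heis φ) : x⁻¹.k = x.k⁻¹ := rfl

theorem ext' {x y : Heis φ} (h1 : x.c = y.c) (h2 : ∀ a, x.l a = y.l a) (h3 : x.m = y.m)
    (h4 : x.k = y.k) : x = y :=
  Heis.ext h1 (MonoidHom.ext h2) h3 h4

noncomputable instance : Group (Heis φ) :=
  Group.ofRightAxioms
    (fun x y z => by
      refine ext' ?_ (fun a => ?_) ?_ ?_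
      · simp only [mul_c, mul_l, mul_m, map_mul]
        simp only [mul_assoc, mul_comm, mul_left_comm]
      · simp only [mul_l, mul_k, map_mul, MulAut.mul_apply, mul_assoc]
      · simp only [mul_m, mul_k, map_mul, MulAut.mul_apply, mul_assoc]
      · simp only [mul_k, mul_assoc])
    (fun x => by
      refine ext' ?_ (fun a => ?_) ?_ ?_ <;> simp)
    (fun x => by
      refine ext' ?_ (fun a => ?_) ?_ ?_
      · simp only [mul_c, inv_c, inv_m, one_c]
        group
      · simp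
      · simp
      · simp)

/-- The underlying set. -/
noncomputable def equivProd [Finite M] :
    Heis φ ≃ rootsOfUnity (Monoid.exponent M) ℂ × (M →* ℂˣ) × M × K where
  toFun x := (⟨x.c, x.hc⟩, x.l, x.m, x.k)
  invFun y := ⟨y.1.1, y.1.2, y.2.1, y.2.2.1, y.2.2.2⟩
  left_inv _ := rfl
  right_inv _ := rfl

instance instFiniteDual [Finite M] : Finite (M →* ℂˣ) :=
  Nat.finite_of_card_ne_zero (by
    rw [CommGroup.card_monoidHom_of_hasEnoughRootsOfUnity]
    exact Nat.card_pos.ne')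

instance [Finite M] [Finite K] : Finite (Heis φ) := Finite.of_equiv _ equivProd.symm

theorem card_heis [Finite M] : Nat.card (Heis φ) =
    Nat.card (rootsOfUnity (Monoid.exponent M) ℂ) * (Nat.card M * (Nat.card M * Nat.card K)) := by
  rw [Nat.card_congr equivProd, Nat.card_prod, Nat.card_prod, Nat.card_prod,
    CommGroup.card_monoidHom_of_hasEnoughRootsOfUnity]

variable (φ) in
/-- The projection to `K`. -/
noncomputable def kHom : Heis φ →* K where
  toFun x := x.k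
  map_one' := rfl
  map_mul' _ _ := rfl

variable (φ) in
/-- The stabiliser of `1 : M`. -/
def T : Subgroup (Heis φ) where
  carrier := {x | x.m = 1}
  one_mem' := rfl
  mul_mem' {x y} hx hy := by
    simp only [Set.mem_ofPred_eq] at hx hy ⊢
    simp [hx, hy]
  inv_mem' {x} hx := by
    simp only [Set.mem_ofPred_eq] at hx ⊢
    simp [hx]

theorem mem_T {x : Heis φ} : x ∈ T φ ↔ x.m = 1 := Iff.rfl

variable (φ) in
/-- The abelian normal subgroup of multiplication operators. -/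
def N : Subgroup (Heis φ) where
  carrier := {x | x.m = 1 ∧ x.k = 1}
  one_mem' := ⟨rfl, rfl⟩
  mul_mem' {x y} hx hy := by
    simp only [Set.mem_ofPred_eq] at hx hy ⊢
    simp [hx, hy]
  inv_mem' {x} hx := by
    simp only [Set.mem_ofPred_eq] at hx ⊢
    simp [hx]

theorem mem_N {x : Heis φ} : x ∈ N φ ↔ x.m = 1 ∧ x.k = 1 := Iff.rfl

instance : (N φ).Normal where
  conj_mem n hn g := by
    rw [mem_N] at hn ⊢
    simp [hn]

theorem N_le_T : N φ ≤ T φ := fun _ h => h.1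

variable (φ) in
/-- The linear character `c` of `T`. -/
noncomputable def cHom : T φ →* ℂˣ where
  toFun x := x.1.c
  map_one' := rfl
  map_mul' x y := by
    have := y.2
    rw [mem_T] at this
    simp [this]

theorem card_T [Finite M] : Nat.card (T φ) =
    Nat.card (rootsOfUnity (Monoid.exponent M) ℂ) * (Nat.card M * Nat.card K) := by
  let e : T φ ≃ rootsOfUnity (Monoid.exponent M) ℂ × (M →* ℂˣ) × K :=
    { toFun := fun x => (⟨x.1.c, x.1.hc⟩, x.1.l, x.1.k)
      invFun := fun y => ⟨⟨y.1.1, y.1.2, y.2.1, 1, y.2.2⟩, rfl⟩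
      left_inv := fun x => Subtype.ext (Heis.ext rfl rfl x.2.symm rfl)
      right_inv := fun _ => rfl }
  rw [Nat.card_congr e, Nat.card_prod, Nat.card_prod,
    CommGroup.card_monoidHom_of_hasEnoughRootsOfUnity]

theorem index_T [Finite M] [Finite K] : (T φ).index = Nat.card M := by
  have h := (T φ).card_mul_index
  rw [card_T, card_heis] at h
  have hpos : 0 < Nat.card (rootsOfUnity (Monoid.exponent M) ℂ) * (Nat.card M * Nat.card K) :=
    Nat.mul_pos Nat.card_pos (Nat.mul_pos Nat.card_pos Nat.card_pos)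
  apply Nat.eq_of_mul_eq_mul_left hpos
  rw [h]; ring

/-- The induced irreducible character. -/
theorem exists_irr [Finite M] [Finite K] {χ : K → ℂ} (hχ : IsIrrCharacter K χ) :
    ∃ ψ : Heis φ → ℂ, IsIrrCharacter (Heis φ) ψ ∧ ψ 1 = Nat.card M * χ 1 := by
  have := Fintype.ofFinite (Heis φ)
  have := Fintype.ofFinite (N φ)
  let κ : T φ →* K := (kHom φ).comp (T φ).subtype
  have hκ : Function.Surjective κ := fun k => ⟨⟨⟨1, one_pow _, 1, 1, k⟩, rfl⟩, rfl⟩
  have h1 : IsIrrCharacter (T φ) ((fun t => χ (κ t)) * fun t => (cHom φ t : ℂ)) :=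
    (hχ.comp_of_surjective κ hκ).mul_monoidHom (cHom φ)
  let θ : N φ →* ℂˣ := (cHom φ).comp (Subgroup.inclusion N_le_T)
  have hθ : IsIrrCharacter (N φ) (fun n => (θ n : ℂ)) := isIrrCharacter_monoidHom θ
  have hT : inertia (N φ) (fun n => (θ n : ℂ)) ≤ T φ := by
    intro g hg
    rw [mem_inertia'] at hg
    rw [mem_T]
    by_contra hm
    have hm' : φ g.k⁻¹ g.m⁻¹ ≠ 1 := by simpa using hm
    obtain ⟨l, hl⟩ := CommGroup.exists_apply_ne_one_of_hasEnoughRootsOfUnity M ℂ hm'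
    have h2 := hg ⟨⟨1, one_pow _, l, 1, 1⟩, rfl, rfl⟩
    apply hl
    have h3 : (g * (⟨1, one_pow _, l, 1, 1⟩ : Heis φ) * g⁻¹).c = 1 := Units.val_injective h2
    simp only [mul_c, inv_c, inv_m, mul_l, map_one, MulAut.one_apply, mul_one] at h3
    rw [← h3]
    simp only [mul_assoc, mul_comm, mul_left_comm]
    group
  have hin : classInner (fun n : N φ =>
      ((fun t => χ (κ t)) * fun t => (cHom φ t : ℂ)) ⟨n, N_le_T n.2⟩) (fun n => (θ n : ℂ)) ≠ 0 := by
    have : (fun n : N φ => ((fun t => χ (κ t)) * fun t => (cHom φ t : ℂ)) ⟨n, N_le_T n.2⟩) =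
        χ 1 • fun n => (θ n : ℂ) := by
      funext n
      have hk : κ ⟨n, N_le_T n.2⟩ = 1 := n.2.2
      simp only [Pi.mul_apply, Pi.smul_apply, smul_eq_mul, hk]
      rfl
    rw [this, classInner_smul_left, hθ.classInner_self, mul_one]
    exact hχ.apply_one_ne_zero
  refine ⟨_, (clifford_indFun_irr N_le_T hT hθ h1 hin).1, ?_⟩
  rw [indFun_one, index_T]
  simp

/-- The central subgroup lying over `Z`. -/
def Zc (Z : Subgroup K) : Subgroup (Heis φ) where
  carrier := {x | x.l = 1 ∧ x.m = 1 ∧ x.k ∈ Z}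
  one_mem' := ⟨rfl, rfl, Z.one_mem⟩
  mul_mem' {x y} hx hy := by
    obtain ⟨h1, h2, h3⟩ := hx
    obtain ⟨h4, h5, h6⟩ := hy
    refine ⟨MonoidHom.ext fun a => ?_, ?_, Z.mul_mem h3 h6⟩
    · simp [h1, h4]
    · simp [h2, h5]
  inv_mem' {x} hx := by
    obtain ⟨h1, h2, h3⟩ := hx
    refine ⟨MonoidHom.ext fun a => ?_, ?_, Z.inv_mem h3⟩
    · simp [h1]
    · simp [h2]

theorem mem_Zc {Z : Subgroup K} {x : Heis φ} : x ∈ Zc Z ↔ x.l = 1 ∧ x.m = 1 ∧ x.k ∈ Z := Iff.rfl

theorem Zc_le_center {Z : Subgroup K} (hZ : Z ≤ Subgroup.center K) (hφ : ∀ z ∈ Z, φ z = 1) :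
    (Zc Z : Subgroup (Heis φ)) ≤ Subgroup.center _ := by
  rintro x ⟨h1, h2, h3⟩
  rw [Subgroup.mem_center_iff]
  intro g
  refine ext' ?_ (fun a => ?_) ?_ ?_
  · simp [h1, h2, mul_comm]
  · simp [h1, hφ _ h3]
  · simp [h2, hφ _ h3]
  · simpa using Subgroup.mem_center_iff.1 (hZ h3) g.k

theorem card_Zc [Finite M] (Z : Subgroup K) : Nat.card (Zc Z : Subgroup (Heis φ)) =
    Nat.card (rootsOfUnity (Monoid.exponent M) ℂ) * Nat.card Z := by
  let e : (Zc Z : Subgroup (Heis φ)) ≃ rootsOfUnity (Monoid.exponent M) ℂ × Z :=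
    { toFun := fun x => (⟨x.1.c, x.1.hc⟩, ⟨x.1.k, x.2.2.2⟩)
      invFun := fun y => ⟨⟨y.1.1, y.1.2, 1, 1, y.2.1⟩, rfl, rfl, y.2.2⟩
      left_inv := fun x => Subtype.ext (Heis.ext rfl x.2.1.symm x.2.2.1.symm rfl)
      right_inv := fun _ => rfl }
  rw [Nat.card_congr e, Nat.card_prod]

theorem index_Zc [Finite M] [Finite K] (Z : Subgroup K) :
    (Zc Z : Subgroup (Heis φ)).index = Nat.card M ^ 2 * Z.index := by
  have h := (Zc Z : Subgroup (Heis φ)).card_mul_index
  rw [card_Zc, card_heis, ← Z.card_mul_index] at h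
  have hpos : 0 < Nat.card (rootsOfUnity (Monoid.exponent M) ℂ) * Nat.card Z :=
    Nat.mul_pos Nat.card_pos Nat.card_pos
  apply Nat.eq_of_mul_eq_mul_left hpos
  rw [h]; ring

theorem pow_eq_one_of_mem_Zc {Z : Subgroup K} {r : ℕ} (hr : Monoid.exponent M ∣ r)
    (hZ : ∀ z ∈ Z, z ^ r = 1) {x : Heis φ} (hx : x ∈ Zc Z) : x ^ r = 1 := by
  have key : ∀ n : ℕ, (x ^ n).c = x.c ^ n := by
    intro n
    induction n with
    | zero => simp
    | succ n ih => rw [pow_succ, mul_c, ih, hx.2.1, map_one, mul_one, pow_succ]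
  have h := (Zc Z).pow_mem hx r
  refine Heis.ext ?_ h.1 h.2.1 ?_
  · obtain ⟨s, rfl⟩ := hr
    rw [key, pow_mul, x.hc, one_pow, one_c]
  · exact (map_pow (kHom φ) x r).trans (hZ _ hx.2.2)

end Heis

/-- `G` embeds in `H ⧸ Z` where `H` has an irreducible character fully ramified over the central
subgroup `Z` of exponent dividing `r`, and all primes dividing `|H : Z|` divide `r`. -/
def CT (r : ℕ) (G : Type u) [Group G] : Prop :=
  ∃ (H : Type u) (_ : Group H) (_ : Finite H) (Z : Subgroup H) (_ : Z.Normal) (χ : H → ℂ) (d : ℕ)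
    (f : G →* H ⧸ Z), Z ≤ Subgroup.center H ∧ IsIrrCharacter H χ ∧ χ 1 = d ∧ d ^ 2 = Z.index ∧
      Function.Injective f ∧ (∀ z ∈ Z, z ^ r = 1) ∧ ∀ p : ℕ, p.Prime → p ∣ Z.index → p ∣ r

theorem exists_section {G Q : Type*} [Group G] [Group Q] (ϕ : G →* Q) :
    ∃ t : Q → G, ∀ g q, ϕ (t (ϕ g * q)) = ϕ g * ϕ (t q) := by
  let rep : Q → Q := fun q => (Quotient.mk (QuotientGroup.rightRel ϕ.range) q).out
  have h1 : ∀ q, q * (rep q)⁻¹ ∈ ϕ.range := fun q =>
    QuotientGroup.rightRel_apply.1 (Quotient.mk_out (s := QuotientGroup.rightRel ϕ.range) q)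
  choose t ht using h1
  refine ⟨t, fun g q => ?_⟩
  have h2 : rep (ϕ g * q) = rep q := by
    have : Quotient.mk (QuotientGroup.rightRel ϕ.range) (ϕ g * q) =
        Quotient.mk (QuotientGroup.rightRel ϕ.range) q :=
      (Quotient.sound (QuotientGroup.rightRel_apply.2 (by simp))).symm
    simp only [rep, this]
  rw [ht, ht, h2, mul_assoc]

open scoped IsMulCommutative in
theorem CT.of_quotient {G : Type u} [Group G] [Finite G] {r : ℕ} (A : Subgroup G) [A.Normal]
    [IsMulCommutative A] (hA : ∀ a ∈ A, a ^ r = 1) (h : CT r (G ⧸ A)) : CT r G := by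
  classical
  obtain ⟨K, _, _, Z, _, χ, d, f, hZ, hχ, hd, hd2, hf, hZr, hpr⟩ := h
  let ϕ : G →* K ⧸ Z := f.comp (QuotientGroup.mk' A)
  have hϕ : ∀ g, ϕ g = 1 ↔ g ∈ A := fun g => by
    simp only [ϕ, MonoidHom.comp_apply]
    rw [map_eq_one_iff f hf, QuotientGroup.mk'_apply, QuotientGroup.eq_one_iff]
  let M : Type u := K ⧸ Z → A
  let φ : K →* MulAut M := (mulAutArrow (G := K ⧸ Z)).comp (QuotientGroup.mk' Z)
  have hφ : ∀ (k : K) (F : M) (q : K ⧸ Z), φ k F q = F ((k : K ⧸ Z)⁻¹ * q) := fun _ _ _ => rfl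
  have hφZ : ∀ z ∈ Z, φ z = 1 := fun z hz => by
    simp only [φ, MonoidHom.comp_apply]
    rw [QuotientGroup.mk'_apply, (QuotientGroup.eq_one_iff z).2 hz, map_one]
  have hexp : Monoid.exponent M ∣ r :=
    Monoid.exponent_dvd_of_forall_pow_eq_one fun F => funext fun q =>
      Subtype.ext (hA _ (F q).2)
  obtain ⟨ψ, hψ, hψ1⟩ := Heis.exists_irr (φ := φ) hχ
  have hc := Heis.Zc_le_center (φ := φ) hZ hφZ
  have hN : (Heis.Zc Z : Subgroup (Heis φ)).Normal := ⟨fun n hn g => by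
    rwa [Subgroup.mem_center_iff.1 (hc hn) g, mul_inv_cancel_right]⟩
  obtain ⟨t, ht⟩ := exists_section ϕ
  let m : G → M := fun g q => ⟨(t q)⁻¹ * g * t ((ϕ g)⁻¹ * q), (hϕ _).1 (by
    have := ht g⁻¹ q
    rw [map_inv] at this
    rw [map_mul, map_mul, this, map_inv]
    group)⟩
  let s : G → Heis φ := fun g => ⟨1, one_pow _, 1, m g, (ϕ g).out⟩
  have hm : ∀ g g', m (g * g') = m g * φ (ϕ g).out (m g') := fun g g' => by
    funext q
    apply Subtype.ext
    have : (m g * φ (ϕ g).out (m g')) q = m g q * m g' ((ϕ g)⁻¹ * q) := by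
      rw [Pi.mul_apply, hφ, QuotientGroup.out_eq']
    rw [this]
    simp only [m, Subgroup.coe_mul, map_mul, mul_inv_rev]
    group
  let F : G →* Heis φ ⧸ Heis.Zc Z := MonoidHom.mk' (fun g => (s g : Heis φ ⧸ Heis.Zc Z)) (by
    intro g g'
    rw [← QuotientGroup.mk_mul, QuotientGroup.eq]
    refine ⟨MonoidHom.ext fun a => by simp [s], ?_, ?_⟩
    · simp only [s, Heis.mul_m, Heis.inv_m, Heis.inv_k, hm]
      rw [← map_mul, inv_mul_cancel, map_one]
    · rw [← QuotientGroup.eq_one_iff]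
      simp [s])
  refine ⟨Heis φ, inferInstance, inferInstance, Heis.Zc Z, hN, ψ, Nat.card M * d, F, hc, hψ, ?_,
    ?_, ?_, fun z hz => Heis.pow_eq_one_of_mem_Zc hexp hZr hz, fun p hp hpd => ?_⟩
  · rw [hψ1, hd]; push_cast; rfl
  · rw [Heis.index_Zc, mul_pow, hd2]
  · rw [injective_iff_map_eq_one]
    intro g hg
    obtain ⟨-, h2, h3⟩ := (QuotientGroup.eq_one_iff (s g)).1 hg
    have h4 : ϕ g = 1 := by
      rw [← QuotientGroup.out_eq' (ϕ g)]
      exact (QuotientGroup.eq_one_iff _).2 h3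
    have h5 : (t 1)⁻¹ * g * t ((ϕ g)⁻¹ * 1) = 1 := congrArg Subtype.val (congrFun h2 1)
    rw [h4, inv_one, one_mul, mul_assoc, inv_mul_eq_one] at h5
    simpa using h5
  · rw [Heis.index_Zc] at hpd
    rcases (Nat.Prime.dvd_mul hp).1 hpd with h1 | h1
    · have : Fact p.Prime := ⟨hp⟩
      obtain ⟨x, hx⟩ := exists_prime_orderOf_dvd_card' p (hp.dvd_of_dvd_pow h1)
      exact (hx ▸ Monoid.order_dvd_exponent x).trans hexp
    · exact hpr p hp h1

theorem ct_of_solvable (r : ℕ) : ∀ (n : ℕ) (G : Type u) [Group G] [Finite G] [Group.IsSolvable G],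
    Nat.card G = n → (∀ p : ℕ, p.Prime → p ∣ Nat.card G → p ∣ r) → CT r G := by
  intro n
  induction n using Nat.strong_induction_on with
  | _ n ih =>
    intro G _ _ _ hn hr
    rcases subsingleton_or_nontrivial G with hG | hG
    · refine ⟨G, inferInstance, inferInstance, ⊥, inferInstance, fun _ => 1, 1,
        QuotientGroup.mk' ⊥, bot_le, isIrrCharacter_one, by simp, ?_,
        fun a b _ => Subsingleton.elim _ _, fun z _ => Subsingleton.elim _ _, ?_⟩
      · rw [Subgroup.index_bot, Nat.card_of_subsingleton (1 : G)]; rfl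
      · rw [Subgroup.index_bot]; exact hr
    · obtain ⟨p, A, hp, hA, hcomm, hpow, hP⟩ := Solv.exists_isMinNormal_elementary G
      have := hA.normal
      have hA1 : 1 < Nat.card A := (Subgroup.one_lt_card_iff_ne_bot A).2 hA.ne_bot
      have hpA : p ∣ Nat.card A := by
        have : Fact p.Prime := ⟨hp⟩
        obtain ⟨k, hk⟩ := IsPGroup.iff_card.1 hP
        rw [hk] at hA1 ⊢
        exact dvd_pow_self p (by rintro rfl; simp at hA1)
      obtain ⟨s, hs⟩ := hr p hp (hpA.trans (Subgroup.card_subgroup_dvd_card A))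
      refine CT.of_quotient A (fun a ha => by rw [hs, pow_mul, hpow a ha, one_pow]) ?_
      refine ih _ ?_ (G ⧸ A) rfl fun q hq hqd => hr q hq (hqd.trans A.card_quotient_dvd_card)
      rw [← hn, Subgroup.card_eq_card_quotient_mul_card_subgroup A]
      exact lt_mul_of_one_lt_right Nat.card_pos hA1

end Cfsg.Lib.Char.CType
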