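import Mathlib.GroupTheory.Subgroup.Simple
import Mathlib.GroupTheory.QuotientGroup.Basic
import Mathlib.GroupTheory.Index
import Mathlib.Algebra.Group.Subgroup.Order
import Mathlib.Algebra.Group.Subgroup.Pointwise
import Mathlib.Order.Atoms.Finite
import Mathlib.Algebra.Group.Subgroup.Finite
import Mathlib.Data.SetLike.Fintype

/-! Complements in the subgroup lattice from a complemented interval below a unique maximal
subgroup. -/

set_option autoImplicit false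

namespace Cfsg.Lib.Char

variable {G : Type*} [Group G]

theorem exists_compl_of_interval [Finite G] {T X M : Subgroup G} (hTX : T ≤ X)
    (hint : ∀ Y : Subgroup G, T ≤ Y → Y ≤ X →
      ∃ C : Subgroup G, T ≤ C ∧ C ≤ X ∧ Y ⊔ C = X ∧ Y ⊓ C = T)
    (huniq : ∀ M' : Subgroup G, IsCoatom M' → X ≤ M' → M' = M) {H : Subgroup G} (hH : ¬ H ≤ M) :
    ∃ C : Subgroup G, T ≤ C ∧ H ⊔ C = ⊤ ∧ H ⊓ C ≤ T := by
  obtain ⟨C, h1, h2, h3, h4⟩ := hint ((H ⊓ X) ⊔ T) le_sup_right (sup_le inf_le_right hTX)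
  refine ⟨C, h1, ?_, h4 ▸ le_inf (le_sup_of_le_left (inf_le_inf_left H h2)) inf_le_right⟩
  refine (eq_top_or_exists_le_coatom _).resolve_right fun ⟨M', h5, h6⟩ => hH ?_
  rw [← huniq M' h5 (h3 ▸ (sup_le (sup_le (le_sup_of_le_left inf_le_left)
    (le_sup_of_le_right h1)) le_sup_right).trans h6)]
  exact le_sup_left.trans h6

/-- Conjugated form, for a normal `T`. -/
theorem exists_compl_of_not_le_normalCore [Finite G] {T X M : Subgroup G} [hT : T.Normal]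
    (hTX : T ≤ X) (hint : ∀ Y : Subgroup G, T ≤ Y → Y ≤ X →
      ∃ C : Subgroup G, T ≤ C ∧ C ≤ X ∧ Y ⊔ C = X ∧ Y ⊓ C = T)
    (huniq : ∀ M' : Subgroup G, IsCoatom M' → X ≤ M' → M' = M) {H : Subgroup G}
    (hH : ¬ H ≤ M.normalCore) : ∃ C : Subgroup G, T ≤ C ∧ H ⊔ C = ⊤ ∧ H ⊓ C ≤ T := by
  obtain ⟨h, hh, h1⟩ := SetLike.not_le_iff_exists.1 hH
  obtain ⟨g, hg⟩ : ∃ g : G, g * h * g⁻¹ ∉ M := not_forall.1 h1
  obtain ⟨C, h2, h3, h4⟩ := exists_compl_of_interval hTX hint huniq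
    (H := H.map (MulAut.conj g).toMonoidHom) fun h' => hg (h' ⟨h, hh, rfl⟩)
  refine ⟨C.comap (MulAut.conj g).toMonoidHom, fun t ht => h2 (hT.conj_mem t ht g), ?_,
    fun x hx => ?_⟩
  · apply Subgroup.map_injective (f := (MulAut.conj g).toMonoidHom) (MulAut.conj g).injective
    rw [Subgroup.map_sup, Subgroup.map_comap_eq_self_of_surjective (MulAut.conj g).surjective, h3,
      Subgroup.map_top_of_surjective _ (MulAut.conj g).surjective]
  · simpa [mul_assoc] using hT.conj_mem _ (h4 ⟨⟨x, hx.1, rfl⟩, hx.2⟩) g⁻¹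

theorem interval_compl_sup_normal {X : Subgroup G} (hK : ComplementedLattice (Subgroup X))
    (N : Subgroup G) [N.Normal] (Y : Subgroup G) (h1 : N ≤ Y) (h2 : Y ≤ X ⊔ N) :
    ∃ C : Subgroup G, N ≤ C ∧ C ≤ X ⊔ N ∧ Y ⊔ C = X ⊔ N ∧ Y ⊓ C = N := by
  obtain ⟨D, hD⟩ := exists_isCompl (Y.subgroupOf X)
  have h3 : (Y ⊓ X) ⊔ D.map X.subtype = X := by
    rw [← Subgroup.subgroupOf_map_subtype, ← Subgroup.map_sup, hD.sup_eq_top,
      ← MonoidHom.range_eq_map, X.range_subtype]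
  have h4 : D.map X.subtype ≤ X := Subgroup.map_subtype_le D
  refine ⟨D.map X.subtype ⊔ N, le_sup_right, sup_le_sup_right h4 N, le_antisymm
    (sup_le h2 (sup_le_sup_right h4 N)) (sup_le (h3.ge.trans (sup_le_sup inf_le_left le_sup_left))
      (le_sup_of_le_right le_sup_right)), le_antisymm (fun y hy => ?_) (le_inf h1 le_sup_right)⟩
  have h5 : y ∈ D.map X.subtype ⊔ N := hy.2
  rw [← SetLike.mem_coe, Subgroup.mul_normal] at h5
  obtain ⟨_, ⟨d, hd, rfl⟩, n, hn, rfl⟩ := h5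
  have h6 : d ∈ Y.subgroupOf X ⊓ D := ⟨(Y.mul_mem_cancel_right (h1 hn)).1 hy.1, hd⟩
  rw [hD.inf_eq_bot, Subgroup.mem_bot] at h6
  simpa [h6] using hn

end Cfsg.Lib.Char
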