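import Cfsg.Agent.Char.Flavell
import Mathlib.GroupTheory.SemidirectProduct

/-! # A group extended by one automorphism -/

set_option autoImplicit false

namespace Cfsg.Lib.Char

open Subgroup SemidirectProduct

variable {G : Type*} [Group G]

/-- The extension of `G` by the cyclic group generated by an automorphism. -/
abbrev AutExt (α : MulAut G) := G ⋊[(zpowers α).subtype] zpowers α

/-- The element inducing the automorphism. -/
def autElt (α : MulAut G) : AutExt α := inr ⟨α, mem_zpowers α⟩

instance (α : MulAut G) [Finite G] : Finite (AutExt α) :=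
  Finite.of_equiv _ SemidirectProduct.equivProd.symm

theorem autElt_conj (α : MulAut G) (g : G) : autElt α * inl g * (autElt α)⁻¹ = inl (α g) := by
  rw [autElt, ← map_inv]; exact (inl_aut _ g).symm

theorem comm_autElt (α : MulAut G) (c : AutExt α) :
    c * autElt α * c⁻¹ * (autElt α)⁻¹ = inl (c.left * (α c.left)⁻¹) := by
  obtain ⟨i, hi⟩ := c.right.2
  have h : (inr c.right : AutExt α) = autElt α ^ i := by
    rw [autElt, ← map_zpow]; exact congrArg _ (Subtype.ext hi.symm)
  rw [map_mul, map_inv, ← autElt_conj]
  conv_lhs => rw [← inl_left_mul_inr_right c, h]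
  group

theorem eq_top_of_autElt (α : MulAut G) {H : Subgroup (AutExt α)} (h1 : autElt α ∈ H)
    (h2 : ∀ g, inl g ∈ H) : H = ⊤ := top_unique fun c _ => by
  obtain ⟨i, hi⟩ := c.right.2
  have h : (inr c.right : AutExt α) = autElt α ^ i := by
    rw [autElt, ← map_zpow]; exact congrArg _ (Subtype.ext hi.symm)
  rw [← inl_left_mul_inr_right c, h]
  exact mul_mem (h2 _) (zpow_mem h1 i)

theorem normalClosure_autElt (α : MulAut G)
    (hG : closure (Set.range fun c : G => c * (α c)⁻¹) = ⊤) : normalClosure {autElt α} = ⊤ := by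
  have h1 : autElt α ∈ normalClosure {autElt α} := subset_normalClosure rfl
  refine eq_top_of_autElt α h1 fun g => (show ⊤ ≤ (normalClosure {autElt α}).comap inl from
    hG ▸ (closure_le _).2 ?_) (mem_top g)
  rintro _ ⟨c, rfl⟩
  have := comm_autElt α (inl c)
  exact (this ▸ mul_mem (normalClosure_normal.conj_mem _ h1 _) (inv_mem h1) :)

end Cfsg.Lib.Char
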