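import Cfsg.Agent.Char.Jordan
import Cfsg.Agent.Char.Blichfeldt
import Cfsg.Agent.Char.Primitive
import Mathlib.NumberTheory.PrimeCounting

/-!
# Jordan's theorem with an explicit bound
-/

set_option autoImplicit false

open scoped commutatorElement
open Cfsg Cfsg.Lib.Solv

namespace Cfsg.Lib.Char

variable {G : Type*} [Group G]

theorem index_normalCore_dvd_factorial [Finite G] (H : Subgroup G) :
    H.normalCore.index ∣ H.index.factorial := by
  classical
  rw [Subgroup.normalCore_eq_ker, Subgroup.index_ker, Subgroup.index_eq_card, ← Nat.card_perm]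
  exact Subgroup.card_subgroup_dvd_card _

/-- A character of a nilpotent group is monomial: a normal subgroup of index dividing `n!` acts
through an abelian group. -/
theorem exists_normal_index_dvd_factorial [Finite G] [Group.IsNilpotent G] {χ : G → ℂ}
    (hχ : IsCharacter G χ) : ∃ D : Subgroup G, D.Normal ∧ D.index ∣ (charDegree χ).factorial ∧
      ⁅D, D⁆ ≤ charKer χ := by
  have := Fintype.ofFinite G
  refine hχ.induction_on (P := fun χ => ∃ D : Subgroup G, D.Normal ∧
    D.index ∣ (charDegree χ).factorial ∧ ⁅D, D⁆ ≤ charKer χ) ⟨⊤, inferInstance, by simp, fun _ _ _ => rfl⟩ ?_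
  rintro ψ θ hψ hθ ⟨D, hD, h1, h2⟩
  obtain ⟨U, lam, hU⟩ := exists_monoidHom_indFun_eq_of_isNilpotent hψ
  have hlam := (isIrrCharacter_monoidHom lam).isCharacter
  refine ⟨U.normalCore ⊓ D, inferInstance, ?_, ?_⟩
  · rw [← Subgroup.relIndex_mul_index (inf_le_right : U.normalCore ⊓ D ≤ D),
      Subgroup.inf_relIndex_right, Deg.deg_add hψ.isCharacter hθ]
    refine (Nat.mul_dvd_mul ((Subgroup.relIndex_dvd_index_of_normal _ _).trans
      ((index_normalCore_dvd_factorial U).trans ?_)) h1).trans
      (Nat.factorial_mul_factorial_dvd_factorial_add _ _)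
    rw [hU, Deg.deg_indFun U hlam, Deg.deg_monoidHom, mul_one]
  · rw [hψ.isCharacter.charKer_add hθ]
    refine le_inf ((Subgroup.commutator_mono inf_le_left inf_le_left).trans ?_)
      ((Subgroup.commutator_mono inf_le_right inf_le_right).trans h2)
    rw [hU]
    have h3 : ⁅U.normalCore, U.normalCore⁆ ≤ U :=
      (Subgroup.commutator_le_left _ _).trans U.normalCore_le
    refine Deg.le_charKer_indFun hlam _ h3 fun x hx => ?_
    have h4 : ⁅U.normalCore, U.normalCore⁆ ≤ lam.ker.map U.subtype := by
      rw [Subgroup.commutator_le]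
      intro a ha b hb
      refine ⟨⁅(⟨a, U.normalCore_le ha⟩ : U), (⟨b, U.normalCore_le hb⟩ : U)⁆, ?_, rfl⟩
      rw [SetLike.mem_coe, MonoidHom.mem_ker, map_commutatorElement,
        commutatorElement_eq_one_iff_mul_comm, mul_comm]
    obtain ⟨y, hy, rfl⟩ := h4 hx
    rw [map_one]
    exact congrArg Units.val (MonoidHom.mem_ker.mp hy)

/-- **Jordan's theorem** with an explicit bound. -/
theorem exists_abelian_normal_index_le [Finite G] {χ : G → ℂ} (hχ : IsCharacter G χ)
    (hfaith : ∀ g : G, χ g = χ 1 → g = 1) {n : ℕ} (hn : charDegree χ = n) :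
    ∃ A : Subgroup G, A.Normal ∧ (∀ x ∈ A, ∀ y ∈ A, x * y = y * x) ∧
      A.index ≤ n.factorial * 12 ^ (n * (Nat.primeCounting (n + 1) + 1)) := by
  obtain ⟨A, hA, hab, hrel⟩ := exists_abelian_normal_relIndex_le hχ hfaith
    ((Deg.deg_eq_iff hχ).mp hn)
  refine ⟨A, hA, hab, ?_⟩
  obtain ⟨H, hH, -, hH2⟩ := (hn ▸ sepDeg_of_faithful hχ hfaith :).exists_abelian_hall
  have hsyl : ∀ p : ℕ, p.Prime → p ^ A.index.factorization p ≤
      p ^ n.factorial.factorization p * 12 ^ n := fun p hp => by
    have := Fact.mk hp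
    obtain ⟨P⟩ : Nonempty (Sylow p G) := inferInstance
    have := P.isPGroup'.isNilpotent
    obtain ⟨D, hD, hD1, hD2⟩ := exists_normal_index_dvd_factorial (hχ.res (P : Subgroup G))
    rw [Deg.deg_res, hn] at hD1
    have h1 : p ^ A.index.factorization p ∣ A.relIndex P := by
      refine (Nat.Coprime.pow_left _ (hp.coprime_iff_not_dvd.mpr fun h => P.not_dvd_index
        (h.trans (Subgroup.index_dvd_of_le 
          (le_sup_left : (P : Subgroup G) ≤ (P : Subgroup G) ⊔ A))))).dvd_of_dvd_mul_right ?_
      rw [← Subgroup.relIndex_sup_right (P : Subgroup G) A, Subgroup.relIndex_mul_index le_sup_right]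
      exact Nat.ordProj_dvd _ _
    have h2 : D.index ≤ p ^ n.factorial.factorization p := by
      obtain ⟨k, hk⟩ := P.isPGroup'.index D
      rw [hk] at hD1 ⊢
      exact Nat.pow_le_pow_right hp.pos
        ((hp.pow_dvd_iff_le_factorization n.factorial_ne_zero).mp hD1)
    have h3 := hrel (D.map (P : Subgroup G).subtype) (by
      rintro _ ⟨x, hx, rfl⟩ _ ⟨y, hy, rfl⟩
      rw [← commutatorElement_eq_one_iff_mul_comm, ← map_commutatorElement]
      exact hfaith _ (apply_of_mem_charKer (hD2 (Subgroup.commutator_mem_commutator hx hy)) :))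
    rw [← Subgroup.relIndex_comap] at h3
    refine (Nat.le_of_dvd (Nat.pos_of_ne_zero Subgroup.index_ne_zero_of_finite) h1).trans ?_
    calc A.relIndex P ≤ (A.subgroupOf P ⊓ D).index := Subgroup.index_antitone inf_le_left
      _ = D.index * (A.comap (P : Subgroup G).subtype).relIndex D := by
        rw [← Subgroup.relIndex_mul_index (inf_le_right : A.subgroupOf P ⊓ D ≤ D),
          Subgroup.inf_relIndex_right, mul_comm]
        rfl
      _ ≤ _ := Nat.mul_le_mul h2 h3
  have hk0 : (H ⊔ A).index ≠ 0 := Subgroup.index_ne_zero_of_finite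
  have hsub : (H ⊔ A).index.primeFactors ⊆ Nat.primesBelow (n + 2) := fun q hq => by
    rw [Nat.mem_primeFactors] at hq
    exact Nat.mem_primesBelow.mpr ⟨Nat.lt_succ_of_le (hH2 q hq.1
      (hq.2.1.trans (Subgroup.index_dvd_of_le le_sup_left))), hq.1⟩
  have hk : (H ⊔ A).index ≤ n.factorial * (12 ^ n) ^ Nat.primeCounting (n + 1) := by
    calc (H ⊔ A).index = ∏ p ∈ Nat.primesBelow (n + 2), p ^ (H ⊔ A).index.factorization p := by
          conv_lhs => rw [← Nat.prod_factorization_pow_eq_self hk0]
          exact Finsupp.prod_of_support_subset _ hsub _ (by simp)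
      _ ≤ ∏ p ∈ Nat.primesBelow (n + 2), p ^ n.factorial.factorization p * 12 ^ n := by
          refine Finset.prod_le_prod' fun p hp => le_trans ?_ (hsyl p (Nat.prime_of_mem_primesBelow hp))
          exact Nat.pow_le_pow_right (Nat.prime_of_mem_primesBelow hp).pos
            ((Nat.factorization_le_iff_dvd hk0 Subgroup.index_ne_zero_of_finite).mpr
              (Subgroup.index_dvd_of_le le_sup_right) p)
      _ = _ := by
          rw [Finset.prod_mul_distrib, Finset.prod_const, Nat.primesBelow_card_eq_primeCounting']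
          congr 1
          conv_rhs => rw [← Nat.prod_factorization_pow_eq_self n.factorial_ne_zero]
          refine (Finsupp.prod_of_support_subset _ (fun q hq => ?_) _ (by simp)).symm
          rw [Nat.support_factorization, Nat.mem_primeFactors] at hq
          have := hq.1.dvd_factorial.mp hq.2.1
          exact Nat.mem_primesBelow.mpr ⟨by omega, hq.1⟩
  rw [← Subgroup.relIndex_mul_index (le_sup_right : A ≤ H ⊔ A), Subgroup.relIndex_sup_right,
    mul_add, mul_one, pow_add, pow_mul, ← mul_assoc, mul_comm]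
  exact Nat.mul_le_mul hk (hrel H hH)

end Cfsg.Lib.Char
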