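import Cfsg.Agent.Char.MDChev

/-! The descent steps with exponents given by lists. -/

set_option autoImplicit false

namespace Cfsg.Lib.Char.MD

open Finset

universe u

variable {Φ : Type*} [Fintype Φ] [DecidableEq Φ] {F : Type*} [Field F] [Fintype F] {R : RS Φ}
  {Ψ : Set Φ} [DecidablePred (· ∈ Ψ)] {o o' : Φ → ℤ}

theorem Bnd.step' {l : Φ → ℤ} (hΨ : R.Cl Ψ) (hl : R.Add l) (h2 : ∀ r ∈ Ψ, l r ≠ 2) (ho : R.Add o)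
    (ho' : Function.Injective o) (hoo : ∀ a b, o a < o b ↔ o' a < o' b) {δ : Φ} {a : ℕ}
    (C : StepC R {r | r ∈ Ψ ∧ l r = 0} {r | r ∈ Ψ ∧ l r = 1} o' δ a) {e D : ℕ}
    (B : Bnd.{u} R {r | r ∈ Ψ ∧ l r = 0} F e D) {L L' : List ℕ}
    (hL : (univ.filter fun β => β ∈ Ψ ∧ l β = 1).1.map
      (fun β => #{γ | (γ ∈ Ψ ∧ l γ = 1) ∧ R.p β γ = 1 ∧ o' γ < o' β}) = L)
    (hL' : (univ.filter fun β => (β ∈ Ψ ∧ l β = 1) ∧ R.p δ β = 1).1.map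
      (fun β => #{γ | (γ ∈ Ψ ∧ l γ = 1) ∧ R.p β γ = 1 ∧ o' γ < o' β}) = L')
    {q : ℕ} (hq : Fintype.card F = q) (h : q ^ (a + 1) = e + (q - 1) * (L'.map (q ^ ·)).sum) :
    Bnd.{u} R Ψ F (q ^ (a + 1)) (D + (q - 1) * (L.map (q ^ ·)).sum) := by
  subst hq
  have := Bnd.step hΨ hl h2 ho ho' (C.congr hoo) B (by
    simp only [hoo]
    rw [h, ← Multiset.sum_coe, ← Multiset.map_coe, ← hL', Multiset.map_map]
    rfl)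
  simp only [hoo] at this
  rw [← Multiset.sum_coe, ← Multiset.map_coe, ← hL, Multiset.map_map]
  exact this

theorem Bnd.heis (hΨ : R.Cl Ψ) (ho : R.Add o) (ho' : Function.Injective o)
    (hoo : ∀ a b, o a < o b ↔ o' a < o' b) {α β δ : Φ} (hα : α ∈ Ψ) (hβ : β ∈ Ψ) (h2 : R.p α β = 1)
    {a : ℕ} (ha : #{γ | (γ ∈ Ψ ∧ 1 ≤ R.p α γ ∧ 1 ≤ R.p β γ) ∧ R.p α γ = 1} = a + 1)
    (S : StepC R {r | r ∈ Ψ ∧ R.p α r = 0} {r | r ∈ Ψ ∧ R.p α r = 1} o' δ a) (h3 : R.p β δ = 0)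
    (h4 : ∃ ε ∈ Ψ, R.p α ε = 0 ∧ R.p β ε = 0 ∧ R.p δ ε = 1) {e D b : ℕ}
    (B : Bnd.{u} R {r | r ∈ Ψ ∧ R.p α r = 0} F e D) {L L' : List ℕ}
    (hb : #{γ | (γ ∈ Ψ ∧ 1 ≤ R.p α γ ∧ 1 ≤ R.p β γ) ∧ R.p α γ = 1 ∧ R.p δ γ ≤ 0} = b)
    (hL : (univ.filter fun β => β ∈ Ψ ∧ R.p α β = 1).1.map
      (fun β => #{γ | (γ ∈ Ψ ∧ R.p α γ = 1) ∧ R.p β γ = 1 ∧ o' γ < o' β}) = L)
    (hL' : (univ.filter fun β => (β ∈ Ψ ∧ R.p α β = 1) ∧ R.p δ β = 1).1.map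
      (fun β => #{γ | (γ ∈ Ψ ∧ R.p α γ = 1) ∧ R.p β γ = 1 ∧ o' γ < o' β}) = L')
    {q : ℕ} (hq : Fintype.card F = q)
    (h5 : q ^ (a + 1) + (q - 1) * q ^ b = e + (q - 1) * (L'.map (q ^ ·)).sum) :
    Bnd.{u} R Ψ F (q ^ (a + 2)) (D + (q - 1) * (L.map (q ^ ·)).sum + (q - 1) * q ^ (a + 1)) := by
  subst hq
  intro H _ _ y ξ d La hξ hd he
  obtain ⟨k, k1, -, k3⟩ := La.heis (δ := δ) hΨ hα hβ h2 ha hξ hd he
  have := k3 ((mul_eq_right₀ (by positivity)).1 (Nat.cast_injective k1).symm) ho ho' (S.congr hoo) h3 h4 B (by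
    simp only [hoo]
    rw [hb, h5, ← Multiset.sum_coe, ← Multiset.map_coe, ← hL', Multiset.map_map]
    rfl)
  simp only [hoo] at this
  rw [← Multiset.sum_coe, ← Multiset.map_coe, ← hL, Multiset.map_map]
  exact this

theorem Bnd.mono {e D D' : ℕ} (B : Bnd.{u} R Ψ F e D) (h : D' ≤ D) : Bnd.{u} R Ψ F e D' :=
  fun _ _ _ _ _ _ L hξ hd he => h.trans (B _ _ _ _ L hξ hd he)

end Cfsg.Lib.Char.MD
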