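import Cfsg.Agent.Char.MDWeight

/-! Characters whose weights on an abelian unipotent radical form a single orbit. -/

set_option autoImplicit false

namespace Cfsg.Lib.Char.MD

open Matrix Finset

variable {Φ : Type*} {F : Type*} [Field F] {H : Type*} [Group H] [Fintype Φ] [DecidableEq Φ]

/-- `g` acts diagonally on the root elements of `S` -/
def Scal (S : Set Φ) (y : Φ → F → H) (g : H) (κ : Φ → F) : Prop :=
  (∀ γ, κ γ ≠ 0) ∧ ∀ γ ∈ S, ∀ u, g * y γ u * g⁻¹ = y γ (κ γ * u)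

namespace AStep

variable {R : RS Φ} {S0 S1 : Set Φ} {y : Φ → F → H} (A : AStep R S0 S1 y) [Fintype F]
  {ξ : H → ℂ} {ψ : AddChar F ℂ}

/-- the trace of `g` on the weight space of `c` -/
noncomputable abbrev m (ξ : H → ℂ) (ψ : AddChar F ℂ) (c : Φ → F) (g : H) : ℂ :=
  acomp A.zeta ξ (lc ψ c) g

theorem m_of_notMem (hψ : ψ ≠ 0) {c : Φ → F} {γ : Φ} (hγ : γ ∉ S1) (hc : c γ ≠ 0) (g : H) :
    A.m ξ ψ c g = 0 := by
  by_contra h
  refine hc (eq_zero_of_char hψ fun u => ?_)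
  have := acomp_mul (ζ := A.zeta) (χ := ξ) (lc ψ c) g (Pi.single γ u)
  rw [A.zeta_single, if_neg hγ, mul_one, lc_apply, dotProduct_single] at this
  exact (mul_eq_right₀ h).1 this.symm

theorem m_of_moved (hψ : ψ ≠ 0) (hξ : IsClassFunction H ξ) {ε γ : Φ} (hε : ε ∈ S0) (hγ : γ ∈ S1)
    (hp : R.p ε γ = -1) {c : Φ → F} (hc : c (R.rf ε γ) ≠ 0) {u : F} (hu : u ≠ 0) :
    A.m ξ ψ c (y ε u) = 0 := by
  obtain ⟨η, h1, -, h3⟩ := A.exists_actM hε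
  obtain ⟨M, h4, h5⟩ := h3 u
  refine h4.acomp_eq_zero hψ hξ fun e => ?_
  have := h5 c γ
  rw [e, left_eq_add] at this
  exact mul_ne_zero (mul_ne_zero (h1 γ hγ hp) hu) hc this

theorem m_of_one (hψ : ψ ≠ 0) (hξ : IsCharacter H ξ) {ε : Φ} (hε : ε ∈ S0) (u : F) {c : Φ → F}
    (hc : A.m ξ ψ c 1 = 0) : A.m ξ ψ c (y ε u) = 0 := by
  obtain ⟨η, -, -, h3⟩ := A.exists_actM hε
  obtain ⟨M, h4, -⟩ := h3 u
  exact h4.acomp_eq_zero' hψ hξ hc

omit [Fintype F] in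
theorem mem_stab {ε : Φ} (hε : ε ∈ S0) {c : Φ → F} (hc : ∀ γ, R.p ε γ = 1 → c γ = 0) (t : F) :
    y ε t ∈ acStab A.zeta (lc ψ c) := by
  obtain ⟨η, -, h2, h3⟩ := A.exists_actM hε
  obtain ⟨M, h4, h5⟩ := h3 t
  refine h4.mem_acStab (funext fun γ => ?_)
  rw [h5, add_eq_left]
  by_cases h : R.p ε γ = -1
  · rw [hc, mul_zero]
    rw [R.p_rf, R.p_self, h]; rfl
  · rw [h2 γ (by tauto), zero_mul, zero_mul]

omit [Fintype F] in
theorem mem_stab_single {ε β : Φ} (hε : ε ∈ S0) (hp : R.p ε β ≤ 0) (s t : F) :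
    y ε t ∈ acStab A.zeta (lc ψ (Pi.single β s)) :=
  A.mem_stab hε (fun γ h => Pi.single_eq_of_ne (by rintro rfl; omega) _) t

theorem m_single_eq_one (hξ : IsCharacter H ξ) {β δ : Φ} {s : F}
    (h1 : A.m ξ ψ (Pi.single β s) 1 = 1) (hδ : δ ∈ S0) (hp : R.p δ β ≤ 0)
    (h : (∃ ε ∈ S0, R.p δ ε = 1 ∧ R.rf ε δ ∈ S0 ∧ R.p δ β ≤ 0 ∧ R.p ε β ≤ 0 ∧ R.p δ β ≤ R.p ε β) ∨
      ∃ g κ, Scal ({δ} ∪ S1) y g κ ∧ κ β = 1 ∧ κ δ ≠ 1) (u : F) :
    A.m ξ ψ (Pi.single β s) (y δ u) = 1 := by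
  have hμ := isCharacter_acStab (ζ := A.zeta) hξ (lc ψ (Pi.single β s))
  have hδ' := A.mem_stab_single (ψ := ψ) hδ hp s
  rcases h with ⟨ε, h2, h3, h4, h5, h6, h7⟩ | ⟨g, κ, h2, h3, h4⟩
  · obtain ⟨η, h8, h9⟩ := A.comm1 ε h2 _ (Or.inl h4) (by rw [R.p_rf, R.p_self, R.p_comm, h3]; rfl)
    have h10 := A.mem_stab_single (ψ := ψ) (β := β) h4
      (by rw [R.p_comm, R.p_rf, R.p_comm ε δ, h3, R.p_comm β, R.p_comm β]; omega) s 1
    refine SLDeg.lin_eq_one hμ h1 h10 (hδ' u) ?_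
    rw [← SLDeg.lin_conj hμ (A.mem_stab_single h2 h6 s (η⁻¹ * u)) h10, h9, R.rf_rf]
    simp [h8]
  · have hg : g ∈ acStab A.zeta (lc ψ (Pi.single β s)) :=
      (A.actM_diag h2.1 fun γ hγ => h2.2 γ (Or.inr hγ)).mem_acStab (by
        ext γ
        rw [vecMul_diagonal]
        by_cases e : γ = β
        · rw [e, h3, mul_one]
        · simp [e])
    have h5 := sub_ne_zero.2 h4
    refine SLDeg.lin_eq_one hμ h1 (hδ' ((κ δ - 1)⁻¹ * u)) (hδ' u) ?_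
    rw [← SLDeg.lin_conj hμ hg (hδ' _), h2.2 δ (Or.inl rfl), A.add δ (Or.inl hδ)]
    congr 2
    field_simp
    ring

theorem exists_shift (hξ : IsClassFunction H ξ) {β β' : Φ} (hβ' : β' ∈ S1) (hp : R.p β β' = 1)
    (hε : R.rf β' β ∈ S0) {g : H} (hg : ∀ t, Commute (y (R.rf β' β) t) g) :
    ∃ η : F, η ≠ 0 ∧ ∀ t, ∃ σ : (Φ → F) → (Φ → F), Function.Injective σ ∧ ∀ c,
      A.m ξ ψ (σ c) g = A.m ξ ψ c g ∧ σ c β' = c β' + η * t * c β ∧ σ c β = c β ∧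
      (∀ γ, R.p β γ = 1 → γ ≠ β' → σ c γ = c γ) ∧
      ∀ γ, (γ ∈ S1 → R.p (R.rf β' β) γ = -1 → c (R.rf (R.rf β' β) γ) = 0) → σ c γ = c γ := by
  obtain ⟨η, h1, h2, h3⟩ := A.exists_actM hε
  have e1 : ∀ γ, R.p (R.rf β' β) γ = R.p β γ - R.p β' γ := fun γ => by
    rw [R.p_comm, R.p_rf, R.p_comm β' β, hp, one_mul, R.p_comm γ, R.p_comm γ]
  have e2 : R.p (R.rf β' β) β' = -1 := by rw [e1, hp, R.p_self]; rfl
  refine ⟨η β', h1 β' hβ' e2, fun t => ?_⟩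
  obtain ⟨M, h4, h5⟩ := h3 t
  have h6 : ∀ (c : Φ → F) γ, (γ ∈ S1 → R.p (R.rf β' β) γ = -1 → c (R.rf (R.rf β' β) γ) = 0) →
      (c ᵥ* M) γ = c γ := fun c γ h => by
    rw [h5, add_eq_left]
    by_cases h' : γ ∈ S1 ∧ R.p (R.rf β' β) γ = -1
    · rw [h h'.1 h'.2, mul_zero]
    · rw [h2 γ h', zero_mul, zero_mul]
  refine ⟨fun c => c ᵥ* M, vecMul_injective_iff_isUnit.2 h4.1, fun c => ⟨?_, ?_, h6 c _ fun _ h => ?_,
    fun γ a b => h6 c _ fun _ h => ?_, h6 c⟩⟩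
  · rw [m, ← h4.acomp_conj hξ, (hg t).eq, mul_inv_cancel_right]
  · refine (h5 c β').trans ?_
    rw [show R.rf (R.rf β' β) β' = β from (R.ext' ?_).symm]
    rw [R.p_rf, e2, R.p_comm β (R.rf _ _), e1, R.p_comm β' β, hp, R.p_self]; rfl
  · rw [e1, R.p_self, R.p_comm, hp] at h; omega
  · have := R.p_le b.symm
    rw [e1] at h; omega

variable [DecidableEq F]

theorem sum_fiber (hψ : ψ ≠ 0) {β : Φ} (hβ : β ∈ S1) (s : F) (g : H) :
    ∑ c with c β = s, A.m ξ ψ c g = (Fintype.card F : ℂ)⁻¹ * ∑ u, ψ (-s * u) * ξ (g * y β u) := by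
  have hq := card_cast_ne_zero F
  have h1 : ∀ u, ξ (g * y β u) = ∑ c, ψ (c β * u) * A.m ξ ψ c g := fun u => by
    rw [← A.zeta_single_of_mem hβ, apply_eq_sum_acomp A.zeta ξ, ← (lc_bijective hψ).sum_comp]
    simp only [lc_apply, dotProduct_single]
  simp only [h1, mul_sum]
  rw [sum_comm, sum_filter]
  refine sum_congr rfl fun c _ => ?_
  simp only [← mul_assoc (ψ _), ← AddChar.map_add_eq_mul, ← add_mul]
  rw [← mul_sum, ← sum_mul, sum_char hψ]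
  simp only [neg_add_eq_zero, eq_comm (a := s)]
  split_ifs
  · field_simp
  · simp

theorem mass (hψ : ψ ≠ 0) {β : Φ} (hβ : β ∈ S1) {e : ℂ} (he : ∀ u, u ≠ 0 → ξ 1 - ξ (y β u) = e)
    {s : F} (hs : s ≠ 0) : ∑ c with c β = s, A.m ξ ψ c 1 = (Fintype.card F : ℂ)⁻¹ * e := by
  rw [A.sum_fiber hψ hβ]
  congr 1
  have h1 := sum_char hψ (-s)
  rw [if_neg (neg_ne_zero.2 hs), ← add_sum_erase _ _ (mem_univ 0)] at h1
  rw [← add_sum_erase _ _ (mem_univ 0), sum_congr rfl fun u hu => by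
    rw [one_mul, show ξ (y β u) = ξ 1 - e by rw [← he u (ne_of_mem_erase hu)]; ring], ← sum_mul,
    A.zero (Or.inr hβ)]
  simp only [mul_zero, AddChar.map_zero_eq_one, mul_one, one_mul] at h1 ⊢
  linear_combination (ξ 1 - e) * h1

theorem sum_fiber_eq (hξ : IsClassFunction H ξ) {β : Φ} {s : F} (hs : s ≠ 0) {g : H} (T : Finset Φ)
    (hT : ∀ β' ∈ T, β' ∈ S1 ∧ R.p β β' = 1 ∧ R.rf β' β ∈ S0 ∧ ∀ t, Commute (y (R.rf β' β) t) g) :
    ∑ c with c β = s, A.m ξ ψ c g =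
      Fintype.card F ^ T.card * ∑ c with c β = s ∧ ∀ β' ∈ T, c β' = 0, A.m ξ ψ c g := by
  refine sum_shift T fun β' h w => ?_
  obtain ⟨h1, h2, h3, h4⟩ := hT β' h
  obtain ⟨η, h5, h6⟩ := A.exists_shift (ψ := ψ) hξ h1 h2 h3 h4
  obtain ⟨σ, h7, h8⟩ := h6 (η⁻¹ * w * s⁻¹)
  refine ⟨σ, h7, fun c hc => ⟨(h8 c).2.2.1.trans hc, (h8 c).1, ?_, fun γ a => (h8 c).2.2.2.1 γ (hT γ a).2.1⟩⟩
  rw [(h8 c).2.1, hc]; field_simp

variable [DecidablePred (· ∈ S1)]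

theorem unique (hψ : ψ ≠ 0) (hξ : IsCharacter H ξ) {β : Φ} (hβ : β ∈ S1)
    (he : ∀ u, u ≠ 0 → ξ 1 - ξ (y β u) = Fintype.card F ^ (#{γ | γ ∈ S1 ∧ R.p β γ = 1} + 1))
    (h0 : ∀ γ ∈ S1, R.p β γ = 1 → R.rf γ β ∈ S0)
    (hn : ∀ γ ∈ S1, R.p β γ ≤ 0 → (∃ ε ∈ S0, R.p ε γ = 1 ∧ R.rf ε γ ∈ S1 ∧
      (R.p ε β = 0 ∨ R.p ε β = -1 ∧ R.p β γ = -1)) ∨ ∃ g κ, Scal S1 y g κ ∧ κ β = 1 ∧ κ γ ≠ 1)
    (h2 : ∀ γ ∈ S1, -1 ≤ R.p β γ) {s : F} (hs : s ≠ 0) : A.m ξ ψ (Pi.single β s) 1 = 1 ∧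
      ∀ c, c β = s → (∀ γ ∈ S1, R.p β γ = 1 → c γ = 0) → c ≠ Pi.single β s → A.m ξ ψ c 1 = 0 := by
  have hq := card_cast_ne_zero F
  have h1 := A.sum_fiber_eq (ψ := ψ) hξ.isClassFunction hs (g := 1) {γ | γ ∈ S1 ∧ R.p β γ = 1}
    fun γ h => by
      simp only [mem_filter, mem_univ, true_and] at h
      exact ⟨h.1, h.2, h0 γ h.1 h.2, fun _ => Commute.one_right _⟩
  rw [A.mass hψ hβ he hs, pow_succ', inv_mul_cancel_left₀ hq, left_eq_mul₀ (pow_ne_zero _ hq)] at h1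
  simp only [mem_filter, mem_univ, true_and, and_imp] at h1
  have key : ∀ c, c β = s → (∀ γ ∈ S1, R.p β γ = 1 → c γ = 0) → A.m ξ ψ c 1 ≠ 0 →
      c = Pi.single β s := fun c a b h => by
    have fix : ∀ g M, ActM A.zeta g M → (c ᵥ* M) β = s → (∀ γ ∈ S1, R.p β γ = 1 → (c ᵥ* M) γ = 0) →
        c ᵥ* M = c := fun g M h3 h4 h5 =>
      eq_of_sum_eq_one (fun c => exists_acomp_one hξ _ _) h1 (by simpa using ⟨h4, h5⟩)
        (by simpa using ⟨a, b⟩) (by rwa [← h3.acomp_conj hξ.isClassFunction, mul_one, mul_inv_cancel]) h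
    have step : ∀ γ ∈ S1, R.p β γ ≤ 0 → (R.p β γ = -1 → ∀ γ ∈ S1, R.p β γ = 0 → c γ = 0) →
        c γ = 0 := fun γ h3 h4 h5 => by
      rcases hn γ h3 h4 with ⟨ε, h6, h7, h8, h9⟩ | ⟨g, κ, h6, h7, h8⟩
      · obtain ⟨η, k1, k2, k3⟩ := A.exists_actM h6
        obtain ⟨M, k4, k5⟩ := k3 1
        have k6 : ∀ γ, 1 ≤ R.p β γ → (c ᵥ* M) γ = c γ := fun γ k => by
          rw [k5, add_eq_left]
          by_cases h' : γ ∈ S1 ∧ R.p ε γ = -1
          · have k7 := A.mem1 ε h6 γ h'.1 h'.2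
            have k8 : R.p β (R.rf ε γ) = R.p β γ + R.p ε β := by rw [R.p_rf, h'.2, R.p_comm β ε]; ring
            refine mul_eq_zero_of_right _ ?_
            by_cases k9 : β = γ
            · subst k9
              exact b _ k7 (by rw [k8, R.p_self, h'.2]; rfl)
            · have := R.p_le k9
              rcases h9 with h9 | h9
              · exact b _ k7 (by omega)
              · exact h5 h9.2 _ k7 (by omega)
          · rw [k2 γ h', zero_mul, zero_mul]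
        have k7 := congrFun (fix _ M k4 ((k6 β (by rw [R.p_self]; omega)).trans a)
          fun γ k l => (k6 γ l.ge).trans (b γ k l)) (R.rf ε γ)
        rw [k5, add_eq_left, R.rf_rf, mul_one] at k7
        exact (mul_eq_zero.1 k7).resolve_left (k1 _ h8 (by rw [R.p_rf, R.p_self, h7]; rfl))
      · have k7 := congrFun (fix _ _ (A.actM_diag h6.1 h6.2) (by rw [vecMul_diagonal, h7, mul_one, a])
          fun γ k l => by rw [vecMul_diagonal, b γ k l, zero_mul]) γ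
        rw [vecMul_diagonal] at k7
        by_contra k
        exact h8 ((mul_eq_left₀ k).1 k7)
    have z0 : ∀ γ ∈ S1, R.p β γ = 0 → c γ = 0 := fun γ k l => step γ k l.le (by omega)
    ext γ
    by_cases k : β = γ
    · rw [← k, a, Pi.single_eq_same]
    · rw [Pi.single_eq_of_ne' k]
      by_cases k' : γ ∈ S1
      · have := R.p_le k
        by_cases l : R.p β γ = 1
        · exact b γ k' l
        · exact step γ k' (by omega) fun _ => z0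
      · by_contra l
        exact h (A.m_of_notMem hψ k' l 1)
  refine ⟨?_, fun c a b k => not_not.1 fun h => k (key c a b h)⟩
  refine (sum_eq_single_of_mem (f := fun c => A.m ξ ψ c 1) _ ?_ fun c hc k => ?_).symm.trans h1
  · simp only [mem_filter, mem_univ, true_and, Pi.single_eq_same]
    exact fun γ _ l => Pi.single_eq_of_ne (by rintro rfl; rw [R.p_self] at l; omega) _
  · simp only [mem_filter, mem_univ, true_and] at hc
    exact not_not.1 fun h => k (key c hc.1 hc.2 h)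

theorem sum_cells (hψ : ψ ≠ 0) (hξ : IsClassFunction H ξ) (o : Φ → ℤ)
    (ho : ∀ r s, o (R.rf r s) = o s - R.p r s * o r) (ho' : Set.InjOn o S1) {g : H}
    (h0 : ∀ β ∈ S1, ∀ γ ∈ S1, R.p β γ = 1 → o γ < o β →
      R.rf γ β ∈ S0 ∧ ∀ t, Commute (y (R.rf γ β) t) g)
    (hu : ∀ β ∈ S1, ∀ c : Φ → F, c β ≠ 0 → (∀ γ ∈ S1, R.p β γ = 1 → c γ = 0) →
      c ≠ Pi.single β (c β) → A.m ξ ψ c g = 0) :
    ξ g = A.m ξ ψ 0 g + ∑ β with β ∈ S1, Fintype.card F ^ #{γ | γ ∈ S1 ∧ R.p β γ = 1 ∧ o γ < o β} *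
      ∑ s with s ≠ 0, A.m ξ ψ (Pi.single β s) g := by
  have h1 : ∀ β ∈ S1, ∀ s, s ≠ 0 →
      ∑ c with c β = s ∧ ∀ γ ∈ S1, o β < o γ → c γ = 0, A.m ξ ψ c g =
      Fintype.card F ^ #{γ | γ ∈ S1 ∧ R.p β γ = 1 ∧ o γ < o β} * A.m ξ ψ (Pi.single β s) g := by
    intro β hβ s hs
    rw [sum_shift {γ | γ ∈ S1 ∧ R.p β γ = 1 ∧ o γ < o β} fun β' h w => ?_]
    · congr 1
      refine sum_eq_single_of_mem _ ?_ fun c hc k => ?_
      · simp only [mem_filter, mem_univ, true_and, Pi.single_eq_same]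
        exact ⟨fun γ _ l => Pi.single_eq_of_ne (by rintro rfl; omega) _,
          fun γ l => Pi.single_eq_of_ne (by rintro rfl; omega) _⟩
      · simp only [mem_filter, mem_univ, true_and] at hc
        refine hu β hβ c (hc.1.1 ▸ hs) (fun γ a b => ?_) (hc.1.1 ▸ k)
        rcases lt_trichotomy (o β) (o γ) with l | l | l
        · exact hc.1.2 γ a l
        · rw [ho' hβ a l, R.p_self] at b; omega
        · exact hc.2 γ ⟨a, b, l⟩
    · simp only [mem_filter, mem_univ, true_and] at h ⊢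
      obtain ⟨h3, h4⟩ := h0 β hβ β' h.1 h.2.1 h.2.2
      obtain ⟨η, h5, h6⟩ := A.exists_shift (ψ := ψ) hξ h.1 h.2.1 h3 h4
      obtain ⟨σ, h7, h8⟩ := h6 (η⁻¹ * w * s⁻¹)
      refine ⟨σ, h7, fun c hc => ⟨⟨(h8 c).2.2.1.trans hc.1, fun γ a b => ?_⟩, (h8 c).1, ?_,
        fun γ a => (h8 c).2.2.2.1 γ a.2.1⟩⟩
      · rw [(h8 c).2.2.2.2 γ fun _ l => hc.2 _ (A.mem1 _ h3 γ a l) ?_, hc.2 γ a b]
        rw [ho, l, ho, R.p_comm, h.2.1]; omega
      · rw [(h8 c).2.1, hc.1]; field_simp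
  have h2 : ∀ β, (if β ∈ S1 then (Fintype.card F : ℂ) ^ #{γ | γ ∈ S1 ∧ R.p β γ = 1 ∧ o γ < o β} *
      ∑ s with s ≠ 0, A.m ξ ψ (Pi.single β s) g else 0) = ∑ c, if β ∈ S1 ∧ c β ≠ 0 ∧
      ∀ γ ∈ S1, o β < o γ → c γ = 0 then A.m ξ ψ c g else 0 := fun β => by
    by_cases hβ : β ∈ S1
    · rw [if_pos hβ, mul_sum, ← sum_congr rfl fun s hs => h1 β hβ s (mem_filter.1 hs).2]
      simp only [hβ, true_and, sum_filter _ fun c => A.m ξ ψ c g]
      rw [sum_comm]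
      refine sum_congr rfl fun c _ => ?_
      simp only [ite_and, sum_ite_eq, mem_filter, mem_univ, true_and]
    · simp [hβ]
  rw [← sum_lc (ζ := A.zeta) (ξ := ξ) hψ g, ← add_sum_erase _ _ (mem_univ 0), sum_filter,
    sum_congr rfl fun β _ => h2 β, sum_comm, ← add_sum_erase _ _ (mem_univ 0)]
  simp only [Pi.zero_apply, ne_eq, not_true, false_and, and_false, if_false, sum_const_zero, zero_add]
  congr 1
  refine sum_congr rfl fun c hc => ?_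
  by_cases h : A.m ξ ψ c g = 0
  · simp [h]
  obtain ⟨β, h2, h3⟩ := exists_max_image {γ | c γ ≠ 0} o (by
    simpa [Finset.Nonempty, funext_iff] using ne_of_mem_erase hc)
  simp only [mem_filter, mem_univ, true_and] at h2 h3
  have h4 : ∀ γ, c γ ≠ 0 → γ ∈ S1 := fun γ a => not_not.1 fun b => h (A.m_of_notMem hψ b a g)
  rw [sum_eq_single β (fun β' _ k => if_neg fun l => ?_) (by simp), if_pos]
  · exact ⟨h4 β h2, h2, fun γ _ l => not_not.1 fun k => (h3 γ k).not_gt l⟩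
  · exact h2 (l.2.2 β (h4 β h2) ((h3 β' l.2.1).lt_of_ne fun e => k (ho' l.1 (h4 β h2) e)))

end AStep

end Cfsg.Lib.Char.MD
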