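import Cfsg.Agent.Char.MDHeis
import Cfsg.Agent.Chev.StGroup
import Cfsg.Agent.Chev.CoreAll
import Cfsg.Agent.Chev.WeylTypes
import Cfsg.Agent.Chev.RootCheck

/-! The simply laced Chevalley groups in the setting of `Char/MDLace`. -/

set_option autoImplicit false

namespace Cfsg.Lib.Char.MD

open Finset Cfsg.Lie Cfsg.Lib.Chev

universe u

/-- a digit of a packed table -/
def pk (T k : ℕ) : ℤ := ((T >>> (4 * k)) % 16 : ℕ) - 8

/-- the packed tables agree with the datum -/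
noncomputable def tabChk (D : ChevalleyDatum) (T C A : ℕ) : Bool :=
  (allR D.nroots fun r => allR D.rank fun i =>
    pk C (D.rank * r + i) == (D.coroot.getD r #[]).getD i 0 && pk A (D.rank * r + i) == D.cartan i r) &&
  allR D.nroots fun r => allR D.nroots fun s =>
    pk T (D.nroots * r + s) == pk T (D.nroots * s + r) &&
    pk T (D.nroots * r + s) == sumR D.rank fun i => pk C (D.rank * r + i) * pk A (D.rank * s + i)

theorem pk_eq_1' : type_of% @pk.eq_1 := @pk.eq_1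
theorem tabChk_eq_1' : type_of% @tabChk.eq_1 := @tabChk.eq_1

/-- `T` tabulates the symmetric pairing -/
structure PTab (D : ChevalleyDatum) (T : ℕ) : Prop where
  eq : ∀ r s : Fin D.nroots, pk T (D.nroots * r + s) = D.pairing r s
  symm : ∀ r s, r < D.nroots → s < D.nroots → D.pairing r s = D.pairing s r

variable {D : ChevalleyDatum} (R : RootData D) {T : ℕ}

theorem pTab_of_chk {C A : ℕ} (h : tabChk D T C A = true) : PTab D T := by
  simp only [tabChk, Bool.and_eq_true, allR_iff, beq_iff_eq, sumR_eq] at h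
  have k : ∀ r s, r < D.nroots → s < D.nroots → pk T (D.nroots * r + s) = D.pairing r s :=
    fun r s hr hs => by
      rw [(h.2 r hr s hs).2, RootData.pairing_eq_sum]
      exact sum_congr rfl fun i _ => by rw [(h.1 r hr i i.2).1, (h.1 s hs i i.2).2]
  exact ⟨fun r s => k r s r.2 s.2, fun r s hr hs => by
    rw [← k r s hr hs, ← k s r hs hr, (h.2 r hr s hs).1]⟩

variable {R}

include R in
theorem PTab.abs_le (h : PTab D T) {r s : ℕ} (hr : r < D.nroots) (hs : s < D.nroots) :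
    -2 ≤ D.pairing r s ∧ D.pairing r s ≤ 2 ∧ (D.pairing r s = 2 → s = r) ∧
      (D.pairing r s = -2 → s = D.neg r) := by
  by_cases h1 : s = r
  · rw [h1, R.pairing_self r hr]; omega
  by_cases h2 : s = D.neg r
  · rw [h2, R.pairing_neg_right hr hr, R.pairing_self r hr]; omega
  have := R.pairing_mul_pairing_lt hr hs h1 h2
  rw [← h.symm r s hr hs] at this
  have : -2 < D.pairing r s ∧ D.pairing r s < 2 := by constructor <;> nlinarith
  omega

include R in
theorem PTab.none (h : PTab D T) {r s k : ℕ} (hr : r < D.nroots) (hs : s < D.nroots) (hk : 1 ≤ k)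
    (hp : 2 ≤ D.pairing r s + 2 * k) : D.chainRoot r s k = none := by
  rcases e : D.chainRoot r s k with _ | u
  · rfl
  obtain ⟨h1, h2, h3, h4⟩ := R.chainRoot_spec hr hs hk e
  have h5 := R.pairing_of_rc_eq hr hs hr h3 (a := 1) (b := k) (by rw [h4, one_smul])
  rw [R.pairing_self r hr] at h5
  have h6 := h.abs_le (R := R) hr h3
  obtain rfl : u = r := h6.2.2.1 (by omega)
  have := R.lin_indep hr hs h1 h2 (a := k - 1) (b := 1) (by
    rw [sub_smul, one_smul, one_smul, ← sub_eq_zero, sub_zero, sub_add_eq_add_sub, add_comm, ← h4, sub_self])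
  omega

variable (R)

/-- the root combinatorics of a simply laced datum -/
noncomputable def PTab.rs (h : PTab D T) : RS (Fin D.nroots) where
  p r s := pk T (D.nroots * r + s)
  rf r s := ⟨R.refl r s, R.refl_lt r.2 s.2⟩
  N r s := D.chainM r s 1
  N_sq r s hp := by
    rw [h.eq] at hp
    obtain ⟨u, hu, e⟩ := R.exists_add_of_pairing_neg r.2 s.2 (fun e => by
      rw [e, R.pairing_neg_right r.2 r.2, R.pairing_self r r.2] at hp; omega) (by omega)
    have h1 := R.chainM_natAbs r s 1 u r.2 s.2 le_rfl (R.chainRoot_one_of_add r.2 s.2 hu e)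
    have h2 := (RootData.chainRoot_eq_none_iff_chainEntry _ _ _).1 (h.none (R := R) (R.neg_lt r.2) s.2
      le_rfl (by rw [R.pairing_neg_left r.2 s.2]; omega))
    rw [Nat.le_zero.1 h2] at h1
    rcases Int.natAbs_eq_iff.1 h1 with e | e <;> rw [e] <;> rfl
  p_comm r s := by rw [h.eq, h.eq, h.symm _ _ r.2 s.2]
  p_self r := by rw [h.eq, R.pairing_self _ r.2]
  p_rf t r s := by
    rw [h.eq, h.eq, h.eq, h.eq, R.pairing_of_rc_eq t.2 s.2 r.2 (R.refl_lt r.2 s.2) (a := 1) (b := -D.pairing r s)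
      (by rw [R.rc_refl r.2 s.2, one_smul, neg_smul, sub_eq_add_neg])]
    ring
  eq_of_two r s hp := by
    rw [h.eq] at hp
    have := h.abs_le (R := R) r.2 s.2
    exact Fin.ext (this.2.2.1 (by omega)).symm

theorem PTab.add_code (h : PTab D T) : (h.rs R).Add fun r => R.code (R.rc r) := fun r s => by
  change R.code (R.rc (R.refl r s)) = _ - pk T _ * _
  rw [R.rc_refl r.2 s.2, map_sub, map_zsmul, h.eq, smul_eq_mul]

theorem code_lt (r s : Fin D.nroots) : R.code (R.rc r) < R.code (R.rc s) ↔ (r.1 : ℤ) < s.1 := by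
  rw [← R.lt_iff_code_lt r.2 s.2, Nat.cast_lt]

theorem code_injective : Function.Injective fun r : Fin D.nroots => R.code (R.rc r) := fun r s e => by
  have h1 := (code_lt R r s).not.1 e.not_lt
  have h2 := (code_lt R s r).not.1 e.not_gt
  exact Fin.ext (by omega)

variable {F G : Type*} [Field F] [Group G] {x : ℕ → F → G}

theorem PTab.lace (h : PTab D T) (hx : StRel D x) (Ψ : Set (Fin D.nroots)) :
    Lace (h.rs R) Ψ fun r => x r := by
  have k : ∀ r s, r < D.nroots → s < D.nroots → 0 ≤ D.pairing r s → ∀ t u, Commute (x r t) (x s u) :=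
    fun r s hr hs hp => hx.commute R hr hs (fun e => by
      rw [e, R.pairing_neg_right hr hr, R.pairing_self r hr] at hp; omega)
      (h.none (R := R) hr hs le_rfl (by omega))
  refine ⟨fun r _ => hx.add r r.2, fun r _ s _ hp => k r s r.2 s.2 (h.eq r s ▸ hp), fun r _ s _ hp t u => ?_⟩
  replace hp : D.pairing r s = -1 := h.eq r s ▸ hp
  have hp' : D.pairing s r = -1 := h.symm r s r.2 s.2 ▸ hp
  have h1 : D.chainRoot r s 1 = some (R.refl r s) := R.chainRoot_one_of_add r.2 s.2 (R.refl_lt r.2 s.2)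
    (by rw [R.rc_refl r.2 s.2, hp, neg_smul, one_smul, sub_neg_eq_add, add_comm])
  have h2 : D.commTerms r s = [(R.refl r s, D.chainM r s 1, 1, 1)] := by
    unfold ChevalleyDatum.commTerms
    simp [h1, h.none (R := R) r.2 s.2 (k := 2) (by omega) (by omega),
      h.none (R := R) r.2 s.2 (k := 3) (by omega) (by omega),
      h.none (R := R) s.2 r.2 (k := 2) (by omega) (by omega),
      h.none (R := R) s.2 r.2 (k := 3) (by omega) (by omega)]
  have h3 := hx.comm r s r.2 s.2 (fun e => by rw [e, R.pairing_self _ r.2] at hp; omega)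
    (fun e => by rw [e, R.pairing_neg_right r.2 r.2, R.pairing_self _ r.2] at hp; omega) t u
  rw [ChevalleyDatum.commWord, h2] at h3
  simp only [List.map_cons, List.map_nil, word_cons, word_nil, mul_one, pow_one] at h3
  change _ = _ * x (R.refl r s) ((D.chainM r s 1 : ℤ) * t * u)
  rw [mul_inv_eq_iff_eq_mul, mul_assoc, ← (k r _ r.2 (R.refl_lt r.2 s.2) (by
    rw [R.pairing_refl_self r.2 s.2]; omega) _ _).eq, ← mul_assoc, h3, mul_assoc (x r t * _),
    hx.add _ (R.refl_lt r.2 s.2)]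
  simp [hx.zero (R.refl_lt r.2 s.2)]

theorem StepC.congr {Φ : Type*} [Fintype Φ] {R : RS Φ} {S0 S1 : Set Φ} [DecidablePred (· ∈ S1)]
    {o o' : Φ → ℤ} (h : ∀ a b, o a < o b ↔ o' a < o' b) {δ : Φ} {a : ℕ} (C : StepC R S0 S1 o' δ a) :
    StepC R S0 S1 o δ a :=
  ⟨C.card, C.norm, fun β a γ b c d => C.mono β a γ b c ((h _ _).1 d), C.lin, C.mem, C.ex, C.conn⟩

set_option synthInstance.maxSize 2000 in
instance {n : ℕ} (R : RS (Fin n)) (S0 S1 : Set (Fin n)) [DecidablePred (· ∈ S0)]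
    [DecidablePred (· ∈ S1)] (o : Fin n → ℤ) (δ : Fin n) (a : ℕ) : Decidable (StepC R S0 S1 o δ a) :=
  decidable_of_iff (_ ∧ _ ∧ _ ∧ _ ∧ _ ∧ _ ∧ _) ⟨fun h => ⟨h.1, h.2.1, h.2.2.1, h.2.2.2.1, h.2.2.2.2.1,
    h.2.2.2.2.2.1, h.2.2.2.2.2.2⟩, fun h => ⟨h.1, h.2, h.3, h.4, h.5, h.6, h.7⟩⟩

theorem index_P {l : ℕ} {X : Type} [DecidableEq X] {R : WeylData (Fin l) X} {CL : List (List ℤ)}
    (h : R.HasC CL) {Y : RGD R G} (hY : Y.Faithful) (hG : Y.G0 = ⊤) [Finite G] {q : ℕ}
    (hq : ∀ r ∈ R.Φ, Nat.card (Y.X r) = q) {m : ℕ} (hm : R.posRoots.card < m) (j : Fin l)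
    (J : List (Fin l)) (hJ : (j :: J).Nodup) (hJ' : ∀ i, i ∈ j :: J) :
    (Y.P {i | i ∈ J}).index =
      evalP (polyOf (expsG evL (sreflL CL) (j :: J) (fun _ => 1) m 0 (omegaL j))) q := by
  classical
  have k : ∀ w, ∏ r ∈ R.invs w, Nat.card (Y.X r) = q ^ R.wt (fun _ => 1) w := fun w => by
    rw [prod_congr rfl fun r (hr : r ∈ R.invs w) => hq r (R.mem_invs.1 hr).1.1, prod_const,
      R.card_invs, R.wt_const_one]
  have h1 := hY.card_P {i | i ∈ J}
  have h2 := hY.card_G0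
  simp only [k] at h1 h2
  rw [h.sum_pow_wt (fun _ _ _ => rfl) m hm q _ hJ hJ', hG, Subgroup.card_top,
    ← (Y.P {i | i ∈ J}).card_mul_index] at h2
  have h3 := h.poinc_eq (e := fun _ => 1) (fun _ _ _ => rfl) m hm q J hJ.of_cons
  refine Nat.eq_of_mul_eq_mul_left (Nat.card_pos (α := Y.P {i | i ∈ J})) ?_
  rw [h2, h1, mul_assoc, mul_comm (Finset.sum _ _)]
  congr 1
  refine List.prod_cons.trans (congrArg _ (h3.symm.trans ?_))
  rw [WeylData.poinc]

theorem PTab.dvd (h : PTab D T) (hx : Model R x) [Fintype F] [Finite G]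
    (hG : Subgroup.closure {g | ∃ r t, r < D.nroots ∧ g = x r t} = ⊤) {α : Fin D.nroots} {j : Fin D.rank}
    (hα : ∀ i : Fin D.rank, D.pairing α (D.simple i) = if i = j then 1 else 0) {J : List (Fin D.rank)}
    (hJ : (j :: J).Nodup) (hJ' : ∀ i, i ∈ j :: J) {CL : List (List ℤ)} (hC : R.weyl.HasC CL)
    {χ : G → ℂ} (hχ : IsIrrCharacter G χ) {d e : ℕ} (hd : χ 1 = d)
    (he : ∀ t, t ≠ 0 → χ 1 - χ (x α t) = e) :
    d ∣ evalP (polyOf (expsG evL (sreflL CL) (j :: J) (fun _ => 1) (D.nroots / 2 + 1) 0 (omegaL j)))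
      (Fintype.card F) * (Fintype.card F - 1) * e := by
  classical
  have hq : ∀ r, r < D.nroots → Nat.card (xSub x r) = Fintype.card F := fun r hr => by
    rw [← Nat.card_eq_fintype_card]
    exact (Nat.card_congr (Equiv.ofBijective (fun t => ⟨x r t, x_mem_xSub x r t⟩)
      ⟨fun t u e => hx.injective hr (congrArg Subtype.val e), fun a =>
        ((hx.mem_xSub_iff hr).1 a.2).imp fun t e => Subtype.ext e.symm⟩)).symm
  have k : ∀ r, r < D.nroots → R.weyl.stHt {i | i ∈ J} (R.rc r) = D.pairing α r := fun r hr => by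
    rw [R.pairing_eq_sum_rc hr, WeylData.stHt_apply, sum_filter]
    refine sum_congr rfl fun i _ => ?_
    rw [hα]
    by_cases e : i = j
    · simp [e, (List.nodup_cons.1 hJ).1]
    · simp [e, (List.mem_cons.1 (hJ' i)).resolve_left e]
  have h1 := (hx.toStRelW.rgd R).P_le_normalizer_level {i | i ∈ J} (c := 2) two_pos
  rw [show {r | r ∈ R.weyl.Φ ∧ 2 ≤ R.weyl.stHt {i | i ∈ J} (R.weyl.rc r)} = {α.1} from ?_,
    spanX_singleton] at h1
  · rw [← index_P hC hx.faithful ((hx.toStRelW.rgd_G0 R).trans hG) (fun r hr => hq r (R.weyl_mem.1 hr))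
      (by rw [R.card_posRoots]; omega) j J hJ hJ', ← hq α α.2]
    refine dvd_index_mul hχ hd ((hx.toStRelW.rgd R).X_le_P (Or.inl ?_)) h1 fun z hz h2 => ?_
    · exact ((R.weyl.stHt_pos_iff {i | i ∈ J} (R.weyl_mem.2 α.2)).1 (by
        rw [R.weyl_rc, k _ α.2, R.pairing_self _ α.2]; omega)).1
    · obtain ⟨t, rfl⟩ := (hx.mem_xSub_iff α.2).1 hz
      exact he t fun e => h2 (by rw [e, hx.zero α.2])
  · ext r
    simp only [Set.mem_ofPred_eq, R.weyl_mem, R.weyl_rc, Set.mem_singleton_iff]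
    constructor
    · rintro ⟨h1, h2⟩
      have := h.abs_le (R := R) α.2 h1
      rw [k r h1] at h2
      exact this.2.2.1 (by omega)
    · rintro rfl
      exact ⟨α.2, by rw [k _ α.2, R.pairing_self _ α.2]⟩

theorem PTab.top (h : PTab D T) (C : Core.Cert D) {F : Type u} [Field F] [Fintype F]
    {α β δ : Fin D.nroots} {j : Fin D.rank}
    (hα : ∀ i : Fin D.rank, D.pairing α (D.simple i) = if i = j then 1 else 0) {J : List (Fin D.rank)}
    (hJ : (j :: J).Nodup) (hJ' : ∀ i, i ∈ j :: J) {CL : List (List ℤ)} (hC : R.weyl.HasC CL)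
    (h1 : ∀ r, r ≠ α → ∃ s, (h.rs R).p r s = 1 ∧ (h.rs R).p α r < (h.rs R).p α s)
    (h2 : (h.rs R).p α β = 1) {a : ℕ} (ha : #{γ | (γ ∈ Set.univ ∧ 1 ≤ (h.rs R).p α γ ∧
      1 ≤ (h.rs R).p β γ) ∧ (h.rs R).p α γ = 1} = a + 1)
    (S : StepC (h.rs R) {r | r ∈ Set.univ ∧ (h.rs R).p α r = 0} {r | r ∈ Set.univ ∧ (h.rs R).p α r = 1}
      (fun r => r.1) δ a) (h3 : (h.rs R).p β δ = 0)
    (h4 : ∃ ε, (h.rs R).p α ε = 0 ∧ (h.rs R).p β ε = 0 ∧ (h.rs R).p δ ε = 1) {e' D' b : ℕ}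
    (B : Bnd.{u} (h.rs R) {r | r ∈ Set.univ ∧ (h.rs R).p α r = 0} F e' D') {L L' : List ℕ}
    (hb : #{γ | (γ ∈ Set.univ ∧ 1 ≤ (h.rs R).p α γ ∧ 1 ≤ (h.rs R).p β γ) ∧ (h.rs R).p α γ = 1 ∧
      (h.rs R).p δ γ ≤ 0} = b)
    (hL : (univ.filter fun β => β ∈ Set.univ ∧ (h.rs R).p α β = 1).1.map (fun β => #{γ | (γ ∈ Set.univ ∧
      (h.rs R).p α γ = 1) ∧ (h.rs R).p β γ = 1 ∧ (γ.1 : ℤ) < β.1}) = L)
    (hL' : (univ.filter fun β => (β ∈ Set.univ ∧ (h.rs R).p α β = 1) ∧ (h.rs R).p δ β = 1).1.map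
      (fun β => #{γ | (γ ∈ Set.univ ∧ (h.rs R).p α γ = 1) ∧ (h.rs R).p β γ = 1 ∧ (γ.1 : ℤ) < β.1}) = L')
    {q : ℕ} (hq : Fintype.card F = q)
    (h5 : q ^ (a + 1) + (q - 1) * q ^ b = e' + (q - 1) * (L'.map (q ^ ·)).sum) {d : ℕ}
    (ρ : Representation ℂ (D.group F) (Fin d → ℂ)) (hρ : ρ.IsIrreducible) (hd : 2 ≤ d) :
    (q - 1) * (2 * q ^ a) + (q - 1) * (2 * q ^ (a + 1)) ≤ d ∨
      D' + (q - 1) * (L.map (q ^ ·)).sum + (q - 1) * q ^ (a + 1) ≤ d ∧
      d ∣ evalP (polyOf (expsG evL (sreflL CL) (j :: J) (fun _ => 1) (D.nroots / 2 + 1) 0 (omegaL j)))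
        q * (q - 1) * q ^ (a + 2) := by
  subst hq
  have hχ := isIrrCharacter_rep ρ
  have hd' : ρ.character 1 = d := by rw [Representation.char_one, Module.finrank_fin_fun]
  have hx := C.model_xG F R
  have La := h.lace R hx.toStRel Set.univ
  have hΨ : (h.rs R).Cl Set.univ := fun _ _ _ _ => trivial
  have he := fun r t ht => La.const hΨ hχ.isClassFunction (δ := α) trivial ⟨β, trivial, h2⟩
    (fun r _ k => (h1 r k).imp fun s l => ⟨trivial, l⟩) (r := r) trivial (t := t) ht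
  obtain ⟨k, k1, k2, k3⟩ := La.heis (δ := δ) hΨ trivial trivial h2 ha hχ.isCharacter hd'
    fun r _ t ht => congrArg _ (he r t ht)
  rcases Nat.lt_or_ge k 2 with k4 | k4
  · obtain rfl | rfl : k = 0 ∨ k = 1 := by omega
    · have : charKer ρ.character = ⊤ := top_unique ((C.closure_xG_eq_top R).ge.trans
        ((Subgroup.closure_le _).2 (by
          rintro _ ⟨r, t, hr, rfl⟩
          by_cases ht : t = 0
          · rw [ht, hx.zero hr]; exact one_mem _
          · refine hχ.mem_charKer_iff.2 ((he ⟨r, hr⟩ t ht).trans (sub_eq_zero.1 ?_).symm)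
            simpa using k1)))
      rw [hχ.charKer_eq_top_iff.1 this] at hd'
      have : 1 = d := Nat.cast_injective (R := ℂ) (Nat.cast_one.trans hd')
      omega
    · refine Or.inr ⟨?_, h.dvd R hx (C.closure_xG_eq_top R) hα hJ hJ' hC hχ hd' fun t ht => by
        rw [he α t ht, k1, one_mul]⟩
      have := k3 rfl (h.add_code R) (code_injective R) (S.congr (code_lt R)) h3
        (h4.imp fun _ l => ⟨trivial, l⟩) B (by
          simp only [code_lt]
          rw [hb, h5, ← Multiset.sum_coe, ← Multiset.map_coe, ← hL', Multiset.map_map]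
          rfl)
      simp only [code_lt] at this
      rw [← Multiset.sum_coe, ← Multiset.map_coe, ← hL, Multiset.map_map]
      exact this
  · refine Or.inl (le_trans ?_ k2)
    gcongr

theorem not_dvd_of {q d j u h m : ℕ} (h1 : d + j = q * u) (hj : 0 < j) (h2 : q ^ h ≤ q * d)
    (h3 : j ^ (m + 1) * (q * d - q ^ h + 1) < d) : ¬ d ∣ (d + j) * ((q ^ h - 1) * q ^ m) := fun k => by
  have hq : 0 < q := Nat.pos_of_ne_zero (by rintro rfl; omega)
  have k1 : d ∣ j * (q ^ h - 1) * q ^ m := by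
    rw [add_mul] at k
    rw [mul_assoc]
    exact (Nat.dvd_add_right (dvd_mul_right _ _)).1 k
  have k2 : d ∣ j * (q ^ h - 1) * j ^ m := by
    have : (d + j) ^ m ≡ j ^ m [MOD d] := (Nat.add_modEq_left).pow m
    refine ((this.mul_left _).dvd_iff dvd_rfl).1 ?_
    rw [h1, mul_pow, ← mul_assoc]
    exact k1.mul_right _
  have k3 : d ∣ j ^ (m + 1) * (q * d - q ^ h + 1) := by
    have := Nat.one_le_pow h q hq
    refine (Nat.dvd_add_right k2).1 ⟨j ^ (m + 1) * q, ?_⟩
    zify [h2, this]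
    ring
  exact (Nat.le_of_dvd (by positivity) k3).not_gt h3

theorem not_dvd_of' {q d j u h m r : ℕ} (h1 : d + j = q * u) (hj : 0 < j) (h2 : q * (q * u) = q ^ h + r)
    (h3 : q * j ≤ r) (h4 : j ^ (m + 1) * (r + 1) + j < q * u) : ¬ d ∣ q * u * ((q ^ h - 1) * q ^ m) := by
  rw [← h1, mul_add] at h2
  rw [← h1] at h4 ⊢
  refine not_dvd_of h1 hj (by omega) (lt_of_le_of_lt (Nat.mul_le_mul_left _ (by omega))
    (Nat.lt_of_add_lt_add_right h4))

end Cfsg.Lib.Char.MD
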