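import Cfsg.Agent.Char.MDTri1
import Cfsg.Agent.Chev.LaceSt

/-! A lemma on representations of groups generated by root elements of type `A₂`. -/

set_option autoImplicit false

namespace Cfsg.Lib.Char.MD

open Finset Cfsg.Lib.Chev LinearMap

variable {F : Type*} [Field F] [Fintype F] {ψ : AddChar F ℂ}

section
variable {E : Type*} [Ring E] [Algebra ℂ E] {x y z : F → E} {g M : E} {a : F}

/-- the projection onto an eigenspace of a one-parameter group -/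
noncomputable def pj (ψ : AddChar F ℂ) (x : F → E) (a : F) : E :=
  (Fintype.card F : ℂ)⁻¹ • ∑ v, ψ (-(a * v)) • x v

theorem pj_eq_1' : type_of% @pj.eq_1 := @pj.eq_1

theorem semi_pj {k : F} (hk : k ≠ 0) (h : ∀ v, SemiconjBy g (x v) (y (k * v))) (a : F) :
    SemiconjBy g (pj ψ x (a * k)) (pj ψ y a) := by
  simp only [SemiconjBy, pj, mul_smul_comm, smul_mul_assoc, mul_sum, sum_mul, (h _).eq, mul_assoc a]
  rw [← Equiv.sum_comp (Equiv.mulLeft₀ k hk) fun v => ψ (-(a * v)) • (y v * g)]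
  rfl

theorem semi_pj0 {k : F} (hk : k ≠ 0) (h : ∀ v, SemiconjBy g (x v) (y (k * v))) :
    SemiconjBy g (pj ψ x 0) (pj ψ y 0) := by simpa using semi_pj (ψ := ψ) hk h 0

theorem comm_pj (h : ∀ v, Commute g (x v)) (a : F) : Commute g (pj ψ x a) := by
  have := semi_pj (ψ := ψ) (y := x) one_ne_zero (fun v => by rw [one_mul]; exact h v) a
  rwa [mul_one] at this

theorem pj_mul_of (h : ∀ v, x v * M = ψ (a * v) • M) : pj ψ x a * M = M := by
  simp only [pj, smul_mul_assoc, sum_mul, h, smul_smul, ← AddChar.map_add_eq_mul, neg_add_cancel,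
    AddChar.map_zero_eq_one, one_smul, sum_const, card_univ]
  rw [← Nat.cast_smul_eq_nsmul ℂ, smul_smul, inv_mul_cancel₀ (card_cast_ne_zero F), one_smul]

theorem mul_pj (hx : ∀ u v, x u * x v = x (u + v)) (u : F) : x u * pj ψ x a = ψ (a * u) • pj ψ x a := by
  simp only [pj, mul_smul_comm, mul_sum, hx]
  rw [smul_comm, smul_sum (r := ψ (a * u)), ← Equiv.sum_comp (Equiv.addLeft u)
    fun v => ψ (a * u) • ψ (-(a * v)) • x v]
  refine congrArg _ (sum_congr rfl fun v _ => ?_)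
  rw [Equiv.coe_addLeft, smul_smul, ← AddChar.map_add_eq_mul]
  congr 2
  ring

theorem comm_pj_self (hx : ∀ u v, x u * x v = x (u + v)) (u a : F) : Commute (x u) (pj ψ x a) :=
  comm_pj (fun v => by rw [Commute, SemiconjBy, hx, hx, add_comm]) a

theorem idem_pj (hx : ∀ u v, x u * x v = x (u + v)) (a : F) : IsIdempotentElem (pj ψ x a) :=
  pj_mul_of (mul_pj hx)

theorem mul_pj0 (hx : ∀ u v, x u * x v = x (u + v)) (u : F) : x u * pj ψ x 0 = pj ψ x 0 := by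
  simpa using mul_pj (ψ := ψ) (a := 0) hx u

theorem shear (hz : ∀ u v, z u * z v = z (u + v)) (h1 : ∀ s, ∃ r, g * y s = z r * y s * g)
    (h2 : ∀ r, Commute g (z r)) (a : F) : Commute g (pj ψ z 0 * pj ψ y a) := by
  rw [Commute, SemiconjBy, ← mul_assoc, (comm_pj h2 0).eq, mul_assoc, mul_assoc]
  simp only [pj.eq_1 ψ y, mul_smul_comm, smul_mul_assoc, mul_sum, sum_mul]
  refine congrArg _ (sum_congr rfl fun s _ => congrArg _ ?_)
  obtain ⟨r, hr⟩ := h1 s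
  rw [hr, mul_assoc, ← mul_assoc (pj ψ z 0), ← (comm_pj_self hz r 0).eq, mul_pj0 hz]

theorem sum_pj [DecidableEq F] (hψ : ψ ≠ 0) (x : F → E) : ∑ a, pj ψ x a = x 0 := by
  simp only [pj, ← smul_sum]
  rw [sum_comm]
  simp only [← sum_smul, show ∀ a v : F, -(a * v) = -v * a from fun a v => by ring, sum_char hψ,
    neg_eq_zero, ite_smul, zero_smul,
    sum_ite_eq', mem_univ, if_true, smul_smul, inv_mul_cancel₀ (card_cast_ne_zero F), one_smul]

end

variable {V : Type*} [AddCommGroup V] [Module ℂ V] [FiniteDimensional ℂ V]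

theorem sandwich {ε : Module.End ℂ V} (h : IsIdempotentElem ε) (h1 : trace ℂ V ε = 1)
    (A : Module.End ℂ V) : ε * A * ε = trace ℂ V (ε * A) • ε := by
  have h2 : Module.finrank ℂ (range ε) = 1 := by exact_mod_cast h.isProj_range.trace.symm.trans h1
  obtain ⟨v, -, hv⟩ := finrank_eq_one_iff'.1 h2
  obtain ⟨c, hc⟩ := hv ⟨ε (A v), _, rfl⟩
  have h3 : ε * A * ε = c • ε := LinearMap.ext fun w => by
    obtain ⟨d, hd⟩ := hv ⟨ε w, _, rfl⟩
    have e1 : d • v.1 = ε w := congrArg Subtype.val hd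
    have e2 : c • v.1 = ε (A v) := congrArg Subtype.val hc
    simp only [Module.End.mul_apply, LinearMap.smul_apply, ← e1, map_smul, ← e2, smul_comm c]
  have h4 := congrArg (trace ℂ V) h3
  rw [trace_mul_comm, ← mul_assoc, h.eq, map_smul, h1, smul_eq_mul, mul_one] at h4
  rw [h3, h4]

theorem trace_pj (x : F → Module.End ℂ V) (a : F) (A B : Module.End ℂ V) :
    Fintype.card F * trace ℂ V (A * pj ψ x a * B) = ∑ v, ψ (-(a * v)) * trace ℂ V (A * x v * B) := by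
  simp only [pj, mul_smul_comm, smul_mul_assoc, mul_sum, sum_mul, map_smul, map_sum, smul_eq_mul,
    mul_inv_cancel_left₀ (card_cast_ne_zero F)]

variable {G : Type*} [Group G] (ρ : G →* Module.End ℂ V)

theorem trace_semi {g : G} {A B : Module.End ℂ V} (h : SemiconjBy (ρ g) A B) :
    trace ℂ V A = trace ℂ V B := by
  rw [← one_mul A, ← map_one ρ, ← inv_mul_cancel g, map_mul ρ, mul_assoc, h.eq, trace_mul_comm, mul_assoc,
    ← map_mul ρ, mul_inv_cancel, map_one, mul_one]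

omit [FiniteDimensional ℂ V] in
theorem semi_of_conj {g a b : G} (h : g * a * g⁻¹ = b) : SemiconjBy (ρ g) (ρ a) (ρ b) := by
  rw [SemiconjBy, ← map_mul, ← map_mul, ← h, inv_mul_cancel_right]

variable [DecidableEq F] {e : Fin 3 → Fin 3 → F → G} (he : StA e)
include he

omit [FiniteDimensional ℂ V] [Fintype F] [DecidableEq F] in
theorem rho_add {a b : Fin 3} (h : a ≠ b) (u v : F) : ρ (e a b u) * ρ (e a b v) = ρ (e a b (u + v)) := by
  rw [← map_mul, he.add a b h]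

theorem quad {a b : Fin 3} (hab : a ≠ b) {p : Module.End ℂ V} (hp : IsIdempotentElem p)
    (h1 : ∀ t, Commute (ρ (e a b t)) p) (h2 : ∀ t, Commute (ρ (e b a t)) p)
    (h3 : trace ℂ V (pj ψ (fun t => ρ (e a b t)) 0 * p) = 1) {c : ℂ}
    (hc : ∀ t, t ≠ 0 → trace ℂ V (pj ψ (fun t => ρ (e a b t)) 0 * p * ρ (e b a t)) = c) :
    Fintype.card F * trace ℂ V (pj ψ (fun t => ρ (e a b t)) 0 * p * pj ψ (fun t => ρ (e b a t)) 0) =
      1 + (Fintype.card F - 1) * c ∧ (c = 1 ∨ Fintype.card F * c = -1) := by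
  obtain ⟨ε, hε⟩ : ∃ ε, pj ψ (fun t => ρ (e a b t)) 0 * p = ε := ⟨_, rfl⟩
  have k0 := (comm_pj (ψ := ψ) (fun t => (h1 t).symm) 0).symm
  have k1 : IsIdempotentElem ε := hε ▸ (idem_pj (rho_add ρ he hab) 0).mul_of_commute k0 hp
  have k2 : ∀ t, ρ (e a b t) * ε = ε := fun t => by rw [← hε, ← mul_assoc, mul_pj0 (rho_add ρ he hab)]
  have k3 : ∀ t, ε * ρ (e a b t) = ε := fun t => by
    rw [← ((hε ▸ (comm_pj_self (rho_add ρ he hab) t 0).mul_right (h1 t) : Commute _ ε)).eq, k2]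
  have k4 : ∀ s t u, t ≠ 0 → trace ℂ V (ε * ρ (e a b s * e b a t * e a b u)) = c := fun s t u ht => by
    rw [map_mul ρ, map_mul ρ, ← mul_assoc, ← mul_assoc, k3, trace_mul_comm, ← mul_assoc, k2, ← hc t ht, hε]
  rw [hε] at h3 hc ⊢
  have k5 := trace_pj (ψ := ψ) (fun t => ρ (e b a t)) 0 ε 1
  simp only [mul_one, zero_mul, neg_zero, AddChar.map_zero_eq_one, one_mul] at k5
  rw [← add_sum_erase _ _ (mem_univ 0), he.zero hab.symm, map_one, mul_one, h3, ← filter_ne',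
    sum_congr rfl fun t ht => hc t (mem_filter.1 ht).2, sum_const, nsmul_eq_mul, card_ne_zero_cast] at k5
  refine ⟨k5, ?_⟩
  obtain ⟨k, hk, k6, -⟩ := he.stW_conj hab hab (one_ne_zero (α := F))
  rw [Equiv.swap_apply_left, Equiv.swap_apply_right] at k6
  have k7 : Commute (ρ (stW e a b 1)) p := by
    rw [stW, map_mul, map_mul]
    exact ((h1 _).mul_left (h2 _)).mul_left (h1 _)
  have k8 := (semi_pj0 (ψ := ψ) (x := fun t => ρ (e a b t)) (y := fun t => ρ (e b a t)) hk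
    fun v => semi_of_conj ρ (k6 v)).mul_right k7
  have k9 : ε * p = ε := by rw [← hε, mul_assoc, hp.eq]
  have k10 := congrArg (fun A => trace ℂ V (A * ρ (stW e a b 1)⁻¹)) (sandwich k1 h3 (ρ (stW e a b 1)))
  rw [hε] at k8
  simp only [smul_mul_assoc, map_smul, smul_eq_mul] at k10
  rw [mul_assoc ε, k8.eq, mul_assoc, mul_assoc, ← map_mul ρ, mul_inv_cancel, map_one, mul_one,
    ← (comm_pj (fun t => (h2 t).symm) 0).eq, ← mul_assoc, k9, stW, k4 _ _ _ (by simp), mul_inv_rev,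
    mul_inv_rev, he.inv hab, he.inv hab.symm, ← mul_assoc, k4 _ _ _ (by simp)] at k10
  rw [k10] at k5
  have : (c - 1) * (Fintype.card F * c + 1) = 0 := by linear_combination k5
  exact (mul_eq_zero.1 this).imp sub_eq_zero.1 eq_neg_of_add_eq_zero_left

omit [FiniteDimensional ℂ V] [Fintype F] [DecidableEq F] in
theorem exists_tau {t : F} (ht : t ≠ 0) : ∃ τ : G, (∀ c d, c ≠ d → ∃ k, k ≠ 0 ∧
      ∀ u, SemiconjBy (ρ τ) (ρ (e c d u)) (ρ (e c d (k * u)))) ∧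
      (∀ u, SemiconjBy (ρ τ) (ρ (e 0 1 u)) (ρ (e 0 1 (t * u)))) ∧
      (∀ u, SemiconjBy (ρ τ) (ρ (e 2 0 u)) (ρ (e 2 0 (t * u)))) ∧
      ∀ u, SemiconjBy (ρ τ) (ρ (e 1 0 u)) (ρ (e 1 0 (t⁻¹ * u))) := by
  have h : -t⁻¹ ≠ 0 := by simpa using ht
  have k : ∀ {x y z : G}, stW e 1 2 1 * x * (stW e 1 2 1)⁻¹ = y → stW e 1 2 (-t⁻¹) * y *
      (stW e 1 2 (-t⁻¹))⁻¹ = z → SemiconjBy (ρ (stW e 1 2 (-t⁻¹) * stW e 1 2 1)) (ρ x) (ρ z) :=
    fun h1 h2 => semi_of_conj ρ (by rw [← h2, ← h1]; group)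
  refine ⟨_, fun c d hcd => ?_, fun u => k (he.stW_ca (by decide) (by decide) (by decide) one_ne_zero u)
    ((he.stW_cb (by decide) (by decide) (by decide) h _).trans (by simp [inv_neg])),
    fun u => k (he.stW_bc (by decide) (by decide) (by decide) one_ne_zero u)
    ((he.stW_ac (by decide) (by decide) (by decide) h _).trans (by simp [inv_neg])),
    fun u => k (he.stW_ac (by decide) (by decide) (by decide) one_ne_zero u)
    ((he.stW_bc (by decide) (by decide) (by decide) h _).trans (by simp))⟩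
  obtain ⟨k1, h1, h2, -⟩ := he.stW_conj (a := 1) (b := 2) (by decide) hcd (one_ne_zero (α := F))
  obtain ⟨k2, h3, h4, -⟩ := he.stW_conj (a := 1) (b := 2) (by decide)
    ((Equiv.swap 1 2).injective.ne hcd) h
  simp only [Equiv.swap_apply_self] at h4
  exact ⟨k2 * k1, mul_ne_zero h3 h1, fun u => k (h2 u) (by rw [h4, mul_assoc])⟩

theorem regular_ne_zero (hψ : ψ ≠ 0)
    (h1 : ∀ a, a ≠ 0 → trace ℂ V (pj ψ (fun t => ρ (e 0 1 t)) a * (pj ψ (fun t => ρ (e 0 2 t)) 0 *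
      pj ψ (fun t => ρ (e 1 2 t)) 0)) = 1)
    (h2 : trace ℂ V (pj ψ (fun t => ρ (e 0 1 t)) 0 * (pj ψ (fun t => ρ (e 0 2 t)) 0 *
      pj ψ (fun t => ρ (e 1 2 t)) 0)) ∈ ({0, 1} : Set ℂ)) {c s : F} (hc : c ≠ 0) (hs : s ≠ 0) :
    trace ℂ V (pj ψ (fun t => ρ (e 0 1 t)) c * (pj ψ (fun t => ρ (e 0 2 t)) 0 *
      pj ψ (fun t => ρ (e 1 2 t)) s)) ≠ 0 := fun h3 => by
  obtain ⟨x, hx⟩ : ∃ x : Fin 3 → Fin 3 → F → Module.End ℂ V, ∀ a b, (fun t => ρ (e a b t)) = x a b :=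
    ⟨_, fun _ _ => rfl⟩
  have hx' : ∀ a b t, ρ (e a b t) = x a b t := fun a b t => congrFun (hx a b) t
  have xa : ∀ a b, a ≠ b → ∀ u v, x a b u * x a b v = x a b (u + v) := fun a b h u v => by
    simp only [← hx', rho_add ρ he h]
  have x0 : ∀ a b, a ≠ b → x a b 0 = 1 := fun a b h => by rw [← hx', he.zero h, map_one]
  have xc : ∀ a b c d, a ≠ b ∧ c ≠ d ∧ b ≠ c ∧ a ≠ d → ∀ t u, Commute (x a b t) (x c d u) :=
    fun a b c d h t u => hx' a b t ▸ hx' c d u ▸ (he.commute a b c d h.1 h.2.1 h.2.2.1 h.2.2.2 t u).map ρ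
  have xl : ∀ a b c, a ≠ b ∧ b ≠ c ∧ a ≠ c → ∀ t u, x a b t * x b c u = x a c (t * u) * x b c u * x a b t :=
    fun a b c h t u => by simp only [← hx', ← map_mul, he.comm a b c h.1 h.2.1 h.2.2]
  have xr : ∀ a b c, a ≠ b ∧ b ≠ c ∧ a ≠ c → ∀ t u,
      x b c u * x a b t = x a c (-(t * u)) * x a b t * x b c u := fun a b c h t u => by
    rw [mul_assoc, xl a b c h, ← mul_assoc, ← mul_assoc, xa a c h.2.2, neg_add_cancel, x0 a c h.2.2, one_mul]
  have pc : ∀ a b c d, a ≠ b ∧ c ≠ d ∧ b ≠ c ∧ a ≠ d → ∀ t u, Commute (pj ψ (x a b) t) (pj ψ (x c d) u) :=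
    fun a b c d h t u => comm_pj (fun v => (comm_pj (fun w => (xc a b c d h w v).symm) t).symm) u
  have q1 := quad (ψ := ψ) ρ he (a := 0) (b := 1) (by decide)
    (p := pj ψ (x 0 2) 0 * pj ψ (x 1 2) 0)
  have q2 := quad (ψ := ψ) ρ he (a := 0) (b := 2) (by decide)
    (p := pj ψ (x 1 2) 0 * pj ψ (x 1 0) 0)
  have ht := fun t ht => exists_tau ρ he (t := t) ht
  simp only [hx, hx'] at h1 h2 h3 q1 q2 ht
  have b1 : ∀ t a, Commute (x 0 1 t) (pj ψ (x 0 2) 0 * pj ψ (x 1 2) a) := fun t =>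
    shear (xa 0 2 (by decide)) (fun s => ⟨_, xl 0 1 2 (by decide) t s⟩) (xc 0 1 0 2 (by decide) t)
  -- transfer
  obtain ⟨a, ν, ha, hν, h4⟩ : ∃ a ν, a ≠ 0 ∧ ν ≠ 0 ∧
      pj ψ (x 2 0) ν * (pj ψ (x 2 1) 0 * pj ψ (x 0 1) a) = 0 := by
    have k : ∀ c d, c ≠ d → ∃ k, k ≠ 0 ∧ ∀ u, SemiconjBy (ρ (stW e 1 2 1 * stW e 0 2 1)) (x c d u)
        (x (Equiv.swap 1 2 (Equiv.swap 0 2 c)) (Equiv.swap 1 2 (Equiv.swap 0 2 d)) (k * u)) :=
      fun c d hcd => by
        obtain ⟨k1, h1, h2, -⟩ := he.stW_conj (a := 0) (b := 2) (by decide) hcd (one_ne_zero (α := F))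
        obtain ⟨k2, h3, h4, -⟩ := he.stW_conj (a := 1) (b := 2) (by decide)
          ((Equiv.swap 0 2).injective.ne hcd) (one_ne_zero (α := F))
        refine ⟨k2 * k1, mul_ne_zero h3 h1, fun u => ?_⟩
        rw [← hx', ← hx']
        exact semi_of_conj ρ (by rw [mul_assoc k2, ← h4, ← h2]; group)
    obtain ⟨k1, a1, a2⟩ := k 2 0 (by decide)
    obtain ⟨k2, a3, a4⟩ := k 2 1 (by decide)
    obtain ⟨k3, a5, a6⟩ := k 0 1 (by decide)
    have k4 : SemiconjBy _ _ (pj ψ (x 0 1) c * (pj ψ (x 0 2) 0 * pj ψ (x 1 2) s)) :=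
      (semi_pj a1 a2 c).mul_right ((semi_pj0 a3 a4).mul_right (semi_pj a5 a6 s))
    rw [IsIdempotentElem.eq_zero_of_trace_eq_zero ((idem_pj (xa 0 1 (by decide)) c).mul_of_commute
      (comm_pj (fun t => (b1 t s).symm) c).symm ((idem_pj (xa 0 2 (by decide)) 0).mul_of_commute
      (pc 0 2 1 2 (by decide) _ _) (idem_pj (xa 1 2 (by decide)) s))) h3, SemiconjBy, zero_mul] at k4
    refine ⟨_, _, mul_ne_zero hs a5, mul_ne_zero hc a1, ?_⟩
    rw [← one_mul (_ * _), ← map_one ρ, ← inv_mul_cancel (stW e 1 2 1 * stW e 0 2 1), map_mul, mul_assoc,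
      k4, mul_zero]
  obtain ⟨p, hp⟩ : ∃ p, pj ψ (x 0 2) 0 * pj ψ (x 1 2) 0 = p := ⟨_, rfl⟩
  have p0 : pj ψ (x 1 2) 0 * pj ψ (x 0 2) 0 = p := (pc 1 2 0 2 (by decide) 0 0).eq.trans hp
  have p1 : IsIdempotentElem p := hp ▸ (idem_pj (xa 0 2 (by decide)) 0).mul_of_commute
    (pc 0 2 1 2 (by decide) _ _) (idem_pj (xa 1 2 (by decide)) 0)
  have p2 : ∀ t, Commute (x 0 1 t) p := fun t => hp ▸ b1 t 0
  have p3 : ∀ t, Commute (x 1 0 t) p := fun t => p0 ▸
    shear (xa 1 2 (by decide)) (fun s => ⟨_, xl 1 0 2 (by decide) t s⟩) (xc 1 0 1 2 (by decide) t) 0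
  have p4 : ∀ t, x 0 2 t * p = p := fun t => by rw [← hp, ← mul_assoc, mul_pj0 (xa 0 2 (by decide))]
  have p5 : ∀ t, x 1 2 t * p = p := fun t => by rw [← p0, ← mul_assoc, mul_pj0 (xa 1 2 (by decide))]
  have p6 : ∀ t, p * x 0 2 t = p := fun t => by
    rw [← p0, mul_assoc, ← (comm_pj_self (xa 0 2 (by decide)) t 0).eq, mul_pj0 (xa 0 2 (by decide))]
  have p7 : ∀ t, p * x 1 2 t = p := fun t => by
    rw [← hp, mul_assoc, ← (comm_pj_self (xa 1 2 (by decide)) t 0).eq, mul_pj0 (xa 1 2 (by decide))]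
  have p8 : ∀ a, Commute (pj ψ (x 0 1) a) p := fun a => (comm_pj (fun t => (p2 t).symm) a).symm
  have p9 : Commute (pj ψ (x 1 0) 0) p := (comm_pj (fun t => (p3 t).symm) 0).symm
  obtain ⟨ε, hε⟩ : ∃ ε, pj ψ (x 1 0) 0 * p = ε := ⟨_, rfl⟩
  have e1 : IsIdempotentElem ε := hε ▸ (idem_pj (xa 1 0 (by decide)) 0).mul_of_commute p9 p1
  have e2 : trace ℂ V (pj ψ (x 0 1) 0 * p) = trace ℂ V ε := by
    have k : ∀ c d, c ≠ d → SemiconjBy (ρ (stW e 0 1 1)) (pj ψ (x c d) 0)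
        (pj ψ (x (Equiv.swap 0 1 c) (Equiv.swap 0 1 d)) 0) := fun c d hcd => by
      obtain ⟨k1, h1, h2, -⟩ := he.stW_conj (a := 0) (b := 1) (by decide) hcd (one_ne_zero (α := F))
      exact semi_pj0 h1 fun v => hx' _ _ _ ▸ hx' _ _ _ ▸ semi_of_conj ρ (h2 v)
    rw [← hε]
    nth_rw 1 [← hp]
    rw [← p0]
    exact trace_semi ρ ((k 0 1 (by decide)).mul_right ((k 0 2 (by decide)).mul_right (k 1 2 (by decide))))
  have e3 : ∀ t, t ≠ 0 → p * x 2 0 t * p = ε * x 2 0 t * ε := fun t ht => by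
    have k1 : ∀ r, x 1 0 r * (p * x 2 0 t * p) = p * x 2 0 t * p := fun r => by
      have := xl 1 2 0 (by decide) (r / t) t
      rw [div_mul_cancel₀ _ ht] at this
      calc _ = p * (x 1 0 r * x 2 0 t * x 1 2 (r / t)) * p := by
            simp only [mul_assoc, p5, (p3 r).left_comm]
        _ = _ := by rw [← this, ← mul_assoc, p7]
    have k2 : pj ψ (x 1 0) 0 * (p * x 2 0 t * p) = p * x 2 0 t * p := pj_mul_of fun v => by simp [k1]
    have k3 := (p9.mul_right (comm_pj (ψ := ψ) (xc 2 0 1 0 (by decide) t) 0).symm).mul_right p9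
    calc _ = pj ψ (x 1 0) 0 * (p * x 2 0 t * p * pj ψ (x 1 0) 0) := by rw [← k3.eq, k2, k2]
      _ = _ := by simp only [← hε, mul_assoc, ← p9.eq]
  have f1 := h1 a ha
  rw [hp] at f1 h2 q1
  have f2 : ∀ s, s ≠ 0 → trace ℂ V (x 2 1 s * (pj ψ (x 0 1) a * p)) = 0 := fun s hs => by
    by_contra h
    refine mul_ne_zero ha hs (neg_eq_zero.1 (eq_zero_of_char hψ fun r => mul_right_cancel₀ h ?_))
    rw [one_mul]
    conv_rhs => rw [← p4 r, ← mul_assoc (pj _ _ _), ← (comm_pj (xc 0 2 0 1 (by decide) r) a).eq, mul_assoc,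
      ← mul_assoc, xr 0 2 1 (by decide), mul_assoc, mul_assoc, trace_mul_comm, mul_assoc, trace_mul_comm,
      mul_assoc, mul_assoc, mul_assoc, ← mul_assoc p, ← (p2 _).eq, mul_assoc, p6, ← mul_assoc (pj _ _ _),
      ← (comm_pj_self (xa 0 1 (by decide)) _ a).eq, mul_pj (xa 0 1 (by decide)), smul_mul_assoc,
      mul_smul_comm, map_smul, smul_eq_mul]
    congr 2
    ring
  have f3 : ∀ t s, t ≠ 0 → trace ℂ V (x 2 0 t * x 2 1 s * (pj ψ (x 0 1) a * p)) =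
      trace ℂ V (pj ψ (x 0 1) a * (ε * x 2 0 t * ε)) := fun t s ht => by
    rw [← e3 t ht, ← mul_assoc (pj _ _ _), trace_mul_comm _ _ p, ← mul_assoc p, ← mul_assoc _ p,
      ← (p8 a).eq, mul_assoc _ p p, p1.eq, trace_mul_comm _ _ (x 2 0 t)]
    refine trace_semi ρ (g := e 0 1 (s / t)) (SemiconjBy.mul_right ?_ ?_) <;> rw [hx']
    · rw [SemiconjBy, xl 2 0 1 (by decide), mul_div_cancel₀ _ ht, (xc 2 0 2 1 (by decide) _ _).eq,
        (xc 2 1 0 1 (by decide) _ _).eq, mul_assoc]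
    · exact (comm_pj_self (xa 0 1 (by decide)) _ a).mul_right (p2 _)
  have f4 : 0 = 1 + Fintype.card F * ∑ t with t ≠ 0, ψ (-(ν * t)) *
      trace ℂ V (pj ψ (x 0 1) a * (ε * x 2 0 t * ε)) := by
    have k1 := trace_pj (ψ := ψ) (x 2 0) ν 1 (pj ψ (x 2 1) 0 * pj ψ (x 0 1) a * p)
    rw [one_mul, ← mul_assoc, h4, zero_mul, map_zero, mul_zero] at k1
    have k2 := congrArg ((Fintype.card F : ℂ) * ·) k1
    simp only [mul_zero, mul_sum, one_mul, mul_left_comm (Fintype.card F : ℂ), mul_assoc (pj ψ (x 2 1) 0),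
      ← mul_assoc (x 2 0 _), trace_pj, zero_mul, neg_zero, AddChar.map_zero_eq_one] at k2
    rw [← add_sum_erase _ _ (mem_univ 0), ← add_sum_erase _ _ (mem_univ 0), ← filter_ne',
      sum_eq_zero fun s hs => by rw [x0 2 0 (by decide), one_mul, f2 s (mem_filter.1 hs).2, mul_zero],
      x0 2 0 (by decide), x0 2 1 (by decide), one_mul, one_mul, f1] at k2
    rw [k2, mul_sum]
    simp only [mul_zero, neg_zero, AddChar.map_zero_eq_one, mul_one, add_zero, add_right_inj]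
    exact sum_congr rfl fun t ht => by simp [f3 t _ (mem_filter.1 ht).2]
  rw [e2] at h2
  rcases h2 with h2 | h2
  · simp [e1.eq_zero_of_trace_eq_zero h2] at f4
  replace h2 : trace ℂ V ε = 1 := h2
  have t1 : ∀ {τ : G}, (∀ c d, c ≠ d → ∃ k, k ≠ 0 ∧ ∀ u, SemiconjBy (ρ τ) (x c d u) (x c d (k * u))) →
      ∀ c d, c ≠ d → Commute (ρ τ) (pj ψ (x c d) 0) := fun h c d hcd => by
    obtain ⟨k, h1, h2⟩ := h c d hcd
    exact semi_pj0 h1 h2
  have t2 : ∀ {τ : G}, (∀ c d, c ≠ d → ∃ k, k ≠ 0 ∧ ∀ u, SemiconjBy (ρ τ) (x c d u) (x c d (k * u))) →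
      Commute (ρ τ) p ∧ Commute (ρ τ) ε := fun h => by
    have : Commute _ p := hp ▸ (t1 h 0 2 (by decide)).mul_right (t1 h 1 2 (by decide))
    exact ⟨this, hε ▸ (t1 h 1 0 (by decide)).mul_right this⟩
  obtain ⟨g1, g2⟩ := q1 p1 p2 p3 (e2.trans h2) (c := trace ℂ V (pj ψ (x 0 1) 0 * p * x 1 0 1))
    fun t h => by
      obtain ⟨τ, a1, -, -, a2⟩ := ht t h
      have := trace_semi ρ (SemiconjBy.mul_right ((t1 a1 0 1 (by decide)).mul_right (t2 a1).1) (a2 t))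
      rwa [inv_mul_cancel₀ h] at this
  have g3 : pj ψ (x 0 2) 0 * (pj ψ (x 1 2) 0 * pj ψ (x 1 0) 0) = ε := by rw [← mul_assoc, hp, ← p9.eq, hε]
  have g4 : ∀ t, t ≠ 0 → trace ℂ V (ε * x 2 0 t) = trace ℂ V (ε * x 2 0 1) := fun t h => by
    obtain ⟨τ, a1, -, a2, -⟩ := ht t h
    simpa using (trace_semi ρ (SemiconjBy.mul_right (t2 a1).2 (a2 1))).symm
  rw [g3] at q2
  obtain ⟨-, g5⟩ := q2 ((idem_pj (xa 1 2 (by decide)) 0).mul_of_commute (pc 1 2 1 0 (by decide) _ _)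
    (idem_pj (xa 1 0 (by decide)) 0)) (fun t => shear (xa 1 2 (by decide))
      (fun s => ⟨_, xr 1 0 2 (by decide) s t⟩) (xc 0 2 1 2 (by decide) t) 0)
    (fun t => (pc 1 0 1 2 (by decide) 0 0).eq ▸ shear (xa 1 0 (by decide))
      (fun s => ⟨_, xr 1 2 0 (by decide) s t⟩) (xc 2 0 1 0 (by decide) t) 0) h2 g4
  have g6 : ∀ a', a' ≠ 0 → trace ℂ V (pj ψ (x 0 1) a' * ε) = trace ℂ V (pj ψ (x 0 1) a * ε) :=
    fun a' h => by
      obtain ⟨τ, a1, a2, -⟩ := ht (a' / a) (div_ne_zero h ha)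
      have := trace_semi ρ ((semi_pj (ψ := ψ) (div_ne_zero h ha) a2 a).mul_right (t2 a1).2)
      rwa [mul_div_cancel₀ _ ha] at this
  have g7 := congrArg (fun A => trace ℂ V (A * ε)) (sum_pj hψ (x 0 1))
  simp only [sum_mul, map_sum, x0 0 1 (by decide), one_mul, h2] at g7
  rw [← add_sum_erase _ _ (mem_univ 0), ← filter_ne', sum_congr rfl fun a' h => g6 a' (mem_filter.1 h).2,
    sum_const, nsmul_eq_mul, card_ne_zero_cast] at g7
  rw [mul_assoc, ← p9.eq, hε] at g1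
  rw [sum_congr rfl fun t ht => by
    rw [sandwich e1 h2, mul_smul_comm, map_smul, smul_eq_mul, g4 t (mem_filter.1 ht).2, ← neg_mul],
    ← sum_mul, sum_ne_char hψ (neg_ne_zero.2 hν)] at f4
  have hq : (Fintype.card F : ℂ) - 1 ≠ 0 := sub_ne_zero.2 (by exact_mod_cast Fintype.one_lt_card.ne')
  generalize trace ℂ V (pj ψ (x 0 1) 0 * p * x 1 0 1) = c₁ at *
  generalize trace ℂ V (ε * x 2 0 1) = c₂ at *
  have g8 : Fintype.card F * trace ℂ V (pj ψ (x 0 1) a * ε) = 1 - c₁ :=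
    mul_left_cancel₀ hq (by linear_combination Fintype.card F * g7 - g1)
  have g9 : c₂ * (1 - c₁) = 1 := by linear_combination f4 - c₂ * g8
  rcases g2 with rfl | g2
  · simp at g9
  rcases g5 with rfl | g5
  · exact one_ne_zero (α := ℂ) (by linear_combination g2 + Fintype.card F * g9)
  · have : ((Fintype.card F ^ 2 + Fintype.card F + 1 : ℕ) : ℂ) = 0 := by
      push_cast
      linear_combination -Fintype.card F ^ 2 * g9 + (Fintype.card F - Fintype.card F * c₁) * g5 + g2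
    exact absurd (Nat.cast_eq_zero.1 this) (by positivity)

end Cfsg.Lib.Char.MD
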