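import Cfsg.Agent.Char.MDTri2
import Cfsg.Agent.Char.MDSL3
import Cfsg.Agent.Chev.StGroup

/-! Minimal character degree of `G₂(q)` in characteristic different from three. -/

set_option autoImplicit false

namespace Cfsg.Lib.Char.MD

open Finset Cfsg.Lie Cfsg.Lib.Chev Cfsg.Lib.Chev.Core LinearMap

variable {F : Type*} [Field F] [Fintype F] [DecidableEq F] {G : Type*} [Group G] {ψ : AddChar F ℂ}

theorem Tri.trace_eq {K : Type*} [Field K] [Fintype K] (D : Tri F K G) (hψ : ψ ≠ 0) {n : ℕ}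
    (ρ : Representation ℂ G (Fin n → ℂ)) (g : G) (s : F) :
    trace ℂ _ (ρ g * (pj ψ (fun r => ρ (D.ζ (0, 0, r))) 0 * pj ψ (fun r => ρ (D.ζ (0, r, 0))) s)) =
      ∑ t, D.M ψ ρ.character (t, s, 0) g := by
  have hq := card_cast_ne_zero F
  have h1 : ∀ r r', trace ℂ _ (ρ g * ρ (D.ζ (0, 0, r)) * ρ (D.ζ (0, r', 0)) * 1) =
      ∑ c : K × F × F, ψ (c.2.2 * r) * (ψ (c.2.1 * r') * D.M ψ ρ.character c g) := fun r r' => by
    rw [mul_one, ← map_mul, ← map_mul, mul_assoc, ← AddChar.map_add_eq_mul]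
    refine (D.sum_M (χ := ρ.character) hψ _).trans (sum_congr rfl fun c _ => ?_)
    rw [D.M_mul, D.l_apply, ← mul_assoc, ← AddChar.map_add_eq_mul]
    simp [add_comm]
  refine mul_left_cancel₀ hq (mul_left_cancel₀ hq ?_)
  rw [← mul_assoc (ρ g), trace_pj, mul_sum]
  simp only [zero_mul, neg_zero, AddChar.map_zero_eq_one, one_mul]
  rw [sum_congr rfl fun r _ => by rw [← mul_one (_ * pj _ _ _), trace_pj]]
  have h2 : ∀ (a r : F) (y z : ℂ), ψ (-(s * r)) * (y * (ψ (a * r) * z)) = y * (ψ ((a - s) * r) * z) :=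
    fun a r y z => by
      rw [mul_left_comm, ← mul_assoc (ψ _), ← AddChar.map_add_eq_mul]
      congr 3
      ring
  simp only [h1, mul_sum, h2]
  simp only [sum_comm (s := (univ : Finset F)) (t := (univ : Finset (K × F × F))), ← mul_sum, ← sum_mul,
    sum_char hψ, sub_eq_zero]
  simp [Fintype.sum_prod_type, mul_sum, mul_assoc]

theorem Tri.main_G2 [Finite G] (D : Tri F F G) (hN : ∀ u, D.N u = u ^ 3) {h h' : G} {κ κ' r μ μ' r' : F}
    (H : D.Tor h κ' 1 r) (hw : ∀ t, h * D.w t * h⁻¹ = D.w (κ * t)) (hκ : κ ≠ 1)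
    (H' : D.Tor h' μ' 1 r') (hb : ∀ t, h' * D.b t * h'⁻¹ = D.b (μ * t)) (hμ : μ ≠ 1)
    {x : Fin 3 → Fin 3 → F → G} (hx : StA x) (x1 : ∀ t, x 0 1 t = D.b t) (x2 : ∀ t, x 1 2 t = D.ζ (0, t, 0))
    (x3 : ∀ t, x 0 2 t = D.ζ (0, 0, t)) {χ : G → ℂ} (hχ : IsCharacter G χ)
    {d : ℕ} (hd : χ 1 = d) {e : ℂ} (he0 : e ≠ 0) (he1 : ∀ r, r ≠ 0 → χ 1 - χ (D.ζ (0, 0, r)) = e)
    (he2 : ∀ r, r ≠ 0 → χ 1 - χ (D.ζ (0, r, 0)) = e) (he3 : ∀ r, r ≠ 0 → χ 1 - χ (D.b r) = e) :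
    Fintype.card F ^ 3 ≤ d + 1 ∧ ((∃ c, ∀ u : F, u ^ 3 ≠ c) → Fintype.card F ^ 3 + 1 ≤ d) := by
  obtain ⟨ψ, hψ⟩ : ∃ ψ : AddChar F ℂ, ψ ≠ 0 :=
    (AddChar.exists_apply_ne_zero.2 (one_ne_zero (α := F))).imp fun ψ h k => by simp [k] at h
  have hc := hχ.isClassFunction
  have hq := card_cast_ne_zero F
  obtain ⟨k, R, e3, e4, hR, e6⟩ := D.exists_mult hψ hχ hd he1 he2
  have h2 : 2 ≤ Fintype.card F := Fintype.one_lt_card
  rcases Nat.lt_or_ge k 2 with k2 | k2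
  swap
  · obtain ⟨q, hq'⟩ := Nat.exists_eq_add_of_le' h2
    obtain ⟨k, rfl⟩ := Nat.exists_eq_add_of_le k2
    rw [hq'] at e6 ⊢
    have : (q + 2) ^ 3 + 1 ≤ d := by
      nlinarith [Nat.zero_le (q ^ 3 * k), Nat.zero_le (q ^ 2 * k), Nat.zero_le (q * k), Nat.zero_le (q ^ 3),
        Nat.zero_le (q ^ 2)]
    exact ⟨by omega, fun _ => this⟩
  obtain rfl : k = 1 := by
    have : k ≠ 0 := by rintro rfl; simp [he0] at e3
    omega
  rw [Nat.cast_one] at e4
  have f1 : ∀ s v, s ≠ 0 → ∑ t, D.M ψ χ (t, s, 0) (D.b v) = ∑ u, ψ (s * u ^ 3 * v) := fun s v hs => by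
    have k1 := e4 0 s 0 (Or.inr hs)
    have sh : h' ∈ acStab D.ζ (D.l ψ (0, s, 0)) := mem_acStab' H'.inj H'.2.2.2 fun x => by simp [D.l_apply]
    have k2 : D.M ψ χ (0, s, 0) (D.b v) = 1 := by
      refine SLDeg.lin_eq_one (D.char_M hχ _) k1 (D.b_mem 0 s ((μ - 1)⁻¹ * v)) (D.b_mem 0 s v) ?_
      rw [← SLDeg.lin_conj (D.char_M hχ _) sh (D.b_mem 0 s ((μ - 1)⁻¹ * v)), hb, ← AddChar.map_add_eq_mul]
      have := sub_ne_zero.2 hμ
      congr 2
      field_simp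
      ring
    rw [D.sum_M_b hχ hs k1 (D.M_w hχ k1 H hw hκ), k2, mul_one]
    simp only [hN, mul_right_comm]
  replace e6 : d + Fintype.card F = R + Fintype.card F ^ 3 := by linarith [pow_succ (Fintype.card F) 2]
  have e7 : (d : ℂ) + Fintype.card F = R + Fintype.card F ^ 3 := by exact_mod_cast e6
  have f2 : ∀ v, v ≠ 0 → ∑ t, D.M ψ χ (t, 0, 0) (D.b v) = R - Fintype.card F := fun v hv => by
    have k1 := D.split_b hψ hc hv
    have k2 : ∀ u : F, u ≠ 0 → ∑ s with s ≠ 0, ψ (s * u ^ 3 * v) = -1 := fun u hu => by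
      rw [← sum_ne_char hψ (s := u ^ 3 * v) (by simp [hv, hu])]
      simp only [mul_assoc, mul_comm (u ^ 3 * v)]
    rw [sum_congr rfl fun s hs => f1 s v (mem_filter.1 hs).2, sum_comm (t := univ),
      ← add_sum_erase _ (fun u : F => ∑ s with s ≠ 0, ψ (s * u ^ 3 * v)) (mem_univ (0 : F)), ← filter_ne',
      sum_congr rfl fun u hu => k2 u (mem_filter.1 hu).2] at k1
    simp only [zero_pow three_ne_zero, mul_zero, zero_mul, AddChar.map_zero_eq_one, sum_const,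
      nsmul_eq_mul, card_ne_zero_cast] at k1
    push_cast at e3
    linear_combination -k1 - he3 v hv - e3 + hd + e7
  choose m hm using fun t => exists_sum_eq (D.char_M (ψ := ψ) hχ (t, 0, 0)) D.b (D.b_mem t 0)
  have f3 : ∑ v, ∑ t, D.M ψ χ (t, 0, 0) (D.b v) = R + (Fintype.card F - 1) * (R - Fintype.card F) := by
    rw [← add_sum_erase _ _ (mem_univ (0 : F)), ← filter_ne', AddChar.map_zero_eq_one, hR,
      sum_congr rfl fun v hv => f2 v (mem_filter.1 hv).2, sum_const, nsmul_eq_mul, card_ne_zero_cast]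
  have f4 : (R : ℂ) + 1 = Fintype.card F + (∑ t, m t : ℕ) := by
    rw [sum_comm] at f3
    simp only [hm, ← mul_sum, ← Nat.cast_sum] at f3
    exact mul_left_cancel₀ hq (by linear_combination -f3)
  have f5 : R + 1 = Fintype.card F + ∑ t, m t := by exact_mod_cast f4
  refine ⟨by omega, fun ⟨c, hc'⟩ => ?_⟩
  by_contra hlt
  obtain ⟨n, ρ, rfl⟩ := hχ
  have k : ∀ a s, Fintype.card F * trace ℂ _ (pj ψ (fun t => ρ (x 0 1 t)) a *
      (pj ψ (fun t => ρ (x 0 2 t)) 0 * pj ψ (fun t => ρ (x 1 2 t)) s)) =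
      ∑ v, ψ (-(a * v)) * ∑ t, D.M ψ ρ.character (t, s, 0) (D.b v) := fun a s => by
    rw [← one_mul (pj _ _ a), trace_pj]
    simp only [one_mul, x1, x2, x3, D.trace_eq hψ]
  refine regular_ne_zero ρ hx hψ (fun a ha => mul_left_cancel₀ hq ?_) ?_ (c := c)
    (fun e => hc' 0 (by simp [e])) one_ne_zero (mul_left_cancel₀ hq ?_)
  · rw [k, ← add_sum_erase _ _ (mem_univ (0 : F)), ← filter_ne', AddChar.map_zero_eq_one D.b, hR,
      sum_congr rfl fun v hv => by rw [f2 v (mem_filter.1 hv).2, ← neg_mul], ← sum_mul,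
      sum_ne_char hψ (neg_ne_zero.2 ha)]
    simp
  · have := k 0 0
    simp only [zero_mul, neg_zero, AddChar.map_zero_eq_one, one_mul, f3] at this
    rw [mul_left_cancel₀ hq (this.trans (by linear_combination Fintype.card F * f4) :
      _ = Fintype.card F * ((∑ t, m t : ℕ) : ℂ))]
    obtain h | h : ∑ t, m t = 0 ∨ ∑ t, m t = 1 := by omega
    all_goals simp [h]
  · rw [k]
    simp only [f1 1 _ one_ne_zero, mul_sum, ← AddChar.map_add_eq_mul, one_mul,
      show ∀ u v : F, -(c * v) + u ^ 3 * v = (u ^ 3 - c) * v from fun u v => by ring]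
    rw [sum_comm]
    simp [sum_char hψ, sub_eq_zero, hc']

omit [Fintype F] [DecidableEq F] in
theorem conj_long' {D : ChevalleyDatum} {x : ℕ → F → G} (hx : StRel D x) (R : RootData D) {χ : G → ℂ}
    (hχ : IsClassFunction G χ) {r r' s k : ℕ} {N N' : ℤ} (h : ncChk D r s k N ∧ ncChk D r' k s N' ∧
    cmChk D s k ∧ (N = 1 ∨ N = -1) ∧ (N' = 1 ∨ N' = -1)) {t u : F} (ht : t ≠ 0) (hu : u ≠ 0) :
    χ (x s t) = χ (x k u) :=
  conj_long hx R (hχ.res ⊤) (F := ⊤) h.1 h.2.1 h.2.2.1 h.2.2.2.1 h.2.2.2.2 (fun _ _ => trivial)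
    (fun _ _ => trivial) trivial trivial ht hu trivial trivial

omit [Fintype F] [DecidableEq F] in
theorem ne_of_simple [Finite G] [IsSimpleGroup G] {χ : G → ℂ} (hχ : IsIrrCharacter G χ) {d : ℕ}
    (hd : χ 1 = d) (h2 : 2 ≤ d) {g : G} (hg : g ≠ 1) : χ 1 - χ g ≠ 0 := fun e => by
  have := hχ.charKer_normal.eq_bot_or_eq_top.resolve_left fun k => hg
    ((Subgroup.eq_bot_iff_forall _).1 k _ (hχ.mem_charKer_iff.2 (sub_eq_zero.1 e).symm))
  rw [hχ.charKer_eq_top_iff.1 this] at hd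
  have : 1 = d := Nat.cast_injective (R := ℂ) (Nat.cast_one.trans hd)
  omega

section
omit [Fintype F] [DecidableEq F]
variable {D : ChevalleyDatum} {x : ℕ → F → G} (hx : StRel D x)

/-- a root subgroup -/
def rt (r : ℕ) (h : r < D.nroots) : AddChar F G where
  toFun := x r
  map_zero_eq_one' := hx.zero h
  map_add_eq_mul' t u := (hx.add r h t u).symm

theorem rt_eq_1' : type_of% @rt.eq_1 := @rt.eq_1

theorem rt_apply (r : ℕ) (h : r < D.nroots) (t : F) : rt hx r h t = x r t := rfl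

end

/-- the long roots of `G₂` -/
def ixG2 (a b : Fin 3) : ℕ := [0, 6, 11, 5, 0, 10, 0, 1, 0].getD (3 * a + b) 0

theorem ixG2_lt : ∀ a b, ixG2 a b < chevG2.nroots := by decide +kernel

theorem ixG2_nc : ∀ a b c, a ≠ b ∧ b ≠ c ∧ a ≠ c → ncChk chevG2 (ixG2 a b) (ixG2 b c) (ixG2 a c) 1 ∧
    cmChk chevG2 (ixG2 b c) (ixG2 a c) := by decide +kernel

theorem ixG2_cm : ∀ a b c d, a ≠ b ∧ c ≠ d ∧ b ≠ c ∧ a ≠ d ∧ ¬(a = c ∧ b = d) →
    cmChk chevG2 (ixG2 a b) (ixG2 c d) := by decide +kernel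

section
omit [Fintype F] [DecidableEq F]
variable {x : ℕ → F → G} (hx : StRel chevG2 x)
include hx

theorem stA_G2 : StA fun a b : Fin 3 => x (ixG2 a b) where
  add a b _ := hx.add _ (ixG2_lt a b)
  comm a b c h1 h2 h3 t u := by
    have := nc_swap hx rootG2 (ixG2_nc a b c ⟨h1, h2, h3⟩).1 t u 1
    rw [mul_one, mul_one, Int.cast_one, one_mul, ← mul_assoc] at this
    rw [this, (cm_swap hx rootG2 (ixG2_nc a b c ⟨h1, h2, h3⟩).2 _ _).eq]
  commute a b c d h1 h2 h3 h4 t u := by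
    by_cases h : a = c ∧ b = d
    · rw [h.1, h.2, Commute, SemiconjBy, hx.add _ (ixG2_lt c d), hx.add _ (ixG2_lt c d), add_comm]
    · exact cm_swap hx rootG2 (ixG2_cm a b c d ⟨h1, h2, h3, h4, h⟩) t u

theorem conj_7_6 (u v : F) : x 7 u * x 6 v * (x 7 u)⁻¹ =
    x 6 v * x 8 (-(u * v)) * (x 9 (u ^ 2 * v) * x 10 (u ^ 3 * v) * x 11 (u ^ 3 * v ^ 2)) := by
  have := hx.comm 7 6 (by decide +kernel) (by decide +kernel) (by decide) (by decide +kernel) (-u) v
  rw [ChevalleyDatum.commWord, show chevG2.commTerms 7 6 =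
    [(8, -1, 1, 1), (9, 1, 2, 1), (10, 1, 3, 1), (11, 1, 3, 2)] by decide +kernel] at this
  rw [mul_assoc, hx.inv (by decide +kernel), this, ← mul_assoc, ← mul_assoc, hx.add _ (by decide +kernel)]
  simp [hx.zero (r := 7) (by decide +kernel), mul_assoc]

theorem collG2 (t u : F) (g : G) :
    x 10 t * (x 6 u * g) = x 6 u * (x 11 (-(t * u)) * (x 10 t * g)) ∧
    x 9 t * (x 8 u * g) = x 8 u * (x 11 (-(3 * t * u)) * (x 9 t * g)) ∧
    x 7 t * (x 9 u * g) = x 9 u * (x 10 (3 * t * u) * (x 7 t * g)) := by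
  simpa using And.intro (nc_swap hx rootG2 (N := -1) (by decide +kernel) t u g) (And.intro
    (nc_swap hx rootG2 (N := -3) (by decide +kernel) t u g)
    (nc_swap hx rootG2 (N := 3) (by decide +kernel) t u g))

set_option hygiene false in
/-- collection in the unipotent group -/
local macro "collectG2" : tactic => `(tactic| (
  refine (mul_one _).symm.trans (Eq.trans ?_ (mul_one _))
  simp (disch := decide +kernel) only [mul_assoc, collG2 hx, AddChar.coe_mk, rt_apply,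
    cm_ord hx rootG2 [6, 8, 9, 10, 11, 7], add_assoc' hx, Prod.fst_add, Prod.snd_add,
    AddMonoidHom.coe_mulLeft]))

/-- the data for `G₂` -/
def triG2 (h3 : (3 : F) ≠ 0) : Tri F F G where
  ι := RingHom.id F
  T := AddMonoidHom.mulLeft 3
  N u := u ^ 3
  ζ := { toFun c := x 9 c.1 * x 10 c.2.1 * x 11 c.2.2
         map_zero_eq_one' := by simp (disch := decide +kernel) [hx.zero]
         map_add_eq_mul' c c' := by collectG2 }
  b := rt hx 6 (by decide +kernel)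
  w := rt hx 8 (by decide +kernel)
  a := x 7
  T_mul s t := mul_left_comm _ _ _
  T_ne := ⟨1, by simpa using h3⟩
  b_ζ u t s r := by collectG2; ring_nf
  w_ζ u t s r := by collectG2; ring_nf
  a_ζ u t s r := by collectG2; ring_nf
  a_b u v := ⟨_, _, _, conj_7_6 hx u v⟩

theorem triG2_eq_1' : type_of% @triG2.eq_1 := @triG2.eq_1

end

theorem le_degree_G2 [Finite G] [IsSimpleGroup G] {x : ℕ → F → G} (hx : Model rootG2 x)
    (h3 : (3 : F) ≠ 0) (hq : 4 < Fintype.card F) {χ : G → ℂ} (hχ : IsIrrCharacter G χ) {d : ℕ}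
    (hd : χ 1 = d) (h2 : 2 ≤ d) :
    Fintype.card F ^ 3 ≤ d + 1 ∧ ((∃ c, ∀ u : F, u ^ 3 ≠ c) → Fintype.card F ^ 3 + 1 ≤ d) := by
  have k : ∀ t : F, t ≠ 0 → ∀ s (n : ℕ), s < chevG2.nroots ∧ chevG2.pairing 8 s = n → ∀ u,
      MulAut.conj (hel chevG2 x 8 t) (x s u) = x s (t ^ n * u) := fun t ht s n h u => by
    rw [MulAut.conj_apply, hx.toStRelW.hel_conj rootG2 (by decide +kernel) h.1 ht, h.2, zpow_natCast]
  have kt : ∀ t : F, t ≠ 0 → (triG2 hx.toStRel h3).Tor (hel chevG2 x 8 t) t 1 (t ^ 3) := fun t ht =>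
    ⟨ht, one_ne_zero, pow_ne_zero 3 ht, fun c => eq_mul_of_mul_inv_eq (by
      change MulAut.conj _ _ = _
      simp only [triG2, AddChar.coe_mk, map_mul, k t ht 9 1 (by decide +kernel),
        k t ht 10 0 (by decide +kernel), k t ht 11 3 (by decide +kernel), pow_one, pow_zero])⟩
  obtain ⟨t, t0, t1⟩ := exists_pow_ne_one (K := F) (d := 2) two_ne_zero (by omega)
  obtain ⟨u, u0, u1⟩ := exists_pow_ne_one (K := F) (d := 3) three_ne_zero (by omega)
  have z1 : ∀ t, (triG2 hx.toStRel h3).ζ (0, t, 0) = x 10 t := fun t => by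
    simp (disch := decide +kernel) [triG2, hx.toStRel.zero]
  have z2 : ∀ t, (triG2 hx.toStRel h3).ζ (0, 0, t) = x 11 t := fun t => by
    simp (disch := decide +kernel) [triG2, hx.toStRel.zero]
  have k1 := fun t u => conj_long' hx.toStRel rootG2 hχ.isClassFunction (r := 6) (r' := 5) (s := 10)
    (k := 11) (N := 1) (N' := 1) (by decide +kernel) (t := t) (u := u)
  have k2 := fun t u => conj_long' hx.toStRel rootG2 hχ.isClassFunction (r := 10) (r' := 1) (s := 6)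
    (k := 11) (N := -1) (N' := -1) (by decide +kernel) (t := t) (u := u)
  refine (triG2 hx.toStRel h3).main_G2 (fun _ => rfl) (kt t t0) (k t t0 8 2 (by decide +kernel)) t1
    (kt u u0) (k u u0 6 3 (by decide +kernel)) u1 (stA_G2 hx.toStRel) (fun _ => rfl)
    (fun t => (z1 t).symm) (fun t => (z2 t).symm) hχ.isCharacter hd (e := χ 1 - χ (x 11 1))
    (ne_of_simple hχ hd h2 fun e => one_ne_zero (hx.inj 11 (by decide +kernel) 1 e))
    (fun r hr => ?_) (fun r hr => ?_) fun r hr => congrArg _ (k2 r 1 hr one_ne_zero)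
  · rw [z2, ← k1 1 r one_ne_zero hr, k1 1 1 one_ne_zero one_ne_zero]
  · rw [z1, k1 r 1 hr one_ne_zero]

end Cfsg.Lib.Char.MD
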