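import Cfsg.Agent.Char.MDG2a

/-! Minimal character degree of `G₂(q)` in characteristic three: the counting argument. -/

set_option autoImplicit false

namespace Cfsg.Lib.Char.MD

open Finset Cfsg.Lie Cfsg.Lib.Chev Cfsg.Lib.Chev.Core

variable {F : Type*} [Field F] [Fintype F] [DecidableEq F]

theorem sum_split {p : ℕ} (hp : Fintype.card F = p + 1) (f : F → ℕ) {k : ℕ} (h : ∀ a, a ≠ 0 → f a = k) :
    ∑ a, f a = f 0 + p * k := by
  rw [← add_sum_erase _ _ (mem_univ 0), sum_congr rfl fun a ha => h a (ne_of_mem_erase ha), sum_const,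
    card_erase_of_mem (mem_univ _), card_univ, hp, smul_eq_mul, Nat.add_sub_cancel]

omit [DecidableEq F] in
theorem exists_cub (hq : 3 < Fintype.card F) {b : F} (hb : b ≠ 0) (z : F) : ∃ u, u * b + u ^ 3 * z ≠ 0 := by
  obtain ⟨t, t0, t1⟩ := exists_pow_ne_one (K := F) (d := 2) two_ne_zero hq
  by_contra! h
  refine t1 (mul_left_cancel₀ (mul_ne_zero hb t0) ?_)
  linear_combination t ^ 3 * h 1 - h t

theorem four_le (hq : 9 ≤ Fintype.card F) (f : F → ℕ) {z : F} (hz : z ≠ 0)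
    (h : ∀ t, t ≠ 0 → 1 ≤ f (z * t ^ 2)) : 4 ≤ ∑ a, f a := by
  have h1 := FiniteField.card_image_polynomial_eval (p := Polynomial.C z * Polynomial.X ^ 2)
    (by rw [Polynomial.degree_C_mul_X_pow _ hz]; decide)
  rw [Polynomial.natDegree_C_mul_X_pow _ _ hz] at h1
  have h2 := pred_card_le_card_erase (a := 0) (s := univ.image fun x : F =>
    Polynomial.eval x (Polynomial.C z * Polynomial.X ^ 2))
  refine le_trans ?_ ((card_nsmul_le_sum _ f 1 fun a ha => ?_).trans (sum_le_sum_of_subset (subset_univ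
    ((univ.image fun x : F => Polynomial.eval x (Polynomial.C z * Polynomial.X ^ 2)).erase 0))))
  · rw [smul_eq_mul]
    omega
  · obtain ⟨h3, h4⟩ := mem_erase.1 ha
    obtain ⟨t, -, rfl⟩ := mem_image.1 h4
    simp only [Polynomial.eval_mul, Polynomial.eval_C, Polynomial.eval_pow, Polynomial.eval_X] at h3 ⊢
    exact h t fun e => h3 (by simp [e])

/-- the multiplicities on the quotient of the unipotent radical by the long root subgroup -/
structure Cub (M : F → F → F → F → ℕ) : Prop where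
  up : ∀ z a b c u, M z a b c ≤ M (z - a * u + b * u ^ 2 + c * u ^ 3) (a + b * u) b c
  down : ∀ z a b c u, M z a b c ≤ M z a (b + a * u) (c + u * b - u ^ 2 * a + u ^ 3 * z)
  tor : ∀ z b c t, t ≠ 0 → M z 0 b c ≤ M (z * t ^ 2) 0 b (c * t⁻¹)

namespace Cub

variable {M : F → F → F → F → ℕ} (C : Cub M)
include C

omit [Fintype F] [DecidableEq F] in
theorem down0 (z b c u : F) : M z 0 b c ≤ M z 0 b (c + (u * b + u ^ 3 * z)) := by
  simpa [add_assoc] using C.down z 0 b c u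

theorem eq_zero (h3 : (3 : F) = 0) (hq : 9 ≤ Fintype.card F) {b : F} (hb : b ≠ 0)
    (h1 : ∑ z, M z 0 b 0 < 4) (h2 : ∀ c, c ≠ 0 → ∑ z, M z 0 b c = 1) {z : F} (hz : z ≠ 0) (c : F) :
    M z 0 b c = 0 := by
  have k : M z 0 b 0 = 0 := by
    by_contra h
    exact h1.not_ge (four_le hq _ hz fun t ht => (Nat.pos_of_ne_zero h).trans_le (by
      simpa using C.tor z b 0 t ht))
  by_contra h
  have k1 : ∀ u, c + (u * b + u ^ 3 * z) ≠ 0 := fun u e => by
    have := C.down0 z b c u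
    rw [e] at this
    omega
  obtain ⟨u, hu⟩ := exists_cub (by omega) hb z
  have hc : c ≠ 0 := by simpa using k1 0
  have k2 := C.down0 z b c u
  have k3 := C.tor z b c _ (div_ne_zero hc (k1 u))
  rw [inv_div, mul_div_cancel₀ _ hc] at k3
  have k4 := sum_le_sum_of_subset (f := fun z' => M z' 0 b (c + (u * b + u ^ 3 * z))) (subset_univ
    {z, z * (c / (c + (u * b + u ^ 3 * z))) ^ 2})
  rw [h2 _ (k1 u), sum_pair fun e => ?_] at k4
  · omega
  rw [left_eq_mul₀ hz, div_pow, div_eq_one_iff_eq (pow_ne_zero 2 (k1 u)),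
    sq_eq_sq_iff_eq_or_eq_neg] at e
  obtain e | e := e
  · exact hu (by linear_combination -e)
  · exact k1 (-u) (by linear_combination -e + c * h3)

theorem const (h3 : (3 : F) = 0) {z c : F} (h : z ≠ 0 ∨ c ≠ 0) : M z 0 0 c = M 1 0 0 1 := by
  have : CharP F 3 := (CharP.charP_iff_prime_eq_zero Nat.prime_three).2 h3
  have hs : ∀ a : F, ∃ u, u ^ 3 = a := surjective_frobenius F 3
  have k1 : ∀ z z' c, c ≠ 0 → M z 0 0 c ≤ M z' 0 0 c := fun z z' c hc => by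
    obtain ⟨u, hu⟩ := hs ((z' - z) / c)
    simpa [hu, mul_div_cancel₀ _ hc] using C.up z 0 0 c u
  have k2 : ∀ z c c', z ≠ 0 → M z 0 0 c ≤ M z 0 0 c' := fun z c c' hz => by
    obtain ⟨u, hu⟩ := hs ((c' - c) / z)
    simpa [hu, div_mul_cancel₀ _ hz] using C.down0 z 0 c u
  obtain h | h := h
  · exact ((k2 _ _ _ h).antisymm (k2 _ _ _ h)).trans ((k1 _ _ _ one_ne_zero).antisymm (k1 _ _ _ one_ne_zero))
  · exact ((k1 _ _ _ h).antisymm (k1 _ _ _ h)).trans ((k2 _ _ _ one_ne_zero).antisymm (k2 _ _ _ one_ne_zero))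

end Cub

theorem eq_of_shift {f : F → ℕ} {e : F} (h : ∀ c u, f c ≤ f (c + e * u)) (he : e ≠ 0) (c c' : F) :
    f c = f c' := by
  have k : ∀ c c', f c ≤ f c' := fun c c' => by simpa [mul_div_cancel₀ _ he] using h c ((c' - c) / e)
  exact (k _ _).antisymm (k _ _)

theorem g2_count (h3 : (3 : F) = 0) (hq : 9 ≤ Fintype.card F) {m M : F → F → F → F → ℕ} (C : Cub M)
    (S : ∀ a b c, ∑ z, M z a b c = m a b c 0)
    (I1 : ∀ a b e c u, m a b c e ≤ m a b (c + e * u) e) (I2 : ∀ b c e a u, m a b c e ≤ m (a + b * u) b c e)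
    (I3 : ∀ a e b u, ∑ c, m a b c e ≤ ∑ c, m a (b + a * u) c e)
    (I4 : ∀ b c e u, ∑ a, m a b c e ≤ ∑ a, m a b c (e + c * u)) (P : ∃ a b c e, b ≠ 0 ∧ m a b c e ≠ 0)
    {d : ℕ} (hd : ∑ e, ∑ a, ∑ b, ∑ c, m a b c e = d) :
    Fintype.card F ^ 4 + Fintype.card F ^ 2 + 1 ≤ d ∨ (Fintype.card F ^ 4 + Fintype.card F ^ 2 ≤
      d + Fintype.card F + 1 ∧ ∀ e, e ≠ 0 → ∑ a, ∑ b, ∑ c, m a b c e = Fintype.card F ^ 3) := by
  obtain ⟨p, hp⟩ : ∃ p, Fintype.card F = p + 1 := ⟨Fintype.card F - 1, by omega⟩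
  have sc : ∀ {f : F → ℕ} {k}, (∀ a, f a = k) → ∑ a, f a = (p + 1) * k := fun h => by
    rw [sum_congr rfl fun a _ => h a, sum_const, card_univ, hp, smul_eq_mul]
  have A1 := fun a b e => eq_of_shift (I1 a b e)
  have A2 := fun b c e => eq_of_shift (I2 b c e)
  have A3 := fun a e => eq_of_shift (I3 a e)
  have A4 := fun b c => eq_of_shift (I4 b c)
  have B3 : ∀ a b b' c e, a ≠ 0 → e ≠ 0 → m a b c e = m a b' c e := fun a b b' c e ha he =>
    Nat.eq_of_mul_eq_mul_left p.succ_pos ((sc fun _ => A1 a b e he _ _).symm.trans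
      ((A3 a e ha b b').trans (sc fun _ => A1 a b' e he _ _)))
  have B4 : ∀ a b c e e', b ≠ 0 → c ≠ 0 → m a b c e = m a b c e' := fun a b c e e' hb hc =>
    Nat.eq_of_mul_eq_mul_left p.succ_pos ((sc fun _ => A2 b c e hb _ _).symm.trans
      ((A4 b c hc e e').trans (sc fun _ => A2 b c e' hb _ _)))
  obtain ⟨k, hk⟩ : ∃ k, m 1 1 1 1 = k := ⟨_, rfl⟩
  have o := one_ne_zero (α := F)
  have K2 : ∀ a b c e, a ≠ 0 ∨ b ≠ 0 → e ≠ 0 → m a b c e = k := fun a b c e h he => by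
    have : ∀ a, a ≠ 0 → m a b c e = k := fun a ha => by
      rw [B3 a b 1 c e ha he, A1 a 1 e he c 1, B4 a 1 1 e 1 o o, A2 1 1 1 o a 1, hk]
    exact h.elim (this a) fun hb => (A2 b c e hb a 1).trans (this 1 o)
  have K3 : ∀ a b c, b ≠ 0 → c ≠ 0 → m a b c 0 = k := fun a b c hb hc =>
    (B4 a b c 0 1 hb hc).trans (K2 _ _ _ _ (.inr hb) o)
  obtain ⟨j, hj⟩ : ∃ j, m 0 0 1 1 = j := ⟨_, rfl⟩
  obtain ⟨j', hj'⟩ : ∃ j, m 1 1 0 0 = j := ⟨_, rfl⟩
  have J1 : ∀ e, ∑ a, m a 0 1 e = j + p * k := fun e => by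
    rw [A4 0 1 o e 1, sum_split hp _ fun a ha => K2 a 0 1 1 (.inl ha) o, hj]
  have J2 : ∀ c e, e ≠ 0 → m 0 0 c e = j := fun c e he => by
    have := J1 e
    rw [sum_split hp _ fun a ha => K2 a 0 1 e (.inl ha) he] at this
    rw [A1 0 0 e he c 1]
    omega
  have J3 : ∀ a b, a ≠ 0 ∨ b ≠ 0 → ∑ c, m a b c 0 = j' + p * k := fun a b h => by
    have k1 : ∀ a, ∑ c, m a 1 c 0 = j' + p * k := fun a => by
      rw [sum_split hp _ fun c hc => K3 a 1 c o hc, A2 1 0 0 o a 1, hj']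
    refine h.elim (fun ha => (A3 a 0 ha b 1).trans (k1 a)) fun hb => ?_
    rw [sum_congr rfl fun c _ => A2 b c 0 hb a 1, A3 1 0 o b 1, k1]
  have J4 : ∀ b, b ≠ 0 → m 0 b 0 0 = j' := fun b hb => by
    have := J3 0 b (.inr hb)
    rw [sum_split hp _ fun c hc => K3 0 b c hb hc] at this
    omega
  have sp : ∀ (f : F → F → ℕ) {n}, (∀ a b, a ≠ 0 ∨ b ≠ 0 → f a b = n) →
      ∑ a, ∑ b, f a b = f 0 0 + p * (p + 2) * n := fun f n h => by
    rw [sum_split hp _ fun a ha => sc fun b => h a b (.inl ha), sum_split hp _ fun b hb => h 0 b (.inr hb)]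
    ring
  have W : ∀ e, e ≠ 0 → ∑ a, ∑ b, ∑ c, m a b c e = (p + 1) * j + p * (p + 2) * ((p + 1) * k) :=
    fun e he => by rw [sp _ fun a b h => sc fun c => K2 a b c e h he, sc fun c => J2 c e he]
  obtain ⟨x, hx⟩ : ∃ x, M 1 0 0 1 = x := ⟨_, rfl⟩
  rw [sum_split hp _ W, sp _ J3, sum_congr rfl fun c _ => (S 0 0 c).symm, sum_comm,
    sp _ fun z c h => C.const h3 h, hx] at hd
  obtain ⟨p, rfl⟩ : ∃ p', p = p' + 8 := ⟨p - 8, by omega⟩
  rw [hp]
  rcases Nat.lt_or_ge k 2 with k2 | k2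
  swap
  · refine .inl ?_
    nlinarith [Nat.mul_le_mul_left ((p + 8) ^ 2 * (p + 10) ^ 2) k2, Nat.zero_le (p ^ 4),
      Nat.zero_le (p ^ 3), Nat.zero_le (p ^ 2)]
  obtain rfl : k = 1 := by
    by_contra hk1
    obtain rfl : k = 0 := by omega
    obtain ⟨a, b, c, e, hb, h⟩ := P
    obtain rfl : e = 0 := by_contra fun he => h (K2 _ _ _ _ (.inr hb) he)
    obtain rfl : c = 0 := by_contra fun hc => h (K3 _ _ _ hb hc)
    rw [A2 b 0 0 hb a 0, ← S] at h
    obtain ⟨z, -, hz⟩ := exists_ne_zero_of_sum_ne_zero h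
    obtain ⟨u, hu⟩ := exists_cub (by omega) hb z
    have h1 := C.down0 z b 0 u
    have h2 := (S _ _ _).trans (K3 0 b _ hb hu)
    rw [zero_add, sum_eq_zero_iff.1 h2 z (mem_univ _)] at h1
    omega
  rcases Nat.lt_or_ge j' 4 with j4 | j4
  swap
  · exact .inl (by nlinarith [Nat.mul_le_mul_left ((p + 8) * (p + 10)) j4, Nat.zero_le (p ^ 2)])
  have Z : ∀ b, b ≠ 0 → ∀ z, z ≠ 0 → ∀ c, M z 0 b c = 0 := fun b hb z hz =>
    C.eq_zero h3 hq hb (by rwa [S, J4 b hb]) (fun c hc => by rw [S, K3 0 b c hb hc]) hz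
  have Z1 : ∀ c, M 0 0 1 c = m 0 1 c 0 := fun c => by
    rw [← S, sum_split hp _ fun z hz => Z 1 o z hz c, mul_zero, add_zero]
  obtain rfl : j' = 1 := by
    rw [← J4 1 o, ← Z1, eq_of_shift (f := M 0 0 1) (fun c u => by simpa using C.down0 0 1 c u) o 0 1, Z1, K3 0 1 1 o o]
  have Z2 : ∀ a, a ≠ 0 → m a 0 1 0 = 0 := fun a ha => by
    rw [← S]
    refine sum_eq_zero fun z _ => Nat.le_zero.1 (((C.down z a 0 1 1).trans (C.up _ _ _ _ (-1))).trans ?_)
    rw [show a + (0 + a * 1) * -1 = 0 by ring, Z _ (by simpa using ha) _ fun e => o (by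
      linear_combination -e + a * h3)]
  have h1 := J1 0
  rw [sum_split hp _ Z2, ← S, sc fun z => C.const h3 (.inr o), hx] at h1
  rcases Nat.lt_or_ge x 2 with x2 | x2
  · obtain rfl : x = 1 := by
      have : x ≠ 0 := by rintro rfl; omega
      omega
    obtain rfl : j = 1 := by omega
    exact .inr ⟨by nlinarith, fun e he => by rw [W e he]; ring⟩
  · have : p + 10 ≤ j := by nlinarith
    refine .inl ?_
    nlinarith [Nat.mul_le_mul_left ((p + 8) * (p + 9)) this, Nat.zero_le (p ^ 3), Nat.zero_le (p ^ 2)]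

end Cfsg.Lib.Char.MD
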