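import Cfsg.Agent.Char.MDG2b
import Cfsg.Agent.Char.MDChev

/-! Minimal character degree of `G₂(q)` in characteristic three. -/

set_option autoImplicit false

namespace Cfsg.Lib.Char.MD

open Finset Cfsg.Lie Cfsg.Lib.Chev Cfsg.Lib.Chev.Core

variable {F : Type*} [Field F] {G : Type*} [Group G] {ψ : AddChar F ℂ}

/-- the linear characters of `F⁴` -/
def l4 (ψ : AddChar F ℂ) (c : F × F × F × F) : AddChar (F × F × F × F) ℂ where
  toFun r := ψ (c.1 * r.1 + c.2.1 * r.2.1 + c.2.2.1 * r.2.2.1 + c.2.2.2 * r.2.2.2)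
  map_zero_eq_one' := by simp
  map_add_eq_mul' x y := by
    rw [← AddChar.map_add_eq_mul]
    simp only [Prod.fst_add, Prod.snd_add]
    congr 1
    ring

theorem l4_apply (c r : F × F × F × F) :
    l4 ψ c r = ψ (c.1 * r.1 + c.2.1 * r.2.1 + c.2.2.1 * r.2.2.1 + c.2.2.2 * r.2.2.2) := rfl

theorem l4_injective (hψ : ψ ≠ 0) : Function.Injective (l4 ψ) := fun c c' e => by
  have k : ∀ a b : F, (∀ u, ψ (a * u) = ψ (b * u)) → a = b := fun a b h =>
    sub_eq_zero.1 (eq_zero_of_char hψ fun u => by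
      rw [sub_mul, sub_eq_add_neg, AddChar.map_add_eq_mul, h, ← AddChar.map_add_eq_mul, add_neg_cancel,
        AddChar.map_zero_eq_one])
  have h := DFunLike.congr_fun e
  simp only [l4_apply] at h
  exact Prod.ext (k _ _ fun u => by simpa using h (u, 0, 0, 0)) (Prod.ext (k _ _ fun u => by
    simpa using h (0, u, 0, 0)) (Prod.ext (k _ _ fun u => by simpa using h (0, 0, u, 0))
    (k _ _ fun u => by simpa using h (0, 0, 0, u))))

section
variable [Fintype F]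

theorem le_of_inv (hψ : ψ ≠ 0) {I : Type*} [Fintype I] {m : I → ℕ} {p : I → F × F × F × F}
    (hp : Function.Injective p) {X : F × F × F × F → ℂ} (hX : ∀ r, X r = ∑ c, l4 ψ (p c) r * m c)
    {φ : F × F × F × F → F × F × F × F} (h1 : ∀ r, X (φ r) = X r) (σ : I → I)
    (h2 : ∀ c r, l4 ψ (p c) (φ r) = l4 ψ (p (σ c)) r) (c : I) : m c ≤ m (σ c) := by
  classical
  have k : ∀ τ : I → I, ∑ r, l4 ψ (p (σ c)) (-r) * ∑ c', l4 ψ (p (τ c')) r * m c' =
      Fintype.card (F × F × F × F) * (∑ c' with τ c' = σ c, m c' : ℕ) := fun τ => by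
    simp only [mul_sum, ← mul_assoc]
    rw [sum_comm, Nat.cast_sum, mul_sum, sum_filter]
    refine sum_congr rfl fun c' _ => ?_
    simp only [← sum_mul, mul_comm (l4 ψ (p (σ c)) _), ← AddChar.sub_apply, AddChar.sum_eq_ite,
      sub_eq_zero, (l4_injective hψ).eq_iff, hp.eq_iff, ite_mul, zero_mul]
  have k1 := k σ
  simp only [show ∀ r, ∑ c', l4 ψ (p (σ c')) r * m c' = ∑ c', l4 ψ (p c') r * m c' from fun r => by
    simp only [← h2, ← hX, h1]] at k1
  have k2 := Nat.cast_injective (mul_left_cancel₀ (card_cast_ne_zero _) (k1.symm.trans (k id)))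
  rw [show ({c' | id c' = σ c} : Finset I) = {σ c} from filter_eq' .. |>.trans (if_pos (mem_univ _)),
    sum_singleton] at k2
  exact k2 ▸ single_le_sum (f := m) (fun _ _ => Nat.zero_le _) (by simp)

theorem exists_exp (hψ : ψ ≠ 0) {K : Subgroup G} {μ : G → ℂ} (hμ : IsCharacter K fun h => μ h)
    (b : AddChar F G) (hb : ∀ v, b v ∈ K) : ∃ n : F → ℕ, ∀ v, μ (b v) = ∑ z, ψ (z * v) * n z := by
  let b' : AddChar F K :=
    { toFun v := ⟨b v, hb v⟩
      map_zero_eq_one' := Subtype.ext b.map_zero_eq_one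
      map_add_eq_mul' u v := Subtype.ext (b.map_add_eq_mul u v) }
  choose n hn using exists_acomp_one hμ b'
  refine ⟨fun z => n (ψ.mulShift z), fun v => ?_⟩
  have h := apply_eq_sum_acomp b' (fun h => μ h) 1 v
  rw [← ((Fintype.bijective_iff_injective_and_card _).2 ⟨AddChar.to_mulShift_inj_of_isPrimitive
    (AddChar.IsPrimitive.of_ne_one hψ), by rw [AddChar.card_eq]⟩).sum_comp] at h
  simpa [hn, b'] using h

end

theorem conj_x {D : ChevalleyDatum} {x : ℕ → F → G} (hx : StRel D x) {r s : ℕ} {L : List (ℕ × ℤ × ℕ × ℕ)}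
    (h : r < D.nroots ∧ s < D.nroots ∧ s ≠ r ∧ s ≠ D.neg r ∧ D.commTerms r s = L) (u v : F) :
    MulAut.conj (x r u) (x s v) =
      x s v * word x (L.map fun c => (c.1, (c.2.1 : F) * u ^ c.2.2.1 * v ^ c.2.2.2)) := by
  have := hx.comm r s h.1 h.2.1 h.2.2.1 h.2.2.2.1 (-u) v
  rw [ChevalleyDatum.commWord, h.2.2.2.2, neg_neg] at this
  rw [MulAut.conj_apply, mul_assoc, hx.inv h.1, this, ← mul_assoc, ← mul_assoc, hx.add _ h.1,
    add_neg_cancel, hx.zero h.1, one_mul]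

section
variable {x : ℕ → F → G} (hx : StRel chevG2 x) (h3 : (3 : F) = 0)
include hx h3

theorem conj3 (u v : F) : (MulAut.conj (x 6 u) (x 8 v) = x 8 v ∧ MulAut.conj (x 6 u) (x 9 v) = x 9 v ∧
    MulAut.conj (x 6 u) (x 10 v) = x 10 v * x 11 (u * v) ∧ MulAut.conj (x 6 u) (x 11 v) = x 11 v) ∧
    (MulAut.conj (x 7 u) (x 8 v) = x 8 v * x 9 (u * v) ∧ MulAut.conj (x 7 u) (x 9 v) = x 9 v ∧
    MulAut.conj (x 7 u) (x 10 v) = x 10 v ∧ MulAut.conj (x 7 u) (x 11 v) = x 11 v) ∧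
    (MulAut.conj (x 4 u) (x 6 v) = x 6 v ∧ MulAut.conj (x 4 u) (x 8 v) = x 8 v ∧
    MulAut.conj (x 4 u) (x 9 v) = x 9 v * x 8 (u * v) ∧ MulAut.conj (x 4 u) (x 10 v) = x 10 v * (x 9 (u * v) *
    (x 8 (-(u ^ 2 * v)) * (x 6 (u ^ 3 * v) * x 11 (-(u ^ 3 * v ^ 2))))) ∧ MulAut.conj (x 4 u) (x 11 v) = x 11 v) ∧
    (MulAut.conj (x 5 u) (x 9 v) = x 9 v ∧ MulAut.conj (x 5 u) (x 10 v) = x 10 v ∧
    MulAut.conj (x 5 u) (x 11 v) = x 11 v * x 10 (u * v)) ∧ MulAut.conj (x 8 u) (x 9 v) = x 9 v := by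
  have h2 : -(2 : F) = 1 := by linear_combination -h3
  have k : ∀ r s : ℕ, r < chevG2.nroots ∧ s < chevG2.nroots ∧ s ≠ r ∧ s ≠ chevG2.neg r ∧
      chevG2.commTerms r s = [] → MulAut.conj (x r u) (x s v) = x s v := fun r s h => by
    simpa using conj_x hx h u v
  have k1 := conj_x hx (r := 6) (s := 10) (L := [(11, 1, 1, 1)]) (by decide +kernel) u v
  have k2 := conj_x hx (r := 7) (s := 8) (L := [(9, -2, 1, 1), (10, -3, 2, 1), (11, 3, 1, 2)])
    (by decide +kernel) u v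
  have k3 := conj_x hx (r := 7) (s := 9) (L := [(10, 3, 1, 1)]) (by decide +kernel) u v
  have k4 := conj_x hx (r := 4) (s := 8) (L := [(6, -3, 1, 1)]) (by decide +kernel) u v
  have k5 := conj_x hx (r := 4) (s := 9) (L := [(8, -2, 1, 1), (6, 3, 2, 1), (11, -3, 1, 2)])
    (by decide +kernel) u v
  have k6 := conj_x hx (r := 4) (s := 10) (L := [(9, 1, 1, 1), (8, -1, 2, 1), (6, 1, 3, 1), (11, -1, 3, 2)])
    (by decide +kernel) u v
  have k7 := conj_x hx (r := 5) (s := 11) (L := [(10, 1, 1, 1)]) (by decide +kernel) u v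
  have k8 := conj_x hx (r := 8) (s := 9) (L := [(11, 3, 1, 1)]) (by decide +kernel) u v
  simp (disch := decide +kernel) only [List.map_cons, List.map_nil, word_cons, word_nil, Int.cast_neg,
    Int.cast_ofNat, Int.cast_one, h2, h3, neg_zero, zero_mul, hx.zero, mul_one, one_mul, pow_one,
    neg_mul] at k1 k2 k3 k4 k5 k6 k7 k8
  simp (disch := decide +kernel) only [k, k1, k2, k3, k4, k5, k6, k7, k8, and_self]

/-- the abelian normal subgroup of the unipotent group -/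
def z4 : AddChar (F × F × F × F) G where
  toFun c := x 8 c.1 * x 9 c.2.1 * x 10 c.2.2.1 * x 11 c.2.2.2
  map_zero_eq_one' := by simp (disch := decide +kernel) [hx.zero]
  map_add_eq_mul' c c' := by
    have k : ∀ t u g, x 9 t * (x 8 u * g) = x 8 u * (x 9 t * g) := fun t u g => by
      rw [← mul_assoc, ← mul_assoc, ← mul_inv_eq_iff_eq_mul.1 (conj3 hx h3 u t).2.2.2.2]
    refine (mul_one _).symm.trans (Eq.trans ?_ (mul_one _))
    simp (disch := decide +kernel) only [mul_assoc, k, cm_ord hx rootG2 [8, 9, 10, 11], add_assoc' hx,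
      Prod.fst_add, Prod.snd_add]

theorem z4_apply (c : F × F × F × F) : z4 hx h3 c = x 8 c.1 * x 9 c.2.1 * x 10 c.2.2.1 * x 11 c.2.2.2 := rfl

theorem z4_single (t : F) : x 8 t = z4 hx h3 (t, 0, 0, 0) ∧ x 9 t = z4 hx h3 (0, t, 0, 0) ∧
    x 10 t = z4 hx h3 (0, 0, t, 0) ∧ x 11 t = z4 hx h3 (0, 0, 0, t) := by
  simp (disch := decide +kernel) [z4_apply, hx.zero]

theorem conj_z4 (u a b c e : F) :
    MulAut.conj (x 6 u) (z4 hx h3 (a, b, c, e)) = z4 hx h3 (a, b, c, e + u * c) ∧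
    MulAut.conj (x 7 u) (z4 hx h3 (a, b, c, e)) = z4 hx h3 (a, b + u * a, c, e) ∧
    MulAut.conj (x 4 u) (z4 hx h3 (a, b, 0, e)) = z4 hx h3 (a + u * b, b, 0, e) ∧
    MulAut.conj (x 5 u) (z4 hx h3 (0, b, c, e)) = z4 hx h3 (0, b, c + u * e, e) := by
  refine ⟨?_, ?_, ?_, ?_⟩
  all_goals
    rw [z4_apply]
    simp (disch := decide +kernel) only [map_mul, conj3 hx h3, hx.zero, one_mul, mul_one]
    simp [z4_single hx h3, ← AddChar.map_add_eq_mul, add_comm]

theorem conj_q (u z a b c : F) :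
    (∃ e, MulAut.conj (x 7 u) (x 6 z * z4 hx h3 (a, b, c, 0)) =
      x 6 z * z4 hx h3 (a - u * z, b + u * a + u ^ 2 * z, c + u ^ 3 * z, 0) * x 11 e) ∧
    ∃ e, MulAut.conj (x 4 u) (x 6 z * z4 hx h3 (a, b, c, 0)) =
      x 6 (z + u ^ 3 * c) * z4 hx h3 (a + u * b - u ^ 2 * c, b + u * c, c, 0) * x 11 e := by
  refine ⟨⟨u ^ 3 * z ^ 2, ?_⟩, -(u ^ 3 * c ^ 2) - u ^ 3 * c * c, ?_⟩
  · rw [map_mul, (conj_z4 hx h3 ..).2.1, MulAut.conj_apply, conj_7_6 hx]
    simp only [z4_single hx h3, mul_assoc, ← AddChar.map_add_eq_mul, Prod.mk_add_mk]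
    ring_nf
  · have k : ∀ a b c e w g, z4 hx h3 (a, b, c, e) * (x 6 w * g) =
        x 6 w * (z4 hx h3 (a, b, c, e + -w * c) * g) := fun a b c e w g => by
      rw [← (conj_z4 hx h3 ..).1, MulAut.conj_apply, hx.inv (by decide +kernel), neg_neg]
      simp (disch := decide +kernel) only [mul_assoc, add_assoc' hx, add_neg_cancel, hx.zero, one_mul]
    rw [z4_apply]
    simp (disch := decide +kernel) only [map_mul, conj3 hx h3, hx.zero, one_mul, mul_one]
    simp (disch := decide +kernel) only [z4_single hx h3, mul_assoc, k, add_assoc' hx,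
      ← AddChar.map_add_eq_mul, Prod.mk_add_mk]
    ring_nf

theorem z4_eq_1' : type_of% @z4.eq_1 := @z4.eq_1

end

theorem Model.dvd_top {D : ChevalleyDatum} {R : RootData D} {x : ℕ → F → G} (hx : Model R x) [Fintype F]
    [Finite G] (hG : Subgroup.closure {g | ∃ r t, r < D.nroots ∧ g = x r t} = ⊤) {α : ℕ} {j : Fin D.rank}
    (hα : α < D.nroots ∧ (∀ i : Fin D.rank, D.pairing α (D.simple i) = if i = j then 1 else 0) ∧
      ∀ r < D.nroots, 2 ≤ D.pairing α r → r = α) {J : List (Fin D.rank)}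
    (hJ : (j :: J).Nodup) (hJ' : ∀ i, i ∈ j :: J) {CL : List (List ℤ)} (hC : R.weyl.HasC CL)
    {χ : G → ℂ} (hχ : IsIrrCharacter G χ) {d e : ℕ} (hd : χ 1 = d)
    (he : ∀ t, t ≠ 0 → χ 1 - χ (x α t) = e) :
    d ∣ evalP (polyOf (expsG evL (sreflL CL) (j :: J) (fun _ => 1) (D.nroots / 2 + 1) 0 (omegaL j)))
      (Fintype.card F) * (Fintype.card F - 1) * e := by
  classical
  have hq : ∀ r, r < D.nroots → Nat.card (xSub x r) = Fintype.card F := fun r hr => by
    rw [← Nat.card_eq_fintype_card]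
    exact (Nat.card_congr (Equiv.ofBijective (fun t => ⟨x r t, x_mem_xSub x r t⟩)
      ⟨fun t u e => hx.injective hr (congrArg Subtype.val e), fun a =>
        ((hx.mem_xSub_iff hr).1 a.2).imp fun t e => Subtype.ext e.symm⟩)).symm
  have k : ∀ r, r < D.nroots → R.weyl.stHt {i | i ∈ J} (R.rc r) = D.pairing α r := fun r hr => by
    rw [R.pairing_eq_sum_rc hr, WeylData.stHt_apply, sum_filter]
    refine sum_congr rfl fun i _ => ?_
    rw [hα.2.1]
    by_cases e : i = j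
    · simp [e, (List.nodup_cons.1 hJ).1]
    · simp [e, (List.mem_cons.1 (hJ' i)).resolve_left e]
  have h1 := (hx.toStRelW.rgd R).P_le_normalizer_level {i | i ∈ J} (c := 2) two_pos
  rw [show {r | r ∈ R.weyl.Φ ∧ 2 ≤ R.weyl.stHt {i | i ∈ J} (R.weyl.rc r)} = {α} from ?_,
    spanX_singleton] at h1
  · rw [← index_P hC hx.faithful ((hx.toStRelW.rgd_G0 R).trans hG) (fun r hr => hq r (R.weyl_mem.1 hr))
      (by rw [R.card_posRoots]; omega) j J hJ hJ', ← hq α hα.1]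
    refine dvd_index_mul hχ hd ((hx.toStRelW.rgd R).X_le_P (Or.inl ?_)) h1 fun z hz h2 => ?_
    · exact ((R.weyl.stHt_pos_iff {i | i ∈ J} (R.weyl_mem.2 hα.1)).1 (by
        rw [R.weyl_rc, k _ hα.1, R.pairing_self _ hα.1]; omega)).1
    · obtain ⟨t, rfl⟩ := (hx.mem_xSub_iff hα.1).1 hz
      exact he t fun e => h2 (by rw [e, hx.zero hα.1])
  · ext r
    simp only [Set.mem_ofPred_eq, R.weyl_mem, R.weyl_rc, Set.mem_singleton_iff]
    refine ⟨fun ⟨h1, h2⟩ => hα.2.2 r h1 (k r h1 ▸ h2), ?_⟩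
    rintro rfl
    exact ⟨hα.1, by rw [k _ hα.1, R.pairing_self _ hα.1]⟩

theorem not_dvd_G2 {q n d : ℕ} (hn : q = 3 ^ n) (hq : 9 ≤ q) (h1 : d < q ^ 4 + q ^ 2 + 1)
    (h2 : q ^ 4 + q ^ 2 ≤ d + q + 1) : ¬ d ∣ (q ^ 4 + q ^ 2 + 1) * (q ^ 4 * (q ^ 2 - 1)) := fun h => by
  obtain ⟨i, hi⟩ := Nat.exists_eq_add_of_lt h1
  have hq2 : 9 * q ≤ q ^ 2 := by nlinarith
  obtain ⟨s, hs⟩ : ∃ s, q ^ 2 = s + 1 := ⟨q ^ 2 - 1, by omega⟩
  have e4 : q ^ 4 = (s + 1) ^ 2 := by rw [← hs]; ring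
  rw [hi, add_assoc, add_mul, Nat.dvd_add_right (dvd_mul_right _ _), mul_left_comm, hs,
    Nat.add_sub_cancel] at h
  have h3 := dvd_gcd_mul_of_dvd_mul h
  obtain ⟨t, -, ht⟩ := (Nat.dvd_prime_pow Nat.prime_three).1
    (show gcd d (q ^ 4) ∣ 3 ^ (n * 4) by rw [pow_mul, ← hn]; exact gcd_dvd_right _ _)
  rcases Nat.lt_or_ge t n with k | k
  · have h4 : 3 * 3 ^ t ≤ q := by rw [hn, ← pow_succ']; exact Nat.pow_le_pow_right (by omega) k
    have h5 := Nat.le_of_dvd (by rw [ht]; exact Nat.mul_pos (by positivity) (Nat.mul_pos (by omega) (by omega))) h3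
    rw [ht] at h5
    have h6 : 3 * 3 ^ t * ((i + 1) * s) ≤ q * ((q + 2) * s) :=
      Nat.mul_le_mul h4 (Nat.mul_le_mul_right _ (by omega))
    nlinarith
  have h4 : q ∣ i := by
    have : q ∣ d := (hn ▸ Nat.pow_dvd_pow 3 k).trans (ht ▸ gcd_dvd_left _ _)
    refine (Nat.dvd_add_right this).1 ?_
    rw [show d + i = q * (q ^ 3 + q) by linarith [show q * (q ^ 3 + q) = q ^ 4 + q ^ 2 by ring]]
    exact dvd_mul_right _ _
  obtain ⟨c, rfl⟩ := h4
  obtain rfl | rfl : c = 0 ∨ c = 1 := by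
    have : c < 2 := by by_contra! k; nlinarith
    omega
  · have h5 : s + 2 ∣ (s + 2) * (s ^ 2 + 1) - 2 := (Dvd.intro (s + 1) (by nlinarith)).trans
      (h.trans (dvd_of_eq (by rw [e4]; exact Nat.eq_sub_of_add_eq (by ring))))
    have := Nat.le_of_dvd two_pos ((Nat.dvd_sub_iff_right (by nlinarith) (dvd_mul_right _ _)).1 h5)
    omega
  · obtain ⟨r, rfl⟩ : ∃ r, q = r + 1 := ⟨q - 1, by omega⟩
    have h5 : (r + 1) ^ 3 + r ∣ ((r + 1) * 1 + 1) * s := Nat.Coprime.dvd_of_dvd_mul_left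
      (Nat.Coprime.pow_right 4 (by simp [pow_succ, Nat.coprime_mul_right_add_left]))
      ((Dvd.intro (r + 1) (by nlinarith)).trans h)
    rw [show ((r + 1) * 1 + 1) * s = (r + 1) ^ 3 + r + (s - 2 * r - 1) by
      zify [show 2 * r ≤ s by omega, show 1 ≤ s - 2 * r by omega]
      rw [show (s : ℤ) = (r + 1) ^ 2 - 1 by zify at hs; linarith]
      ring, Nat.dvd_add_right dvd_rfl] at h5
    have := Nat.le_of_dvd (by omega) h5
    have : (r + 1) ^ 2 ≤ (r + 1) ^ 3 := Nat.pow_le_pow_right (by omega) (by omega)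
    omega

theorem sum_four [Fintype F] {A : Type*} [AddCommMonoid A] (f : F × F × F × F → A) :
    ∑ c, f c = ∑ e, ∑ a, ∑ b, ∑ c, f (a, b, c, e) := by
  simp only [Fintype.sum_prod_type]
  rw [sum_comm (γ := F) (f := fun e a => ∑ b, ∑ c, f (a, b, c, e))]
  refine sum_congr rfl fun a _ => ?_
  rw [sum_comm (γ := F) (f := fun e b => ∑ c, f (a, b, c, e))]
  exact sum_congr rfl fun b _ => sum_comm

theorem le_degree_G2_three [Fintype F] [Finite G] [IsSimpleGroup G] {x : ℕ → F → G} (hx : Model rootG2 x)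
    (hG : Subgroup.closure {g | ∃ r t, r < chevG2.nroots ∧ g = x r t} = ⊤) (h3 : (3 : F) = 0)
    (hq : 9 ≤ Fintype.card F) {χ : G → ℂ} (hχ : IsIrrCharacter G χ) {d : ℕ} (hd : χ 1 = d) (h2 : 2 ≤ d) :
    Fintype.card F ^ 4 + Fintype.card F ^ 2 + 1 ≤ d := by
  classical
  obtain ⟨ψ, hψ⟩ : ∃ ψ : AddChar F ℂ, ψ ≠ 0 :=
    (AddChar.exists_apply_ne_zero.2 (one_ne_zero (α := F))).imp fun ψ h k => by simp [k] at h
  have hy := hx.toStRel
  have hc := hχ.isClassFunction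
  have hc' : ∀ g h, χ (MulAut.conj g h) = χ h := fun g h => hc.apply_conj _ _
  have E : ∀ g r, χ (g * z4 hy h3 r) = ∑ c, l4 ψ c r * acomp (z4 hy h3) χ (l4 ψ c) g := fun g r => by
    rw [apply_eq_sum_acomp _ χ, ← ((Fintype.bijective_iff_injective_and_card _).2 ⟨l4_injective hψ,
      by rw [AddChar.card_eq]⟩).sum_comp]
  choose m hm using fun c => exists_acomp_one hχ.isCharacter (z4 hy h3) (l4 ψ c)
  have hX : ∀ r, χ (z4 hy h3 r) = ∑ c, l4 ψ (id c) r * m c := fun r => by simpa [hm] using E 1 r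
  choose n hn using fun a b c => exists_exp hψ (isCharacter_acStab (ζ := z4 hy h3) hχ.isCharacter
    (l4 ψ (a, b, c, 0))) (rt hy 6 (by decide +kernel)) fun u => mem_acStab'
    (φ := fun r => (r.1, r.2.1, r.2.2.1, r.2.2.2 + u * r.2.2.1))
    (fun r r' e => by simp only [Prod.ext_iff] at e ⊢; grind)
    (fun r => eq_mul_of_mul_inv_eq (conj_z4 hy h3 ..).1) fun r => by simp [l4_apply]
  obtain ⟨X, hX0⟩ : ∃ X : F × F × F × F → ℂ, ∀ r, X r = acomp (rt hy 11 (by decide +kernel)) χ 0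
    (x 6 r.2.2.2 * z4 hy h3 (r.1, r.2.1, r.2.2.1, 0)) := ⟨_, fun _ => rfl⟩
  have hX1 : ∀ r, X r = ∑ c, l4 ψ (id c) r * (n c.1 c.2.1 c.2.2.1 c.2.2.2 : ℕ) := fun r => by
    rw [hX0, acomp, inv_mul_eq_iff_eq_mul₀ (card_cast_ne_zero F)]
    simp only [AddChar.zero_apply, one_mul, rt_apply, (z4_single hy h3 _).2.2.2, mul_assoc,
      ← AddChar.map_add_eq_mul, E, Prod.mk_add_mk, add_zero, zero_add]
    rw [sum_comm]
    simp only [l4_apply, AddChar.map_add_eq_mul, id, ← sum_mul, ← mul_sum, sum_char hψ,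
      Fintype.sum_prod_type, mul_ite, ite_mul, mul_zero, zero_mul, sum_ite_eq', mem_univ, if_true]
    simp only [← rt_apply hy 6 (by decide +kernel), hn, mul_sum, mul_assoc, mul_left_comm (Fintype.card F : ℂ)]
  have hX2 : ∀ {γ r r' e κ}, κ ≠ 0 → (∀ t, MulAut.conj γ (x 11 t) = x 11 (κ * t)) →
      MulAut.conj γ (x 6 r.2.2.2 * z4 hy h3 (r.1, r.2.1, r.2.2.1, 0)) =
        x 6 r'.2.2.2 * z4 hy h3 (r'.1, r'.2.1, r'.2.2.1, 0) * x 11 e → X r' = X r :=
    fun {γ r r' e κ} h0 h1 h2 => by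
      rw [hX0, hX0 r, ← acomp_conj' hc (l := 0) (mul_right_injective₀ h0)
        (fun t => eq_mul_of_mul_inv_eq (h1 t)) (fun _ => rfl) (x 6 r.2.2.2 * _), ← MulAut.conj_apply, h2]
      exact ((acomp_mul 0 _ e).trans (one_mul _)).symm
  have C : Cub fun z a b c => n a b c z := by
    refine ⟨fun z a b c u => ?_, fun z a b c u => ?_, fun z b c t ht => ?_⟩
    · exact le_of_inv hψ Function.injective_id hX1 (φ := fun r => (r.1 - u * r.2.2.2,
        r.2.1 + u * r.1 + u ^ 2 * r.2.2.2, r.2.2.1 + u ^ 3 * r.2.2.2, r.2.2.2))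
        (fun r => (conj_q hy h3 u r.2.2.2 r.1 r.2.1 r.2.2.1).1.elim fun _ k =>
        hX2 (γ := x 7 u) one_ne_zero (fun t => by simp only [conj3 hy h3, one_mul]) k)
        (fun c => (c.1 + c.2.1 * u, c.2.1, c.2.2.1, c.2.2.2 - c.1 * u + c.2.1 * u ^ 2 + c.2.2.1 * u ^ 3))
        (fun c r => congrArg ψ (by simp only [id]; ring)) (a, b, c, z)
    · exact le_of_inv hψ Function.injective_id hX1 (φ := fun r => (r.1 + u * r.2.1 - u ^ 2 * r.2.2.1,
        r.2.1 + u * r.2.2.1, r.2.2.1, r.2.2.2 + u ^ 3 * r.2.2.1))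
        (fun r => (conj_q hy h3 u r.2.2.2 r.1 r.2.1 r.2.2.1).2.elim fun _ k =>
        hX2 (γ := x 4 u) one_ne_zero (fun t => by simp only [conj3 hy h3, one_mul]) k)
        (fun c => (c.1, c.2.1 + c.1 * u, c.2.2.1 + u * c.2.1 - u ^ 2 * c.1 + u ^ 3 * c.2.2.2, c.2.2.2))
        (fun c r => congrArg ψ (by simp only [id]; ring)) (a, b, c, z)
    · have k : ∀ s (n : ℤ), s < chevG2.nroots ∧ chevG2.pairing 6 s = n → ∀ u,
          MulAut.conj (hel chevG2 x 6 t) (x s u) = x s (t ^ n * u) := fun s n h u => by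
        rw [MulAut.conj_apply, hx.toStRelW.hel_conj rootG2 (by decide +kernel) h.1 ht, h.2]
      simpa using le_of_inv hψ Function.injective_id hX1
        (φ := fun r => (t * r.1, r.2.1, t⁻¹ * r.2.2.1, t ^ 2 * r.2.2.2))
        (fun r => hX2 (e := 0) (zpow_ne_zero 1 ht) (k 11 1 (by decide +kernel)) (by
          simp [z4_apply, k 6 2 (by decide +kernel), k 8 1 (by decide +kernel), k 9 0 (by decide +kernel),
            k 10 (-1) (by decide +kernel), hy.zero (r := 11) (by decide +kernel), -MulAut.conj_apply]))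
        (fun c => (c.1 * t, c.2.1, c.2.2.1 * t⁻¹, c.2.2.2 * t ^ 2))
        (fun c r => congrArg ψ (by simp only [id]; ring)) (0, b, c, z)
  have h1 : χ 1 = ∑ c, (m c : ℂ) := by simpa using hX 0
  have := g2_count h3 hq (m := fun a b c e => m (a, b, c, e)) C (d := d) (fun a b c => ?_)
    (fun a b e c u => ?_) (fun b c e a u => ?_) (fun a e b u => ?_) (fun b c e u => ?_) ?_
    (by rw [← sum_four m]; exact_mod_cast h1.symm.trans hd)
  · refine this.elim id fun ⟨k1, k2⟩ => by_contra fun k3 => ?_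
    have : CharP F 3 := (CharP.charP_iff_prime_eq_zero Nat.prime_three).2 h3
    obtain ⟨s, -, hs⟩ := FiniteField.card F 3
    refine not_dvd_G2 hs hq (not_le.1 k3) k1 ((Model.dvd_top hx hG (α := 11) (j := (1 : Fin 2))
      (by decide +kernel) (J := ([0] : List (Fin 2))) (by decide) (by decide) (hasC_G2 rootG2) hχ hd
      (e := Fintype.card F ^ 4) fun t ht => ?_).trans (dvd_of_eq ?_))
    · have k4 : ∀ t, χ (x 11 t) = ∑ a, ∑ b, ∑ c, (m (a, b, c, 0) : ℂ) +
          (∑ e with e ≠ 0, ψ (t * e)) * Fintype.card F ^ 3 := fun t => by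
        rw [(z4_single hy h3 t).2.2.2, hX, sum_four, ← add_sum_erase _ _ (mem_univ 0), ← filter_ne', sum_mul]
        refine congrArg₂ _ (by simp [l4_apply]) (sum_congr rfl fun e he => ?_)
        rw [← Nat.cast_pow, ← k2 e (mem_filter.1 he).2]
        simp [l4_apply, mul_sum, mul_comm t]
      rw [k4, ← hy.zero (r := 11) (by decide +kernel), k4, sum_ne_char hψ ht]
      simp only [zero_mul, AddChar.map_zero_eq_one, sum_const, nsmul_eq_mul, card_ne_zero_cast]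
      push_cast
      ring
    · rw [show polyOf _ = [1, 1, 1, 1, 1, 1] by decide +kernel]
      simp only [Chev.evalP_cons, Chev.evalP_nil]
      zify [show 1 ≤ Fintype.card F by omega, Nat.one_le_pow 2 (Fintype.card F) (by omega)]
      ring
  · exact Nat.cast_injective (R := ℂ) (by simpa [hm] using (hn a b c 0).symm)
  · exact le_of_inv hψ Function.injective_id (X := fun r => χ (z4 hy h3 r)) hX
      (fun r => by rw [← (conj_z4 hy h3 u ..).1, hc']) (fun c => (c.1, c.2.1, c.2.2.1 + c.2.2.2 * u, c.2.2.2))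
      (fun c r => congrArg ψ (by simp only [id]; ring)) (a, b, c, e)
  · exact le_of_inv hψ Function.injective_id (X := fun r => χ (z4 hy h3 r)) hX
      (fun r => by rw [← (conj_z4 hy h3 u ..).2.1, hc']) (fun c => (c.1 + c.2.1 * u, c.2.1, c.2.2.1, c.2.2.2))
      (fun c r => congrArg ψ (by simp only [id]; ring)) (a, b, c, e)
  · refine le_of_inv hψ (m := fun c : F × F × F => ∑ s, m (c.1, c.2.1, s, c.2.2))
      (p := fun c => (c.1, c.2.1, 0, c.2.2)) (fun c c' e => by simp only [Prod.ext_iff] at e ⊢; tauto)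
      (X := fun r => χ (z4 hy h3 (r.1, r.2.1, 0, r.2.2.2))) (fun r => ?_)
      (φ := fun r => (r.1 + u * r.2.1, r.2.1, 0, r.2.2.2))
      (fun r => by rw [← (conj_z4 hy h3 u _ _ 0 _).2.2.1, hc']) (fun c => (c.1, c.2.1 + c.1 * u, c.2.2))
      (fun c r => congrArg ψ (by ring)) (a, b, e)
    simp only [hX, l4_apply, id, Fintype.sum_prod_type, Nat.cast_sum, mul_sum, mul_zero, zero_mul]
    exact sum_congr rfl fun _ _ => sum_congr rfl fun _ _ => sum_comm
  · refine le_of_inv hψ (m := fun c : F × F × F => ∑ s, m (s, c.1, c.2.1, c.2.2))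
      (p := fun c => (0, c.1, c.2.1, c.2.2)) (fun c c' e => by simp only [Prod.ext_iff] at e ⊢; tauto)
      (X := fun r => χ (z4 hy h3 (0, r.2.1, r.2.2.1, r.2.2.2))) (fun r => ?_)
      (φ := fun r => (0, r.2.1, r.2.2.1 + u * r.2.2.2, r.2.2.2))
      (fun r => by rw [← (conj_z4 hy h3 u 0 _ _ _).2.2.2, hc']) (fun c => (c.1, c.2.1, c.2.2 + c.2.1 * u))
      (fun c r => congrArg ψ (by ring)) (b, c, e)
    simp only [hX, l4_apply, id, Nat.cast_sum, mul_sum, mul_zero, zero_mul]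
    rw [Fintype.sum_prod_type, sum_comm]
  · by_contra! k
    refine ne_of_simple hχ hd h2 (fun e => one_ne_zero (hx.inj 9 (by decide +kernel) 1 e)) ?_
    rw [(z4_single hy h3 1).2.1, hX, h1, sub_eq_zero]
    refine sum_congr rfl fun c _ => ?_
    by_cases e : c.2.1 = 0
    · simp [l4_apply, e]
    · simp [k _ _ _ _ e]

end Cfsg.Lib.Char.MD
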