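import Cfsg.Agent.Char.MDLace

/-! Descent along the Heisenberg parabolic subgroup. -/

set_option autoImplicit false

namespace Cfsg.Lib.Char.MD

open Matrix Finset

universe u

variable {Φ : Type*} {F : Type*} [Field F]

theorem deg_ge [Fintype F] {H : Type*} [Group H] {χ : H → ℂ} (hχ : IsCharacter H χ) (ζ : AddChar F H)
    {n d : ℕ} (hd : χ 1 = d) (he : ∀ u, u ≠ 0 → χ 1 - χ (ζ u) = (Fintype.card F * n : ℕ)) :
    (Fintype.card F - 1) * n ≤ d := by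
  classical
  have hq := card_cast_ne_zero F
  obtain ⟨d', hd'⟩ := exists_acomp_one hχ ζ 0
  have h1 := sum_acomp ζ χ 1
  rw [← add_sum_erase _ _ (mem_univ 0), hd', sum_congr rfl (g := fun _ => (n : ℂ)) fun l hl => by
    rw [acomp_one_of_const (τ := χ 1 - (Fintype.card F * n : ℕ)) fun a ha => by rw [← he a ha]; ring,
      if_neg (ne_of_mem_erase hl)]
    push_cast; field_simp; ring, sum_const, card_erase_of_mem (mem_univ _), card_univ,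
    AddChar.card_eq, hd, nsmul_eq_mul] at h1
  have : d' + (Fintype.card F - 1) * n = d := by exact_mod_cast h1
  omega

theorem AStep.fiber {H : Type*} [Group H] [Fintype Φ] [DecidableEq Φ] {R : RS Φ} {S0 S1 : Set Φ}
    {y : Φ → F → H} (A : AStep R S0 S1 y) [Fintype F] [DecidableEq F] {ξ : H → ℂ} {ψ : AddChar F ℂ}
    (hψ : ψ ≠ 0) (hξ : IsClassFunction H ξ) {β : Φ} {s : F} (hs : s ≠ 0) {g : H} (T : Finset Φ)
    (hT : ∀ β' ∈ T, β' ∈ S1 ∧ R.p β β' = 1 ∧ R.rf β' β ∈ S0 ∧ ∀ t, Commute (y (R.rf β' β) t) g)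
    (h : ∀ γ ∈ S1, γ ≠ β → γ ∉ T → ∀ c : Φ → F, c γ ≠ 0 → A.m ξ ψ c g = 0) :
    ∑ c with c β = s, A.m ξ ψ c g = Fintype.card F ^ T.card * A.m ξ ψ (Pi.single β s) g := by
  rw [A.sum_fiber_eq hξ hs T hT, sum_eq_single_of_mem (Pi.single β s) ?_ fun c hc k => ?_]
  · simp only [mem_filter, mem_univ, true_and, Pi.single_eq_same]
    exact fun γ l => Pi.single_eq_of_ne (by
      rintro rfl; have := (hT γ l).2.1; rw [R.p_self] at this; omega) _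
  · simp only [mem_filter, mem_univ, true_and] at hc
    obtain ⟨γ, k⟩ := Function.ne_iff.1 k
    have k1 : γ ≠ β := by rintro rfl; exact k (by simp [hc.1])
    rw [Pi.single_eq_of_ne k1] at k
    by_cases l : γ ∈ S1
    · exact h γ l k1 (fun l => k (hc.2 γ l)) c k
    · exact A.m_of_notMem hψ l k g

namespace Lace

variable {H : Type u} [Group H] {R : RS Φ} {Ψ : Set Φ} {y : Φ → F → H} (L : Lace R Ψ y)

include L

/-- a root subgroup -/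
def zc {α : Φ} (hα : α ∈ Ψ) : AddChar F H where
  toFun := y α
  map_zero_eq_one' := by have := L.add α hα 0 0; rwa [add_zero, mul_eq_left] at this
  map_add_eq_mul' a b := (L.add α hα a b).symm

theorem bStep (hΨ : R.Cl Ψ) {α β : Φ} (h : R.p α β = 1) :
    AStep R {ε | ε ∈ Ψ ∧ (R.p α ε = 1 ∨ R.p α ε = 0 ∧ R.p β ε = 0)}
      {γ | γ ∈ Ψ ∧ 1 ≤ R.p α γ ∧ 1 ≤ R.p β γ} y := by
  refine ⟨fun r hr => L.add r (hr.elim And.left And.left), fun r hr s hs => L.comm0 r hr.1 s hs.1 ?_,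
    fun r hr s hs => R.p_ge α (by have := hr.2; have := hs.2; omega),
    fun r hr s hs => L.comm0 r hr.1 s (hs.elim And.left And.left),
    fun r hr s hs k => ⟨_, R.N_ne k, L.comm1 r hr.1 s (hs.elim And.left And.left) k⟩,
    fun r hr s hs k => ⟨hΨ r hr.1 s hs.1, ?_⟩⟩
  · have h1 := hr.2
    have h2 := hs.2
    have := R.p_ge (r := r) (s := s) α (by omega)
    by_contra k
    have k : R.p r s = -1 := by omega
    have h3 := R.eq_of_two α (R.rf r s) (by rw [R.p_rf, k]; omega)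
    have h4 := R.eq_of_two β (R.rf r s) (by rw [R.p_rf, k]; omega)
    rw [h3, h4, R.p_self] at h
    omega
  · have h2 := hs.2
    rcases hr.2 with h1 | h1
    · rw [← R.eq_of_two α (R.rf r s) (by rw [R.p_rf, k]; omega), R.p_self, R.p_comm, h]
      omega
    · rw [R.p_rf, R.p_rf, h1.1, h1.2]
      omega

variable [Fintype Φ] [DecidableEq Φ] [Fintype F]

theorem split [DecidableEq F] (hΨ : R.Cl Ψ) {α β : Φ} (hα : α ∈ Ψ) (h : R.p α β = 1) {ψ : AddChar F ℂ}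
    (hψ : ψ ≠ 0) (χ : H → ℂ) (g : H) : χ g = acomp (L.zc hα) χ 0 g +
      ∑ s with s ≠ 0, ∑ c with c α = s, (L.bStep hΨ h).m χ ψ c g := by
  rw [← sum_lc (ζ := (L.bStep hΨ h).zeta) (ξ := χ) hψ g, ← sum_fiberwise univ fun c => c α,
    ← add_sum_erase _ _ (mem_univ 0), filter_ne', (L.bStep hΨ h).sum_fiber hψ
      ⟨hα, by rw [R.p_self]; omega, by rw [R.p_comm, h]⟩]
  simp [acomp, zc]

theorem heis [Finite H] [DecidablePred (· ∈ Ψ)] (hΨ : R.Cl Ψ) {α β δ : Φ} (hα : α ∈ Ψ) (hβ : β ∈ Ψ)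
    (h : R.p α β = 1) {a : ℕ}
    (ha : #{γ | (γ ∈ Ψ ∧ 1 ≤ R.p α γ ∧ 1 ≤ R.p β γ) ∧ R.p α γ = 1} = a + 1)
    {χ : H → ℂ} (hχ : IsCharacter H χ) {d : ℕ} (hd : χ 1 = d) {e : ℂ}
    (he : ∀ r ∈ Ψ, ∀ t, t ≠ 0 → χ 1 - χ (y r t) = e) :
    ∃ k : ℕ, e = (k * Fintype.card F ^ (a + 2) : ℕ) ∧
      (Fintype.card F - 1) * (k * Fintype.card F ^ a) +
        (Fintype.card F - 1) * (k * Fintype.card F ^ (a + 1)) ≤ d ∧
      (k = 1 → ∀ {o : Φ → ℤ}, R.Add o → Function.Injective o →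
        StepC R {r | r ∈ Ψ ∧ R.p α r = 0} {r | r ∈ Ψ ∧ R.p α r = 1} o δ a → R.p β δ = 0 →
        (∃ ε ∈ Ψ, R.p α ε = 0 ∧ R.p β ε = 0 ∧ R.p δ ε = 1) → ∀ {e' D : ℕ},
        Bnd.{u} R {r | r ∈ Ψ ∧ R.p α r = 0} F e' D →
        Fintype.card F ^ (a + 1) + (Fintype.card F - 1) * Fintype.card F ^
          #{γ | (γ ∈ Ψ ∧ 1 ≤ R.p α γ ∧ 1 ≤ R.p β γ) ∧ R.p α γ = 1 ∧ R.p δ γ ≤ 0} =
        e' + (Fintype.card F - 1) * ∑ β with (β ∈ Ψ ∧ R.p α β = 1) ∧ R.p δ β = 1,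
          Fintype.card F ^ #{γ | (γ ∈ Ψ ∧ R.p α γ = 1) ∧ R.p β γ = 1 ∧ o γ < o β} →
        D + (Fintype.card F - 1) * ∑ β with β ∈ Ψ ∧ R.p α β = 1,
          Fintype.card F ^ #{γ | (γ ∈ Ψ ∧ R.p α γ = 1) ∧ R.p β γ = 1 ∧ o γ < o β} +
          (Fintype.card F - 1) * Fintype.card F ^ (a + 1) ≤ d) := by
  classical
  obtain ⟨ψ, hψ⟩ := (AddChar.exists_apply_ne_zero (α := F)).2 (one_ne_zero (α := F))
  replace hψ : ψ ≠ 0 := fun e => hψ (by simp [e])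
  have hq := card_cast_ne_zero F
  have hq1 : 1 ≤ Fintype.card F := Fintype.card_pos
  have A := L.bStep hΨ h
  have hα1 : α ∈ {γ | γ ∈ Ψ ∧ 1 ≤ R.p α γ ∧ 1 ≤ R.p β γ} :=
    ⟨hα, by rw [R.p_self]; omega, by rw [R.p_comm, h]⟩
  have hrf : ∀ γ ∈ Ψ, R.p α γ = 1 →
      R.rf γ α ∈ {ε | ε ∈ Ψ ∧ (R.p α ε = 1 ∨ R.p α ε = 0 ∧ R.p β ε = 0)} := fun γ k l =>
    ⟨hΨ _ k _ hα, Or.inl (by rw [R.p_rf, R.p_self, R.p_comm γ, l]; rfl)⟩
  have h1 : ∀ s, s ≠ 0 → (Fintype.card F : ℂ)⁻¹ * e =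
      Fintype.card F ^ (a + 1) * A.m χ ψ (Pi.single α s) 1 := fun s hs => by
    rw [← A.mass hψ hα1 (he α hα) hs, ← ha]
    refine A.fiber hψ hχ.isClassFunction hs _ (fun γ k => ?_) fun γ k l k' => (k' ?_).elim
    · simp only [mem_filter, mem_univ, true_and] at k
      exact ⟨k.1, k.2, hrf γ k.1.1 k.2, fun _ => Commute.one_right _⟩
    · have := R.p_le l.symm
      exact mem_filter.2 ⟨mem_univ _, k, le_antisymm this k.2.1⟩
  obtain ⟨k, hk⟩ := exists_acomp_one hχ A.zeta (lc ψ (Pi.single α 1))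
  have h2 : e = k * Fintype.card F ^ (a + 2) := by
    have := h1 1 one_ne_zero
    rw [AStep.m, hk, inv_mul_eq_iff_eq_mul₀ hq] at this
    rw [this]; ring
  have h3 := L.split hΨ hα h hψ χ 1
  rw [sum_congr rfl fun s hs => A.mass hψ hα1 (he α hα) (mem_filter.1 hs).2, sum_ne_zero_const,
    h2, pow_succ' _ (a + 1), mul_left_comm (k : ℂ), inv_mul_cancel_left₀ hq] at h3
  have h4 : ∀ γ ∈ Ψ, R.p α γ = 1 → ∀ u, u ≠ 0 → acomp (L.zc hα) χ 0 1 - acomp (L.zc hα) χ 0 (y γ u) =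
      k * Fintype.card F ^ (a + 1) := fun γ hγ l u hu => by
    have l1 : R.p α (R.rf γ α) = 1 := by rw [R.p_rf, R.p_self, R.p_comm γ, l]; rfl
    have l2 := L.split hΨ hα l1 hψ χ (y γ u)
    rw [sum_eq_zero fun s hs => sum_eq_zero fun c hc => (L.bStep hΨ l1).m_of_moved hψ
      hχ.isClassFunction (γ := R.rf γ α) ⟨hγ, Or.inl l⟩ ⟨hΨ _ hγ _ hα, l1.ge, by rw [R.p_self]; omega⟩
      (by rw [R.p_rf, R.p_self, R.p_comm γ, l]; rfl)
      (by rw [R.rf_rf, (mem_filter.1 hc).2]; exact (mem_filter.1 hs).2) hu, add_zero] at l2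
    have l3 := he γ hγ u hu
    rw [h2, h3, l2] at l3
    linear_combination l3
  obtain ⟨y', L', h5⟩ := L.restrict (acStab (L.zc hα) 0) (Ψ' := {r | r ∈ Ψ ∧ 0 ≤ R.p α r})
    (fun r hr => hr.1) (fun r hr s hs l => ⟨hΨ r hr.1 s hs.1, by
      have := hr.2; have := hs.2; rw [R.p_rf, l]; omega⟩)
    fun r hr t => ⟨Equiv.refl _, fun u => (L.comm0 r hr.1 α hα (R.p_comm α r ▸ hr.2) t u).eq, fun _ => rfl⟩
  have hθ := isCharacter_acStab (ζ := L.zc hα) hχ 0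
  obtain ⟨d', hd'⟩ := exists_acomp_one hχ (L.zc hα) 0
  have h6 : d = d' + (Fintype.card F - 1) * (k * Fintype.card F ^ (a + 1)) := by
    refine Nat.cast_injective (R := ℂ) ?_
    rw [← hd, h3, hd']
    push_cast [hq1]
    rfl
  refine ⟨k, by rw [h2]; push_cast; rfl, ?_, fun hk1 o ho ho' C h7 h8 e' D B h9 => ?_⟩
  · have := deg_ge hθ (L'.zc ⟨hβ, by omega⟩) (n := k * Fintype.card F ^ a) hd' fun u hu => by
      refine (congrArg (_ - acomp _ χ 0 ·) (h5 β ⟨hβ, by omega⟩ u)).trans ((h4 β hβ h u hu).trans ?_)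
      push_cast; ring
    omega
  subst hk1
  have := hθ.charKer_normal
  have hδ0 : δ ∈ {ε | ε ∈ Ψ ∧ (R.p α ε = 1 ∨ R.p α ε = 0 ∧ R.p β ε = 0)} :=
    ⟨C.mem.1, Or.inr ⟨C.mem.2, h7⟩⟩
  have hδα : R.p δ α = 0 := R.p_comm α δ ▸ C.mem.2
  have h10 := L.split hΨ hα h hψ χ (y δ 1)
  rw [sum_congr rfl fun s hs => (A.fiber hψ hχ.isClassFunction (mem_filter.1 hs).2
    {γ | (γ ∈ Ψ ∧ 1 ≤ R.p α γ ∧ 1 ≤ R.p β γ) ∧ R.p α γ = 1 ∧ R.p δ γ ≤ 0} ?_ ?_).trans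
    (congrArg _ (A.m_single_eq_one hχ ?_ hδ0 hδα.le (Or.inl ?_) 1)), sum_ne_zero_const] at h10
  · have := (L'.map (QuotientGroup.mk' (charKer fun h : acStab (L.zc hα) 0 =>
      acomp (L.zc hα) χ 0 h))).step hΨ (R.add_p α) (fun r hr l t => ?_) ho ho' C (hθ.deflate le_rfl)
      (d := d') ((hθ.isClassFunction.deflate_mk le_rfl 1).trans hd') (fun γ hγ l u hu => ?_) B ?_
    · rw [one_mul] at h6
      omega
    · obtain rfl := R.eq_of_two α r l.ge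
      refine (QuotientGroup.eq_one_iff _).2 (hθ.mem_charKer_iff.2 ?_)
      rw [h5 _ ⟨hα, by omega⟩]
      simpa [zc] using acomp_mul (ζ := L.zc hα) (χ := χ) 0 1 t
    · rw [QuotientGroup.mk'_apply, ← QuotientGroup.mk_one, hθ.isClassFunction.deflate_mk le_rfl,
        hθ.isClassFunction.deflate_mk le_rfl, h5 _ ⟨hγ, by omega⟩]
      simpa using h4 γ hγ l u hu
    · rw [QuotientGroup.mk'_apply, ← QuotientGroup.mk_one, hθ.isClassFunction.deflate_mk le_rfl,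
        hθ.isClassFunction.deflate_mk le_rfl, h5 _ ⟨C.mem.1, C.mem.2.ge⟩, ← h9]
      have l3 := he δ C.mem.1 1 one_ne_zero
      rw [h2, h3, h10] at l3
      push_cast [hq1] at l3 ⊢
      linear_combination l3
  · intro γ k
    simp only [mem_filter, mem_univ, true_and] at k
    refine ⟨k.1, k.2.1, hrf γ k.1.1 k.2.1, fun t => L.comm0 _ (hrf γ k.1.1 k.2.1).1 _ C.mem.1 ?_ _ _⟩
    rw [R.p_comm, R.p_rf, hδα, R.p_comm γ, k.2.1]
    omega
  · intro γ k l k' c hc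
    have l1 : R.p α γ = 1 := le_antisymm (R.p_le l.symm) k.2.1
    have l2 : R.p δ γ ≤ 1 := R.p_le (by rintro rfl; have := C.mem.2; omega)
    have l3 : R.p δ γ = 1 := by
      by_contra l3
      exact k' (mem_filter.2 ⟨mem_univ _, k, l1, by omega⟩)
    refine A.m_of_moved hψ hχ.isClassFunction hδ0 (γ := R.rf δ γ) ⟨hΨ _ C.mem.1 _ k.1, ?_⟩
      (by rw [R.p_rf, R.p_self, l3]; rfl) (by rwa [R.rf_rf]) one_ne_zero
    rw [R.p_rf, R.p_rf, C.mem.2, h7]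
    simpa using k.2
  · have := h1 s (mem_filter.1 hs).2
    rw [h2, Nat.cast_one, one_mul, pow_succ' _ (a + 1), inv_mul_cancel_left₀ hq] at this
    exact ((left_eq_mul₀ (pow_ne_zero _ hq)).1 this)
  · obtain ⟨ε, k1, k2, k3, k4⟩ := h8
    refine ⟨ε, ⟨k1, Or.inr ⟨k2, k3⟩⟩, k4, ⟨hΨ _ k1 _ C.mem.1, Or.inr ?_⟩, hδα.le, ?_, ?_⟩
    · rw [R.p_rf, R.p_rf, k2, k3, C.mem.2, h7]; simp
    · rw [R.p_comm, k2]
    · rw [hδα, R.p_comm, k2]

end Lace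

end Cfsg.Lib.Char.MD
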