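import Cfsg.Agent.Char.MinDegSL2

/-! The minimal degree of a non-linear irreducible character of `SL_n(q)`: conclusion. -/

set_option autoImplicit false

namespace Cfsg.Lib.Char.SLDeg

open Matrix Cfsg.Lib.Class

variable {ι : Type*} [Fintype ι] [DecidableEq ι] {F : Type*} [Field F] [Fintype F]
  {χ : SpecialLinearGroup ι F → ℂ}

theorem xi_apply (hχ : IsCharacter (SpecialLinearGroup ι F) χ) {v w β : ι → F} (hv0 : v ≠ 0)
    (hvw : ∀ c : F, w ≠ c • v) (h1 : ∀ l, l ≠ 0 → acomp (zR v) χ l 1 = 1)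
    (hβ : β ≠ 0) (hv : β ⬝ᵥ v = 0) (hw : β ⬝ᵥ w = 0)
    (hn : 5 ≤ Fintype.card ι ∨ (Fintype.card ι = 4 ∧ ∃ b : F, b ≠ 0 ∧ b ^ 2 ≠ 1) ∨
      ∃ a : F, a ≠ 0 ∧ a ^ Fintype.card ι ≠ 1) :
    acomp (zR v) χ 0 (tvS w β) =
      χ (tvS w β) + 1 - (Fintype.card F : ℂ)⁻¹ * Fintype.card (ann v) := by
  classical
  obtain ⟨ψ, hψ1⟩ := (AddChar.exists_apply_ne_zero (a := (1 : F))).2 one_ne_zero
  have hψ : ψ ≠ 0 := by rintro rfl; exact hψ1 rfl
  have hq := card_cast_ne_zero F
  let b : ann v := ⟨β, hv⟩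
  have key : ∀ l : AddChar (ann v) ℂ, l ≠ 0 → acomp (zR v) χ l (tvS w β) =
      (Fintype.card F : ℂ)⁻¹ * ∑ s : F, l (s • b) := by
    intro l hl
    obtain ⟨u, hu⟩ := exists_dot_char hψ (ann v) l
    have e : ∀ s : F, l (s • b) = ψ (s * β ⬝ᵥ u) := fun s => by rw [hu]; simp [b]
    simp only [e]
    by_cases h : β ⬝ᵥ u = 0
    · rw [lin_tvS (isCharacter_acStab hχ l) (h1 l hl) (fun g a => mem_acStab hv0 hu) hβ hv hw h hn]
      simp [h, hq]
    · rw [show ∑ s : F, ψ (s * β ⬝ᵥ u) = ∑ s, ψ s from Equiv.sum_comp (Equiv.mulRight₀ _ h) ψ,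
        AddChar.sum_eq_zero_iff_ne_zero.2 hψ, mul_zero]
      obtain ⟨f, hf, hf'⟩ := exists_dot_of_notMem_span hvw
      let a : ann v := (β ⬝ᵥ u)⁻¹ • ⟨f, hf⟩
      refine acomp_eq_zero hχ.isClassFunction (a := a) (a' := a - (β ⬝ᵥ u)⁻¹ • b) ?_ fun e' => hψ1 ?_
      · rw [← mul_inv_eq_iff_eq_mul]
        refine (tvS_conj_tvS hw a.2).trans ?_
        simp [a, b, hv, hf', zR]
      · have := l.map_add_eq_mul (a - (β ⬝ᵥ u)⁻¹ • b) ((β ⬝ᵥ u)⁻¹ • b)
        rw [sub_add_cancel, e, inv_mul_cancel₀ h, ← e'] at this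
        exact (mul_eq_left₀ (l.val_isUnit a).ne_zero).1 this.symm
  have h2 := sum_acomp (zR v) χ (tvS w β)
  have h3 : ∑ l : AddChar (ann v) ℂ, ∑ s : F, l (s • b) = Fintype.card (ann v) := by
    rw [Finset.sum_comm, Finset.sum_eq_single 0]
    · simp
    · intro s _ hs
      rw [AddChar.sum_apply_eq_ite, if_neg (smul_ne_zero hs fun e => hβ (congrArg Subtype.val e))]
    · simp
  rw [← Finset.add_sum_erase _ _ (Finset.mem_univ 0)] at h2 h3
  rw [Finset.sum_congr rfl fun l hl => key l (Finset.ne_of_mem_erase hl), ← Finset.mul_sum] at h2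
  simp only [AddChar.zero_apply, Finset.sum_const, Finset.card_univ, nsmul_eq_mul, mul_one] at h3
  rw [← h2, ← h3]
  field_simp
  ring

/-- the unipotent radical of the stabiliser of the plane spanned by `v`, `w` -/
noncomputable def zA (v w : ι → F) : AddChar ((ann v ⊓ ann w : Submodule F (ι → F)) ×
    (ann v ⊓ ann w : Submodule F (ι → F))) (SpecialLinearGroup ι F) where
  toFun a := tvS v a.1 * tvS w a.2
  map_zero_eq_one' := by simp
  map_add_eq_mul' a b := by
    simp only [Prod.fst_add, Prod.snd_add, Submodule.coe_add]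
    rw [tvS_add_right a.1.2.1 b.1.2.1, tvS_add_right a.2.2.2 b.2.2.2, mul_assoc, mul_assoc,
      ← mul_assoc (tvS v b.1), tvS_commute b.1.2.1 a.2.2.2 b.1.2.2 a.2.2.1, mul_assoc]

omit [Fintype F] in
theorem pair_indep {v w : ι → F} (hv0 : v ≠ 0) (hvw : ∀ c : F, w ≠ c • v) {a b : F}
    (h : a • v + b • w = 0) : a = 0 ∧ b = 0 := by
  obtain ⟨f, hf, hf'⟩ := exists_dot_of_notMem_span hvw
  have hb : b = 0 := by simpa [hf, hf'] using congrArg (fun x => f ⬝ᵥ x) h
  exact ⟨by simpa [hb, hv0] using h, hb⟩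

omit [Fintype F] in
theorem zA_injective {v w : ι → F} (hv0 : v ≠ 0) (hvw : ∀ c : F, w ≠ c • v) :
    Function.Injective (zA v w) := by
  intro a b e
  have h1 : zA v w (a - b) = 1 := by
    have := (zA v w).map_add_eq_mul (a - b) b
    rw [sub_add_cancel, e] at this
    exact (right_eq_mul.1 this)
  rw [← sub_eq_zero]
  generalize a - b = c at h1
  have h2 : ∀ x, x ⬝ᵥ c.1.1 = 0 ∧ x ⬝ᵥ c.2.1 = 0 := fun x => by
    have := congrArg (fun g : SpecialLinearGroup ι F => (g : Matrix ι ι F) *ᵥ x) h1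
    change ((tvS v c.1 * tvS w c.2 : SpecialLinearGroup ι F) : Matrix ι ι F) *ᵥ x = _ at this
    rw [SL_mul_mulVec, tvS_mulVec c.1.2.1, tvS_mulVec c.2.2.2, dotProduct_add, dotProduct_smul,
      mem_ann.1 c.1.2.2] at this
    rw [dotProduct_comm x, dotProduct_comm x]
    refine pair_indep hv0 hvw ?_
    simp only [smul_zero, add_zero, Matrix.SpecialLinearGroup.coe_one, one_mulVec] at this
    rw [add_comm, ← add_eq_left (a := x), ← add_assoc, this]
  exact Prod.ext (Subtype.ext (eq_zero_of_forall_dot fun x => (h2 x).1))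
    (Subtype.ext (eq_zero_of_forall_dot fun x => (h2 x).2))

theorem isCharacter_theta (hχ : IsCharacter (SpecialLinearGroup ι F) χ) {v w : ι → F} (hv0 : v ≠ 0)
    (hvw : ∀ c : F, w ≠ c • v) :
    IsCharacter (St (Submodule.span F {v, w})) fun h => acomp (zA v w) χ 0 h := by
  refine isCharacter_acomp hχ (St (Submodule.span F {v, w})).subtype fun h => ?_
  have h1 : ∀ x ∈ Submodule.span F {v, w}, ∀ α : (ann v ⊓ ann w : Submodule F (ι → F)),
      α.1 ⬝ᵥ x = 0 := by
    intro x hx α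
    obtain ⟨a, b, rfl⟩ := Submodule.mem_span_pair.1 hx
    simp [mem_ann.1 α.2.1, mem_ann.1 α.2.2]
  have hv : v ∈ Submodule.span F {v, w} := Submodule.subset_span (by simp)
  have hw : w ∈ Submodule.span F {v, w} := Submodule.subset_span (by simp)
  have h2 : ∀ x ∈ Submodule.span F {v, w}, ∀ α : (ann v ⊓ ann w : Submodule F (ι → F)),
      ∃ a, h.1 * tvS x α * h.1⁻¹ = zA v w a := by
    intro x hx α
    obtain ⟨a, b, e⟩ := Submodule.mem_span_pair.1 ((h.2 x).2 hx)
    let α' : (ann v ⊓ ann w : Submodule F (ι → F)) :=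
      ⟨α.1 ᵥ* ((h.1⁻¹ : SpecialLinearGroup ι F) : Matrix ι ι F),
        (dotProduct_mulVec _ _ _).symm.trans (h1 _ (((h⁻¹).2 v).2 hv) α),
        (dotProduct_mulVec _ _ _).symm.trans (h1 _ (((h⁻¹).2 w).2 hw) α)⟩
    refine ⟨(a • α', b • α'), ?_⟩
    rw [conj_tvS _ (h1 x hx α), ← e, tvS_add_left (f := α'.1) (h1 _ (Submodule.smul_mem _ _ hv) α')
      (h1 _ (Submodule.smul_mem _ _ hw) α'), tvS_smul_left _ α'.2.1, tvS_smul_left _ α'.2.2]
    rfl
  have h3 : ∀ a, ∃ a', h.1 * zA v w a * h.1⁻¹ = zA v w a' := by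
    intro a
    obtain ⟨x, hx⟩ := h2 v hv a.1
    obtain ⟨y, hy⟩ := h2 w hw a.2
    refine ⟨x + y, ?_⟩
    rw [AddChar.map_add_eq_mul, ← hx, ← hy]
    change h.1 * (tvS v a.1 * tvS w a.2) * _ = _
    group
  choose e he using h3
  obtain ⟨φ, hφ, -⟩ := exists_equiv_of_normalizes (zA_injective hv0 hvw) e he
  exact ⟨φ, hφ, fun _ => rfl⟩

theorem card_span_pair {v w : ι → F} (hv0 : v ≠ 0) (hvw : ∀ c : F, w ≠ c • v) :
    Fintype.card (Submodule.span F {v, w}) = Fintype.card F ^ 2 := by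
  rw [sq, ← Fintype.card_prod]
  refine (Fintype.card_congr (Equiv.ofBijective (fun p : F × F => (⟨p.1 • v + p.2 • w,
    Submodule.mem_span_pair.2 ⟨_, _, rfl⟩⟩ : Submodule.span F {v, w})) ⟨fun a b e => ?_, fun x => ?_⟩)).symm
  · have := pair_indep hv0 hvw (a := a.1 - b.1) (b := a.2 - b.2) (by
      have := congrArg Subtype.val e
      simp only at this
      rw [sub_smul, sub_smul, sub_add_sub_comm, this, sub_self])
    exact Prod.ext (sub_eq_zero.1 this.1) (sub_eq_zero.1 this.2)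
  · obtain ⟨a, b, e⟩ := Submodule.mem_span_pair.1 x.2
    exact ⟨(a, b), Subtype.ext e⟩

theorem ES_theta (hχ : IsClassFunction (SpecialLinearGroup ι F) χ) (v w : ι → F) :
    ES (W := Submodule.span F {v, w}) (fun h => acomp (zA v w) χ 0 h) w v =
      ES (W := ⊤) (fun h => χ h) w v := by
  have hv : v ∈ Submodule.span F {v, w} := Submodule.subset_span (by simp)
  have hw : w ∈ Submodule.span F {v, w} := Submodule.subset_span (by simp)
  simp only [ES, acomp, Subgroup.coe_mul, coe_tW hv, coe_tW hw, coe_tW Submodule.mem_top,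
    AddChar.zero_apply, one_mul, ← Finset.mul_sum]
  simp_rw [Finset.sum_comm (s := (Finset.univ : Finset (ann v)))]
  rw [Finset.sum_comm]
  have : ∀ a, ∑ ψ : ann w, ∑ φ : ann v, χ (tvS w ψ * tvS v φ * zA v w a) =
      ∑ ψ : ann w, ∑ φ : ann v, χ (tvS w ψ * tvS v φ) := by
    intro a
    symm
    rw [← Equiv.sum_comp (Equiv.addLeft (⟨a.2.1, a.2.2.2⟩ : ann w))]
    refine Finset.sum_congr rfl fun ψ _ => ?_
    rw [← Equiv.sum_comp (Equiv.addRight (⟨a.1.1, a.1.2.1⟩ : ann v))]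
    refine Finset.sum_congr rfl fun φ _ => ?_
    change χ (tvS w (a.2.1 + ψ.1) * tvS v (φ.1 + a.1.1)) = χ (_ * (tvS v a.1 * tvS w a.2))
    rw [tvS_add_right a.2.2.2 ψ.2, tvS_add_right φ.2 a.1.2.1, mul_assoc, hχ.apply_mul_comm]
    simp only [mul_assoc]
  simp only [this, Finset.sum_const, Finset.card_univ, nsmul_eq_mul]
  rw [inv_mul_cancel_left₀ (card_cast_ne_zero _)]

theorem cS_theta (hχ : IsClassFunction (SpecialLinearGroup ι F) χ) (v w : ι → F) :
    (Fintype.card (ann v ⊓ ann w : Submodule F (ι → F)) : ℂ) *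
      cS (W := Submodule.span F {v, w}) (fun h => acomp (zA v w) χ 0 h) v =
      Fintype.card (ann v) *
        ∑ β : (ann v ⊓ ann w : Submodule F (ι → F)), acomp (zR v) χ 0 (tvS w β) := by
  have hv : v ∈ Submodule.span F {v, w} := Submodule.subset_span (by simp)
  simp only [cS, acomp, coe_tW hv, AddChar.zero_apply, one_mul, ← Finset.mul_sum]
  rw [Finset.sum_comm, Fintype.sum_prod_type]
  have : ∀ α β : (ann v ⊓ ann w : Submodule F (ι → F)), ∑ φ : ann v, χ (tvS v φ * zA v w (α, β)) =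
      ∑ φ : ann v, χ (tvS w β * zR v φ) := by
    intro α β
    symm
    rw [← Equiv.sum_comp (Equiv.addRight (⟨α.1, α.2.1⟩ : ann v))]
    refine Finset.sum_congr rfl fun φ _ => ?_
    change χ (tvS w β * tvS v (φ.1 + α.1)) = χ (_ * (tvS v α * tvS w β))
    rw [tvS_add_right φ.2 α.2.1, hχ.apply_mul_comm]
    simp only [mul_assoc]
  simp only [this, Finset.sum_const, Finset.card_univ, nsmul_eq_mul, Fintype.card_prod]
  have := card_cast_ne_zero (ann v)
  have := card_cast_ne_zero (ann v ⊓ ann w : Submodule F (ι → F))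
  push_cast
  field_simp

theorem arith {q P c : ℕ} (hq : 2 ≤ q) (hP : q ≤ P) {δ : ℝ} (hδ : δ = 0 ∨ ((q : ℝ) + 1) / (2 * q) ≤ δ)
    {m : ℕ} (hm : (q - 1) * m + 1 = q * P)
    (h : ((q : ℝ) * (q * P) - 1) * c = q * (c + q * P - 1) * (P - 1 + δ)) : m ≤ c := by
  obtain ⟨r, rfl⟩ : ∃ r, q = r + 1 := ⟨q - 1, by omega⟩
  rw [Nat.add_sub_cancel] at hm
  rcases hδ with rfl | hδ
  · exfalso
    have h1 : ((r + 1 : ℤ) * ((r + 1) * P) - 1) * c = (r + 1) * (c + (r + 1) * P - 1) * (P - 1) := by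
      rw [add_zero] at h
      exact_mod_cast h
    have h2 : ((r + 1 : ℤ) * P + 1) ∣ 2 * (r + 2) :=
      ⟨c * r - ((r + 1) * P - r - 3), by linear_combination -h1⟩
    have h3 := Int.le_of_dvd (by positivity) h2
    have hr : r = 1 := by nlinarith
    subst hr
    have : P = 2 := by omega
    subst this
    norm_num at h2
  · by_contra hlt
    have h1 : (c : ℝ) + 1 ≤ m := by exact_mod_cast not_le.1 hlt
    have h2 : (r : ℝ) * m + 1 = (r + 1) * P := by exact_mod_cast hm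
    have h3 : (1 : ℝ) ≤ r := by exact_mod_cast (by omega : 1 ≤ r)
    have h4 : (r : ℝ) + 1 ≤ P := by exact_mod_cast hP
    have h5 : (0 : ℝ) ≤ c := by positivity
    push_cast at h hδ
    rw [div_le_iff₀ (by positivity)] at hδ
    obtain ⟨x, hx⟩ : ∃ x : ℝ, x = (r + 1) * δ := ⟨_, rfl⟩
    have h6 : (r : ℝ) + 2 ≤ 2 * x := by rw [hx]; linarith
    have h7 : c * (r ^ 2 * m + 2 * r - x) = r * m * (r * (m - 1) + x) := by
      rw [← h2] at h
      have e : ((r : ℝ) + 1) * (c + (r * m + 1) - 1) * (P - 1 + δ) =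
          (c + r * m) * (r * m + 1 - (r + 1) + x) := by
        rw [hx]; linear_combination (-(c : ℝ) - r * m) * h2
      rw [e] at h
      linear_combination h
    have h8 : (1 : ℝ) ≤ m := by linarith
    have h9 : 0 < r * m * (r * ((m : ℝ) - 1) + x) := by
      have : 0 ≤ r * ((m : ℝ) - 1) := mul_nonneg (by linarith) (by linarith)
      have : 0 < r * ((m : ℝ) - 1) + x := by linarith
      positivity
    have h10 : 0 ≤ (r : ℝ) ^ 2 * m + 2 * r - x := by
      by_contra hneg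
      have := mul_nonpos_of_nonneg_of_nonpos h5 (not_le.1 hneg).le
      linarith
    have h11 := mul_le_mul_of_nonneg_right (show (c : ℝ) ≤ m - 1 by linarith) h10
    have h12 : 0 ≤ (2 * x - (r + 2)) * (r * m + m - 1) :=
      mul_nonneg (by linarith) (by nlinarith)
    have h13 : 0 ≤ (r : ℝ) * m * (r - 1) := mul_nonneg (by positivity) (by linarith)
    nlinarith

theorem le_degree (hχ : IsIrrCharacter (SpecialLinearGroup ι F) χ) {d : ℕ} (hd : χ 1 = d) (hd2 : 2 ≤ d)
    (h3 : 3 ≤ Fintype.card ι)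
    (hn : 5 ≤ Fintype.card ι ∨ (Fintype.card ι = 4 ∧ ∃ b : F, b ≠ 0 ∧ b ^ 2 ≠ 1) ∨
      ∃ a : F, a ≠ 0 ∧ a ^ Fintype.card ι ≠ 1) {m : ℕ}
    (hm : (Fintype.card F - 1) * m + 1 = Fintype.card F ^ (Fintype.card ι - 1)) :
    Fintype.card F * m ≤ d := by
  classical
  obtain ⟨v, -, hv0⟩ := exists_dot_zero_ne_zero (by omega) (0 : ι → F)
  obtain ⟨w, hvw⟩ := exists_not_smul (by omega) v
  have hw0 : w ≠ 0 := fun e => hvw 0 (by simp [e])
  obtain ⟨f, hf, hf'⟩ := exists_dot_of_notMem_span hvw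
  have hf0 : f ≠ 0 := by rintro rfl; simp at hf'
  have hc := hχ.isClassFunction
  have hτ : ∀ x g : ι → F, x ≠ 0 → g ≠ 0 → g ⬝ᵥ x = 0 → χ (tvS x g) = χ (tvS v f) := by
    intro x g hx hg e
    obtain ⟨y, -, -, hy⟩ := exists_conj_tvS h3 hv0 hf0 hx hg hf e
    rw [← hy, hc.apply_conj]
  set τ := χ (tvS v f)
  have hq : 1 < Fintype.card F := Fintype.one_lt_card
  set q := Fintype.card F with hqd
  set P := Fintype.card (ann v ⊓ ann w : Submodule F (ι → F)) with hPd
  have hQ : Fintype.card (ann v) = q * P := by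
    simpa only [Nat.card_eq_fintype_card] using card_inf_ann (ann v) (mem_ann.2 hf) hf'
  have hV : q ^ Fintype.card ι = q * (q * P) := by
    simpa only [Nat.card_eq_fintype_card, hQ] using card_ann hv0
  have hQ' : q ^ (Fintype.card ι - 1) = q * P := by
    refine Nat.eq_of_mul_eq_mul_left (by omega : 0 < q) ?_
    rw [← hV, ← pow_succ']; congr 1; omega
  have hP : q ≤ P := by
    refine Nat.le_of_mul_le_mul_left ?_ (by omega : 0 < q)
    rw [← hQ', ← sq]
    exact Nat.pow_le_pow_right (by omega) (by omega)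
  rw [hQ'] at hm
  have hone := fun l => acomp_one_of_const (ζ := zR v) (χ := χ) (τ := τ)
    (fun a ha => hτ _ _ hv0 (fun e => ha (Subtype.ext e)) a.2) l
  obtain ⟨l₀, hl₀⟩ : ∃ l : AddChar (ann v) ℂ, l ≠ 0 :=
    Fintype.exists_ne_of_one_lt_card (by rw [AddChar.card_eq, hQ]; nlinarith) 0
  obtain ⟨k, hk⟩ := exists_acomp_one hχ.isCharacter (zR v) l₀
  obtain ⟨c, hc0⟩ := exists_acomp_one hχ.isCharacter (zR v) 0
  have hQ0 := card_cast_ne_zero (ann v)
  rw [hone, if_neg hl₀, add_zero] at hk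
  have hc1 := hc0
  rw [hone, if_pos rfl, hk] at hc1
  have hdk : (d : ℂ) + k = c + k * (q * P) := by
    rw [inv_mul_eq_iff_eq_mul₀ hQ0, hQ, hd] at hk
    push_cast at hk
    linear_combination hk + hc1
  have hdk' : d + k = c + k * (q * P) := by exact_mod_cast hdk
  obtain ⟨r, hr⟩ : ∃ r, q = r + 1 := ⟨q - 1, by omega⟩
  have hm' : r * m + 1 = q * P := by rw [← hm, hr]; simp
  rcases Nat.lt_or_ge 1 k with hk2 | hk1
  · rw [← hm'] at hdk'
    have : 1 ≤ r := by omega
    have h1 : 2 * (r * m) ≤ k * (r * m) := Nat.mul_le_mul_right _ hk2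
    rw [hr]; nlinarith
  rcases Nat.eq_zero_or_pos k with rfl | hk0
  · exfalso
    have h0 : τ = χ 1 := by
      rw [Nat.cast_zero, mul_eq_zero, inv_eq_zero, sub_eq_zero] at hk
      exact (hk.resolve_left hQ0).symm
    have := SL_eq_top_of_tvS (charKer χ) fun x g e => by
      by_cases hx : x = 0
      · simp [hx]
      by_cases hg : g = 0
      · simp [hg]
      rw [hχ.mem_charKer_iff, hτ x g hx hg e, h0]
    rw [hχ.charKer_eq_top_iff] at this
    rw [this] at hd
    have : d = 1 := by exact_mod_cast (show (d : ℂ) = 1 from hd.symm)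
    omega
  obtain rfl : k = 1 := by omega
  have hq0 : (q : ℂ) ≠ 0 := card_cast_ne_zero F
  have hP0 : (P : ℂ) ≠ 0 := card_cast_ne_zero _
  have hξ : ∀ β : (ann v ⊓ ann w : Submodule F (ι → F)), β ≠ 0 →
      acomp (zR v) χ 0 (tvS w β) = c - P := by
    intro β hβ
    have hβ' : β.1 ≠ 0 := fun e => hβ (Subtype.ext e)
    rw [xi_apply hχ.isCharacter hv0 hvw (fun l hl => by rw [hone, if_neg hl, hk]; simp) hβ' β.2.1 β.2.2 hn,
      hτ _ _ hw0 hβ' β.2.2, hQ, ← hc1]
    push_cast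
    field_simp
    ring
  have h1 := cS_theta hc v w
  rw [← Finset.add_sum_erase _ _ (Finset.mem_univ 0),
    Finset.sum_congr rfl fun β hβ => hξ β (Finset.ne_of_mem_erase hβ)] at h1
  simp only [Submodule.coe_zero, tvS_zero_right, hc0, Finset.sum_const, Finset.card_erase_of_mem,
    Finset.mem_univ, Finset.card_univ, nsmul_eq_mul, ← hPd] at h1
  rw [Nat.cast_sub (by omega)] at h1
  obtain ⟨δ, hδ, h2⟩ := delta_char (isCharacter_theta hχ.isCharacter hv0 hvw) (card_span_pair hv0 hvw)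
    (Submodule.subset_span (by simp)) (Submodule.subset_span (by simp)) hv0 hvw
  rw [ES_theta hc] at h2
  have hirr : IsIrrCharacter (St (⊤ : Submodule F (ι → F))) fun h => χ h :=
    hχ.comp_of_surjective (St ⊤).subtype fun g => ⟨⟨g, fun x => by simp⟩, rfl⟩
  have h4 := lemmaE hirr Submodule.mem_top Submodule.mem_top hv0 hvw
  have h5 : cS (W := ⊤) (fun h => χ h) v = Fintype.card (ann v) * c := by
    rw [← hc0, acomp, mul_inv_cancel_left₀ hQ0]
    simp only [AddChar.zero_apply, one_mul, cS, coe_tW Submodule.mem_top]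
    rfl
  have h6 : Fintype.card (⊤ : Submodule F (ι → F)) = q * (q * P) := by
    rw [Fintype.card_congr Submodule.topEquiv.toEquiv, Fintype.card_fun, hV]
  rw [h5, h6, ← hqd, OneMemClass.coe_one, hd] at h4
  rw [hQ] at h1 h2 h4
  have h7 : ((q : ℂ) * (q * P) - 1) * c = q * (c + q * P - 1) * (P - 1 + δ) := by
    have hQ1 : (q * P : ℂ) - 1 ≠ 0 := sub_ne_zero.2 (by exact_mod_cast (by nlinarith : q * P ≠ 1))
    have e1 : (d : ℂ) = c + q * P - 1 := by push_cast at hdk; linear_combination hdk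
    push_cast at h1 h2 h4
    rw [e1] at h4
    generalize cS (W := Submodule.span F {v, w}) (fun h => acomp (zA v w) χ 0 h) v = X at h1 h2
    generalize ES (W := ⊤) (fun h => χ h) w v = E at h2 h4
    have e2 : X = q * P * (c - (P - 1)) := mul_left_cancel₀ hP0 (by linear_combination h1)
    have e3 : E = (q * P) ^ 2 * (c - (P - 1) - δ) := by rw [e2] at h2; linear_combination -h2
    rw [e3] at h4
    refine mul_left_cancel₀ (mul_ne_zero (pow_ne_zero 2 (mul_ne_zero hq0 hP0)) hQ1) ?_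
    linear_combination h4
  have h8 := arith (c := c) hq hP hδ hm (by exact_mod_cast h7)
  rw [hr]; nlinarith

end Cfsg.Lib.Char.SLDeg
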