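import Cfsg.Agent.Char.MDCell
import Cfsg.Agent.Char.MinDegSL3
import Cfsg.Agent.Char.IndTransport
import Cfsg.Agent.Char.Degree
import Cfsg.Agent.Known.PresStA

/-! Descent along abelian unipotent radicals in groups with simply laced root elements. -/

set_option autoImplicit false

namespace Cfsg.Lib.Char.MD

open Matrix Finset

universe u

variable {Φ : Type*} {F : Type*} [Field F]

theorem sum_ne_zero_const [Fintype F] [DecidableEq F] (z : ℂ) :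
    ∑ s : F with s ≠ 0, z = ((Fintype.card F : ℂ) - 1) * z := by
  rw [sum_const, filter_ne', card_erase_of_mem (mem_univ _), card_univ, nsmul_eq_mul,
    Nat.cast_sub Fintype.card_pos, Nat.cast_one]

theorem AStep.main {H : Type*} [Group H] [Fintype Φ] [DecidableEq Φ] {R : RS Φ} {S0 S1 : Set Φ}
    {y : Φ → F → H} (A : AStep R S0 S1 y) [Fintype F] {ξ : H → ℂ} {ψ : AddChar F ℂ}
    [DecidablePred (· ∈ S1)] (hψ : ψ ≠ 0) (hξ : IsCharacter H ξ) (o : Φ → ℤ)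
    (ho : ∀ r s, o (R.rf r s) = o s - R.p r s * o r) (ho' : Set.InjOn o S1) {a : ℕ}
    (ha : ∀ β ∈ S1, #{γ | γ ∈ S1 ∧ R.p β γ = 1} = a)
    (he : ∀ β ∈ S1, ∀ u, u ≠ 0 → ξ 1 - ξ (y β u) = Fintype.card F ^ (a + 1))
    (h0 : ∀ β ∈ S1, ∀ γ ∈ S1, R.p β γ = 1 → R.rf γ β ∈ S0)
    (hn : ∀ β ∈ S1, ∀ γ ∈ S1, R.p β γ ≤ 0 → (∃ ε ∈ S0, R.p ε γ = 1 ∧ R.rf ε γ ∈ S1 ∧
      (R.p ε β = 0 ∨ R.p ε β = -1 ∧ R.p β γ = -1)) ∨ ∃ g κ, Scal S1 y g κ ∧ κ β = 1 ∧ κ γ ≠ 1)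
    (h2 : ∀ β ∈ S1, ∀ γ ∈ S1, -1 ≤ R.p β γ) :
    ξ 1 = A.m ξ ψ 0 1 + (Fintype.card F - 1) *
      ∑ β with β ∈ S1, (Fintype.card F : ℂ) ^ #{γ | γ ∈ S1 ∧ R.p β γ = 1 ∧ o γ < o β} ∧
    ∀ δ ∈ S0, (∀ β ∈ S1, ∀ γ ∈ S1, R.p β γ = 1 → o γ < o β → R.p δ γ ≤ R.p δ β) →
      (∀ β ∈ S1, R.p δ β = 1 ∧ R.rf δ β ∈ S1 ∨ R.p δ β ≤ 0 ∧
        ((∃ ε ∈ S0, R.p δ ε = 1 ∧ R.rf ε δ ∈ S0 ∧ R.p ε β ≤ 0 ∧ R.p δ β ≤ R.p ε β) ∨
        ∃ g κ, Scal ({δ} ∪ S1) y g κ ∧ κ β = 1 ∧ κ δ ≠ 1)) → ∀ u, u ≠ 0 →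
      ξ 1 - ξ (y δ u) = A.m ξ ψ 0 1 - A.m ξ ψ 0 (y δ u) + (Fintype.card F - 1) *
        ∑ β with β ∈ S1 ∧ R.p δ β = 1,
          (Fintype.card F : ℂ) ^ #{γ | γ ∈ S1 ∧ R.p β γ = 1 ∧ o γ < o β} := by
  classical
  have hu := fun β hβ s => A.unique hψ hξ hβ (by rw [ha β hβ]; exact he β hβ) (h0 β hβ) (hn β hβ)
    (h2 β hβ) (s := s)
  have h1 : ξ 1 = A.m ξ ψ 0 1 + (Fintype.card F - 1) *
      ∑ β with β ∈ S1, (Fintype.card F : ℂ) ^ #{γ | γ ∈ S1 ∧ R.p β γ = 1 ∧ o γ < o β} := by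
    rw [A.sum_cells hψ hξ.isClassFunction o ho ho' (g := 1)
      (fun β hβ γ hγ h _ => ⟨h0 β hβ γ hγ h, fun _ => Commute.one_right _⟩)
      (fun β hβ c h => (hu β hβ _ h).2 c rfl), mul_sum]
    congr 1
    refine sum_congr rfl fun β hβ => ?_
    rw [sum_congr rfl fun s hs => (hu β (mem_filter.1 hβ).2 s (mem_filter.1 hs).2).1,
      sum_ne_zero_const, mul_one, mul_comm]
  refine ⟨h1, fun δ hδ h3 h4 u hu0 => ?_⟩
  rw [A.sum_cells hψ hξ.isClassFunction o ho ho' (g := y δ u)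
    (fun β hβ γ hγ h l => ⟨h0 β hβ γ hγ h, fun t => A.comm0 _ (h0 β hβ γ hγ h) δ (Or.inl hδ) (by
      have := h3 β hβ γ hγ h l
      rw [R.p_comm, R.p_rf, R.p_comm γ, h]; omega) _ _⟩)
    (fun β hβ c h a b => A.m_of_one hψ hξ hδ u ((hu β hβ _ h).2 c rfl a b)), h1,
    ← filter_filter, sum_filter (fun β => R.p δ β = 1), mul_sum, mul_sum, add_sub_add_comm,
    ← sum_sub_distrib]
  congr 1
  refine sum_congr rfl fun β hβ => ?_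
  replace hβ := (mem_filter.1 hβ).2
  rcases h4 β hβ with h | h
  · rw [if_pos h.1, sum_eq_zero fun s hs => A.m_of_moved hψ hξ.isClassFunction hδ h.2
      (by rw [R.p_rf, R.p_self, h.1]; rfl) (by rw [R.rf_rf]; simpa using hs) hu0, mul_zero, sub_zero]
  · rw [if_neg (by omega), sum_congr rfl fun s hs => A.m_single_eq_one hξ
      (hu β hβ s (mem_filter.1 hs).2).1 hδ h.1 (h.2.imp_left fun ⟨ε, k1, k2, k3, k4⟩ =>
        ⟨ε, k1, k2, k3, h.1, k4⟩) u, sum_ne_zero_const]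
    ring

namespace RS

variable (R : RS Φ)

/-- additive functions on the roots -/
def Add (l : Φ → ℤ) : Prop := ∀ r s, l (R.rf r s) = l s - R.p r s * l r

/-- subsystems -/
def Cl (Ψ : Set Φ) : Prop := ∀ r ∈ Ψ, ∀ s ∈ Ψ, R.rf r s ∈ Ψ

theorem add_p (t : Φ) : R.Add (R.p t) := R.p_rf t

variable {R}

theorem Add.p_ge {l : Φ → ℤ} (hl : R.Add l) {r s : Φ} (h : l r + l s ≠ 0) : -1 ≤ R.p r s := by
  by_contra h'
  have : s = R.rf r r := R.eq_of_two _ _ (by rw [R.p_rf, R.p_self r, R.p_comm s r]; omega)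
  rw [this, hl, R.p_self r] at h
  omega

theorem Cl.lev {Ψ : Set Φ} (h : R.Cl Ψ) {l : Φ → ℤ} (hl : R.Add l) : R.Cl {r | r ∈ Ψ ∧ l r = 0} :=
  fun r hr s hs => ⟨h r hr.1 s hs.1, by rw [hl, hr.2, hs.2]; simp⟩

theorem p_le_two (r s : Φ) : R.p r s ≤ 2 := by
  by_cases h : r = s
  · rw [h, R.p_self]
  · have := R.p_le h; omega

theorem N_ne {r s : Φ} (h : R.p r s = -1) : (R.N r s : F) ≠ 0 := fun e => by
  have := congrArg (Int.cast : ℤ → F) (R.N_sq r s h)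
  rw [Int.cast_mul, e] at this
  simp at this

end RS

/-- the commutator relations for the roots of `Ψ` -/
structure Lace {H : Type*} [Group H] (R : RS Φ) (Ψ : Set Φ) (y : Φ → F → H) : Prop where
  add : ∀ r ∈ Ψ, ∀ t u, y r t * y r u = y r (t + u)
  comm0 : ∀ r ∈ Ψ, ∀ s ∈ Ψ, 0 ≤ R.p r s → ∀ t u, Commute (y r t) (y s u)
  comm1 : ∀ r ∈ Ψ, ∀ s ∈ Ψ, R.p r s = -1 → ∀ t u,
    y r t * y s u * (y r t)⁻¹ = y s u * y (R.rf r s) (R.N r s * t * u)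

/-- lower bound for characters with a given defect on the root elements -/
def Bnd (R : RS Φ) (Ψ : Set Φ) (F : Type*) [Field F] (e D : ℕ) : Prop :=
  ∀ (H : Type u) [Group H] [Finite H] (y : Φ → F → H) (ξ : H → ℂ) (d : ℕ), Lace R Ψ y →
    IsCharacter H ξ → ξ 1 = d → (∀ r ∈ Ψ, ∀ t, t ≠ 0 → ξ 1 - ξ (y r t) = e) → D ≤ d

namespace Lace

variable {H : Type*} [Group H] {R : RS Φ} {Ψ : Set Φ} {y : Φ → F → H} (L : Lace R Ψ y)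

include L

theorem map {H' : Type*} [Group H'] (φ : H →* H') : Lace R Ψ fun r t => φ (y r t) where
  add r hr t u := by rw [← map_mul, L.add r hr]
  comm0 r hr s hs h t u := (L.comm0 r hr s hs h t u).map φ
  comm1 r hr s hs h t u := by rw [← map_inv, ← map_mul, ← map_mul, L.comm1 r hr s hs h, map_mul]

theorem restrict (K : Subgroup H) {Ψ' : Set Φ} (h1 : Ψ' ⊆ Ψ)
    (h2 : ∀ r ∈ Ψ', ∀ s ∈ Ψ', R.p r s = -1 → R.rf r s ∈ Ψ') (h3 : ∀ r ∈ Ψ', ∀ t, y r t ∈ K) :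
    ∃ y' : Φ → F → K, Lace R Ψ' y' ∧ ∀ r ∈ Ψ', ∀ t, y' r t = y r t := by
  classical
  refine ⟨fun r t => if h : r ∈ Ψ' then ⟨y r t, h3 r h t⟩ else 1, ⟨fun r hr t u => ?_,
    fun r hr s hs h t u => ?_, fun r hr s hs h t u => ?_⟩, fun r hr t => by simp [hr]⟩
  · ext; simp [hr, L.add r (h1 hr)]
  · exact Subtype.ext (by simpa [hr, hs] using (L.comm0 r (h1 hr) s (h1 hs) h t u).eq)
  · ext; simpa [hr, hs, h2 r hr s hs h] using L.comm1 r (h1 hr) s (h1 hs) h t u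

theorem conj (hΨ : R.Cl Ψ) {θ : H → ℂ} (hθ : IsClassFunction H θ) {r s : Φ} (hr : r ∈ Ψ)
    (hs : s ∈ Ψ) (h : R.p r s = 1) {t u : F} (ht : t ≠ 0) (hu : u ≠ 0) : θ (y r t) = θ (y s u) := by
  have key : ∀ {r s : Φ}, r ∈ Ψ → s ∈ Ψ → R.p r s = 1 → ∀ {t : F} (u : F), t ≠ 0 →
      θ (y r t) = θ (y r t * y s u) := fun {r s} hr hs h t u ht => by
    have h1 : R.p (R.rf r s) r = -1 := by rw [R.p_comm, R.p_rf, h, R.p_self]; rfl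
    have h2 : R.rf (R.rf r s) r = s := (R.ext' (by
      rw [R.p_rf, h1, R.p_rf, R.p_comm s r, h, R.p_self]; rfl)).symm
    have h3 := R.N_ne (F := F) h1
    rw [← hθ.apply_conj _ (y (R.rf r s) ((R.N (R.rf r s) r : F)⁻¹ * u * t⁻¹)),
      L.comm1 _ (hΨ r hr s hs) r hr h1, h2]
    congr 3
    field_simp
  rw [key hr hs h u ht, key hs hr (R.p_comm s r ▸ h) t hu, (L.comm0 r hr s hs (by omega) t u).eq]

theorem const (hΨ : R.Cl Ψ) {θ : H → ℂ} (hθ : IsClassFunction H θ) {δ : Φ} (hδ : δ ∈ Ψ)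
    (h1 : ∃ s ∈ Ψ, R.p δ s = 1) (h2 : ∀ r ∈ Ψ, r ≠ δ → ∃ s ∈ Ψ, R.p r s = 1 ∧ R.p δ r < R.p δ s)
    {r : Φ} (hr : r ∈ Ψ) {t : F} (ht : t ≠ 0) : θ (y r t) = θ (y δ 1) := by
  induction hn : (2 - R.p δ r).toNat using Nat.strong_induction_on generalizing r t with
  | _ n ih =>
    by_cases h : r = δ
    · obtain ⟨s, hs, h3⟩ := h1
      rw [h, L.conj hΨ hθ hδ hs h3 ht one_ne_zero, L.conj hΨ hθ hδ hs h3 one_ne_zero one_ne_zero]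
    · obtain ⟨s, hs, h3, h4⟩ := h2 r hr h
      have := RS.p_le_two (R := R) δ s
      rw [L.conj hΨ hθ hr hs h3 ht one_ne_zero, ih _ (by omega) hs one_ne_zero rfl]

end Lace

/-- the combinatorial conditions for one step -/
structure StepC [Fintype Φ] (R : RS Φ) (S0 S1 : Set Φ) [DecidablePred (· ∈ S1)] (o : Φ → ℤ) (δ : Φ)
    (a : ℕ) : Prop where
  card : ∀ β ∈ S1, #{γ | γ ∈ S1 ∧ R.p β γ = 1} = a
  norm : ∀ β ∈ S1, ∀ γ ∈ S1, R.p β γ ≤ 0 →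
    ∃ ε ∈ S0, R.p ε γ = 1 ∧ (R.p ε β = 0 ∨ R.p ε β = -1 ∧ R.p β γ = -1)
  mono : ∀ β ∈ S1, ∀ γ ∈ S1, R.p β γ = 1 → o γ < o β → R.p δ γ ≤ R.p δ β
  lin : ∀ β ∈ S1, R.p δ β ≤ 0 → ∃ ε ∈ S0, R.p δ ε = 1 ∧ R.p ε β ≤ 0 ∧ R.p δ β ≤ R.p ε β
  mem : δ ∈ S0
  ex : ∃ s ∈ S0, R.p δ s = 1
  conn : ∀ r ∈ S0, r ≠ δ → ∃ s ∈ S0, R.p r s = 1 ∧ R.p δ r < R.p δ s

theorem Lace.aStep {H : Type*} [Group H] {R : RS Φ} {Ψ : Set Φ} {y : Φ → F → H} {l : Φ → ℤ}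
    (L : Lace R {r | r ∈ Ψ ∧ 0 ≤ l r} y) (hΨ : R.Cl Ψ) (hl : R.Add l)
    (h2 : ∀ r ∈ Ψ, l r = 2 → ∀ t, y r t = 1) :
    AStep R {r | r ∈ Ψ ∧ l r = 0} {r | r ∈ Ψ ∧ l r = 1} y := by
  have k : ∀ r, r ∈ {r | r ∈ Ψ ∧ l r = 0} ∨ r ∈ {r | r ∈ Ψ ∧ l r = 1} → r ∈ {r | r ∈ Ψ ∧ 0 ≤ l r} := by
    rintro r (h | h) <;> exact ⟨h.1, by have := h.2; omega⟩
  refine ⟨fun r hr => L.add r (k r hr), fun r hr s hs t u => ?_,
    fun r hr s hs => hl.p_ge (by rw [hr.2, hs.2]; omega),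
    fun r hr s hs => L.comm0 r (k r (Or.inl hr)) s (k s hs),
    fun r hr s hs h => ⟨_, R.N_ne h, L.comm1 r (k r (Or.inl hr)) s (k s hs) h⟩,
    fun r hr s hs h => ⟨hΨ r hr.1 s hs.1, by rw [hl, hr.2, hs.2]; simp⟩⟩
  by_cases h : R.p r s = -1
  · have := L.comm1 r (k r (Or.inr hr)) s (k s (Or.inr hs)) h t u
    rw [h2 _ (hΨ r hr.1 s hs.1) (by rw [hl, hr.2, hs.2, h]; rfl), mul_one] at this
    exact mul_inv_eq_iff_eq_mul.1 this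
  · have := hl.p_ge (r := r) (s := s) (by rw [hr.2, hs.2]; omega)
    exact L.comm0 r (k r (Or.inr hr)) s (k s (Or.inr hs)) (by omega) t u

theorem Lace.step [Fintype Φ] [DecidableEq Φ] [Fintype F] {H : Type u} [Group H] [Finite H] {R : RS Φ}
    {Ψ : Set Φ} [DecidablePred (· ∈ Ψ)] {y : Φ → F → H} {l : Φ → ℤ}
    (L : Lace R {r | r ∈ Ψ ∧ 0 ≤ l r} y) (hΨ : R.Cl Ψ) (hl : R.Add l)
    (h2 : ∀ r ∈ Ψ, l r = 2 → ∀ t, y r t = 1) {o : Φ → ℤ} (ho : R.Add o) (ho' : Function.Injective o)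
    {δ : Φ} {a : ℕ} (C : StepC R {r | r ∈ Ψ ∧ l r = 0} {r | r ∈ Ψ ∧ l r = 1} o δ a) {ξ : H → ℂ}
    (hξ : IsCharacter H ξ) {d : ℕ} (hd : ξ 1 = d)
    (he : ∀ β ∈ Ψ, l β = 1 → ∀ u, u ≠ 0 → ξ 1 - ξ (y β u) = Fintype.card F ^ (a + 1))
    {e D : ℕ} (B : Bnd.{u} R {r | r ∈ Ψ ∧ l r = 0} F e D)
    (hδ : ξ 1 - ξ (y δ 1) = (e + (Fintype.card F - 1) * ∑ β with (β ∈ Ψ ∧ l β = 1) ∧ R.p δ β = 1,
      Fintype.card F ^ #{γ | (γ ∈ Ψ ∧ l γ = 1) ∧ R.p β γ = 1 ∧ o γ < o β} : ℕ)) :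
    D + (Fintype.card F - 1) * ∑ β with β ∈ Ψ ∧ l β = 1,
      Fintype.card F ^ #{γ | (γ ∈ Ψ ∧ l γ = 1) ∧ R.p β γ = 1 ∧ o γ < o β} ≤ d := by
  obtain ⟨ψ, hψ⟩ := (AddChar.exists_apply_ne_zero (α := F)).2 (one_ne_zero (α := F))
  replace hψ : ψ ≠ 0 := fun e => hψ (by simp [e])
  have A := L.aStep hΨ hl h2
  have k : ∀ ε ∈ {r | r ∈ Ψ ∧ l r = 0}, ∀ γ ∈ {r | r ∈ Ψ ∧ l r = 1},
      R.rf ε γ ∈ {r | r ∈ Ψ ∧ l r = 1} := fun r hr s hs =>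
    ⟨hΨ r hr.1 s hs.1, by rw [hl, hr.2, hs.2]; simp⟩
  obtain ⟨h3, h4⟩ := A.main hψ hξ o ho ho'.injOn C.card (fun β hβ => he β hβ.1 hβ.2)
    (fun β hβ γ hγ h => ⟨hΨ _ hγ.1 _ hβ.1, by rw [hl, hβ.2, hγ.2, R.p_comm, h]; rfl⟩)
    (fun β hβ γ hγ h => Or.inl (by
      obtain ⟨ε, k1, k2, k3⟩ := C.norm β hβ γ hγ h
      exact ⟨ε, k1, k2, k ε k1 γ hγ, k3⟩))
    fun β hβ γ hγ => hl.p_ge (by rw [hβ.2, hγ.2]; omega)
  replace h4 := h4 δ C.mem C.mono (fun β hβ => by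
    have : R.p δ β ≤ 1 := R.p_le fun e => by have := C.mem.2; have := hβ.2; rw [← e] at this; omega
    by_cases h : R.p δ β = 1
    · exact Or.inl ⟨h, k δ C.mem β hβ⟩
    · obtain ⟨ε, k1, k2, k3⟩ := C.lin β hβ (by omega)
      exact Or.inr ⟨by omega, Or.inl ⟨ε, k1, k2, hΨ.lev hl ε k1 δ C.mem, k3⟩⟩) 1 one_ne_zero
  obtain ⟨y', L', h5⟩ := L.restrict (acStab A.zeta (lc ψ 0)) (Ψ' := {r | r ∈ Ψ ∧ l r = 0})
    (fun r hr => ⟨hr.1, hr.2.ge⟩) (fun r hr s hs _ => hΨ.lev hl r hr s hs)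
    fun r hr => A.mem_stab hr fun _ _ => rfl
  have hθ := isCharacter_acStab (ζ := A.zeta) hξ (lc ψ 0)
  obtain ⟨d', hd'⟩ := exists_acomp_one hξ A.zeta (lc ψ 0)
  have hq : 1 ≤ Fintype.card F := Fintype.card_pos
  have := B _ y' _ d' L' hθ hd' fun r hr t ht => by
    rw [L'.const (hΨ.lev hl) hθ.isClassFunction C.mem C.ex C.conn hr ht, h5 δ C.mem]
    rw [hδ] at h4
    push_cast [hq] at h4
    exact (add_right_cancel h4).symm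
  rw [hd, AStep.m, hd'] at h3
  have h6 : d = d' + (Fintype.card F - 1) * ∑ β with β ∈ Ψ ∧ l β = 1,
      Fintype.card F ^ #{γ | (γ ∈ Ψ ∧ l γ = 1) ∧ R.p β γ = 1 ∧ o γ < o β} := by
    refine Nat.cast_injective (R := ℂ) ?_
    push_cast [hq]
    exact h3
  omega

theorem Bnd.step [Fintype Φ] [DecidableEq Φ] [Fintype F] {R : RS Φ}
    {Ψ : Set Φ} [DecidablePred (· ∈ Ψ)] {l : Φ → ℤ} (hΨ : R.Cl Ψ) (hl : R.Add l)
    (h2 : ∀ r ∈ Ψ, l r ≠ 2) {o : Φ → ℤ} (ho : R.Add o) (ho' : Function.Injective o)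
    {δ : Φ} {a : ℕ} (C : StepC R {r | r ∈ Ψ ∧ l r = 0} {r | r ∈ Ψ ∧ l r = 1} o δ a)
    {e D : ℕ} (B : Bnd.{u} R {r | r ∈ Ψ ∧ l r = 0} F e D)
    (hδ : Fintype.card F ^ (a + 1) = e + (Fintype.card F - 1) *
      ∑ β with (β ∈ Ψ ∧ l β = 1) ∧ R.p δ β = 1,
      Fintype.card F ^ #{γ | (γ ∈ Ψ ∧ l γ = 1) ∧ R.p β γ = 1 ∧ o γ < o β}) :
    Bnd.{u} R Ψ F (Fintype.card F ^ (a + 1)) (D + (Fintype.card F - 1) * ∑ β with β ∈ Ψ ∧ l β = 1,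
      Fintype.card F ^ #{γ | (γ ∈ Ψ ∧ l γ = 1) ∧ R.p β γ = 1 ∧ o γ < o β}) :=
  fun _ _ _ _ _ _ L hξ hd he => Lace.step (l := l) ⟨fun r hr => L.add r hr.1,
    fun r hr s hs => L.comm0 r hr.1 s hs.1, fun r hr s hs => L.comm1 r hr.1 s hs.1⟩ hΨ hl
    (fun r hr h => absurd h (h2 r hr)) ho ho' C hξ hd
    (fun β hβ _ u hu => by rw [he β hβ u hu, Nat.cast_pow]) B (hδ ▸ he δ C.mem.1 1 one_ne_zero)

theorem Bnd.base [Fintype F] {R : RS Φ} {Ψ : Set Φ} {κ : Type} [Fintype κ] [DecidableEq κ]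
    (h5 : 5 ≤ Fintype.card κ) (ρ : κ → κ → Φ) (sg : κ → κ → ℤ) (h1 : ∀ a b, a ≠ b → ρ a b ∈ Ψ)
    (h2 : ∀ a b c, a ≠ b → b ≠ c → a ≠ c → R.p (ρ a b) (ρ b c) = -1 ∧ R.p (ρ a c) (ρ a b) = 1 ∧
      R.p (ρ a c) (ρ b c) = 1 ∧ R.N (ρ a b) (ρ b c) * sg a b * sg b c = sg a c)
    (h3 : ∀ a b c d, a ≠ b → c ≠ d → b ≠ c → a ≠ d → 0 ≤ R.p (ρ a b) (ρ c d))
    {a b : κ} (hab : a ≠ b) (h4 : sg a b = 1) {e : ℕ} (he : e ≠ 0) {m : ℕ}
    (hm : (Fintype.card F - 1) * m + 1 = Fintype.card F ^ (Fintype.card κ - 1)) :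
    Bnd.{u} R Ψ F e (Fintype.card F * m) := by
  intro H _ _ y ξ d L hξ hd h
  have S : Chev.StA fun a b t => y (ρ a b) (sg a b * t) := by
    refine ⟨fun a b k t u => by rw [L.add _ (h1 a b k), mul_add], fun a b c k1 k2 k3 t u => ?_,
      fun a b c d k1 k2 k3 k4 t u => L.comm0 _ (h1 a b k1) _ (h1 c d k2) (h3 a b c d k1 k2 k3 k4) _ _⟩
    obtain ⟨l1, l2, l3, l4⟩ := h2 a b c k1 k2 k3
    rw [← mul_inv_eq_iff_eq_mul, L.comm1 _ (h1 a b k1) _ (h1 b c k2) l1,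
      show R.rf (ρ a b) (ρ b c) = ρ a c from (R.ext' (by rw [R.p_rf, l1, l2, l3, R.p_self]; rfl)).symm,
      (L.comm0 _ (h1 a c k3) _ (h1 b c k2) (by omega) _ _).eq, ← l4]
    congr 2
    push_cast; ring
  obtain ⟨φ, hφ⟩ := Known.stA_exists_hom S (by omega)
  have key : ∀ χ, IsCharacter (SpecialLinearGroup κ F) χ → χ (Chev.slE a b 1) ≠ χ 1 →
      ∀ d : ℕ, χ 1 = d → Fintype.card F * m ≤ d := fun χ hχ => by
    refine hχ.induction_on (P := fun χ => χ (Chev.slE a b 1) ≠ χ 1 → ∀ d : ℕ, χ 1 = d → _ ≤ d)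
      (by simp) fun η θ hη hθ ih k d hd => ?_
    obtain ⟨n, h0, hn⟩ := hη.exists_nat_degree_pos
    obtain ⟨n', hn'⟩ := hθ.exists_nat_degree
    have : n + n' = d := by rw [Pi.add_apply, hn, hn'] at hd; exact_mod_cast hd
    by_cases k' : θ (Chev.slE a b 1) = θ 1
    · have := SLDeg.le_degree hη hn (by
        by_contra k2
        obtain rfl : n = 1 := by omega
        obtain ⟨c, l1, l2⟩ := ENat.exists_ne_ne_of_three_le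
          (by rw [ENat.card_eq_coe_fintype_card]; exact_mod_cast (by omega)) a b
        refine k ?_
        rw [Pi.add_apply, Pi.add_apply, k', apply_of_mem_charKer (hη.commutator_le_charKer_iff.2
          (by simpa using hn) ?_)]
        rw [← one_mul (1 : F), Chev.stA_slE.eq_comm l1.symm l2 hab]
        exact Subgroup.commutator_mem_commutator (Subgroup.mem_top _) (Subgroup.mem_top _))
        (by omega) (Or.inl h5) hm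
      omega
    · have := ih k' n' hn'
      omega
  refine key _ (hξ.comp φ) (fun k => he ?_) d (by rw [map_one, hd])
  have := h _ (h1 a b hab) 1 one_ne_zero
  rw [hφ a b 1 hab, h4, map_one, Int.cast_one, mul_one] at k
  rw [k, sub_self] at this
  exact_mod_cast this.symm

theorem dvd_index_mul {G : Type*} [Group G] [Finite G] {χ : G → ℂ} (hχ : IsIrrCharacter G χ) {d e : ℕ}
    (hd : χ 1 = d) {P Z : Subgroup G} (h1 : Z ≤ P) (h2 : P ≤ Subgroup.normalizer (Z : Set G))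
    (he : ∀ z ∈ Z, z ≠ 1 → χ 1 - χ z = e) : d ∣ P.index * (Nat.card Z - 1) * e := by
  classical
  have := Fintype.ofFinite G
  have hd0 : d ≠ 0 := by
    obtain ⟨n, h0, hn⟩ := hχ.exists_nat_degree_pos
    have : n = d := by exact_mod_cast hn.symm.trans hd
    omega
  have hθ : IsClassFunction P fun g => if g.1 ∈ Z ∧ g.1 ≠ 1 then (1 : ℂ) else 0 := fun g x =>
    if_congr (and_congr ((Subgroup.mem_normalizer_iff.1 (h2 x.2)) g).symm (by simp)) rfl rfl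
  have h3 := irr_isIntegral_sum_mul_div hχ _ (indFun_isClassFunction P
    fun g => if g.1 ∈ Z ∧ g.1 ≠ 1 then (1 : ℂ) else 0) fun g => by
      rw [indFun_eq_sum_cosets P hθ]
      refine IsIntegral.sum _ fun q _ => ?_
      rw [extendByZero_eq_dite]
      split_ifs
      exacts [isIntegral_one, isIntegral_zero, isIntegral_zero]
  have h4 : ∑ h : P, (if h.1 ∈ Z ∧ h.1 ≠ 1 then (1 : ℂ) else 0) * χ h =
      (Nat.card Z - 1 : ℕ) * (d - e) := by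
    rw [sum_congr rfl (g := fun h : P => if h.1 ∈ Z ∧ h.1 ≠ 1 then (d - e : ℂ) else 0) fun h _ => ?_,
      ← sum_filter, sum_const, nsmul_eq_mul]
    · congr 2
      rw [← Nat.card_congr (Subgroup.subgroupOfEquivOfLe h1).toEquiv, Nat.card_eq_fintype_card,
        Fintype.card_subtype, ← card_erase_of_mem (a := 1) (by simp)]
      congr 1
      ext h
      simp [Subgroup.mem_subgroupOf, and_comm]
    · split_ifs with k
      · rw [← he h k.1 k.2, hd]; ring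
      · exact zero_mul _
  rw [sum_indFun_mul P _ hχ.isClassFunction, h4, hd] at h3
  refine dvd_of_isIntegral_div hd0 ?_
  have h5 : (d : ℂ) ≠ 0 := by exact_mod_cast hd0
  refine (congrArg (IsIntegral ℤ) ?_).mp
    ((isIntegral_natCast (R := ℤ) (P.index * (Nat.card Z - 1))).sub h3)
  rw [Nat.cast_mul, Nat.cast_mul, Nat.cast_mul]
  field_simp
  ring

end Cfsg.Lib.Char.MD
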