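import Cfsg.Agent.Char.MDLace
import Cfsg.Agent.Class.MinDegO1
import Cfsg.Agent.Class.OrthSimple

/-! Minimal character degrees of the orthogonal groups: the decomposition of a character with
respect to the unipotent radical of the stabiliser of a singular point. -/

set_option autoImplicit false

namespace Cfsg.Lib.Char.MDO

open QuadraticMap Module Finset Cfsg.Lib.Class Cfsg.Lib.Class.Orth Cfsg.Lib.Class.MD

variable {F V : Type*} [Field F] [AddCommGroup V] [Module F V] {Q : QuadraticForm F V}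

/-- an Eichler transformation in the group they generate -/
noncomputable def ee (Q : QuadraticForm F V) (p w : V) : EG Q := ⟨eich Q p w, eich_mem_EG p w⟩

theorem conj_ee (g : EG Q) (p w : V) : g * ee Q p w * g⁻¹ = ee Q (g.1.1 p) (g.1.1 w) :=
  Subtype.ext (conj_eich g.1 p w)

theorem ee_add {p w w' : V} (hp : Q p = 0) (hw : polar Q p w = 0) (hw' : polar Q p w' = 0) :
    ee Q p (w + w') = ee Q p w * ee Q p w' := Subtype.ext (eich_add hp hw hw')

/-- a basis of a totally singular plane -/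
structure LR (Q : QuadraticForm F V) (u v : V) : Prop where
  l : Q u = 0
  r : Q v = 0
  lr : polar Q u v = 0
  ne : u ≠ 0
  nm : v ∉ spanL F [u]

theorem LR.li {u v : V} (h : LR Q u v) : LinearIndependent F ![u, v] :=
  linearIndependent_pair_of h.ne h.nm

theorem LR.of_li {u v : V} (h : LinearIndependent F ![u, v]) (h1 : Q u = 0) (h2 : Q v = 0)
    (h3 : polar Q u v = 0) : LR Q u v :=
  ⟨h1, h2, h3, h.ne_zero 0, fun k => by
    obtain ⟨c, hc⟩ := mem_spanL_singleton.1 k
    exact (LinearIndependent.pair_iff' (h.ne_zero 0)).1 h c hc⟩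

theorem LR.rl {u v : V} (h : LR Q u v) : polar Q v u = 0 := by rw [polar_comm, h.lr]

theorem LR.ne' {u v : V} (h : LR Q u v) : v ≠ 0 := fun k => h.nm (k ▸ zero_mem _)

theorem LR.symm {u v : V} (h : LR Q u v) : LR Q v u :=
  .of_li (LinearIndependent.pair_symm_iff.1 h.li) h.r h.l h.rl

theorem LR.smul {u v : V} (h : LR Q u v) {a : F} (ha : a ≠ 0) : LR Q u (a • v) :=
  ⟨h.l, by rw [Q_smul, h.r, mul_zero], by rw [polar_smul_right', h.lr, mul_zero], h.ne, fun k =>
    h.nm ((Submodule.smul_mem_iff _ ha).1 k)⟩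

theorem LR.map {u v : V} (h : LR Q u v) (g : O Q) : LR Q (g.1 u) (g.1 v) :=
  ⟨by rw [O_map, h.l], by rw [O_map, h.r], by rw [O_polar, h.lr], by simpa using h.ne, fun k => by
    obtain ⟨c, hc⟩ := mem_spanL_singleton.1 k
    exact h.nm (mem_spanL_singleton.2 ⟨c, g.1.injective (by rw [map_smul, hc])⟩)⟩

/-- the linear character of `V` given by a vector -/
def lam (ψ : AddChar F ℂ) (Q : QuadraticForm F V) (w : V) : AddChar V ℂ where
  toFun x := ψ (polar Q w x)
  map_zero_eq_one' := by simp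
  map_add_eq_mul' x y := by rw [polar_add_right, AddChar.map_add_eq_mul]

theorem lam_apply (ψ : AddChar F ℂ) (w x : V) : lam ψ Q w x = ψ (polar Q w x) := rfl

theorem lam_zero (ψ : AddChar F ℂ) : lam ψ Q 0 = 0 := by
  ext x; simp [lam_apply]

theorem lam_injective (hQ : (polarBilin Q).Nondegenerate) {ψ : AddChar F ℂ} (hψ : ψ ≠ 0) :
    Function.Injective (lam ψ Q) := fun w w' e => by
  refine sub_eq_zero.1 (nondeg_left hQ fun y => MD.eq_zero_of_char hψ fun u => ?_)
  have := DFunLike.congr_fun e (u • y)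
  rw [lam_apply, lam_apply, polar_smul_right', polar_smul_right'] at this
  rw [polar_sub_left, sub_mul, AddChar.map_sub_eq_div, mul_comm, this, mul_comm, div_self]
  exact (AddChar.val_isUnit ψ _).ne_zero

theorem lam_bijective [Fintype V] (hQ : (polarBilin Q).Nondegenerate) {ψ : AddChar F ℂ} (hψ : ψ ≠ 0) :
    Function.Bijective (lam ψ Q) :=
  (Fintype.bijective_iff_injective_and_card _).2 ⟨lam_injective hQ hψ, by rw [AddChar.card_eq]⟩

section Witt

variable [FiniteDimensional F V] [Finite F]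

theorem witt_EG (hQ : (polarBilin Q).Nondegenerate) (hE : ¬ Exc Q) (hn : 3 ≤ finrank F V) {ι : Type*}
    {v : ι → V} (h : ∀ c, c ≠ 0 → ∃ z, (∀ i, polar Q (v i) z = 0) ∧ Q z = c) (g : O Q) :
    ∃ k : EG Q, ∃ h : O Q, (∀ i, h.1 (v i) = v i) ∧ k.1 = g * h := by
  rw [← commutator_eq_EG hQ hE hn]
  refine refl_induction hQ hE
    (P := fun g => ∃ k : commutator (O Q), ∃ h : O Q, (∀ i, h.1 (v i) = v i) ∧ k.1 = g * h)
    ⟨1, 1, fun _ => rfl, by simp⟩ ?_ g
  rintro g y hy ⟨k, h', h1, h2⟩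
  obtain ⟨z, h3, h4⟩ := h _ hy
  have h5 := (inferInstance : (commutator (O Q)).Normal).conj_mem _
    (refl_mul_refl_mem_commutator hQ hy one_ne_zero (b := z) (by rw [h4]; ring)) g
  refine ⟨⟨_, h5⟩ * k, refl Q z * h', fun i => ?_, ?_⟩
  · rw [O_mul_apply, h1, refl_apply_of_orth (h3 i)]
  · rw [Subgroup.coe_mul, h2]
    group

theorem rep_of_ts (hQ : (polarBilin Q).Nondegenerate) {ι : Type*} [Fintype ι] {v : ι → V}
    (hv : LinearIndependent F v) (h0 : ∀ i, Q (v i) = 0) (h1 : ∀ i j, polar Q (v i) (v j) = 0)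
    (hn : 2 * Fintype.card ι + 2 ≤ finrank F V) (c : F) :
    ∃ z, (∀ i, polar Q (v i) z = 0) ∧ Q z = c := by
  classical
  obtain ⟨f, hf⟩ := Known.exists_isHyp_of_linearIndependent hQ hv h0 h1
  obtain ⟨z, hz⟩ := Known.exists_quad_eq (hf.perp_nondegenerate hQ)
    (by have := hf.finrank_perp; omega) c
  exact ⟨z, (Known.mem_hypPerp.1 z.2).1, hz⟩

theorem exists_EG_one (hQ : (polarBilin Q).Nondegenerate) (hE : ¬ Exc Q) (hn : 4 ≤ finrank F V)
    {x y : V} (hx : x ≠ 0) (hy : y ≠ 0) (h : Q x = Q y) : ∃ g : EG Q, g.1.1 x = y := by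
  obtain ⟨g, hg⟩ := exists_O_apply_eq hQ hx hy h
  refine (witt_EG hQ hE (by omega) (v := fun _ : Unit => x) (fun c _ => ?_) g).elim
    fun k ⟨h', h1, h2⟩ => ⟨k, by rw [h2, O_mul_apply, h1 (), hg]⟩
  by_cases h0 : Q x = 0
  · exact rep_of_ts hQ (linearIndependent_unique_iff.2 hx) (fun _ => h0)
      (fun _ _ => by rw [polar_self', h0, mul_zero]) (by simpa using hn) c
  · obtain ⟨z, h1, h2, h3⟩ := exists_sing_orth_notMem hQ [x] [] (by simpa using hn)
    obtain ⟨f, h4, h5, h6⟩ := exists_partner_orth hQ (l := [x]) h1 (fun k => by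
      obtain ⟨a, rfl⟩ := mem_spanL_singleton.1 k
      rw [Q_smul, mul_eq_zero, or_iff_left h0, pow_eq_zero_iff two_ne_zero] at h1
      exact h3 (by rw [h1, zero_smul]; exact zero_mem _)) h2
    refine ⟨z + c • f, fun _ => ?_, ?_⟩
    · qsimp; rw [h2 x (by simp), h4 x (by simp)]; ring
    · qsimp; rw [h1, h5, h6]; ring

theorem exists_EG_pair (hQ : (polarBilin Q).Nondegenerate) (hn : 6 ≤ finrank F V) {u v u' v' : V}
    (h : LR Q u v) (h' : LR Q u' v') : ∃ g : EG Q, g.1.1 u = u' ∧ g.1.1 v = v' := by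
  obtain ⟨g, h1, h2⟩ := exists_O_pair hQ h.li h'.li (by rw [h.l, h'.l]) (by rw [h.r, h'.r])
    (by rw [h.lr, h'.lr])
  obtain ⟨k, g', h3, h4⟩ := witt_EG hQ (not_exc_of_finrank (by omega)) (by omega) (v := ![u, v])
    (fun c _ => rep_of_ts hQ h.li (fun i => by fin_cases i <;> simp [h.l, h.r])
      (fun i j => by fin_cases i <;> fin_cases j <;> simp [h.l, h.r, h.lr, h.rl])
      (by simpa using hn) c) g
  exact ⟨k, by rw [h4, O_mul_apply, show g'.1 u = u from h3 0, h1],
    by rw [h4, O_mul_apply, show g'.1 v = v from h3 1, h2]⟩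

end Witt

/-- the components of a character along the radical of a point stabiliser, as functions on the
Levi factor -/
structure Dec (Q : QuadraticForm F V) (M : V → EG Q → ℂ) : Prop where
  conj : ∀ (g : EG Q) w h, M (g.1.1 w) (g * h * g⁻¹) = M w h
  zero : ∀ w (h : EG Q), h.1.1 w ≠ w → M w h = 0
  char : ∀ w, IsCharacter (MulAction.stabilizer (EG Q) w) fun h => M w h
  char0 : IsCharacter (EG Q) (M 0)

/-- the orthogonal complement of a hyperbolic pair -/
abbrev PW (Q : QuadraticForm F V) (e f : V) : Submodule F V := orth Q (Submodule.span F {e, f})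

/-- the form on the complement of a hyperbolic pair -/
abbrev QW (Q : QuadraticForm F V) (e f : V) : QuadraticForm F (PW Q e f) := Q.restrict (PW Q e f)

variable [FiniteDimensional F V] {e f : V}

theorem exists_dec [Fintype F] [Fintype (PW Q e f)] (hQ : (polarBilin Q).Nondegenerate)
    (hn : 5 ≤ finrank F V) (h2 : ∀ c, ∃ z : PW Q e f, Q z = c) (he : Q e = 0) (hf : Q f = 0)
    (hef : polar Q e f = 1) {χ : EG Q → ℂ} (hχ : IsCharacter (EG Q) χ) {ψ : AddChar F ℂ} (hψ : ψ ≠ 0) :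
    ∃ (ι : EG (QW Q e f) →* EG Q) (M : PW Q e f → EG (QW Q e f) → ℂ),
      Dec _ M ∧ (∀ h, ∑ w, M w h = χ (ι h)) ∧
      (∀ x : PW Q e f, χ (ee Q e x) = ∑ w : PW Q e f, ψ (polar Q w.1 x.1) * M w 1) ∧
      (∀ b : F, b ≠ 0 → ∃ τ : O (QW Q e f), ∀ w, M (τ.1 w) 1 = M (b • w) 1) ∧
      (∀ u v, ι (ee _ u v) = ee Q u v) ∧ (∀ h (w : PW Q e f), (ι h).1.1 w = h.1.1 w) ∧
      ∀ h, (ι h).1.1 e = e ∧ (ι h).1.1 f = f := by
  have hW : Disjoint (PW Q e f) (orth Q (PW Q e f)) := by
    rw [orth_orth hQ]; exact (hyp_disjoint he hf hef).symm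
  have hQ' := restrict_nondeg_iff.2 hW
  have he' : e ∈ orth Q (PW Q e f) := le_orth_orth _ (Submodule.subset_span (by simp))
  have hf' : f ∈ orth Q (PW Q e f) := le_orth_orth _ (Submodule.subset_span (by simp))
  let ι : EG (QW Q e f) →* EG Q :=
    ((extend hQ hW).comp (EG _).subtype).codRestrict _ fun g =>
      EG_le (K := (EG Q).comap (extend hQ hW)) (fun p w _ _ => by
        rw [Subgroup.mem_comap, extend_eich]; exact eich_mem_EG _ _) g.2
  let ζ : AddChar (PW Q e f) (EG Q) :=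
    { toFun := fun w => ee Q e w
      map_zero_eq_one' := Subtype.ext (eich_zero e)
      map_add_eq_mul' := fun a b => ee_add he (mem_orth_pair.1 a.2).1 (mem_orth_pair.1 b.2).1 }
  have h1 : ∀ h (w : PW Q e f), (ι h).1.1 w = h.1.1 w := fun h w => extend_apply_left hQ hW h.1 w
  have h3 : ∀ h, (ι h).1.1 e = e := fun h => extend_apply_right hQ hW h.1 he'
  have h4 : ∀ h a, ι h * ζ a = ζ (h.1.1.toEquiv a) * ι h := fun h a => by
    rw [← mul_inv_eq_iff_eq_mul]
    exact (conj_ee (ι h) e a).trans (by rw [h1, h3]; rfl)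
  refine ⟨ι, fun w h => acomp ζ χ (lam ψ (QW Q e f) w) (ι h), ⟨fun g w h => ?_, fun w h k => ?_, fun w => ?_, ?_⟩,
    fun h => ?_, fun x => ?_, fun b hb => ?_, fun u v => Subtype.ext (extend_eich hQ hW u v), h1,
    fun h => ⟨h3 h, extend_apply_right hQ hW h.1 hf'⟩⟩
  · rw [map_mul, map_mul, map_inv]
    exact acomp_conj hχ.isClassFunction _ (h4 g) (fun a => congrArg ψ (O_polar g.1 w a)) _
  · by_contra k'
    refine k (O_inv_apply_of_eq (g := h.1⁻¹) (lam_injective hQ' hψ (ψ := ψ) (AddChar.ext _ _ fun a => ?_)))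
    by_contra k2
    refine k' (acomp_eq_zero hχ.isClassFunction (h4 h a) fun k3 => k2 ?_)
    rw [k3, lam_apply, lam_apply, ← O_polar h.1, O_apply_inv]
    rfl
  · exact isCharacter_acomp hχ (ι.comp (MulAction.stabilizer _ w).subtype) fun h =>
      ⟨_, h4 h, fun a => congrArg ψ ((congrArg (polar _ · _) (show h.1.1.1 w = w from h.2).symm).trans
        (O_polar h.1.1 w a))⟩
  · exact isCharacter_acomp hχ ι fun h => ⟨_, h4 h, fun a => by simp [lam_zero]⟩
  · rw [← sum_acomp ζ χ, ← (lam_bijective hQ' hψ).sum_comp]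
  · have := apply_eq_sum_acomp ζ χ 1 x
    rw [one_mul, ← (lam_bijective hQ' hψ).sum_comp] at this
    simp only [map_one]
    exact this
  · obtain ⟨k, g, h5, h6⟩ := witt_EG hQ (not_exc_of_finrank (by omega)) (by omega) (v := ![e, f])
      (fun c _ => (h2 c).elim fun z hz => ⟨z, fun i => by
        fin_cases i <;> simp [mem_orth_pair.1 z.2], hz⟩) (tor Q e f b)
    obtain ⟨τ, rfl⟩ : g ∈ (extend hQ hW).range := by
      rw [range_extend, orth_orth hQ, mem_fixG_span]
      rintro _ (rfl | rfl)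
      exacts [h5 0, h5 1]
    refine ⟨τ, fun w => ?_⟩
    have := acomp_conj (ζ := ζ) hχ.isClassFunction (l := lam ψ (QW Q e f) (τ.1 w)) (l' := lam ψ (QW Q e f) (b • w)) (γ := k)
      (τ.1.toEquiv.trans (MulAction.toPerm (Units.mk0 b hb))) (fun a => ?_) (fun a => ?_) 1
    · simpa using this
    · rw [← mul_inv_eq_iff_eq_mul]
      refine (conj_ee k e a).trans (Subtype.ext ?_)
      have h7 := mem_orth_pair.1 (τ.1 a).2
      rw [h6, O_mul_apply, O_mul_apply, extend_apply_left, extend_apply_right hQ hW τ he',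
        tor_apply_left he hf hef hb, tor_apply_orth b h7.1 h7.2]
      exact eich_smul_left he h7.1 b
    · change ψ (polar _ (τ.1 w) (b • τ.1 a)) = ψ _
      rw [polar_smul_right', O_polar, polar_smul_left']

end Cfsg.Lib.Char.MDO
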