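import Cfsg.Agent.Char.MDO9

/-! Minimal character degrees of the odd-dimensional orthogonal groups. -/

set_option autoImplicit false

namespace Cfsg.Lib.Char.MDO

open QuadraticMap Module Finset Cfsg.Lib.Class Cfsg.Lib.Class.Orth Cfsg.Lib.Class.MD

universe u

variable {F : Type*} {V : Type u} [Field F] [AddCommGroup V] [Module F V] {Q : QuadraticForm F V}

theorem exists_swap {e f x y : V} (h : Hp Q e f) (h' : Hp Q x y) (h1 : polar Q e x = 0) (h2 : polar Q e y = 0)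
    (h3 : polar Q f x = 0) (h4 : polar Q f y = 0) : ∃ n ∈ EG Q, n.1 e = x ∧ n.1 f = y ∧
      ∀ T : O Q, T.1 e = e → T.1 f = f → T.1 x = x → T.1 y = y → T * n * T⁻¹ = n := by
  have k1 := eich_apply h.l (w := -y) (by rw [polar_neg_right, h2, neg_zero])
  have k2 := eich_apply h'.l (w := f) (by rw [polar_comm, h3])
  refine ⟨eich Q e (-y) * eich Q x f * eich Q e (-y), mul_mem (mul_mem (eich_mem_EG _ _) (eich_mem_EG _ _))
    (eich_mem_EG _ _), ?_, ?_, fun T k3 k4 k5 k6 => ?_⟩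
  · simp [k1, k2, h.l, h.r, h.lr, h'.r, h'.lr, h1, h2, polar_comm _ x e]
  · simp [k1, k2, h.r, h.lr, h'.r, h'.lr, h2, h3, h4, polar_comm _ f e, polar_comm _ y f, polar_comm _ y x,
      polar_comm _ y e]
  · rw [← conj_mul, ← conj_mul, conj_eich, conj_eich, map_neg, k3, k4, k5, k6]

theorem eq_zero_of_invol {g : O Q} (hg : g * g = 1) {w : V} {a : Fˣ} (h : g.1 w = (a : F) • w) (ha : a ^ 2 ≠ 1) :
    w = 0 := by
  have : g.1 (g.1 w) = w := by rw [← O_mul_apply, hg, O_one_apply]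
  rw [h, map_smul, h, smul_smul] at this
  exact (smul_eq_zero_iff_right (sub_ne_zero.2 fun k : (a : F) * a = 1 => ha (Units.ext (by
    rw [pow_two]; exact k)))).1 (by rw [sub_smul, this, one_smul, sub_self])

/-- the minimal degree -/
def DB (q k : ℕ) : ℕ := ∑ i ∈ range (k + 2), q ^ (2 * i)

theorem DB_eq_1' : type_of% @DB.eq_1 := @DB.eq_1

theorem DB_succ (q k : ℕ) : DB q (k + 1) = DB q k + q ^ (2 * (k + 1) + 2) := sum_range_succ _ _

theorem DB_zero (q : ℕ) : DB q 0 = 1 + q ^ (2 * 0 + 2) := by simp [DB, sum_range_succ]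

theorem DB_le {q : ℕ} (hq : 3 < q) (k : ℕ) : DB q k + 2 * q ^ (2 * k + 1) ≤ 2 * q ^ (2 * k + 2) := by
  induction k with
  | zero => rw [DB_zero]; norm_num; nlinarith
  | succ k ih =>
    have : (2 + 2 * q) * q ^ (2 * k + 2) ≤ q ^ 2 * q ^ (2 * k + 2) := Nat.mul_le_mul_right _ (by nlinarith)
    rw [DB_succ]
    ring_nf at ih this ⊢
    omega

variable [FiniteDimensional F V] [Fintype F] {e f : V} (h2 : (2 : F) ≠ 0)
include h2

omit [FiniteDimensional F V] in
theorem exists_sqChar (u : ℤˣ) : ∃ a : Fˣ, sqChar F a = u := by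
  rcases Int.units_eq_one_or u with rfl | rfl
  · exact ⟨1, map_one _⟩
  · obtain ⟨b, hb⟩ := exists_not_isSquare h2
    exact ⟨Units.mk0 b fun k => hb (by simp [k]), (sqChar_eq_neg_one_iff _).2 hb⟩

theorem exists_invol (hQ : (polarBilin Q).Nondegenerate) {k : ℕ} (hn : finrank F V = 2 * k + 3) (u : ℤˣ) :
    ∃ τ : O Q, τ * τ = 1 ∧ ds hQ h2 τ = (1, u) ∧ ∀ w, Q w = 0 → τ.1 w = w → w = 0 := by
  obtain ⟨t, ht⟩ := exists_sqChar h2 (spin hQ h2 (negO Q) * u)
  obtain ⟨v, hv⟩ := Known.exists_quad_eq hQ (by omega) (t : F)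
  have hv' : Q v ≠ 0 := hv ▸ t.ne_zero
  refine ⟨negO Q * refl Q v, ?_, ?_, fun w h3 h4 => ?_⟩
  · rw [mul_assoc, ← mul_assoc (refl Q v), negO_comm, mul_assoc, refl_mul_self, mul_one, negO_mul_self]
  · rw [map_mul, ds_refl _ _ hv']
    refine Prod.ext ?_ ?_
    · simp [ds, dick_negO h2, hn, pow_succ]
    · simp [ds, hv, ht, ← mul_assoc]
  · rw [O_mul_apply, negO_apply, refl_apply] at h4
    generalize (Q v)⁻¹ * _ = c at h4
    obtain rfl : (2⁻¹ * c) • v = w := smul_right_injective V h2 (by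
      simp only [smul_smul, mul_inv_cancel_left₀ h2]
      linear_combination (norm := module) h4)
    simp_all [Q_smul]

set_option maxHeartbeats 600000 in
theorem bd_odd (hq : 3 < Fintype.card F) (k : ℕ) : ∀ {V : Type u} [AddCommGroup V] [Module F V]
    [FiniteDimensional F V] {Q : QuadraticForm F V} {Γ : Subgroup (O Q)} {χ : O Q → ℂ}, Ok Q Γ χ k →
    ∀ d : ℕ, χ 1 = d → ∀ u v, LR Q u v → χ (eich Q u v) ≠ χ 1 → DB (Fintype.card F) k ≤ d := by
  classical
  induction k using Nat.strong_induction_on with | _ k ih => ?_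
  intro V _ _ _ Q Γ χ S d hd u v huv hne
  have : Finite V := Module.finite_of_finite F
  have hQ := S.nd
  obtain hK | hK := S.two h2 hd huv hne
  swap
  · have := DB_le hq k
    omega
  by_contra! hlt
  have main : ∀ {V : Type u} [AddCommGroup V] [Module F V] [FiniteDimensional F V] {Q : QuadraticForm F V}
      {χ : O Q → ℂ} {k : ℕ} (S : Ok Q ⊤ χ k) (d : ℕ), χ 1 = d →
      (∀ u v, LR Q u v → χ 1 - χ (eich Q u v) = Fintype.card F ^ (2 * k + 2)) →
      (∀ e f (h : Hp Q e f) (c : Fˣ), c ^ 2 ≠ 1 → ∀ (θ : Fˣ × O (QW Q e f) → ℂ) (m : ℕ), IsCharacter _ θ →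
        θ 1 = m → d + 1 = m + Fintype.card F ^ (2 * k + 2) →
        (∀ p : Fˣ × O (QW Q e f), (∀ w : PW Q e f, Q w = 0 → p.2.1 w = (p.1 : F) • w → w = 0) →
          χ (h.E S.nd p) = θ p) →
        (∀ b u v, LR (QW Q e f) u v → θ (b, 1) - θ (b, eich _ u v) = if b = 1 then (Fintype.card F : ℂ) ^ (2 * k) else
          χ (h.E S.nd (b, 1)) - χ (h.E S.nd (b, 1) * eich Q u v)) → m ≤ ‖θ (c, 1)‖) → False :=
    fun {V _ _ _ Q χ k} S d hd hK H => ns h2 hq k S hK fun e f h c hc => by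
      have : Finite V := Module.finite_of_finite F
      have := Fintype.ofFinite (PW Q e f)
      obtain ⟨θ, h1, h3, h4, h5, h6, -⟩ := S.dec h2 hq hK h
      replace h1 : IsCharacter _ θ := h1.comp ((MonoidHom.id _).codRestrict _ fun _ => trivial)
      obtain ⟨m, hm⟩ := h1.exists_nat_degree
      rw [hd, hm] at h3
      replace h3 : d + 1 = m + Fintype.card F ^ (2 * k + 2) := by exact_mod_cast h3
      have := H e f h c hc θ m h1 hm h3 (fun p hp => eq_of_le_card (h4 p trivial) hp) fun b u v huv => by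
        split_ifs with k
        · exact k ▸ h6 u v huv
        · simpa using h5 b 1 u v trivial k huv rfl rfl
      rw [← h.E_inl S.nd, eq_of_le_card (h4 _ trivial) fun w _ k => ?_, hd, Complex.natCast_re]
      · exact (show _ = (m : ℝ) + _ by exact_mod_cast h3).trans_le (add_le_add_left this _)
      · exact (smul_eq_zero_iff_right (sub_ne_zero.2 fun k : (c : F) = 1 => hc (by
          rw [Units.val_eq_one.1 k, one_pow]))).1 (by rw [sub_smul, one_smul]; exact sub_eq_zero.2 k.symm)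
  obtain rfl | ⟨j, rfl⟩ := k.eq_zero_or_eq_succ_pred.imp_right fun h => (⟨_, h⟩ : ∃ j, k = j + 1)
  · obtain rfl := S.top.resolve_right (by omega)
    refine main S d hd hK fun e f h c hc θ m h1 hm h3 _ _ => ?_
    rw [DB_zero] at hlt
    obtain rfl | rfl : m = 0 ∨ m = 1 := by omega
    · simp
    · simp [norm_lin h1 (by simpa using hm)]
  replace S : Ok Q (EG Q) χ (j + 1) := ⟨hQ, S.dim, le_rfl, .inr (by omega), S.ch.comp (Subgroup.inclusion S.le)⟩
  obtain ⟨e, f, h⟩ := exists_hp hQ (by rw [S.dim]; omega)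
  have := Fintype.ofFinite (PW Q e f)
  have hQ' := h.nd hQ
  have hn : finrank F (PW Q e f) = 2 * j + 5 := by have := h.dim hQ; have := S.dim; omega
  obtain ⟨θ, h1, h3, h4, h5, h6, -⟩ := S.dec h2 hq hK h
  have hΛ : ∀ p, h.E hQ p ∈ EG Q ↔ (1, sqChar F p.1) * ds hQ' h2 p.2 = 1 := fun p => by
    rw [mem_EG_iff hQ h2 (by rw [S.dim]; omega), h.ds_E]
  have hd' : dick (negO (QW Q e f)) = -1 := by simp [dick_negO h2, hn, pow_succ]
  obtain ⟨φ, ω, hφ, hω, h7, h8⟩ := exists_fix (h1.comp (MonoidHom.fst _ ℤˣ))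
    (((MonoidHom.snd _ _).comp ((EG Q).comap (h.E hQ)).subtype).noncommCoprod (pmHom (negO _) negO_mul_self)
      fun p u => by
        rcases Int.units_eq_one_or u with rfl | rfl
        exacts [by simp, negO_comm _]) fun τ => by
    obtain ⟨a, ha⟩ := exists_sqChar h2 (spin hQ' h2 (τ * pmHom (negO _) negO_mul_self (dick τ)))
    refine ⟨(⟨(a, τ * pmHom (negO _) negO_mul_self (dick τ)), (hΛ _).2 (Prod.ext ?_ (by simp [ha, ds]))⟩,
      dick τ), by simp [mul_assoc, ← map_mul]⟩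
    rcases Int.units_eq_one_or (dick τ) with k | k <;>
      simp [ds, k, hd', dick_mul hQ' (not_exc_of_two_ne_zero h2)]
  have h9 : ∀ u v, LR (QW Q e f) u v → φ 1 - φ (eich _ u v) = Fintype.card F ^ (2 * j + 2) := fun u v huv => by
    refine (congrArg (φ 1 - φ ·) (by simp)).trans (h8 (⟨(1, eich _ u v), by
      simpa [h.E_eich] using eich_mem_EG _ _⟩, 1) _ fun ⟨⟨⟨a, τ⟩, hp⟩, ε⟩ k => ?_)
    have k1 := congrArg Prod.fst ((hΛ _).1 hp)
    obtain rfl : τ = 1 := by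
      rcases Int.units_eq_one_or ε with rfl | rfl
      · simpa using k
      · obtain rfl : τ = negO _ := mul_right_cancel (k.trans negO_mul_self.symm)
        simp [ds, hd'] at k1
    change θ (a, 1) - θ (a * 1, 1 * eich _ u v) = _
    by_cases ha : a = 1
    · rw [ha, one_mul, one_mul]
      exact h6 u v huv
    rw [mul_one, h5 a 1 u v hp ha huv rfl rfl]
    refine S.diff h2 hq hK (by omega) hQ' hn (PW Q e f).subtype (Submodule.injective_subtype _) (fun _ => rfl)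
      hp (fun w => ⟨fun k => ?_, ?_⟩) huv
    · exact (h.eig hQ (k.trans (one_smul F w).symm) (by simpa) (by simpa [eq_comm])).imp fun _ k => k.1
    · rintro ⟨x, rfl⟩
      exact h.E_w hQ _ x
  have S₁ : Ok (QW Q e f) ⊤ φ j := ⟨hQ', hn, le_top, .inl rfl, hφ.comp (Subgroup.subtype _)⟩
  obtain ⟨d₁, hd₁⟩ := hφ.exists_nat_degree
  obtain ⟨d₂, hd₂⟩ := hω.exists_nat_degree
  obtain ⟨u₁, v₁, huv₁⟩ := exists_LR hQ' (by omega)
  have h10 := ih j (by omega) S₁ d₁ hd₁ u₁ v₁ huv₁ fun k =>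
    pow_ne_zero _ (card_cast_ne_zero F) ((h9 _ _ huv₁).symm.trans (sub_eq_zero.2 k.symm))
  have h11 : d + 1 = d₁ + d₂ + Fintype.card F ^ (2 * (j + 1) + 2) := by
    rw [hd, show θ 1 = _ from h7 1, map_one, hd₁, hd₂] at h3
    exact_mod_cast h3
  rw [DB_succ] at hlt
  obtain rfl : d₂ = 0 := by omega
  replace h7 : ∀ p, h.E hQ p ∈ EG Q → θ p = φ p.2 := fun p hp => by
    simpa [hω.eq_zero_of_apply_one (by simpa using hd₂)] using h7 (⟨p, hp⟩, 1)
  refine main S₁ d₁ hd₁ h9 fun x y h' c hc θ' m h12 hm h13 h14 h15 => ?_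
  have hQ'' := h'.nd hQ'
  have hn' : finrank F (PW (QW Q e f) x y) = 2 * j + 3 := by have := h'.dim hQ'; omega
  have hc1 : c ≠ 1 := by rintro rfl; simp at hc
  obtain ⟨τ, k1, k2, k3⟩ := exists_invol h2 hQ'' hn' (sqChar F c)
  have k4 : θ' (c, τ) = θ' (1, τ) := by
    have l1 : h.E hQ (c, h'.E hQ' (1, τ)) ∈ EG Q := (hΛ _).2 (by simp [h'.ds_E, k2])
    have l2 : h.E hQ (1, h'.E hQ' (c, τ)) ∈ EG Q := (hΛ _).2 (by simp [h'.ds_E, k2])
    rw [← h14 _ fun w _ k => eq_zero_of_invol k1 k hc, ← h14 _ fun w l k => k3 w l (k.trans (one_smul F w)),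
      ← h7 _ l1, ← h7 _ l2, ← eq_of_le_card (h4 _ l1) fun w _ k =>
        eq_zero_of_invol (by rw [← map_mul, Prod.mk_mul_mk, k1, mul_one]; exact map_one _) k hc,
      ← eq_of_le_card (h4 _ l2) fun w l k => by
        obtain ⟨z, rfl, k'⟩ := h'.eig hQ' (p := (c, τ)) k (by simpa) (by simpa [eq_comm])
        rw [k3 z l (k'.trans (one_smul F z))]
        rfl]
    obtain ⟨n, l3, l4, l5, l6⟩ := exists_swap h h'.coe (mem_orth_pair.1 x.2).1 (mem_orth_pair.1 y.2).1
      (mem_orth_pair.1 x.2).2 (mem_orth_pair.1 y.2).2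
    rw [← S.conj l3 l1, h.E_apply _ (c, _), ← conj_mul, conj_tor, l4, l5, h.E_inr, h'.E_apply, map_mul, ← h.E_inr,
      h.E_tor, show tor Q e f (1 : Fˣ) = 1 from map_one (torHom h.l h.r h.lr), one_mul, h'.E_inr,
      mul_inv_eq_iff_eq_mul.2 (mul_inv_eq_iff_eq_mul.1 (l6 _ (h.ext_l hQ _) (h.ext_r hQ _)
        (by rw [extend_apply_left, h'.ext_l]) (by rw [extend_apply_left, h'.ext_r]))).symm]
  obtain rfl | ⟨i, rfl⟩ := j.eq_zero_or_eq_succ_pred.imp_right fun h => (⟨_, h⟩ : ∃ i, j = i + 1)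
  · rw [DB_zero] at h10 hlt
    obtain rfl : m = 2 := by omega
    exact (norm_two (fun a b => Prod.ext (mul_comm _ _) (mul_comm' _ _)) (h12.comp ((MonoidHom.id _).prodMap (Subgroup.zpowers τ).subtype))
      hm (z := (c, 1)) (t := (1, ⟨τ, Subgroup.mem_zpowers τ⟩)) (Prod.ext (mul_one 1) (Subtype.ext k1))
      (by simpa using k4)).ge
  obtain ⟨φ', ω', hφ', hω', k5, k6⟩ := exists_fix h12 (MonoidHom.snd _ _) Prod.snd_surjective
  obtain ⟨d₃, hd₃⟩ := hφ'.exists_nat_degree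
  obtain ⟨d₄, hd₄⟩ := hω'.exists_nat_degree
  obtain ⟨u₂, v₂, huv₂⟩ := exists_LR hQ'' (by omega)
  have k7 := k6 (1, eich _ u₂ v₂) (Fintype.card F ^ (2 * (i + 1))) fun ⟨b, σ⟩ k => by
    obtain rfl : σ = 1 := k
    rw [Prod.mk_mul_mk, mul_one, one_mul, h15 b _ _ huv₂]
    split_ifs with hb
    · rfl
    have l1 : h.E hQ (b, h'.E hQ' (b, 1)) ∈ EG Q := (hΛ _).2 (by simp [h'.ds_E])
    rw [← h7 _ l1, ← h7 (b, _) (by
      simpa [← h.E_eich hQ, ← map_mul] using mul_mem l1 (eich_mem_EG (u₂ : V) v₂)),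
      h5 b _ _ _ l1 hb huv₂.coe (h'.E_w hQ' _ _) (h'.E_w hQ' _ _)]
    refine S.diff h2 hq hK (by omega) hQ'' hn' ((PW Q e f).subtype ∘ₗ (PW _ x y).subtype)
      (Subtype.val_injective.comp Subtype.val_injective) (fun _ => rfl) l1 (fun w => ⟨fun k => ?_, ?_⟩) huv₂
    · obtain ⟨w, rfl, k'⟩ := h.eig hQ (k.trans (one_smul F w).symm) (by simpa) (by simpa [eq_comm])
      obtain ⟨w, rfl, -⟩ := h'.eig hQ' k' (by simpa) (by simpa [eq_comm])
      exact ⟨w, rfl⟩
    · rintro ⟨w, rfl⟩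
      exact (h.E_w hQ _ w.1).trans (congrArg Subtype.val (h'.E_w hQ' (b, 1) w))
  have k8 := ih i (by omega) ⟨hQ'', hn', le_top, .inl rfl, hφ'.comp (Subgroup.subtype _)⟩ d₃ hd₃ u₂ v₂ huv₂
    fun k => pow_ne_zero _ (card_cast_ne_zero F) (k7.symm.trans (sub_eq_zero.2 k.symm))
  have k9 : m = d₃ + d₄ := by
    rw [k5, map_one, hd₃, hd₄] at hm
    exact_mod_cast hm.symm
  rw [DB_succ] at h10 hlt
  have k10 : ω' (c, 1) = d₄ := by
    obtain rfl | rfl : d₄ = 0 ∨ d₄ = 1 := by omega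
    · simp [hω'.eq_zero_of_apply_one (by simpa using hd₄)]
    · rw [k5, k5, MonoidHom.coe_snd, add_right_inj, show (c, τ) = (c, 1) * (1, τ) by simp,
        hω'.map_mul_of_apply_one (by simpa using hd₄), mul_eq_right₀ fun k => by
          simpa [k] using norm_lin hω' (by simpa using hd₄) (1, τ)] at k4
      simpa using k4
  rw [k5, k10, MonoidHom.coe_snd, hd₃, ← Nat.cast_add, k9, Complex.norm_natCast]

theorem bd_odd' (hq : 3 < Fintype.card F) (hQ : (polarBilin Q).Nondegenerate) {k : ℕ}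
    (hn : finrank F V = 2 * (k + 1) + 5) : Bd Q (DB (Fintype.card F) (k + 1)) := fun χ hχ d hd u v h hne => by
  exact_mod_cast bd_odd h2 hq _ (χ := extendByZero _ χ) ⟨hQ, hn, le_rfl, .inr (by omega), by
    simpa only [extendByZero_coe] using hχ⟩ d ((extendByZero_coe _ χ 1).trans hd) u v h
    fun k => hne ((extendByZero_coe _ χ _).symm.trans (k.trans (extendByZero_coe _ χ 1)))

end Cfsg.Lib.Char.MDO
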