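import Cfsg.Agent.Char.MDO1

/-! Minimal character degrees of the orthogonal groups: counting, and the inductive step. -/

set_option autoImplicit false

namespace Cfsg.Lib.Char.MDO

open QuadraticMap Module Finset Cfsg.Lib.Class Cfsg.Lib.Class.Orth Cfsg.Lib.Class.MD

variable {F V : Type*} [Field F] [AddCommGroup V] [Module F V] {Q : QuadraticForm F V}
  [Fintype F] [Fintype V]

theorem sum_shift {R : Type*} [CommSemiring R] {u : V} (hu : Q u = 0) (f : F → R) (g : V → R)
    (hg : ∀ w (s : F), g (w + s • u) = g w) (h0 : ∀ w, polar Q w u = 0 → g w = 0) :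
    (Fintype.card F : R) * ∑ w, f (Q w) * g w = (∑ c, f c) * ∑ w, g w := by
  have h1 : ∀ s : F, ∑ w, f (Q w) * g w = ∑ w, f (Q w + s * polar Q w u) * g w := fun s => by
    rw [← Equiv.sum_comp (Equiv.addRight (s • u))]
    refine sum_congr rfl fun w _ => ?_
    rw [Equiv.coe_addRight, hg]
    congr 2
    qsimp; rw [hu]; ring
  rw [← card_univ, ← nsmul_eq_mul, ← sum_const, sum_congr rfl fun s _ => h1 s, sum_comm, mul_sum]
  refine sum_congr rfl fun w _ => ?_
  rw [← sum_mul]
  by_cases h : polar Q w u = 0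
  · rw [h0 w h, mul_zero, mul_zero]
  · congr 1
    exact Equiv.sum_comp ((Equiv.mulRight₀ _ h).trans (Equiv.addLeft (Q w))) f

theorem card_sub (S : Submodule F V) (P : V → Prop) [DecidablePred P] (h : ∀ w, P w ↔ w ∈ S) :
    #{w | P w} = Fintype.card F ^ finrank F S := by
  rw [← Fintype.card_subtype, ← Nat.card_eq_fintype_card, Nat.card_congr (Equiv.subtypeEquivRight h),
    Module.natCard_eq_pow_finrank (K := F), Nat.card_eq_fintype_card]

variable [DecidableEq F] [FiniteDimensional F V]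

theorem card_one (hQ : (polarBilin Q).Nondegenerate) {u : V} (hu : u ≠ 0) {k : ℕ}
    (hn : finrank F V = k + 1) : #{w | polar Q w u = 0} = Fintype.card F ^ k := by
  have := finrank_orth hQ (Submodule.span F {u})
  rw [finrank_span_singleton hu] at this
  rw [card_sub (orth Q (Submodule.span F {u})) _ fun w => by rw [mem_orth_singleton, polar_comm]]
  congr 1
  omega

theorem card_two (hQ : (polarBilin Q).Nondegenerate) {u v : V} (h : LinearIndependent F ![u, v]) {k : ℕ}
    (hn : finrank F V = k + 2) : #{w | polar Q w u = 0 ∧ polar Q w v = 0} = Fintype.card F ^ k := by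
  have := finrank_orth hQ (Submodule.span F {u, v})
  rw [finrank_span_pair h] at this
  rw [card_sub (orth Q (Submodule.span F {u, v})) _ fun w => by
    rw [mem_orth_pair, polar_comm _ w, polar_comm _ w]]
  congr 1
  omega

theorem card_univ_eq : #(univ : Finset V) = Fintype.card F ^ finrank F V := by
  rw [card_univ, Module.card_eq_pow_finrank (K := F)]

theorem sum_ne (hQ : (polarBilin Q).Nondegenerate) {u : V} (hu : Q u = 0) (hu0 : u ≠ 0) (f : F → ℕ)
    {k : ℕ} (hn : finrank F V = k + 2) : ∑ w with polar Q w u ≠ 0, f (Q w) +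
      (∑ c, f c) * Fintype.card F ^ k = (∑ c, f c) * Fintype.card F ^ (k + 1) := by
  have h1 := sum_shift hu f (fun w => if polar Q w u ≠ 0 then 1 else 0) (fun w s => by
    qsimp; simp [hu]) (fun w h => by simp [h])
  have h2 := card_filter_add_card_filter_not (s := univ) fun w => polar Q w u = 0
  rw [card_one hQ hu0 hn, card_univ_eq (F := F), hn] at h2
  simp only [mul_ite, mul_one, mul_zero, ← sum_filter, ← card_eq_sum_ones, Nat.cast_id] at h1
  refine Nat.eq_of_mul_eq_mul_left (Fintype.card_pos (α := F)) ?_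
  simp only [ne_eq] at h1 ⊢
  linear_combination h1 + (∑ c, f c) * h2

theorem sum_moved (hQ : (polarBilin Q).Nondegenerate) {u v : V} (h : LR Q u v) (f : F → ℕ)
    {k : ℕ} (hn : finrank F V = k + 3) : ∑ w with ¬ (polar Q w u = 0 ∧ polar Q w v = 0), f (Q w) +
      (∑ c, f c) * Fintype.card F ^ k = (∑ c, f c) * Fintype.card F ^ (k + 2) := by
  have h1 := sum_shift h.r f (fun w => if polar Q w u = 0 ∧ polar Q w v ≠ 0 then 1 else 0)
    (fun w s => by qsimp; simp [h.r, h.rl]) (fun w h => by simp [h])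
  have h2 := card_filter_add_card_filter_not (s := {w | polar Q w u = 0}) fun w => polar Q w v = 0
  rw [card_one hQ h.ne hn, filter_filter, filter_filter, card_two hQ h.li hn] at h2
  simp only [mul_ite, mul_one, mul_zero, ← sum_filter, ← card_eq_sum_ones, Nat.cast_id] at h1
  have h3 := sum_ne hQ h.l h.ne f hn
  have h4 : ∑ w with ¬ (polar Q w u = 0 ∧ polar Q w v = 0), f (Q w) =
      ∑ w with polar Q w u = 0 ∧ polar Q w v ≠ 0, f (Q w) + ∑ w with polar Q w u ≠ 0, f (Q w) := by
    simp only [sum_filter, ← sum_add_distrib]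
    refine sum_congr rfl fun w _ => ?_
    by_cases k1 : polar Q w u = 0 <;> by_cases k2 : polar Q w v = 0 <;> simp [k1, k2]
  refine Nat.eq_of_mul_eq_mul_left (Fintype.card_pos (α := F)) ?_
  rw [h4]
  simp only [ne_eq] at h1 h3 ⊢
  linear_combination h1 + (∑ c, f c) * h2 + Fintype.card F * h3

namespace Dec

variable {M : V → EG Q → ℂ} (D : Dec Q M)
include D

omit [DecidableEq F] in
theorem exists_l (hQ : (polarBilin Q).Nondegenerate) (hE : ¬ Exc Q) (hn : 4 ≤ finrank F V) :
    ∃ l : F → ℕ, ∀ w, w ≠ 0 → M w 1 = l (Q w) := by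
  classical
  choose m hm using fun w => (D.char w).exists_nat_degree
  refine ⟨fun c => if h : ∃ w, w ≠ 0 ∧ Q w = c then m h.choose else 0, fun w hw => ?_⟩
  have h : ∃ w', w' ≠ 0 ∧ Q w' = Q w := ⟨w, hw, rfl⟩
  obtain ⟨g, hg⟩ := exists_EG_one hQ hE hn h.choose_spec.1 hw h.choose_spec.2
  have := D.conj g h.choose 1
  rw [hg, mul_one, mul_inv_cancel] at this
  simp only [dif_pos h, this]
  exact hm _

omit [Fintype F] [Fintype V] [DecidableEq F] [FiniteDimensional F V] in
theorem triv_comm {u v w z z' : V} (h : LR Q u v) (h1 : M w 1 = 1) (hu : polar Q w u = 0)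
    (hv : polar Q w v = 0) (hz : ∀ y ∈ [u, v, w], polar Q y z = 0)
    (hz' : ∀ y ∈ [u, v, w], polar Q y z' = 0) (hzz : polar Q z z' = 1) : M w (ee Q u v) = 1 := by
  simp only [List.forall_mem_cons] at hz hz'
  have k1 : ee Q u z ∈ MulAction.stabilizer (EG Q) w := eich_apply_of_orth_orth hu hz.2.2.1
  refine SLDeg.lin_eq_one (D.char w) h1 k1 (eich_apply_of_orth_orth hu hv) ?_
  rw [← SLDeg.lin_conj (D.char w) (g := ee Q v z') (eich_apply_of_orth_orth hv hz'.2.2.1) k1, conj_ee,
    ← ee_add h.l hz.1 h.lr]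
  congr 2
  · exact (eich_apply_of_orth_orth h.lr hz'.1).symm
  · refine ((eich_apply_of_orth h.r hz'.2.1 (by rw [polar_comm, hz.2.1])).trans ?_).symm
    rw [hzz, one_smul]

omit [Fintype F] [Fintype V] [DecidableEq F] in
theorem triv_tor' (hQ : (polarBilin Q).Nondegenerate) (hn : 3 ≤ finrank F V) {a : F} (ha : a ≠ 0)
    (ha' : a ^ 2 ≠ 1) {u v w : V} (h : Q u = 0) (huv : polar Q u v = 0) (h1 : M w 1 = 1)
    (hu : polar Q w u = 0) (hv : polar Q w v = 0) (hm : u ∉ spanL F [v, w]) : M w (ee Q u v) = 1 := by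
  obtain ⟨f, h2, h3, h4⟩ := exists_partner_orth hQ h hm (by simp [hu, polar_comm _ v, huv])
  simp only [List.forall_mem_cons, polar_comm _ _ f] at h2
  have k : ∀ s : F, ee Q u (s • v) ∈ MulAction.stabilizer (EG Q) w := fun s =>
    eich_apply_of_orth_orth hu (by rw [polar_smul_right', hv, mul_zero])
  have k' : ∀ s : F, polar Q u (s • v) = 0 := fun s => by rw [polar_smul_right', huv, mul_zero]
  have h5 := sub_ne_zero.2 ha'
  refine SLDeg.lin_eq_one (D.char w) h1 (k (a ^ 2 - 1)⁻¹) (eich_apply_of_orth_orth hu hv) ?_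
  rw [← SLDeg.lin_conj (D.char w) (g := ⟨_, tor_sq_mem_EG hQ hn h h3 h4 ha⟩)
    (tor_apply_orth _ (by rw [polar_comm, hu]) h2.2.1) (k _), conj_ee, ← ee_add h (k' _) huv]
  congr 1
  refine Subtype.ext ?_
  change eich Q u _ = eich Q ((tor Q u f (a ^ 2)).1 u) ((tor Q u f (a ^ 2)).1 _)
  rw [tor_apply_left h h3 h4 (pow_ne_zero 2 ha), map_smul, tor_apply_orth _ huv h2.1,
    eich_smul_left h (k' _), smul_smul]
  congr 1
  nth_rw 2 [← one_smul F v]
  rw [← add_smul]
  congr 1
  field_simp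
  ring

omit [Fintype F] [Fintype V] [DecidableEq F] in
theorem triv_tor (hQ : (polarBilin Q).Nondegenerate) (hn : 3 ≤ finrank F V) {a : F} (ha : a ≠ 0)
    (ha' : a ^ 2 ≠ 1) {u v w : V} (h : LR Q u v) (h1 : M w 1 = 1)
    (hu : polar Q w u = 0) (hv : polar Q w v = 0) : M w (ee Q u v) = 1 := by
  by_cases k : u ∈ spanL F [v, w]
  swap
  · exact D.triv_tor' hQ hn ha ha' h.l h.lr h1 hu hv k
  obtain ⟨c, d, k⟩ := mem_spanL_pair.1 k
  have k1 := LinearIndependent.pair_iff.1 h.li
  have hd : d ≠ 0 := by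
    rintro rfl
    simpa using (k1 (-1) c (by rw [← k]; module)).1
  by_cases hc : c = 0
  · have : ee Q u v = ee Q v (-u) := Subtype.ext (eich_swap h.r h.l h.rl)
    rw [this]
    refine D.triv_tor' hQ hn ha ha' h.r (by rw [polar_neg_right, h.rl, neg_zero]) h1 hv
      (by rw [polar_neg_right, hu, neg_zero]) fun k2 => ?_
    obtain ⟨c', d', k2⟩ := mem_spanL_pair.1 k2
    refine hd (neg_eq_zero.1 (k1 (d' - d * c') (-d) ?_).2)
    rw [hc] at k
    linear_combination (norm := module) d • k2 - d' • k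
  · have : ee Q u v = ee Q u (v + (-c⁻¹) • u) := Subtype.ext (eich_add_smul_self h.l h.lr _).symm
    rw [this]
    refine D.triv_tor' hQ hn ha ha' h.l (by qsimp; simp [h.l, h.lr]) h1 hu (by qsimp; simp [hu, hv])
      fun k2 => ?_
    obtain ⟨c', d', k2⟩ := mem_spanL_pair.1 k2
    obtain ⟨k3, k4⟩ := k1 (d' - d - c' * d * c⁻¹) (c' * d - d' * c)
      (by linear_combination (norm := module) d • k2 - d' • k)
    refine hd ?_
    field_simp at k3
    refine mul_left_cancel₀ hc ?_
    linear_combination -k3 - k4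

end Dec

omit [Fintype V] in
theorem step (hQ : (polarBilin Q).Nondegenerate) {e f : V} (he : Q e = 0) (hf : Q f = 0)
    (hef : polar Q e f = 1) [Fintype (PW Q e f)] [DecidableEq (PW Q e f)] {k : ℕ}
    (hn : finrank F (PW Q e f) = k + 3) (hk : 1 ≤ k) (hE : ¬ Exc (QW Q e f)) {χ : EG Q → ℂ}
    (hχ : IsCharacter (EG Q) χ) :
    ∃ (ι : EG (QW Q e f) →* EG Q) (θ : EG (QW Q e f) → ℂ) (l : F → ℕ), IsCharacter _ θ ∧
      χ 1 = θ 1 + (∑ w : PW Q e f with w ≠ 0, l (QW Q e f w) : ℕ) ∧
      (∀ u : PW Q e f, u ≠ 0 → Q u = 0 →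
        χ 1 - χ (ee Q e u) = ((∑ c, l c) * Fintype.card F ^ (k + 2) : ℕ)) ∧
      (∀ b c, b ≠ 0 → l (b ^ 2 * c) = l c) ∧
      (∀ u v : PW Q e f, LR (QW Q e f) u v → ∑ c, l c = 1 → (∀ w, w ≠ 0 → polar (QW Q e f) w u = 0 →
        polar (QW Q e f) w v = 0 → l (QW Q e f w) ≠ 0 → (∃ a : F, a ≠ 0 ∧ a ^ 2 ≠ 1) ∨
        ∃ z z', (∀ y ∈ [u, v, w], polar (QW Q e f) y z = 0) ∧
          (∀ y ∈ [u, v, w], polar (QW Q e f) y z' = 0) ∧ polar (QW Q e f) z z' = 1) →
        χ 1 - χ (ee Q u v) + Fintype.card F ^ k = Fintype.card F ^ (k + 2) + (θ 1 - θ (ee _ u v))) ∧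
      (∀ h, (∀ w, h.1.1 w = w → w = 0) → χ (ι h) = θ h) ∧
      (∀ h (w : PW Q e f), (ι h).1.1 w = h.1.1 w) ∧ ∀ h, (ι h).1.1 e = e ∧ (ι h).1.1 f = f := by
  have hQ' : (polarBilin (QW Q e f)).Nondegenerate := restrict_orth_nondeg hQ (hyp_disjoint he hf hef)
  have hV : finrank F (PW Q e f) + 2 = finrank F V := finrank_orth_hyp hQ he hef
  obtain ⟨ψ, hψ⟩ : ∃ ψ : AddChar F ℂ, ψ ≠ 0 :=
    (AddChar.exists_apply_ne_zero.2 (one_ne_zero (α := F))).imp fun ψ h k => by simp [k] at h
  obtain ⟨ι, M, D, h1, h2, h3, h4, h5, h6⟩ := exists_dec hQ (by omega)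
    (Known.exists_quad_eq hQ' (by omega)) he hf hef hχ hψ
  obtain ⟨l, hl⟩ := D.exists_l hQ' hE (by omega)
  have h7 : ∀ h, χ (ι h) = M 0 h + ∑ w with w ≠ 0, M w h := fun h => by
    rw [← h1, filter_ne', add_sum_erase _ (M · h) (mem_univ 0)]
  have h8 := h7 1
  rw [map_one, sum_congr rfl fun w hw => hl w (mem_filter.1 hw).2] at h8
  refine ⟨ι, M 0, l, D.char0, by rw [h8, Nat.cast_sum], fun u hu0 hu => ?_, fun b c hb => ?_,
    fun u v h hK hT => ?_, fun h k => ?_, h5, h6⟩
  · have k1 := sum_shift (Q := QW Q e f) (R := ℂ) hu (fun c => l c) (fun w => 1 - ψ (polar Q w u))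
      (fun w s => by
        congr 2
        rw [Submodule.coe_add, Submodule.coe_smul]
        qsimp; rw [hu]; ring) (fun w h => by rw [show polar Q w u = 0 from h]; simp)
    have k2 : ∑ w : PW Q e f, ψ (polar Q w u) = 0 := by
      have := AddChar.sum_eq_zero_iff_ne_zero.2 ((lam_injective hQ' hψ).ne_iff' (lam_zero ψ) |>.2 hu0)
      simp only [lam_apply, polar_comm _ u] at this
      exact this
    rw [sum_sub_distrib, k2, sum_const, card_univ_eq (F := F), hn] at k1
    have := h1 1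
    rw [map_one] at this
    rw [h2, ← this, ← sum_sub_distrib]
    refine mul_left_cancel₀ (card_cast_ne_zero F) ?_
    rw [sum_congr rfl (g := fun w => l (QW Q e f w) * (1 - ψ (polar Q w u))) fun w _ => ?_, k1]
    · push_cast; ring
    · by_cases hw : w = 0
      · simp [hw]
      · rw [hl w hw]; ring
  · obtain ⟨x, y, -, -, hx, hy, hxy⟩ := exists_hyp_orthL hQ' [] (by simp; omega)
    have k1 : QW Q e f (x + c • y) = c := by qsimp; rw [hx, hy, hxy]; ring
    have k2 : x + c • y ≠ 0 := fun k => by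
      have := congrArg (polar (QW Q e f) · y) k
      simp only [polar_add_left, polar_smul_left', polar_self', hy, hxy, polar_zero_left] at this
      simp at this
    obtain ⟨τ, hτ⟩ := h3 b hb
    have := hτ (x + c • y)
    rw [hl _ (τ.1.map_ne_zero_iff.2 k2), hl _ (smul_ne_zero hb k2), O_map, Q_smul, k1] at this
    exact_mod_cast this.symm
  · have k1 := sum_moved hQ' h l hn
    rw [hK, one_mul, one_mul] at k1
    have k2 : ∑ w : PW Q e f with w ≠ 0, ((l (QW Q e f w) : ℂ) - M w (ee _ u v)) =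
        (∑ w with ¬ (polar (QW Q e f) w u = 0 ∧ polar (QW Q e f) w v = 0), l (QW Q e f w) : ℕ) := by
      rw [Nat.cast_sum, sum_filter, sum_filter]
      refine sum_congr rfl fun w _ => ?_
      by_cases hw : w = 0
      · simp [hw]
      rw [if_pos hw]
      split_ifs with k
      · have k3 : l (QW Q e f w) ≤ 1 := hK ▸ single_le_sum (fun _ _ => Nat.zero_le _) (mem_univ _)
        rw [sub_eq_zero]
        by_cases k4 : l (QW Q e f w) = 0
        · have := (D.char w).norm_le_re ⟨ee _ u v, eich_apply_of_orth_orth k.1 k.2⟩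
          rw [OneMemClass.coe_one, hl w hw, k4] at this
          rw [k4, eq_comm]
          simpa using this
        · have k5 : M w 1 = 1 := by rw [hl w hw, show l _ = 1 by omega, Nat.cast_one]
          rw [← hl w hw, k5]
          rcases hT w hw k.1 k.2 k4 with ⟨a, ha, ha'⟩ | ⟨z, z', k6, k7, k8⟩
          · exact (D.triv_tor hQ' (by omega) ha ha' h k5 k.1 k.2).symm
          · exact (D.triv_comm h k5 k.1 k.2 k6 k7 k8).symm
      · rw [D.zero w _ fun k3 => k ?_, sub_zero]
        have k4 := (eich_apply h.l h.lr w).symm.trans k3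
        have := LinearIndependent.pair_iff.1 h.li (polar (QW Q e f) w v) (- polar (QW Q e f) w u)
          (by rw [h.r] at k4; linear_combination (norm := module) k4)
        exact ⟨neg_eq_zero.1 this.2, this.1⟩
    rw [sum_sub_distrib] at k2
    rw [← h4, h7, h8, ← Nat.cast_pow, ← Nat.cast_pow, ← k1, Nat.cast_add, ← k2]
    ring
  · rw [h7, sum_eq_zero, add_zero]
    exact fun w hw => D.zero w h fun k' => (mem_filter.1 hw).2 (k w k')

end Cfsg.Lib.Char.MDO
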