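import Cfsg.Agent.Char.MDO2
import Cfsg.Agent.Char.MDChev

/-! Minimal character degrees of the orthogonal groups: integrality at the long root elements. -/

set_option autoImplicit false

namespace Cfsg.Lib.Char.MDO

open QuadraticMap Module Finset Cfsg.Lib.Class Cfsg.Lib.Class.Orth Cfsg.Lib.Class.MD

variable {F V : Type*} [Field F] [AddCommGroup V] [Module F V] {Q : QuadraticForm F V}

theorem ee_det {u v : V} (h : LR Q u v) (a b c d : F) :
    ee Q (a • u + b • v) (c • u + d • v) = ee Q u ((a * d - b * c) • v) := by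
  refine Subtype.ext (O_ext fun x => ?_)
  refine (eich_apply ?_ ?_ x).trans ((eich_apply h.l ?_ x).trans ?_).symm
  all_goals qsimp
  all_goals simp only [h.l, h.r, h.lr, h.rl]
  · ring
  · ring
  · ring
  · module

theorem card_pairs {X Y : Type*} [Fintype X] [Fintype Y] (A : X → Prop) (R : X → Y → Prop)
    [DecidablePred A] [∀ x, DecidablePred (R x)] {c : ℕ} (h : ∀ x, A x → #{y | R x y} = c) :
    {p : X × Y | A p.1 ∧ R p.1 p.2}.ncard = #{x | A x} * c := by
  rw [Set.ncard_eq_toFinset_card', Set.toFinset_ofPred, card_filter, Fintype.sum_prod_type, card_filter,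
    sum_mul]
  refine sum_congr rfl fun x _ => ?_
  by_cases k : A x
  · simp only [k, true_and, if_true, one_mul, ← card_filter, h x k]
  · simp [k]

variable [Fintype F] [Fintype V] [DecidableEq F] [DecidableEq V] [FiniteDimensional F V]

omit [Fintype F] [FiniteDimensional F V] in
theorem card_sing : #{w | w ≠ 0 ∧ Q w = 0} + 1 = sing Q := by
  rw [sing, Nat.card_eq_fintype_card, Fintype.card_subtype, ← card_insert_of_notMem (a := 0) (by simp)]
  congr 1
  ext w
  by_cases h : w = 0 <;> simp [h]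

theorem dvd_of_irr (hQ : (polarBilin Q).Nondegenerate) {k : ℕ} (hn : finrank F V = k + 2) (hk : 4 ≤ k)
    {u v : V} (h : LR Q u v) {χ : EG Q → ℂ} (hχ : IsIrrCharacter (EG Q) χ) {d E : ℕ} (hd : χ 1 = d)
    (hE : ∀ u v, LR Q u v → χ 1 - χ (ee Q u v) = E) :
    ∃ I T : ℕ, d ∣ I * (Fintype.card F - 1) * E ∧
      T + (Fintype.card F - 1) * Fintype.card F ^ k + Fintype.card F = sing Q ∧
      (Fintype.card F ^ 2 - 1) * (Fintype.card F ^ 2 - Fintype.card F) * I = (sing Q - 1) * T := by
  classical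
  let ζ : AddChar F (EG Q) :=
    { toFun := fun a => ee Q u (a • v)
      map_zero_eq_one' := Subtype.ext (by simp [ee])
      map_add_eq_mul' := fun a b => by
        rw [add_smul, ee_add h.l] <;> rw [polar_smul_right', h.lr, mul_zero] }
  have hζ : Function.Injective ζ.toMonoidHom := (injective_iff_map_eq_one _).2 fun a ha => by
    obtain ⟨x, h1, h2⟩ := exists_polar_pair hQ h.li 1 0
    have := (eich_apply h.l (w := a.toAdd • v) (by rw [polar_smul_right', h.lr, mul_zero]) x).symm.trans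
      (congrArg (fun g : EG Q => g.1.1 x) ha)
    rw [polar_smul_right', Q_smul, polar_comm _ x, polar_comm _ x, h1, h2, h.r] at this
    simpa [h.ne'] using this
  set L := Submodule.span F {u, v} with hL
  let P := (stab Q L).subgroupOf (EG Q)
  have hu : u ∈ L := Submodule.subset_span (by simp)
  have hv : v ∈ L := Submodule.subset_span (by simp)
  have hP : ∀ g : EG Q, g.1.1 u ∈ L → g.1.1 v ∈ L → g ∈ P := fun g h1 h2 =>
    mem_stab_of_forall_mem fun x hx => by
      obtain ⟨a, b, rfl⟩ := Submodule.mem_span_pair.1 hx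
      rw [map_add, map_smul, map_smul]
      exact add_mem (Submodule.smul_mem _ _ h1) (Submodule.smul_mem _ _ h2)
  have h1 := MD.dvd_index_mul hχ hd (P := P) (Z := ζ.toMonoidHom.range) (e := E) ?_ ?_ ?_
  rotate_left
  · rintro _ ⟨a, rfl⟩
    refine hP _ ?_ ?_
    · exact (eich_apply_self (Q := Q) u (a.toAdd • v)).symm ▸ hu
    · exact (eich_apply_of_orth_orth (w := a.toAdd • v) h.rl (by qsimp; simp [h.r])).symm ▸ hv
  · refine Subgroup.le_normalizer_iff.2 ?_
    rintro g hg _ ⟨s, rfl⟩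
    obtain ⟨a, b, h1⟩ := Submodule.mem_span_pair.1 ((hg u).1 hu)
    obtain ⟨c, d, h2⟩ := Submodule.mem_span_pair.1 (Submodule.smul_mem _ s.toAdd ((hg v).1 hv))
    refine ⟨Multiplicative.ofAdd (a * d - b * c), ((conj_ee g u (s.toAdd • v)).trans ?_).symm⟩
    rw [map_smul]
    exact (congrArg₂ (ee Q) h1 h2).symm.trans (ee_det h a b c d)
  · rintro _ ⟨a, rfl⟩ ha
    exact hE _ _ (h.smul fun k => ha (by rw [show a = 1 from k, map_one]))
  rw [← Nat.card_congr (MonoidHom.ofInjective hζ).toEquiv, Nat.card_congr Multiplicative.toAdd,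
    Nat.card_eq_fintype_card] at h1
  have h2 : ∀ x, x ≠ 0 ∧ Q x = 0 → #{y | LR Q x y} + (Fintype.card F - 1) * Fintype.card F ^ k +
      Fintype.card F = sing Q := fun x hx => by
    have k1 := sum_ne hQ hx.2 hx.1 (fun c => if c = 0 then 1 else 0) hn
    have k2 := card_sub (F := F) (spanL F [x]) (fun y => y ∈ spanL F [x]) fun _ => Iff.rfl
    rw [show spanL F [x] = Submodule.span F {x} by simp [spanL], finrank_span_singleton hx.1, pow_one,
      show Submodule.span F {x} = spanL F [x] by simp [spanL]] at k2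
    simp only [sum_ite_eq', mem_univ, if_true, one_mul, ← card_filter, filter_filter] at k1
    rw [Nat.sub_mul, ← pow_succ', ← k1, one_mul, Nat.add_sub_cancel, ← k2, sing, Nat.card_eq_fintype_card,
      Fintype.card_subtype]
    simp only [card_filter, ← sum_add_distrib]
    refine sum_congr rfl fun y _ => ?_
    by_cases k3 : y ∈ spanL F [x]
    · have k4 : ¬ LR Q x y := fun k => k.nm k3
      obtain ⟨c, rfl⟩ := mem_spanL_singleton.1 k3
      simp [k3, k4, hx.2, Q_smul]
    · by_cases k4 : LR Q x y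
      · simp [k3, k4, k4.r, k4.rl]
      · by_cases k5 : Q y = 0
        · have : polar Q y x ≠ 0 := fun k => k4 ⟨hx.2, k5, by rw [polar_comm, k], hx.1, k3⟩
          simp [k3, k4, k5, this]
        · simp [k3, k4, k5]
  refine ⟨P.index, #{y | LR Q u y}, h1, h2 u ⟨h.ne, h.l⟩, ?_⟩
  have h3 := Subgroup.relIndex_mul_index (H := MulAction.stabilizer (EG Q) (u, v)) (K := P)
    fun g hg => hP g ((show g.1.1 u = u from congrArg Prod.fst hg).symm ▸ hu)
      ((show g.1.1 v = v from congrArg Prod.snd hg).symm ▸ hv)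
  have h4 : MulAction.orbit (EG Q) (u, v) = {p | (p.1 ≠ 0 ∧ Q p.1 = 0) ∧ LR Q p.1 p.2} := by
    ext p
    refine ⟨?_, fun k => (exists_EG_pair hQ (by omega) h k.2).imp fun g hg => Prod.ext hg.1 hg.2⟩
    rintro ⟨g, rfl⟩
    exact ⟨⟨(h.map g.1).ne, (h.map g.1).l⟩, h.map g.1⟩
  have h5 : MulAction.orbit P (u, v) = {p | (p.1 ∈ L ∧ p.1 ≠ 0) ∧ p.2 ∈ L ∧ p.2 ∉ spanL F [p.1]} := by
    ext p
    constructor
    · rintro ⟨g, rfl⟩
      exact ⟨⟨(g.2 u).1 hu, (h.map g.1.1).ne⟩, (g.2 v).1 hv, (h.map g.1.1).nm⟩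
    · rintro ⟨⟨k1, k2⟩, k3, k4⟩
      have k5 : ∀ x ∈ L, Q x = 0 := fun x hx => by
        obtain ⟨a, b, rfl⟩ := Submodule.mem_span_pair.1 hx
        qsimp; simp [h.l, h.r, h.lr]
      obtain ⟨g, k6, k7⟩ := exists_EG_pair hQ (by omega) h
        ⟨k5 _ k1, k5 _ k3, polar_eq_zero_of_forall k5 k1 k3, k2, k4⟩
      exact ⟨⟨g, hP g (k6 ▸ k1) (k7 ▸ k3)⟩, Prod.ext k6 k7⟩
  have h6 := card_sub (F := F) L (fun y => y ∈ L) fun _ => Iff.rfl
  rw [finrank_span_pair h.li] at h6
  rw [MulAction.index_stabilizer, h4, card_pairs (fun x => x ≠ 0 ∧ Q x = 0) (LR Q)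
    (c := #{y | LR Q u y}) (fun x hx => by have := h2 x hx; have := h2 u ⟨h.ne, h.l⟩; omega),
    show (MulAction.stabilizer (EG Q) (u, v)).relIndex P = _ from MulAction.index_stabilizer P (u, v), h5,
    card_pairs (fun x => x ∈ L ∧ x ≠ 0) (fun x y => y ∈ L ∧ y ∉ spanL F [x])
      (c := Fintype.card F ^ 2 - Fintype.card F) (fun x hx => ?_)] at h3
  · rw [← card_sing, Nat.add_sub_cancel, ← h3, ← h6, ← card_erase_of_mem (a := 0) (by simp)]
    congr 3
    ext x
    simp [and_comm]
  · have k2 := card_sub (F := F) (spanL F [x]) (fun y => y ∈ spanL F [x]) fun _ => Iff.rfl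
    rw [show spanL F [x] = Submodule.span F {x} by simp [spanL], finrank_span_singleton hx.2, pow_one,
      show Submodule.span F {x} = spanL F [x] by simp [spanL]] at k2
    rw [← h6, ← k2, ← card_sdiff_of_subset fun y => ?_]
    · congr 1
      ext y
      simp
    · simpa using fun hy => spanL_le.2 (by simpa using hx.1) hy

end Cfsg.Lib.Char.MDO
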