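import Cfsg.Agent.Char.MDO3
import Cfsg.Agent.Class.OrthTwo

/-! Minimal character degrees of the even-dimensional orthogonal groups: the induction. -/

set_option autoImplicit false

namespace Cfsg.Lib.Char.MDO

open QuadraticMap Module Finset Cfsg.Lib.Class Cfsg.Lib.Class.Orth Cfsg.Lib.Class.MD

universe u

variable {F : Type*} {V : Type u} [Field F] [AddCommGroup V] [Module F V] {Q : QuadraticForm F V}

/-- characters which are nontrivial on a long root element have degree at least `D` -/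
def Bd (Q : QuadraticForm F V) (D : ℤ) : Prop :=
  ∀ χ : EG Q → ℂ, IsCharacter _ χ → ∀ d : ℕ, χ 1 = d → ∀ u v, LR Q u v → χ (ee Q u v) ≠ χ 1 → D ≤ d

theorem Bd_eq_1 : type_of% @Bd.eq_1 := @Bd.eq_1

variable [Fintype F] [FiniteDimensional F V]

theorem Bd.of_irr {D : ℤ} (h : ∀ χ : EG Q → ℂ, IsIrrCharacter _ χ → ∀ d : ℕ, χ 1 = d → ∀ u v, LR Q u v →
    χ (ee Q u v) ≠ χ 1 → D ≤ d) : Bd Q D := fun χ hχ d hd u v huv k => by
  revert d k
  refine hχ.induction_on (P := fun χ => ∀ d : ℕ, χ 1 = d → χ (ee Q u v) ≠ χ 1 → D ≤ d) (by simp)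
    fun η θ hη hθ ih d hd k => ?_
  obtain ⟨n, hn⟩ := hη.isCharacter.exists_nat_degree
  obtain ⟨n', hn'⟩ := hθ.exists_nat_degree
  have : n + n' = d := by rw [Pi.add_apply, hn, hn'] at hd; exact_mod_cast hd
  by_cases k' : θ (ee Q u v) = θ 1
  · have := h η hη n hn u v huv fun k2 => k (by rw [Pi.add_apply, Pi.add_apply, k', k2])
    omega
  · have := ih n' hn' k'
    omega

/-- a nondegenerate form of dimension `2m+2` and type `ε` -/
structure Ty (Q : QuadraticForm F V) (m : ℕ) (ε : ℤ) : Prop where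
  nd : (polarBilin Q).Nondegenerate
  dim : finrank F V = 2 * m + 2
  sg : (sing Q : ℤ) = (Fintype.card F : ℤ) ^ (2 * m + 1) +
    ε * ((Fintype.card F : ℤ) ^ (m + 1) - (Fintype.card F : ℤ) ^ m)

theorem one_lt_q (F : Type*) [Field F] [Fintype F] : (1 : ℤ) < Fintype.card F := by
  exact_mod_cast Fintype.one_lt_card

namespace Ty

variable {m : ℕ} {ε : ℤ}

theorem sub (T : Ty Q (m + 1) ε) {e f : V} (he : Q e = 0) (hf : Q f = 0) (hef : polar Q e f = 1) :
    Ty (QW Q e f) m ε := by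
  have h1 : finrank F (PW Q e f) + 2 = finrank F V := finrank_orth_hyp T.nd he hef
  have h2 : finrank F (PW Q e f) = 2 * m + 2 := by have := T.dim; omega
  refine ⟨restrict_orth_nondeg T.nd (hyp_disjoint he hf hef), h2, ?_⟩
  have h3 := sing_hyp he hf hef
  have h4 := T.sg
  have hq := one_lt_q F
  rw [h2, Nat.card_eq_fintype_card] at h3
  zify [Fintype.one_lt_card (α := F).le] at h3
  refine mul_left_cancel₀ (show (Fintype.card F : ℤ) ≠ 0 by omega) ?_
  linear_combination h4 - h3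

theorem isPlus_iff (T : Ty Q m ε) (hε : ε = 1 ∨ ε = -1) : Known.IsPlus Q ↔ ε = 1 := by
  have hq := one_lt_q F
  have h1 := T.sg
  have h2 : (0 : ℤ) < (Fintype.card F : ℤ) ^ (m + 1) - (Fintype.card F : ℤ) ^ m :=
    sub_pos.2 (pow_lt_pow_right₀ hq (by omega))
  by_cases h : Known.IsPlus Q
  · rw [sing_of_isPlus T.nd T.dim h, Nat.card_eq_fintype_card] at h1
    rcases hε with rfl | rfl
    · simp [h]
    · omega
  · rw [sing_of_not_isPlus T.nd T.dim h, Nat.card_eq_fintype_card] at h1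
    rcases hε with rfl | rfl
    · omega
    · simp [h]

theorem card_eq [Fintype V] [DecidableEq V] [DecidableEq F] (T : Ty Q m (-1)) {c : F} (hc : c ≠ 0) :
    (#{w | w ≠ 0 ∧ Q w = c} : ℤ) = sing Q + (Fintype.card F : ℤ) ^ (m + 1) := by
  have h1 : ∀ c', c' ≠ 0 → #{w | Q w = c'} = #{w | w ≠ 0 ∧ Q w = c} := fun c' hc' => by
    obtain ⟨g, hg⟩ := Known.exists_similarity T.nd ⟨m + 1, by rw [T.dim]; ring⟩ (div_ne_zero hc hc')
    refine card_equiv g.toEquiv fun w => ?_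
    simp only [mem_filter_univ, LinearEquiv.coe_toEquiv, hg]
    refine ⟨fun k => ⟨g.map_ne_zero_iff.2 fun k' => hc' (by rw [← k, k', map_zero]), ?_⟩, fun k => ?_⟩
    · rw [k, div_mul_cancel₀ _ hc']
    · have := k.2
      field_simp at this
      exact this
  have h2 := card_eq_sum_card_fiberwise (s := univ) (t := univ) (f := Q) fun _ _ => mem_univ _
  rw [← add_sum_erase _ _ (mem_univ 0), sum_congr rfl fun c hc => h1 c (ne_of_mem_erase hc), sum_const,
    card_univ_eq (F := F), T.dim, card_erase_of_mem (mem_univ _), card_univ, smul_eq_mul] at h2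
  have h3 := T.sg
  have hq := one_lt_q F
  rw [sing, Nat.card_eq_fintype_card, Fintype.card_subtype] at h3 ⊢
  zify [Fintype.one_lt_card (α := F).le] at h2
  refine mul_left_cancel₀ (show (Fintype.card F : ℤ) - 1 ≠ 0 by omega) ?_
  linear_combination -h2 - (Fintype.card F : ℤ) * h3

theorem dvd (T : Ty Q (m + 1) ε) (hε : ε = 1 ∨ ε = -1) (hm : 1 ≤ m) {u v : V} (h : LR Q u v)
    {χ : EG Q → ℂ} (hχ : IsIrrCharacter (EG Q) χ) {d : ℕ} (hd : χ 1 = d)
    (hE : ∀ u v, LR Q u v → χ 1 - χ (ee Q u v) = (Fintype.card F ^ (2 * m + 1) : ℕ)) {A : ℤ}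
    (hA : ((Fintype.card F : ℤ) ^ 2 - 1) * A = (Fintype.card F : ℤ) ^ (2 * (m + 1)) - 1) :
    (d : ℤ) ∣ (Fintype.card F * A + ε * (Fintype.card F : ℤ) ^ (m + 1)) *
      (((Fintype.card F : ℤ) ^ (2 * (m + 1)) - 1) * (Fintype.card F : ℤ) ^ (2 * m)) := by
  classical
  have : Finite V := Module.finite_of_finite F
  have := Fintype.ofFinite V
  obtain ⟨I, N, h1, h2, h3⟩ := dvd_of_irr T.nd T.dim (by omega) h hχ hd hE
  have hq := one_lt_q F
  have hq' : 1 < Fintype.card F := Fintype.one_lt_card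
  have h4 := T.sg
  zify [hq'.le] at h1 h2
  zify [Nat.one_le_pow 2 _ hq'.le, Nat.le_self_pow two_ne_zero, one_le_sing (Q := Q)] at h3
  refine h1.trans (dvd_of_eq (mul_left_cancel₀ (show (Fintype.card F : ℤ) ^ 2 - 1 ≠ 0 by nlinarith) ?_))
  rw [eq_sub_of_add_eq (eq_sub_of_add_eq h2), h4] at h3
  generalize (Fintype.card F : ℤ) = q at *
  rcases hε with rfl | rfl <;>
    linear_combination q ^ (2 * m) * h3 - q * (q ^ (2 * (m + 1)) - 1) * q ^ (2 * m) * hA

end Ty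

theorem le_sum_of_ne [Fintype V] [DecidableEq V] [DecidableEq F] {l : F → ℕ} {c : F} (h : l c ≠ 0) :
    #{w | w ≠ 0 ∧ Q w = c} ≤ ∑ w with w ≠ 0, l (Q w) := by
  rw [card_filter, sum_filter]
  refine sum_le_sum fun w _ => ?_
  split_ifs with k1 k2 k2
  · rw [k1.2]; omega
  · exact absurd k1.1 k2
  all_goals omega

theorem exists_of_sum_eq_one [DecidableEq F] {l : F → ℕ} (h : ∑ c, l c = 1) :
    ∃ c₀, ∀ c, l c = if c = c₀ then 1 else 0 := by
  obtain ⟨c₀, -, h0⟩ := exists_ne_zero_of_sum_ne_zero (h.trans_ne one_ne_zero)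
  rw [← add_sum_erase _ _ (mem_univ c₀)] at h
  refine ⟨c₀, fun c => ?_⟩
  split_ifs with k
  · rw [k]; omega
  · have := single_le_sum (f := l) (fun _ _ => Nat.zero_le _) (mem_erase.2 ⟨k, mem_univ c⟩)
    omega

theorem exists_LR (hQ : (polarBilin Q).Nondegenerate) (hn : 5 ≤ finrank F V) : ∃ u v, LR Q u v := by
  obtain ⟨u, h1, -, h2⟩ := exists_sing_orth_notMem hQ [] [] (by simp; omega)
  obtain ⟨v, h3, h4, h5⟩ := exists_sing_orth_notMem hQ [u] [u] (by simpa using hn)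
  exact ⟨u, v, h1, h3, h4 u (by simp), fun k => h2 (k ▸ zero_mem _), h5⟩

theorem arith_two {q x A ε d : ℤ} (hq : 1 < q) (hε : ε = -1 ∨ ε = 1 ∧ 3 < q) (hx : q ^ 2 ≤ x)
    (hA : (q ^ 2 - 1) * A = q ^ 2 * x ^ 2 - 1) (h : 2 * (q ^ 2 - 1) * x ^ 2 ≤ q * d) :
    q * A + ε * (q * x) ≤ d := by
  have h1 : 0 < q ^ 2 - 1 := by nlinarith
  refine le_of_mul_le_mul_left ?_ (mul_pos h1 (zero_lt_one.trans hq))
  have h2 := mul_le_mul_of_nonneg_left h h1.le
  have h3 : 0 ≤ x := by nlinarith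
  have h4 : (q ^ 2 - 1) * q * (q * A + ε * (q * x)) =
      q ^ 4 * x ^ 2 - q ^ 2 + ε * (q ^ 2 - 1) * (q ^ 2 * x) := by linear_combination q ^ 2 * hA
  rw [h4]
  rcases hε with rfl | ⟨rfl, h5⟩
  · have : 4 ≤ q ^ 2 := by nlinarith
    have : q ^ 4 ≤ 2 * (q ^ 2 - 1) ^ 2 := by nlinarith
    have := mul_le_mul_of_nonneg_right this (sq_nonneg x)
    have : 0 ≤ (q ^ 2 - 1) * (q ^ 2 * x) := by positivity
    nlinarith
  · have : 16 ≤ q ^ 2 := by nlinarith
    have : q ^ 4 + (q ^ 2 - 1) ≤ 2 * (q ^ 2 - 1) ^ 2 := by nlinarith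
    have := mul_le_mul_of_nonneg_right this (sq_nonneg x)
    have := mul_le_mul_of_nonneg_left (mul_le_mul_of_nonneg_right hx h3) h1.le
    nlinarith

theorem arith_dvd {q x A ε d : ℤ} (hq : 1 < q) (hε : ε = 1 ∨ ε = -1) (hx : q ^ 2 ≤ x)
    (hA : (q ^ 2 - 1) * A = q ^ 2 * x ^ 2 - 1) {m : ℕ}
    (hd : d + 1 = q * A + ε * (q * x)) : ¬ d ∣ (d + 1) * ((q ^ 2 * x ^ 2 - 1) * q ^ m) := fun h => by
  have h1 : IsCoprime d q := ⟨-1, A + ε * x, by linear_combination -hd⟩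
  have h2 : IsCoprime d (d + 1) := ⟨-1, 1, by ring⟩
  have h3 := (h1.pow_right (n := m)).dvd_of_dvd_mul_right (h2.dvd_of_dvd_mul_left h)
  have h4 := (dvd_mul_left d q).sub h3
  rw [show q * d - (q ^ 2 * x ^ 2 - 1) = A + ε * q ^ 2 * x - q by linear_combination q * hd + hA] at h4
  have h5 : 0 < q ^ 2 - 1 := by nlinarith
  have h6 : x ^ 2 + q ^ 2 < A := by
    refine lt_of_mul_lt_mul_left ?_ h5.le
    nlinarith
  have h7 : q ^ 2 * x ≤ x ^ 2 := by nlinarith
  have h8 : q * x ≤ q ^ 2 * x := mul_le_mul_of_nonneg_right (by nlinarith) (by nlinarith)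
  refine (Int.le_of_dvd ?_ h4).not_gt ?_ <;> rcases hε with rfl | rfl <;> nlinarith

theorem core {j : ℕ} {ε : ℤ} (T : Ty Q (j + 2) ε) (hj : 1 ≤ j) (hε : ε = -1 ∨ ε = 1 ∧ 3 < Fintype.card F)
    {χ : EG Q → ℂ} (hχ : IsIrrCharacter (EG Q) χ) {d : ℕ} (hd : χ 1 = d) {e v : V} (h : LR Q e v)
    (hne : χ (ee Q e v) ≠ χ 1) {A : ℤ}
    (hA : ((Fintype.card F : ℤ) ^ 2 - 1) * A = (Fintype.card F : ℤ) ^ (2 * (j + 2)) - 1) :
    Fintype.card F * A + ε * (Fintype.card F : ℤ) ^ (j + 2) ≤ d ∨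
    ∃ f, Q f = 0 ∧ polar Q e f = 1 ∧ ∃ (ι : EG (QW Q e f) →* EG Q) (θ : EG (QW Q e f) → ℂ) (d' : ℕ),
      IsCharacter _ θ ∧ θ 1 = d' ∧ (∀ h, (∀ w, h.1.1 w = w → w = 0) → χ (ι h) = θ h) ∧
      (∀ h (w : PW Q e f), (ι h).1.1 w = h.1.1 w) ∧ (∀ h, (ι h).1.1 e = e ∧ (ι h).1.1 f = f) ∧
      (d : ℤ) ∣ (Fintype.card F * A + ε * (Fintype.card F : ℤ) ^ (j + 2)) *
        (((Fintype.card F : ℤ) ^ (2 * (j + 2)) - 1) * (Fintype.card F : ℤ) ^ (2 * (j + 1))) ∧
      (d + 1 = d' + sing (QW Q e f) ∧ (∃ u v, LR (QW Q e f) u v ∧ θ (ee _ u v) ≠ θ 1) ∨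
        ε = -1 ∧ d = d' + sing (QW Q e f) + Fintype.card F ^ (j + 2) ∧
          (2 ≤ j → ∃ u v, LR (QW Q e f) u v ∧ θ (ee _ u v) ≠ θ 1)) := by
  classical
  have : Finite V := Module.finite_of_finite F
  have hε' : ε = 1 ∨ ε = -1 := hε.symm.imp_left And.left
  obtain ⟨f, h1, hf, hef⟩ := exists_partner_orth T.nd h.l h.symm.nm (by simp [h.rl])
  have := Fintype.ofFinite (PW Q e f)
  have T' := T.sub h.l hf hef
  have hn : finrank F (PW Q e f) = 2 * j + 1 + 3 := T'.dim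
  obtain ⟨ι, θ, l, h2, h3, h4, h5, h6, h7, h8, h9⟩ := step T.nd h.l hf hef hn (by omega)
    (not_exc_of_finrank (by omega)) hχ.isCharacter
  obtain ⟨d', hd'⟩ := h2.exists_nat_degree
  have h10 := h4 ⟨v, mem_orth_pair.2 ⟨h.lr, by rw [polar_comm, h1 v (by simp)]⟩⟩
    (fun k => h.ne' (congrArg Subtype.val k)) h.r
  have h11 : ∀ u' v', LR Q u' v' → χ (ee Q u' v') = χ (ee Q e v) := fun u' v' h' => by
    obtain ⟨g, rfl, rfl⟩ := exists_EG_pair T.nd (by rw [T.dim]; omega) h h'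
    rw [← conj_ee, hχ.isClassFunction.apply_conj]
  obtain ⟨u', v', h'⟩ := exists_LR T'.nd (by omega)
  have hq := one_lt_q F
  rw [hd, hd'] at h3
  replace h3 : d = d' + ∑ w : PW Q e f with w ≠ 0, l (QW Q e f w) := by exact_mod_cast h3
  obtain hK | hK | hK : ∑ c, l c = 0 ∨ ∑ c, l c = 1 ∨ 2 ≤ ∑ c, l c := by omega
  · rw [hK, zero_mul, Nat.cast_zero, sub_eq_zero] at h10
    exact absurd h10.symm hne
  · refine Or.inr ⟨f, hf, hef, ι, θ, d', h2, hd', h7, h8, h9, T.dvd hε' (by omega) h hχ hd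
      (fun u' v' k => by rw [h11 u' v' k, h10, hK, one_mul]; rfl) hA, ?_⟩
    have h12 := fun k => h6 u' v' h' hK k
    rw [h11 _ _ ⟨h'.l, h'.r, (polar_restrict _ _ _).symm.trans h'.lr, fun k => h'.ne (Subtype.ext k),
      fun k => h'.nm (by
        obtain ⟨c, hc⟩ := mem_spanL_singleton.1 k
        exact mem_spanL_singleton.2 ⟨c, Subtype.ext hc⟩)⟩, h10, hK, one_mul, Nat.cast_pow, add_right_inj,
      eq_comm, sub_eq_iff_eq_add] at h12
    replace h12 := fun k => (⟨u', v', h', fun k' => by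
      have := h12 k
      rw [k', right_eq_add] at this
      exact pow_ne_zero _ (card_cast_ne_zero F) this⟩ : ∃ u v, LR (QW Q e f) u v ∧ θ (ee _ u v) ≠ θ 1)
    have h13 : 2 ≤ j → ∃ u v, LR (QW Q e f) u v ∧ θ (ee _ u v) ≠ θ 1 := fun k =>
      h12 fun w _ _ _ _ => Or.inr (exists_polar_ne_orth T'.nd _ (by simp; omega))
    obtain ⟨c, hc⟩ := exists_of_sum_eq_one hK
    simp only [hc, ← card_filter, filter_filter] at h3
    by_cases hc0 : c = 0
    · rw [hc0] at h3 hc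
      refine Or.inl ⟨by rw [h3, add_assoc, card_sing], ?_⟩
      rcases hε with rfl | ⟨-, k⟩
      swap
      · exact h12 fun _ _ _ _ _ => Or.inl (exists_sq_ne_one k)
      by_cases k : 2 ≤ j
      · exact h13 k
      refine h12 fun w _ k1 k2 k3 => Or.inr ?_
      obtain ⟨z, z', k4, k5, k6⟩ := exists_polar_ne_orth T'.nd [u', v'] (by simp; omega)
      have k7 : w ∈ spanL F [u', v'] := by
        by_contra k7
        have k8 := linearIndependent_triple_of h'.ne h'.nm k7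
        refine absurd ((T'.isPlus_iff hε').1 ⟨Submodule.span F (Set.range ![w, u', v']), fun x hx => ?_,
          by rw [finrank_span_eq_card k8, hn]; simp; omega⟩) (by decide)
        obtain ⟨a, rfl⟩ := (Submodule.mem_span_range_iff_exists_fun F).1 hx
        refine Known.quad_sum_smul_eq_zero _ _ _ (fun i => ?_) (fun i j => ?_) a
        · have : QW Q e f w = 0 := by simpa [hc] using k3
          fin_cases i <;> simp [this, h'.l, h'.r]
        · have : QW Q e f w = 0 := by simpa [hc] using k3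
          fin_cases i <;> fin_cases j <;>
            simp [this, h'.l, h'.r, h'.lr, h'.rl, k1, k2, polar_comm _ u' w, polar_comm _ v' w]
      refine ⟨z, z', ?_, ?_, k6⟩ <;> simp only [List.forall_mem_cons] at k4 k5 ⊢
      · exact ⟨k4.1, k4.2.1, polar_eq_zero_of_mem_spanL (by simp [k4]) k7, by simp⟩
      · exact ⟨k5.1, k5.2.1, polar_eq_zero_of_mem_spanL (by simp [k5]) k7, by simp⟩
    · rcases hε with rfl | ⟨-, k⟩
      · refine Or.inr ⟨rfl, ?_, h13⟩
        have := T'.card_eq hc0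
        zify at h3 ⊢
        linear_combination h3 + this
      · obtain ⟨a, ha, ha'⟩ := exists_sq_ne_one k
        have := h5 a c ha
        rw [hc, hc, if_pos rfl, if_neg fun k => ha' (mul_right_cancel₀ hc0 (k.trans (one_mul c).symm))] at this
        omega
  · have k1 := sum_moved T'.nd h' l hn
    have k2 : ∑ w with ¬ (polar (QW Q e f) w u' = 0 ∧ polar (QW Q e f) w v' = 0), l (QW Q e f w) ≤
        ∑ w : PW Q e f with w ≠ 0, l (QW Q e f w) :=
      sum_le_sum_of_subset fun w => by simp only [mem_filter_univ]; rintro k rfl; simp at k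
    zify at k1 k2 h3 hK
    have k3 : (Fintype.card F : ℤ) ^ 2 ≤ (Fintype.card F : ℤ) ^ (j + 1) := pow_le_pow_right₀ hq.le (by omega)
    refine Or.inl (le_of_eq_of_le (by ring) (arith_two hq (hε.imp_right fun k => ⟨k.1, by exact_mod_cast k.2⟩)
      k3 (A := A) (by rw [hA]; ring) ?_))
    have k4 : (0 : ℤ) ≤ ((Fintype.card F : ℤ) ^ 2 - 1) * ((Fintype.card F : ℤ) ^ (j + 1)) ^ 2 := by
      have : (0 : ℤ) < (Fintype.card F : ℤ) ^ 2 - 1 := by nlinarith
      positivity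
    have k5 := mul_le_mul_of_nonneg_right hK k4
    have k6 := mul_le_mul_of_nonneg_left (k2.trans (le_add_of_nonneg_left d'.cast_nonneg))
      (zero_le_one.trans hq.le)
    rw [← h3] at k6
    refine le_trans ?_ k6
    rw [eq_sub_of_add_eq k1]
    refine le_of_eq_of_le ?_ (k5.trans_eq ?_) <;> ring

end Cfsg.Lib.Char.MDO
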