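import Cfsg.Agent.Char.MDO4

/-! Minimal character degrees of the orthogonal groups: the exceptional step for `Ω⁻₈(2)`. -/

set_option autoImplicit false

namespace Cfsg.Lib.Char.MDO

open QuadraticMap Module Finset Cfsg.Lib.Class Cfsg.Lib.Class.Orth Cfsg.Lib.Class.MD

theorem exists_zeta {H : Type*} [Group H] {g x : H} (hg : g ^ 3 = 1) (hx : x ^ 3 = 1) (h : Commute g x) :
    ∃ ζ : AddChar (Fin 3 × Fin 3) H, ∀ p, ζ p = g ^ p.1.val * x ^ p.2.val :=
  ⟨⟨fun p => g ^ p.1.val * x ^ p.2.val, by simp, fun p p' => by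
    rw [Prod.fst_add, Prod.snd_add, Fin.val_add, Fin.val_add, ← pow_eq_pow_mod _ hg, ← pow_eq_pow_mod _ hx,
      pow_add, pow_add, (h.pow_pow _ _).symm.mul_mul_mul_comm]⟩, fun _ => rfl⟩

theorem eq_of_extraspecial {H : Type*} [Group H] {θ : H → ℂ} (hθ : IsCharacter H θ) (h5 : θ 1 = 5)
    {g x p : H} (hg : g ^ 3 = 1) (hx : x ^ 3 = 1) (h1 : Commute g x) (h2 : p * x = g * x * p)
    (h3 : Commute p g) (h4 : θ (g ^ 2) = θ g) : θ g = 5 := by
  obtain ⟨ω, h6, h7⟩ : ∃ ω : ℂ, ω ^ 3 = 1 ∧ 1 + ω + ω ^ 2 = 0 := by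
    have := Complex.isPrimitiveRoot_exp 3 (by norm_num)
    refine ⟨_, this.pow_eq_one, ?_⟩
    simpa [sum_range_succ] using this.geom_sum_eq_zero (by norm_num)
  obtain ⟨l, hl⟩ := exists_zeta (H := ℂˣ) (g := Units.mkOfMulEqOne ω (ω ^ 2) (by rw [← h6]; ring))
    (Units.ext h6) (one_pow 3) (Commute.one_right _)
  obtain ⟨ζ, hζ⟩ := exists_zeta hg hx h1
  obtain ⟨ζ', hζ'⟩ := exists_zeta hg (one_pow 3) (Commute.one_right _)
  obtain ⟨m, hm⟩ := exists_acomp_one hθ ζ ((Units.coeHom ℂ).compAddChar l)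
  obtain ⟨n, hn⟩ := exists_acomp_one hθ ζ' 0
  have k : ∀ i j : ℕ, θ (g ^ (i + j) * x ^ j) = θ (g ^ i * x ^ j) := fun i j => by
    rw [← hθ.isClassFunction.apply_conj (g ^ i * x ^ j) p, ← mul_assoc, (h3.pow_right i).eq, mul_assoc,
      mul_assoc, ← mul_assoc p, ← conj_pow, h2, mul_inv_cancel_right, h1.mul_pow, pow_add, mul_assoc]
  have k1 := k 0 1
  have k2 := k 1 1
  have k3 := k 0 2
  have k4 := k 2 2
  rw [show g ^ (2 + 2) = g ^ 1 by rw [show 2 + 2 = 3 + 1 from rfl, pow_add, hg, one_mul]] at k4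
  simp only [acomp, Fintype.sum_prod_type, Fin.sum_univ_three, hζ, hζ', MonoidHom.compAddChar_apply,
    Function.comp_apply, hl] at hm hn
  simp at hm hn k1 k2 k3 k4
  rw [h5, h4] at hm hn
  have k5 : θ g = 5 - 9 * m := by
    rw [k4, k3, k2, k1, show ((-2 : Fin 3) : ℕ) = 1 from rfl] at hm
    linear_combination -9 * hm + (θ x + θ (x ^ 2) + θ g) * h7
  have k6 : (n : ℂ) + 6 * m = 5 := by linear_combination -hn + (2 / 3) * k5
  have k7 : n + 6 * m = 5 := by exact_mod_cast k6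
  rw [k5, show m = 0 by omega]
  simp

variable {F V : Type*} [Field F] [AddCommGroup V] [Module F V] {Q : QuadraticForm F V}
  [Fintype F] [FiniteDimensional F V]

theorem eq_of_ker (hQ : (polarBilin Q).Nondegenerate) (hn : 5 ≤ finrank F V) {θ : EG Q → ℂ}
    (hθ : IsCharacter _ θ) {g : EG Q} (hg : θ g = θ 1) (h1 : g.1 ≠ 1) (h2 : g.1 ≠ negO Q) (h : EG Q) :
    θ h = θ 1 := by
  have hE : ¬ Exc Q := not_exc_of_finrank (by omega)
  revert θ g h
  rw [← commutator_eq_EG hQ hE (by omega)]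
  intro θ hθ g hg h1 h2 h
  rcases normal_le_center_or_eq_top hQ hn _ hθ.charKer_normal with k | k
  · exact absurd ((mem_center_commutator_iff hQ hE (by omega)).1 (k (hθ.mem_charKer_iff.2 hg))) (by tauto)
  · exact hθ.mem_charKer_iff.1 (k ▸ Subgroup.mem_top h)

/-- three pairwise orthogonal anisotropic planes -/
def tabX (k : Fin 3 × Fin 3) : (Fin 2 ⊕ Fin 2) ⊕ Fin 2 → ZMod 2 :=
  ![![Sum.elim (Sum.elim ![1, 0] ![1, 0]) 0, Sum.elim (Sum.elim ![1, 1] ![0, 1]) 0,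
      Sum.elim (Sum.elim ![0, 1] ![1, 1]) 0],
    ![Sum.elim (Sum.elim ![0, 1] ![0, 1]) 0, Sum.elim (Sum.elim ![1, 1] ![1, 0]) 0,
      Sum.elim (Sum.elim ![1, 0] ![1, 1]) 0],
    ![Sum.elim 0 ![1, 0], Sum.elim 0 ![0, 1], Sum.elim 0 ![1, 1]]] k.1 k.2

theorem tabX_spec : (∀ k, quadFormMinus 2 (ZMod 2) 1 1 (tabX k) = 1) ∧
    (∀ k l, quadFormMinus 2 (ZMod 2) 1 1 (tabX k + tabX l) = if k.1 = l.1 ∧ k.2 ≠ l.2 then 1 else 0) ∧
    ∀ i s t r, s ≠ t → t ≠ r → s ≠ r → tabX (i, s) + tabX (i, t) = tabX (i, r) := by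
  unfold quadFormMinus
  refine ⟨?_, ?_, fun i s t r h1 h2 h3 => funext fun c => ?_⟩
  · decide +kernel
  · decide +kernel
  · have : ∀ i s t r c, tabX (i, s) c + tabX (i, t) c = tabX (i, r) c ∨ s = t ∨ t = r ∨ s = r := by
      decide +kernel
    exact (this i s t r c).resolve_right (by tauto)

theorem exists_planes (T : Ty Q 2 (-1)) (hq : Fintype.card F = 2) : ∃ v : Fin 3 × Fin 3 → V,
    (∀ k, Q (v k) = 1) ∧ (∀ k l, polar Q (v k) (v l) = if k.1 = l.1 ∧ k.2 ≠ l.2 then 1 else 0) ∧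
    ∀ i s t r, s ≠ t → t ≠ r → s ≠ r → v (i, s) + v (i, t) = v (i, r) := by
  obtain ⟨φ⟩ : Nonempty (ZMod 2 ≃+* F) := ⟨ZMod.ringEquivOfPrime F Nat.prime_two hq⟩
  obtain ⟨g, hg⟩ := Known.exists_equiv_minus T.nd T.dim ((T.isPlus_iff (Or.inr rfl)).not.2 (by decide))
    (a := 1) (b := 1) ((Known.aniso_iff 1 1).2 fun t => by
      obtain ⟨t, rfl⟩ := φ.surjective t
      have : ∀ t : ZMod 2, t ^ 2 + 1 * t + 1 ≠ 0 := by decide
      simpa only [map_add, map_mul, map_pow, map_one] using φ.map_ne_zero_iff.2 (this t))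
  have h1 : ∀ x, Q (g (φ ∘ x)) = φ (quadFormMinus 2 (ZMod 2) 1 1 x) := fun x => by
    simp only [hg, quadFormMinus, map_add, map_mul, map_pow, map_one, map_sum, Function.comp_apply]
  have h2 : ∀ x y : (Fin 2 ⊕ Fin 2) ⊕ Fin 2 → ZMod 2, g (φ ∘ x) + g (φ ∘ y) = g (φ ∘ (x + y)) :=
    fun x y => by rw [← map_add]; congr 1; ext; simp
  refine ⟨fun k => g (φ ∘ tabX k), fun k => by rw [h1, tabX_spec.1, map_one], fun k l => ?_,
    fun i s t r k1 k2 k3 => by rw [h2, tabX_spec.2.2 i s t r k1 k2 k3]⟩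
  rw [polar, h2, h1, h1, h1, tabX_spec.1, tabX_spec.1, tabX_spec.2.1, ← map_sub, ← map_sub]
  split_ifs
  · rw [show (1 - 1 - 1 : ZMod 2) = 1 by decide, map_one]
  · rw [show (0 - 1 - 1 : ZMod 2) = 0 by decide, map_zero]

theorem exists_real (T : Ty Q 2 (-1)) (hq : Fintype.card F = 2) : ∃ v : Fin 3 × Fin 3 → V,
    v (0, 0) ≠ v (0, 1) ∧ (∀ i, v (i, 0) + v (i, 1) + v (i, 2) = 0) ∧
    (∀ σ : Fin 3 × Fin 3 → Fin 3 × Fin 3, (∀ k l, (σ k).1 = (σ l).1 ∧ (σ k).2 ≠ (σ l).2 ↔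
      k.1 = l.1 ∧ k.2 ≠ l.2) → ∃ g : O Q, ∀ k, g.1 (v k) = v (σ k)) ∧
    Submodule.span F (Set.range v) = ⊤ := by
  obtain ⟨v, h1, h2, h3⟩ := exists_planes T hq
  have h4 : ∀ w : Fin 3 × Fin 2 → V, (∀ p p', polar Q (w p) (w p') =
      if p = (p'.1, p'.2.rev) then 1 else 0) → LinearIndependent F w := fun w h =>
    Fintype.linearIndependent_iff.2 fun c hc p => by
      have := congrArg (polar Q · (w (p.1, p.2.rev))) hc
      simpa [Known.polar_sum_left, h] using this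
  have h5 : ∀ p p' : Fin 3 × Fin 2, (p.1 = p'.1 ∧ p.2.castSucc ≠ p'.2.castSucc) ↔ p = (p'.1, p'.2.rev) := by
    decide
  have h6 := h4 (fun p => v (p.1, p.2.castSucc)) fun p p' => by rw [h2, if_congr (h5 p p') rfl rfl]
  refine ⟨v, fun k => ?_, fun i => ?_, fun σ hσ => ?_, top_unique ?_⟩
  · have := h2 (0, 0) (0, 1)
    rw [k, h2] at this
    simp at this
  · rw [h3 i 0 1 2 (by decide) (by decide) (by decide), ← two_smul F,
      show (2 : F) = 0 by simpa [hq] using FiniteField.cast_card_eq_zero F, zero_smul]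
  · obtain ⟨g, hg⟩ := witt_family T.nd h6 (h4 (fun p => v (σ (p.1, p.2.castSucc))) fun p p' => by
      rw [h2, if_congr ((hσ _ _).trans (h5 p p')) rfl rfl]) (fun p => by rw [h1, h1])
      (fun p p' _ => by rw [h2, h2, if_congr (hσ _ _) rfl rfl])
    refine ⟨g, fun ⟨i, s⟩ => ?_⟩
    fin_cases s
    · exact hg (i, 0)
    · exact hg (i, 1)
    have k1 := (hσ (i, 0) (i, 1)).2 (by simp)
    have k2 := (hσ (i, 1) (i, 2)).2 (by simp)
    have k3 := (hσ (i, 0) (i, 2)).2 (by simp)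
    have := h3 (σ (i, 2)).1 _ _ _ k1.2 k2.2 k3.2
    rw [← k2.1, Prod.mk.eta, ← k1.1, Prod.mk.eta, k3.1, Prod.mk.eta] at this
    exact ((congrArg g.1 (h3 i 0 1 2 (by decide) (by decide) (by decide)).symm).trans
      ((map_add _ _ _).trans (congrArg₂ _ (hg (i, 0)) (hg (i, 1))))).trans this
  · rw [← h6.span_eq_top_of_card_eq_finrank' (by rw [T.dim]; simp)]
    exact Submodule.span_mono (Set.range_comp_subset_range (fun p : Fin 3 × Fin 2 => (p.1, p.2.castSucc)) v)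

theorem eq_of_five (hQ : (polarBilin Q).Nondegenerate) {e f : V} (he : Q e = 0) (hf : Q f = 0)
    (hef : polar Q e f = 1) (T : Ty (QW Q e f) 2 (-1)) (hq : Fintype.card F = 2) {χ : EG Q → ℂ}
    (hχ : IsClassFunction _ χ) (ι : EG (QW Q e f) →* EG Q) {θ : EG (QW Q e f) → ℂ} (hθ : IsCharacter _ θ)
    (h5 : θ 1 = 5) (h1 : ∀ h, (∀ w, h.1.1 w = w → w = 0) → χ (ι h) = θ h)
    (h2 : ∀ h (w : PW Q e f), (ι h).1.1 w = h.1.1 w) (h3 : ∀ h, (ι h).1.1 e = e ∧ (ι h).1.1 f = f)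
    (h : EG (QW Q e f)) : θ h = θ 1 := by
  obtain ⟨v, h4, h6, h7, h8⟩ := exists_real T hq
  have h0 : (2 : F) = 0 := by simpa [hq] using FiniteField.cast_card_eq_zero F
  have hn := T.dim
  have hV : finrank F (PW Q e f) + 2 = finrank F V := finrank_orth_hyp hQ he hef
  have hE : ¬ Exc (QW Q e f) := not_exc_of_finrank (by omega)
  have hE' : ¬ Exc Q := not_exc_of_finrank (by omega)
  have ext : ∀ {a b : O (QW Q e f)}, (∀ k, a.1 (v k) = b.1 (v k)) → a = b := fun {a b} k =>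
    O_ext fun w => LinearMap.congr_fun (LinearMap.ext_on_range (f := a.1.toLinearMap)
      (g := b.1.toLinearMap) h8 k) w
  have mem : ∀ a : O (QW Q e f), a * a * a = 1 → a ∈ EG (QW Q e f) := fun a ha => by
    rw [← commutator_eq_EG T.nd hE (by omega), mem_commutator_iff_even T.nd hE h0]
    have := congrArg dick ha
    rwa [dick_mul T.nd hE, dick_mul T.nd hE, dick_one, Int.units_mul_self, one_mul] at this
  obtain ⟨g, hg⟩ := h7 (fun k => (k.1, k.2 + 1)) (by decide)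
  obtain ⟨x, hx⟩ := h7 (fun k => (k.1, k.2 + k.1.rev)) (by decide)
  obtain ⟨p, hp⟩ := h7 (fun k => (k.1 + 1, k.2)) (by decide)
  obtain ⟨s, hs⟩ := h7 (fun k => (k.1, -k.2)) (by decide)
  have g3 : g * g * g = 1 := ext fun k => by
    simp only [O_mul_apply, hg, O_one_apply]; congr 1; revert k; decide
  have x3 : x * x * x = 1 := ext fun k => by
    simp only [O_mul_apply, hx, O_one_apply]; congr 1; revert k; decide
  have p3 : p * p * p = 1 := ext fun k => by
    simp only [O_mul_apply, hp, O_one_apply]; congr 1; revert k; decide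
  have r1 : g * x = x * g := ext fun k => by
    simp only [O_mul_apply, hg, hx]; congr 1; revert k; decide
  have r2 : p * x = g * x * p := ext fun k => by
    simp only [O_mul_apply, hg, hx, hp]; congr 1; revert k; decide
  have r3 : p * g = g * p := ext fun k => by simp only [O_mul_apply, hg, hp]
  have r4 : s * g = g * g * s := ext fun k => by
    simp only [O_mul_apply, hg, hs]; congr 1; revert k; decide
  have h9 : ∀ w, g.1 w = w → w = 0 := fun w hw => by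
    have := LinearMap.congr_fun (LinearMap.ext_on_range (g := 0)
      (f := LinearMap.id + g.1.toLinearMap + (g * g).1.toLinearMap) h8 fun k => ?_) w
    · simp only [LinearMap.add_apply, LinearMap.id_apply, LinearEquiv.coe_coe, O_mul_apply, hw] at this
      rwa [← two_smul F, h0, zero_smul, zero_add] at this
    · simp only [LinearMap.add_apply, LinearMap.id_apply, LinearEquiv.coe_coe, O_mul_apply, hg]
      obtain ⟨i, t⟩ := k
      have := h6 i
      fin_cases t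
      · exact this
      · exact (by abel : v (i, 1) + v (i, 2) + v (i, 0) = _).trans this
      · exact (by abel : v (i, 2) + v (i, 0) + v (i, 1) = _).trans this
  have hW : Disjoint (PW Q e f) (orth Q (PW Q e f)) := by
    rw [orth_orth hQ]; exact (hyp_disjoint he hf hef).symm
  have h10 : ∀ h, (ι h).1 = extend hQ hW h.1 := fun h => O_ext_hyp he hf hef
    (by rw [(h3 h).1, extend_apply_right _ _ _ (le_orth_orth _ (Submodule.subset_span (by simp)))])
    (by rw [(h3 h).2, extend_apply_right _ _ _ (le_orth_orth _ (Submodule.subset_span (by simp)))])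
    fun u k1 k2 => (h2 h ⟨u, mem_orth_pair.2 ⟨k1, k2⟩⟩).trans
      (extend_apply_left hQ hW h.1 ⟨u, mem_orth_pair.2 ⟨k1, k2⟩⟩).symm
  set G : EG (QW Q e f) := ⟨g, mem g g3⟩
  have h11 : extend hQ hW s * (ι G).1 * (extend hQ hW s)⁻¹ = (ι (G ^ 2)).1 := by
    rw [h10, h10, ← map_inv, ← map_mul, ← map_mul, mul_inv_eq_iff_eq_mul.2 r4, pow_two]
    rfl
  have h12 : ∃ k : EG Q, k * ι G * k⁻¹ = ι (G ^ 2) := by
    have k1 : ∀ a : O Q, dick a = 1 → a ∈ EG Q := fun a ha => by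
      rwa [← commutator_eq_EG hQ hE' (by omega), mem_commutator_iff_even hQ hE' h0]
    rcases Int.units_eq_one_or (dick (extend hQ hW s)) with k | k
    · exact ⟨⟨_, k1 _ k⟩, Subtype.ext h11⟩
    · refine ⟨⟨_, k1 _ ((dick_mul_refl hQ _ (v := e + f) (by qsimp; simp [he, hf, hef])).trans
        (by rw [k, neg_neg]))⟩, Subtype.ext (Eq.trans ?_ h11)⟩
      have := mul_refl (ι G).1 (e + f)
      rw [map_add, (h3 G).1, (h3 G).2] at this
      simp only [Subgroup.coe_mul, Subgroup.coe_inv, mul_inv_rev, refl_inv, mul_assoc]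
      rw [← mul_assoc (ι G).1, this, mul_assoc, ← mul_assoc (refl Q _), refl_mul_self, one_mul]
  obtain ⟨k, hk⟩ := h12
  refine eq_of_ker T.nd (by omega) hθ (g := G) ?_ (fun k => h4 ?_) (fun k => h4 ?_) h
  · rw [h5]
    refine eq_of_extraspecial hθ h5 (x := ⟨x, mem x x3⟩) (p := ⟨p, mem p p3⟩) (Subtype.ext ?_)
      (Subtype.ext ?_) (Subtype.ext r1) (Subtype.ext r2) (Subtype.ext r3) ?_
    · rwa [Subgroup.coe_pow, pow_three']
    · rwa [Subgroup.coe_pow, pow_three']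
    · rw [← h1 G h9, ← h1 (G ^ 2) fun w hw => h9 w ?_, ← hk, hχ.apply_conj]
      rw [pow_two] at hw
      rw [mul_assoc] at g3
      exact (congrArg g.1 hw).symm.trans (congrArg (fun a : O _ => a.1 w) g3)
  · exact ((hg (0, 0)).symm.trans (congrArg (fun a : O _ => a.1 _) k)).symm
  · rw [negO_eq_one_of_char_two h0] at k
    exact ((hg (0, 0)).symm.trans (congrArg (fun a : O _ => a.1 _) k)).symm

end Cfsg.Lib.Char.MDO
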