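import Cfsg.Agent.Char.MDO5
import Cfsg.Agent.S0302

/-! Minimal character degrees of the even-dimensional orthogonal groups. -/

set_option autoImplicit false

namespace Cfsg.Lib.Char.MDO

open QuadraticMap Module Finset Cfsg.Lib.Class Cfsg.Lib.Class.Orth Cfsg.Lib.Class.MD

universe u

variable {F : Type*} {V : Type u} [Field F] [AddCommGroup V] [Module F V] {Q : QuadraticForm F V}
  [Fintype F] [FiniteDimensional F V]

theorem Bd.step {j : ℕ} {ε : ℤ} (T : Ty Q (j + 2) ε) (hj : 1 ≤ j)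
    (hε : ε = -1 ∧ 2 ≤ j ∨ ε = 1 ∧ 3 < Fintype.card F) {A : ℤ}
    (hA : ((Fintype.card F : ℤ) ^ 2 - 1) * A = (Fintype.card F : ℤ) ^ (2 * (j + 2)) - 1)
    (ih : ∀ e f, Ty (QW Q e f) (j + 1) ε → Bd (QW Q e f) (Fintype.card F *
      (A - (Fintype.card F : ℤ) ^ (2 * (j + 1))) + ε * (Fintype.card F : ℤ) ^ (j + 1))) :
    Bd Q (Fintype.card F * A + ε * (Fintype.card F : ℤ) ^ (j + 2)) := by
  refine Bd.of_irr fun χ hχ d hd e v h hne => ?_
  have hq := one_lt_q F
  obtain k | ⟨f, hf, hef, ι, θ, d', h1, h2, -, -, -, h3, h4⟩ :=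
    core T hj (hε.imp_left And.left) hχ hd h hne hA
  · exact k
  have T' := T.sub h.l hf hef
  have h5 := T'.sg
  rcases h4 with ⟨h4, u', v', h6, h7⟩ | ⟨rfl, h4, h6⟩
  · have h8 := ih e f T' θ h1 d' h2 u' v' h6 h7
    zify at h4
    by_contra k
    have h9 : (d : ℤ) + 1 = Fintype.card F * A + ε * (Fintype.card F * Fintype.card F ^ (j + 1)) := by
      refine le_antisymm (by rw [← pow_succ']; exact Int.add_one_le_of_lt (not_le.1 k)) ?_
      rw [h4, h5]
      refine le_of_eq_of_le ?_ (add_le_add_left h8 _)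
      ring
    refine arith_dvd hq (by omega) (pow_le_pow_right₀ hq.le (by omega)) (by rw [hA]; ring) h9
      (m := 2 * (j + 1)) (h3.trans (dvd_of_eq ?_))
    rw [h9]; ring
  · obtain ⟨u', v', h6, h7⟩ := h6 (by omega)
    have h8 := ih e f T' θ h1 d' h2 u' v' h6 h7
    zify at h4
    rw [h4, h5]
    have : (0 : ℤ) ≤ Fintype.card F ^ (j + 2) := by positivity
    refine le_of_eq_of_le ?_ ((add_le_add_left h8 _).trans (le_add_of_nonneg_right this))
    ring

theorem bd_minus_two (T : Ty Q 2 (-1)) :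
    Bd Q ((Fintype.card F : ℤ) ^ 3 - (Fintype.card F : ℤ) ^ 2 + Fintype.card F - 1) := by
  classical
  intro χ hχ d hd e v h hne
  have : Finite V := Module.finite_of_finite F
  obtain ⟨f, h1, hf, hef⟩ := exists_partner_orth T.nd h.l h.symm.nm (by simp [h.rl])
  have := Fintype.ofFinite (PW Q e f)
  have T' := T.sub h.l hf hef
  obtain ⟨ι, θ, l, h2, h3, h4, -⟩ := step T.nd h.l hf hef (k := 1) T'.dim le_rfl (fun ⟨_, k1, p, w, k2, k3,
    k4, k5⟩ => absurd ((T'.isPlus_iff (Or.inr rfl)).1 ⟨Submodule.span F {p, w}, fun x hx => by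
      obtain ⟨a, b, rfl⟩ := Submodule.mem_span_pair.1 hx
      qsimp; simp [k3, k4, k5], by rw [finrank_span_pair k2, k1]⟩) (by decide)) hχ
  obtain ⟨d', hd'⟩ := h2.exists_nat_degree
  have h5 := h4 ⟨v, mem_orth_pair.2 ⟨h.lr, by rw [polar_comm, h1 v (by simp)]⟩⟩
    (fun k => h.ne' (congrArg Subtype.val k)) h.r
  rw [hd, hd'] at h3
  replace h3 : d = d' + ∑ w : PW Q e f with w ≠ 0, l (QW Q e f w) := by exact_mod_cast h3
  obtain ⟨c, -, hc⟩ := exists_ne_zero_of_sum_ne_zero (s := univ) (f := l) fun k => by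
    rw [k, zero_mul, Nat.cast_zero, sub_eq_zero] at h5
    exact hne h5.symm
  have h6 := le_sum_of_ne (Q := QW Q e f) hc
  have h7 := T'.sg
  have h8 : (0 : ℤ) ≤ Fintype.card F ^ (1 + 1) := by positivity
  replace h6 := h6.trans (h3 ▸ Nat.le_add_left _ d')
  by_cases k : c = 0
  · have := card_sing (Q := QW Q e f)
    rw [k] at h6
    zify at h6 this
    linear_combination h6 - this - h7
  · have := T'.card_eq k
    zify at h6
    linear_combination h6 - this - h7 + h8 + (zero_le_one' ℤ)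

theorem bd_minus_three (T : Ty Q 3 (-1)) : Bd Q ((Fintype.card F : ℤ) ^ 5 + Fintype.card F) := by
  refine Bd.of_irr fun χ hχ d hd e v h hne => ?_
  have hq := one_lt_q F
  obtain k | ⟨f, hf, hef, ι, θ, d', h1, h2, k1, k2, k3, h3, h4⟩ := core T le_rfl (Or.inl rfl) hχ hd h hne
    (A := Fintype.card F ^ 4 + Fintype.card F ^ 2 + 1) (by ring)
  · linear_combination k
  have T' := T.sub h.l hf hef
  have h5 := T'.sg
  rcases h4 with ⟨h4, u', v', h6, h7⟩ | ⟨-, h4, -⟩
  swap
  · zify at h4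
    have : (Fintype.card F : ℤ) ≤ Fintype.card F ^ 2 := by nlinarith
    linear_combination -h4 - h5 + this + d'.cast_nonneg (α := ℤ)
  have h8 := bd_minus_two T' θ h1 d' h2 u' v' h6 h7
  zify at h4
  by_contra k
  obtain h9 | h9 : (d : ℤ) + 1 = Fintype.card F ^ 5 + Fintype.card F ∨
      (d : ℤ) + 2 = Fintype.card F ^ 5 + Fintype.card F := by
    have : (Fintype.card F : ℤ) ^ 5 + Fintype.card F ≤ d + 2 := by linear_combination h8 - h4 - h5
    omega
  · refine arith_dvd hq (Or.inr rfl) le_rfl (A := Fintype.card F ^ 4 + Fintype.card F ^ 2 + 1) (by ring)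
      (by rw [h9]; ring) (m := 4) (h3.trans (dvd_of_eq ?_))
    rw [h9]; ring
  by_cases hq2 : Fintype.card F = 2
  · rw [hq2] at h5 h9
    refine h7 (eq_of_five T.nd h.l hf hef T' hq2 hχ.isClassFunction ι h1 ?_ k1 k2 k3 _)
    rw [h2, show d' = 5 by omega, Nat.cast_ofNat]
  · generalize Fintype.card F = q at *
    obtain ⟨r, rfl⟩ : ∃ r, q = r + 3 := ⟨q - 3, by omega⟩
    have h10 : d + 2 = (r + 3) * ((r + 3) ^ 4 + 1) := by zify; push_cast at h9; linear_combination h9
    have h11 : (r + 3) * d = (r + 3) ^ 6 + (r + 3) * (r + 1) := by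
      zify; push_cast at h9; linear_combination (r + 3) * h9
    refine MD.not_dvd_of (h := 6) (m := 4) h10 two_pos (by omega) ?_ ?_
    · rw [h11, Nat.add_sub_cancel_left]
      clear * - h10
      ring_nf at h10 ⊢
      omega
    · zify [Nat.one_le_pow 6 (r + 3) (by omega)]
      push_cast at h3 h9
      refine h3.trans (dvd_of_eq ?_)
      rw [h9]; ring

theorem bd_plus_two (T : Ty Q 2 1) (hq : 3 < Fintype.card F) :
    Bd Q ((Fintype.card F : ℤ) ^ 3 + (Fintype.card F : ℤ) ^ 2 + Fintype.card F) := by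
  classical
  intro χ hχ d hd u v h hne
  have hn := T.dim
  have hE : ¬ Exc Q := not_exc_of_finrank (by omega)
  obtain ⟨g, hg⟩ := Known.exists_equiv_plus T.nd (m := 3) T.dim ((T.isPlus_iff (Or.inl rfl)).2 rfl)
  obtain ⟨f, hf⟩ := Cfsg.Agent.S0302.exists_hom F
  let ε : isometryGroup F (quadFormPlus 3 F) ≃* O Q := (oEquivIsom _).trans
    (OCongr (Q := quadPlus 3 F) g one_ne_zero fun x => by rw [hg, one_mul]; rfl)
  let φ : Matrix.SpecialLinearGroup (Fin 4) F →* O Q := ε.toMonoidHom.comp f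
  have hP := SL_commutator_eq_top (ι := Fin 4) (F := F) (by simp)
  have hφ : ∀ x, φ x ∈ EG Q := fun x => by
    rw [← commutator_eq_EG T.nd hE (by omega)]
    have : (commutator _).map φ ≤ commutator (O Q) := by
      rw [commutator_def, Subgroup.map_commutator]
      exact Subgroup.commutator_mono le_top le_top
    exact this (Subgroup.mem_map_of_mem φ (hP ▸ Subgroup.mem_top x))
  obtain ⟨x, hx⟩ : ∃ x, χ (φ.codRestrict _ hφ x) ≠ χ 1 := by
    by_contra! k
    have k1 : ∀ x, φ x ∈ Subgroup.center (O Q) := fun x => (mem_center_O_iff T.nd (by omega)).2 (by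
      by_contra! k2
      exact hne (eq_of_ker T.nd (by omega) hχ (k x) k2.1 k2.2 _))
    have k2 : commutator _ ≤ φ.ker := by
      rw [commutator_def, Subgroup.commutator_le]
      intro a _ b _
      rw [MonoidHom.mem_ker, map_commutatorElement, commutatorElement_eq_one_iff_mul_comm]
      exact Subgroup.mem_center_iff.1 (k1 b) _
    have k3 := hf (Chev.slE 0 1 1) ((map_eq_one_iff _ ε.injective).1
      (k2 (hP ▸ Subgroup.mem_top (Chev.slE 0 1 1))))
    rw [Chev.slE, dif_pos (by decide)] at k3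
    rcases k3 with k3 | k3 <;> simpa [Matrix.SpecialLinearGroup.transvection, Matrix.transvection]
      using congrArg (fun g : Matrix.SpecialLinearGroup (Fin 4) F => g.1 0 1) k3
  have key : ∀ χ, IsCharacter (Matrix.SpecialLinearGroup (Fin 4) F) χ → χ x ≠ χ 1 → ∀ d : ℕ, χ 1 = d →
      Fintype.card F * (Fintype.card F ^ 2 + Fintype.card F + 1) ≤ d := fun χ hχ => by
    refine hχ.induction_on (P := fun χ => χ x ≠ χ 1 → ∀ d : ℕ, χ 1 = d → _ ≤ d)
      (by simp) fun η θ hη hθ ih k d hd => ?_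
    obtain ⟨n, h0, hn⟩ := hη.exists_nat_degree_pos
    obtain ⟨n', hn'⟩ := hθ.exists_nat_degree
    have : n + n' = d := by rw [Pi.add_apply, hn, hn'] at hd; exact_mod_cast hd
    by_cases k' : θ x = θ 1
    · have := SLDeg.le_degree hη hn (by
        by_contra k2
        obtain rfl : n = 1 := by omega
        refine k ?_
        rw [Pi.add_apply, Pi.add_apply, k', apply_of_mem_charKer (hη.commutator_le_charKer_iff.2
          (by simpa using hn) (hP ▸ Subgroup.mem_top x))]) (by simp)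
        (Or.inr (Or.inl ⟨by simp, exists_sq_ne_one hq⟩)) (m := Fintype.card F ^ 2 + Fintype.card F + 1)
        (by rw [Fintype.card_fin]; zify [show 1 ≤ Fintype.card F by omega]; ring)
      omega
    · have := ih k' n' hn'
      omega
  have := key _ (hχ.comp (φ.codRestrict _ hφ)) (by rwa [map_one]) d (by rw [map_one, hd])
  zify at this
  linarith

theorem bd_plus (hq : 3 < Fintype.card F) (j : ℕ) : ∀ {V : Type u} [AddCommGroup V] [Module F V]
    [FiniteDimensional F V] {Q : QuadraticForm F V}, Ty Q (j + 2) 1 → ∀ A : ℤ,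
    ((Fintype.card F : ℤ) ^ 2 - 1) * A = (Fintype.card F : ℤ) ^ (2 * (j + 2)) - 1 →
    Bd Q (Fintype.card F * A + 1 * (Fintype.card F : ℤ) ^ (j + 2)) := by
  have hq' := one_lt_q F
  induction j with
  | zero =>
    intro V _ _ _ Q T A hA
    obtain rfl : A = Fintype.card F ^ 2 + 1 :=
      mul_left_cancel₀ (show (Fintype.card F : ℤ) ^ 2 - 1 ≠ 0 by nlinarith) (by rw [hA]; ring)
    convert bd_plus_two T hq using 1
    ring
  | succ j ih =>
    intro V _ _ _ Q T A hA
    exact Bd.step T (by omega) (Or.inr ⟨rfl, hq⟩) hA fun e f T' => ih T' _ (by linear_combination hA)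

theorem bd_minus (j : ℕ) : ∀ {V : Type u} [AddCommGroup V] [Module F V]
    [FiniteDimensional F V] {Q : QuadraticForm F V}, Ty Q (j + 3) (-1) → ∀ A : ℤ,
    ((Fintype.card F : ℤ) ^ 2 - 1) * A = (Fintype.card F : ℤ) ^ (2 * (j + 3)) - 1 →
    Bd Q (Fintype.card F * A + -1 * (Fintype.card F : ℤ) ^ (j + 3)) := by
  have hq' := one_lt_q F
  induction j with
  | zero =>
    intro V _ _ _ Q T A hA
    obtain rfl : A = Fintype.card F ^ 4 + Fintype.card F ^ 2 + 1 :=
      mul_left_cancel₀ (show (Fintype.card F : ℤ) ^ 2 - 1 ≠ 0 by nlinarith) (by rw [hA]; ring)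
    convert bd_minus_three T using 1
    ring
  | succ j ih =>
    intro V _ _ _ Q T A hA
    exact Bd.step (j := j + 2) T (by omega) (Or.inl ⟨rfl, by omega⟩) hA fun e f T' =>
      ih T' _ (by linear_combination hA)

theorem Bd.le_of_rep {ι : Type} [Fintype ι] [DecidableEq ι] {Q : QuadraticForm F (ι → F)} {D : ℤ}
    (B : Bd Q D) (hQ : (polarBilin Q).Nondegenerate) (hn : 5 ≤ finrank F (ι → F)) {k : ℕ}
    (ρ : Representation ℂ (Omega F Q) (Fin k → ℂ)) (hρ : ρ.IsIrreducible) (hk : 2 ≤ k) : D ≤ k := by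
  have hE : ¬ Exc Q := not_exc_of_finrank (by omega)
  let e := (omegaEquiv Q).trans (MulEquiv.subgroupCongr (commutator_eq_EG hQ hE (by omega)))
  have hχ := (isIrrCharacter_rep ρ).comp_equiv e.symm
  have hd : ρ.character (e.symm 1) = k := by
    rw [map_one, Representation.char_one, Module.finrank_fin_fun]
  obtain ⟨u, v, h⟩ := exists_LR hQ hn
  refine B _ hχ.isCharacter k hd u v h fun k1 => ?_
  obtain ⟨x, h1, h2⟩ := exists_polar_pair hQ h.li 1 0
  have h3 := eich_apply h.l h.lr x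
  have h4 : (eich Q u v).1 u = u := eich_apply_self u v
  rw [polar_comm _ x, polar_comm _ x, h1, h2, h.r] at h3
  have := hχ.eq_one_of_forall_eq (eq_of_ker hQ hn hχ.isCharacter k1 (fun k2 => ?_) fun k2 => ?_)
  · have : (1 : ℂ) = k := (congrFun this 1).symm.trans hd
    have : 1 = k := by exact_mod_cast this
    omega
  · rw [show eich Q u v = 1 from k2] at h3
    rw [O_one_apply] at h3
    exact h.ne' (by linear_combination (norm := module) h3)
  · rw [show eich Q u v = negO Q from k2, negO_apply] at h3 h4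
    have := LinearIndependent.pair_iff.1 h.li 0 1 ?_
    · simp at this
    have h5 : polar Q u (-x) = polar Q u x := by rw [h3]; qsimp; simp [h.lr]
    have h6 : (2 : F) = 0 := by rw [polar_neg_right, h1] at h5; linear_combination -h5
    have h7 : -x = x := by rw [neg_eq_iff_add_eq_zero, ← two_smul F, h6, zero_smul]
    rw [h7] at h3
    linear_combination (norm := module) h3

end Cfsg.Lib.Char.MDO
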