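import Cfsg.Agent.Char.MDO6
import Cfsg.Agent.Char.Ramified
import Cfsg.Agent.Char.CharCenter

/-! Minimal character degrees of the odd-dimensional orthogonal groups: the Levi factor of a point
stabiliser. -/

set_option autoImplicit false

namespace Cfsg.Lib.Char.MDO

open QuadraticMap Module Finset Cfsg.Lib.Class Cfsg.Lib.Class.Orth Cfsg.Lib.Class.MD

theorem exists_fix {G H : Type*} [Group G] [Finite G] [Group H] {χ : G → ℂ} (hχ : IsCharacter G χ)
    (π : G →* H) (hπ : Function.Surjective π) : ∃ ψ ω, IsCharacter H ψ ∧ IsCharacter G ω ∧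
      (∀ g, χ g = ψ (π g) + ω g) ∧
      ∀ x (E : ℂ), (∀ k, π k = 1 → χ k - χ (k * x) = E) → ψ 1 - ψ (π x) = E := by
  classical
  have := Fintype.ofFinite G
  have h0 := card_ne_zero π.ker
  obtain ⟨ψ, h1, h2⟩ := (isCharacter_coset_average π.ker hχ).exists_of_surjective π hπ fun n hn x => by
    congr 1
    exact Fintype.sum_equiv (Equiv.mulRight ⟨n, hn⟩) _ _ fun _ => by simp [mul_assoc]
  refine ⟨ψ, ∑ β ∈ univ.filter fun β : IrrCharacter G => ¬ π.ker ≤ charKer β.1, classInner χ β.1 • β.1, h1,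
    isCharacter_sum _ fun β _ => ?_, fun g => ?_, fun x E h => ?_⟩
  · obtain ⟨k, hk⟩ := hχ.exists_nat_classInner β.2.isCharacter
    rw [hk]
    exact β.2.isCharacter.natCast_smul k
  · rw [h2, congrFun (coset_average_eq_sum π.ker hχ.isClassFunction) g, ← Pi.add_apply,
      sum_filter_add_sum_filter_not, hχ.isClassFunction.apply_eq_sum_irr g, Finset.sum_apply]
    rfl
  · rw [← map_one π, h2, h2, ← mul_sub, ← sum_sub_distrib,
      sum_congr rfl fun n _ => by rw [mul_one, h n n.2]]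
    rw [sum_const, card_univ, ← Nat.card_eq_fintype_card, nsmul_eq_mul, inv_mul_cancel_left₀ h0]

theorem norm_lin {G : Type*} [Group G] [Finite G] {χ : G → ℂ} (hχ : IsCharacter G χ) (h : χ 1 = 1) (g : G) :
    ‖χ g‖ = 1 := by
  have := congrArg norm (hχ.map_mul_of_apply_one h g g⁻¹)
  rw [mul_inv_cancel, h, hχ.apply_inv, norm_mul, RCLike.norm_conj, norm_one] at this
  nlinarith [norm_nonneg (χ g)]

theorem norm_two {G : Type*} [Group G] [Finite G] (hG : ∀ a b : G, a * b = b * a) {θ : G → ℂ}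
    (hθ : IsCharacter G θ) (h2 : θ 1 = 2) {z t : G} (ht : t * t = 1) (h : θ (z * t) = θ t) : ‖θ z‖ = 2 := by
  revert h2 h
  refine hθ.induction_on (P := fun θ => θ 1 = 2 → θ (z * t) = θ t → ‖θ z‖ = 2) (by simp)
    fun η ξ hη hξ _ h2 h => ?_
  have h1 := hη.apply_one_of_comm hG
  have h3 : ξ 1 = 1 := by rw [Pi.add_apply, h1] at h2; linear_combination h2
  have h4 := hη.isCharacter.map_mul_of_apply_one h1
  have h5 := hξ.map_mul_of_apply_one h3
  have h6 := h4 t t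
  have h7 := h5 t t
  rw [ht] at h6 h7
  simp only [Pi.add_apply, h4, h5] at h ⊢
  rcases mul_self_eq_mul_self_iff.1 (h6.symm.trans (h1.trans (h3.symm.trans h7))) with k | k
  · rw [show η z + ξ z = 2 by linear_combination ξ t * h - (η z - 1) * ξ t * k + (η z + ξ z - 2) * (h7 - h3)]
    simp
  · rw [show η z + ξ z = 2 * ξ z by
      linear_combination -ξ t * h + (η z - 1) * ξ t * k + (η z - ξ z) * (h7 - h3)]
    simp [norm_lin hξ h3]

variable {F V : Type*} [Field F] [AddCommGroup V] [Module F V] {Q : QuadraticForm F V}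

theorem conj_tor (g : O Q) (e f : V) (t : F) : g * tor Q e f t * g⁻¹ = tor Q (g.1 e) (g.1 f) t := by
  rw [tor, tor, ← map_add, ← map_smul, ← map_add, ← conj_refl, ← conj_refl]
  group

/-- a hyperbolic pair -/
structure Hp (Q : QuadraticForm F V) (e f : V) : Prop where
  l : Q e = 0
  r : Q f = 0
  lr : polar Q e f = 1

/-- the stabiliser of a linear character of the radical -/
def sb (Q : QuadraticForm F V) (w : V) : Subgroup (Fˣ × O Q) where
  carrier := {p | p.2.1 w = (p.1 : F) • w}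
  one_mem' := by simp
  mul_mem' {p p'} h h' := by
    simp only [Set.mem_setOf_eq, Prod.snd_mul, Prod.fst_mul, O_mul_apply, Units.val_mul] at *
    rw [h', map_smul, h, smul_smul, mul_comm]
  inv_mem' {p} h := O_inv_apply_of_eq (by
    rw [map_smul, show p.2.1 w = _ from h, smul_smul]; simp)

/-- the components of a character along the radical of a point stabiliser -/
structure Dc (Q : QuadraticForm F V) (Λ : Subgroup (Fˣ × O Q)) (M : V → Fˣ × O Q → ℂ) : Prop where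
  le : ∀ g ∈ EG Q, (1, g) ∈ Λ
  conj : ∀ g ∈ Λ, ∀ h ∈ Λ, ∀ w, M (g.2.1 w) (g * h * g⁻¹) = M ((g.1 : F) • w) h
  zero : ∀ p ∈ Λ, ∀ w, p ∉ sb Q w → M w p = 0
  char : ∀ w, IsCharacter (Λ ⊓ sb Q w : Subgroup _) fun p => M w p

theorem Dc.char0 {Λ : Subgroup (Fˣ × O Q)} {M : V → Fˣ × O Q → ℂ} (D : Dc Q Λ M) :
    IsCharacter Λ fun p => M 0 p :=
  (D.char 0).comp (Subgroup.inclusion (le_inf le_rfl fun p _ => show p.2.1 0 = _ by simp))

theorem Dc.dec {Λ : Subgroup (Fˣ × O Q)} {M : V → Fˣ × O Q → ℂ} (D : Dc Q Λ M) :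
    Dec Q fun w h => M w (1, h) :=
  ⟨fun g w h => by simpa using D.conj _ (D.le _ g.2) _ (D.le _ h.2) w,
    fun w h k => D.zero _ (D.le _ h.2) w fun k' => k (k'.trans (one_smul F w)),
    fun w => (D.char w).comp (((MonoidHom.inr _ _).comp ((EG Q).subtype.comp (Subgroup.subtype _))).codRestrict _
      fun h : MulAction.stabilizer (EG Q) w => ⟨D.le _ h.1.2, h.2.trans (one_smul F w).symm⟩),
    D.char0.comp (((MonoidHom.inr _ _).comp (EG Q).subtype).codRestrict _ fun h => D.le _ h.2)⟩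

variable [FiniteDimensional F V] {e f : V} (hQ : (polarBilin Q).Nondegenerate)

namespace Hp

variable (h : Hp Q e f)
include hQ h

theorem disj : Disjoint (PW Q e f) (orth Q (PW Q e f)) := by
  rw [orth_orth hQ]; exact (hyp_disjoint h.l h.r h.lr).symm

theorem nd : (polarBilin (QW Q e f)).Nondegenerate := restrict_nondeg_iff.2 (h.disj hQ)

theorem dim : finrank F (PW Q e f) + 2 = finrank F V := finrank_orth_hyp hQ h.l h.lr

theorem ext_l (τ : O (QW Q e f)) : (extend hQ (h.disj hQ) τ).1 e = e :=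
  extend_apply_right _ _ _ (le_orth_orth _ (Submodule.subset_span (by simp)))

theorem ext_r (τ : O (QW Q e f)) : (extend hQ (h.disj hQ) τ).1 f = f :=
  extend_apply_right _ _ _ (le_orth_orth _ (Submodule.subset_span (by simp)))

/-- the Levi factor -/
noncomputable def E : Fˣ × O (QW Q e f) →* O Q :=
  (torHom h.l h.r h.lr).noncommCoprod (extend hQ (h.disj hQ)) fun a τ =>
    (mul_inv_eq_iff_eq_mul.1 ((conj_tor _ e f a.1).trans (by rw [h.ext_l, h.ext_r]; rfl))).symm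

theorem E_apply (p : Fˣ × O (QW Q e f)) : h.E hQ p = tor Q e f p.1 * extend hQ (h.disj hQ) p.2 := rfl

theorem E_l (p : Fˣ × O (QW Q e f)) : (h.E hQ p).1 e = (p.1 : F) • e := by
  rw [E_apply, O_mul_apply, h.ext_l, tor_apply_left h.l h.r h.lr p.1.ne_zero]

theorem E_r (p : Fˣ × O (QW Q e f)) : (h.E hQ p).1 f = (p.1 : F)⁻¹ • f := by
  rw [E_apply, O_mul_apply, h.ext_r, tor_apply_right h.l h.r h.lr p.1.ne_zero]

theorem E_w (p : Fˣ × O (QW Q e f)) (w : PW Q e f) : (h.E hQ p).1 w = p.2.1 w := by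
  rw [E_apply, O_mul_apply, extend_apply_left,
    tor_apply_orth _ (mem_orth_pair.1 (p.2.1 w).2).1 (mem_orth_pair.1 (p.2.1 w).2).2]

theorem E_inr (τ : O (QW Q e f)) : h.E hQ (1, τ) = extend hQ (h.disj hQ) τ :=
  (congrArg (· * _) (map_one (torHom h.l h.r h.lr))).trans (one_mul _)

theorem E_inl (a : Fˣ) : h.E hQ (a, 1) = tor Q e f a := by rw [E_apply, map_one, mul_one]

theorem E_eich (u v : PW Q e f) : h.E hQ (1, eich _ u v) = eich Q u v := by rw [E_inr, extend_eich]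

theorem E_tor (u v : PW Q e f) (a : Fˣ) (t : F) : h.E hQ (a, tor _ u v t) = tor Q e f a * tor Q u v t := by
  rw [E_apply, tor.eq_1 (QW Q e f), map_mul, extend_refl, extend_refl]; rfl

theorem E_surj {g : O Q} {a : Fˣ} (h1 : g.1 e = (a : F) • e) (h2 : g.1 f = (a : F)⁻¹ • f) :
    ∃ τ, h.E hQ (a, τ) = g := by
  obtain ⟨τ, hτ⟩ : (tor Q e f a)⁻¹ * g ∈ (extend hQ (h.disj hQ)).range := by
    rw [range_extend, orth_orth hQ, mem_fixG_span]
    rintro _ (rfl | rfl)
    · rw [O_mul_apply, h1, ← tor_apply_left h.l h.r h.lr a.ne_zero, O_inv_apply]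
    · rw [O_mul_apply, h2, ← tor_apply_right h.l h.r h.lr a.ne_zero, O_inv_apply]
  exact ⟨τ, by rw [E_apply, hτ, mul_inv_cancel_left]⟩

theorem exists_dc [Fintype F] [Fintype (PW Q e f)] {Γ : Subgroup (O Q)} (hΓ : EG Q ≤ Γ) {χ : O Q → ℂ}
    (hχ : IsCharacter Γ fun g => χ g) {ψ : AddChar F ℂ} (hψ : ψ ≠ 0) :
    ∃ M, Dc (QW Q e f) (Γ.comap (h.E hQ)) M ∧ ∀ p, ∀ x : PW Q e f,
      χ (h.E hQ p * eich Q e x) = ∑ w : PW Q e f, ψ (polar Q w.1 x.1) * M w p := by
  let ζ : AddChar (PW Q e f) Γ :=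
    { toFun := fun w => ⟨eich Q e w, hΓ (eich_mem_EG _ _)⟩
      map_zero_eq_one' := Subtype.ext (eich_zero e)
      map_add_eq_mul' := fun a b =>
        Subtype.ext (eich_add h.l (mem_orth_pair.1 a.2).1 (mem_orth_pair.1 b.2).1) }
  let φ : Fˣ × O (QW Q e f) → PW Q e f ≃ PW Q e f := fun p => p.2.1.toEquiv.trans (MulAction.toPerm p.1)
  have h1 : ∀ p (hp : h.E hQ p ∈ Γ) a, ⟨_, hp⟩ * ζ a = ζ (φ p a) * ⟨_, hp⟩ := fun p hp a => by
    rw [← mul_inv_eq_iff_eq_mul]
    refine Subtype.ext ((conj_eich _ e a).trans ?_)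
    rw [h.E_l, h.E_w]
    exact eich_smul_left h.l (mem_orth_pair.1 (p.2.1 a).2).1 _
  have h2 : ∀ p w a, lam ψ (QW Q e f) (p.2.1 w) (φ p a) = lam ψ _ ((p.1 : F) • w) a := fun p w a => by
    change ψ (polar _ _ ((p.1 : F) • p.2.1 a)) = ψ _
    rw [polar_smul_right', O_polar, polar_smul_left']
  let ζ₀ : AddChar (PW Q e f) (O Q) := ⟨fun w => eich Q e w, eich_zero e, fun a b =>
    eich_add h.l (mem_orth_pair.1 a.2).1 (mem_orth_pair.1 b.2).1⟩
  have h3 : ∀ l g (hg : g ∈ Γ), acomp ζ₀ χ l g = acomp ζ (fun g => χ g) l ⟨g, hg⟩ := fun _ _ _ => rfl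
  refine ⟨fun w p => acomp ζ₀ χ (lam ψ (QW Q e f) w) (h.E hQ p), ⟨fun g hg => hΓ ?_, fun g hg p hp w => ?_,
    fun p hp w k => ?_, fun w => ?_⟩, fun p x => ?_⟩
  · rw [h.E_inr]
    exact EG_le (K := (EG Q).comap (extend hQ (h.disj hQ))) (fun p w _ _ => by
      rw [Subgroup.mem_comap, extend_eich]; exact eich_mem_EG _ _) hg
  · rw [h3 _ _ hp, ← acomp_conj hχ.isClassFunction _ (h1 g hg) (h2 g w) ⟨_, hp⟩, map_mul, map_mul, map_inv]
    exact h3 _ _ _
  · by_contra k'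
    obtain ⟨w, rfl⟩ := p.2.1.surjective w
    have : (p.1 : F) • w = p.2.1 w := lam_injective (h.nd hQ) hψ (AddChar.ext _ _ fun a => by
      by_contra k2
      exact k' ((h3 _ _ hp).trans
        (acomp_eq_zero hχ.isClassFunction (h1 p hp a) fun k3 => k2 (by rw [k3, h2]))))
    exact k (show p.2.1 _ = _ by rw [← this, map_smul, ← this])
  · refine isCharacter_acomp (ζ := ζ) hχ (((h.E hQ).comp (Γ.comap (h.E hQ) ⊓ sb _ w).subtype).codRestrict Γ
      fun p => p.2.1) fun p => ⟨_, h1 p p.2.1, fun a => ?_⟩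
    have := h2 p ((p.1.1⁻¹ : Fˣ) • w) a
    rwa [Units.smul_def, map_smul, show p.1.2.1 w = _ from p.2.2, smul_smul, smul_smul, Units.inv_mul,
      Units.mul_inv, one_smul] at this
  · refine (apply_eq_sum_acomp ζ₀ χ _ x).trans ?_
    rw [← (lam_bijective (h.nd hQ) hψ).sum_comp]
    rfl

end Hp

variable [Fintype F] (h2 : (2 : F) ≠ 0)

/-- determinant and spinor norm -/
noncomputable def ds : O Q →* ℤˣ × ℤˣ := (dickHom hQ (not_exc_of_two_ne_zero h2)).prod (spin hQ h2)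

theorem mem_EG_iff (hn : 3 ≤ finrank F V) {g : O Q} : g ∈ EG Q ↔ ds hQ h2 g = 1 := by
  rw [← commutator_eq_EG hQ (not_exc_of_two_ne_zero h2) hn, mem_commutator_iff_odd hQ h2, Prod.ext_iff]
  rfl

theorem ds_refl {v : V} (hv : Q v ≠ 0) : ds hQ h2 (refl Q v) = (-1, sqChar F (Units.mk0 _ hv)) :=
  Prod.ext (dick_refl hQ hv) (spin_refl hQ h2 hv)

theorem ds_extend {W : Submodule F V} (hW : Disjoint W (orth Q W)) (τ : O (Q.restrict W)) :
    ds hQ h2 (extend hQ hW τ) = ds (restrict_nondeg_iff.2 hW) h2 τ :=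
  DFunLike.congr_fun (O_hom_ext (restrict_nondeg_iff.2 hW) (not_exc_of_two_ne_zero h2)
    (φ := (ds hQ h2).comp (extend hQ hW)) fun v hv => by
      rw [MonoidHom.comp_apply, extend_refl, ds_refl _ _ hv, ds_refl (v := v.1) _ _ hv]; rfl) τ

theorem Hp.ds_tor (h : Hp Q e f) (a : Fˣ) : ds hQ h2 (tor Q e f a) = (1, sqChar F a) := by
  have h1 : Q (e + f) = 1 := by simpa using Q_hyp h.l h.r h.lr 1 1
  have h3 : Q (e + (a : F) • f) = a := by simpa using Q_hyp h.l h.r h.lr 1 a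
  rw [tor, map_mul, ds_refl _ _ (h1.trans_ne one_ne_zero), ds_refl _ _ (h3.trans_ne a.ne_zero)]
  simp [h1, h3]

theorem Hp.ds_E (h : Hp Q e f) (p : Fˣ × O (QW Q e f)) :
    ds hQ h2 (h.E hQ p) = (1, sqChar F p.1) * ds (h.nd hQ) h2 p.2 := by
  rw [h.E_apply, map_mul, h.ds_tor, ds_extend]

omit [FiniteDimensional F V] [Fintype F] in
theorem Hp.coe {W : Submodule F V} {u v : W} (h : Hp (Q.restrict W) u v) : Hp Q u v :=
  ⟨h.l, h.r, (polar_restrict _ _ _).symm.trans h.lr⟩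

omit [FiniteDimensional F V] [Fintype F] in
theorem LR.coe {W : Submodule F V} {u v : W} (h : LR (Q.restrict W) u v) : LR Q u v :=
  ⟨h.l, h.r, (polar_restrict _ _ _).symm.trans h.lr, fun k => h.ne (Subtype.ext k), fun k => h.nm (by
    obtain ⟨c, hc⟩ := mem_spanL_singleton.1 k
    exact mem_spanL_singleton.2 ⟨c, Subtype.ext hc⟩)⟩

include hQ in
theorem exists_hp (hn : 3 ≤ finrank F V) : ∃ e f, Hp Q e f := by
  obtain ⟨x, y, -, -, h⟩ := exists_hyp_orthL hQ [] (by simpa using hn)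
  exact ⟨x, y, h.1, h.2.1, h.2.2⟩

theorem exists_psi (F : Type*) [Field F] [Finite F] : ∃ ψ : AddChar F ℂ, ψ ≠ 0 :=
  (AddChar.exists_apply_ne_zero.2 (one_ne_zero (α := F))).imp fun ψ h k => by simp [k] at h

/-- a character of a group between `Ω` and `O` in dimension `2k+5` -/
structure Ok (Q : QuadraticForm F V) (Γ : Subgroup (O Q)) (χ : O Q → ℂ) (k : ℕ) : Prop where
  nd : (polarBilin Q).Nondegenerate
  dim : finrank F V = 2 * k + 5
  le : EG Q ≤ Γ
  top : Γ = ⊤ ∨ 1 ≤ k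
  ch : IsCharacter Γ fun g => χ g

namespace Ok

variable {Γ : Subgroup (O Q)} {χ : O Q → ℂ} {k : ℕ} (S : Ok Q Γ χ k)
include S

theorem conj {g x : O Q} (hg : g ∈ Γ) (hx : x ∈ Γ) : χ (g * x * g⁻¹) = χ x := SLDeg.lin_conj S.ch hg hx

theorem long {u v u' v' : V} (h : LR Q u v) (h' : LR Q u' v') : χ (eich Q u' v') = χ (eich Q u v) := by
  obtain ⟨g, hg, rfl, rfl⟩ : ∃ g ∈ Γ, g.1 u = u' ∧ g.1 v = v' := by
    rcases S.top with rfl | k
    · exact (exists_O_pair S.nd h.li h'.li (by rw [h.l, h'.l]) (by rw [h.r, h'.r])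
        (by rw [h.lr, h'.lr])).imp fun _ k => ⟨trivial, k⟩
    · obtain ⟨g, hg⟩ := exists_EG_pair S.nd (by rw [S.dim]; omega) h h'
      exact ⟨g, S.le g.2, hg⟩
  rw [← conj_eich, S.conj hg (S.le (eich_mem_EG _ _))]

include h2 in
theorem core (h : Hp Q e f) [Fintype (PW Q e f)] [DecidableEq (PW Q e f)] {ψ : AddChar F ℂ} (hψ : ψ ≠ 0) :
    ∃ (M : _) (l : F → ℕ), Dc (QW Q e f) (Γ.comap (h.E S.nd)) M ∧ (∀ p, ∀ x : PW Q e f,
      χ (h.E S.nd p * eich Q e x) = ∑ w : PW Q e f, ψ (polar Q w.1 x.1) * M w p) ∧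
      (∀ p, χ (h.E S.nd p) = M 0 p + ∑ w with w ≠ 0, M w p) ∧
      (∀ w, w ≠ 0 → M w 1 = l (Q w)) ∧ (∀ b c, b ≠ 0 → l (b ^ 2 * c) = l c) ∧
      ∀ u v, LR Q u v → χ 1 - χ (eich Q u v) = ((∑ c, l c) * Fintype.card F ^ (2 * k + 2) : ℕ) := by
  classical
  obtain ⟨M, D, h1⟩ := h.exists_dc S.nd S.le S.ch hψ
  have hQ' := h.nd S.nd
  have hn : finrank F (PW Q e f) = 2 * k + 3 := by have := h.dim S.nd; have := S.dim; omega
  obtain ⟨x, y, h'⟩ := exists_hp hQ' (by omega)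
  choose m hm using fun w => (D.char w).exists_nat_degree
  have k1 : ∀ c, QW Q e f (x + c • y) = c := fun c => by simpa using Q_hyp h'.l h'.r h'.lr 1 c
  have k2 : ∀ c : F, x + c • y ≠ 0 := fun c k => by
    simpa [polar_add_left, polar_smul_left', polar_self', h'.r, h'.lr] using congrArg (polar (QW Q e f) · y) k
  have hl : ∀ w, w ≠ 0 → M w 1 = m (x + Q w • y) := fun w hw => by
    obtain ⟨τ, h3, h4⟩ : ∃ τ, (1, τ) ∈ Γ.comap (h.E S.nd) ∧ τ.1 (x + Q w • y) = w := by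
      rcases S.top with rfl | k
      · exact (exists_O_apply_eq hQ' (k2 _) hw (k1 _)).imp fun _ k => ⟨trivial, k⟩
      · obtain ⟨g, hg⟩ := exists_EG_one hQ' (not_exc_of_two_ne_zero h2) (by omega) (k2 _) hw (k1 _)
        exact ⟨g, D.le _ g.2, hg⟩
    have := D.conj _ h3 1 (one_mem _) (x + Q w • y)
    rw [mul_one, mul_inv_cancel, h4, Units.val_one, one_smul] at this
    exact this.trans (hm _)
  refine ⟨M, fun c => m (x + c • y), D, h1, fun p => ?_, hl, fun b c hb => ?_, fun u v huv => ?_⟩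
  · rw [filter_ne', add_sum_erase _ (M · p) (mem_univ 0)]
    simpa using h1 p 0
  · obtain ⟨b, rfl⟩ : ∃ a : Fˣ, a = b := ⟨Units.mk0 b hb, rfl⟩
    have := D.conj (b, tor _ x y b) (S.le ((mem_EG_iff S.nd h2 (by rw [S.dim]; omega)).2 (by
      rw [h.ds_E, h'.ds_tor]; simp [Int.units_mul_self]))) 1 (one_mem _) (x + c • y)
    rw [mul_one, mul_inv_cancel, hl _ ((LinearEquiv.map_ne_zero_iff _).2 (k2 c)),
      hl _ (smul_ne_zero (Units.ne_zero _) (k2 c)), ← restrict_apply', ← restrict_apply', O_map, Q_smul,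
      k1] at this
    exact_mod_cast this.symm
  have hx : x ≠ 0 := by simpa using k2 0
  rw [S.long (u := e) (v := x) ⟨h.l, h'.l, (mem_orth_pair.1 x.2).1, fun k => by simpa [k] using h.lr,
    fun k => hx ?_⟩ huv]
  swap
  · obtain ⟨c, hc⟩ := mem_spanL_singleton.1 k
    have := (mem_orth_pair.1 x.2).2
    rw [← hc, polar_smul_right', polar_comm, h.lr, mul_one] at this
    exact Subtype.ext (by rw [← hc, this, zero_smul]; rfl)
  have k3 := sum_shift (Q := QW Q e f) (R := ℂ) h'.l (fun c => m (x + c • y)) (fun w => 1 - ψ (polar Q w x))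
    (fun w s => by rw [← polar_restrict, ← polar_restrict]; qsimp; simp [h'.l])
    fun w h => by rw [show polar Q w x = 0 from h]; simp
  have k4 : ∑ w : PW Q e f, ψ (polar Q w x) = 0 := by
    have := AddChar.sum_eq_zero_iff_ne_zero.2 ((lam_injective hQ' hψ).ne_iff' (lam_zero ψ) |>.2 hx)
    simp only [lam_apply, polar_comm _ x] at this
    exact this
  rw [sum_sub_distrib, k4, sum_const, card_univ_eq (F := F), hn] at k3
  have k5 := h1 1 0
  have k6 := h1 1 x
  rw [map_one, one_mul] at k5 k6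
  rw [k6, ← (congrArg χ (eich_zero e)).symm.trans k5 |>.symm, ← sum_sub_distrib]
  refine mul_left_cancel₀ (card_cast_ne_zero F) ?_
  rw [sum_congr rfl (g := fun w => m (x + QW Q e f w • y) * (1 - ψ (polar Q w x))) fun w _ => ?_, k3]
  · push_cast; ring
  · by_cases hw : w = 0
    · simp [hw]
    · rw [hl w hw, restrict_apply']; simp; ring

include h2 in
theorem two {d : ℕ} (hd : χ 1 = d) {u v : V} (h : LR Q u v) (hne : χ (eich Q u v) ≠ χ 1) :
    (∀ u v, LR Q u v → χ 1 - χ (eich Q u v) = Fintype.card F ^ (2 * k + 2)) ∨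
      2 * Fintype.card F ^ (2 * k + 2) ≤ d + 2 * Fintype.card F ^ (2 * k + 1) := by
  classical
  have : Finite V := Module.finite_of_finite F
  obtain ⟨e, f, h'⟩ := exists_hp S.nd (by rw [S.dim]; omega)
  have := Fintype.ofFinite (PW Q e f)
  obtain ⟨ψ, hψ⟩ := exists_psi F
  obtain ⟨M, l, D, -, h1, hl, -, hK⟩ := S.core h2 h' hψ
  have hn : finrank F (PW Q e f) = 2 * k + 1 + 2 := by have := h'.dim S.nd; have := S.dim; omega
  obtain k0 | k0 | k0 : ∑ c, l c = 0 ∨ ∑ c, l c = 1 ∨ 2 ≤ ∑ c, l c := by omega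
  · exact absurd (sub_eq_zero.1 (by simpa [k0] using hK u v h)).symm hne
  · exact .inl fun u v h => by simpa [k0] using hK u v h
  obtain ⟨x, y, hx⟩ := exists_hp (h'.nd S.nd) (by omega)
  have k1 := sum_ne (h'.nd S.nd) hx.l (fun k => by simpa [k] using hx.lr) l hn
  have k2 : ∑ w with polar (QW Q e f) w x ≠ 0, l (QW Q e f w) ≤ ∑ w : PW Q e f with w ≠ 0, l (Q w) :=
    sum_le_sum_of_subset fun w => by simp only [mem_filter_univ]; rintro k rfl; simp at k
  obtain ⟨m, hm⟩ := D.char0.exists_nat_degree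
  have k3 := h1 1
  rw [map_one, hd, show M 0 1 = m from hm, sum_congr rfl fun w hw => hl w (mem_filter.1 hw).2] at k3
  have k4 : d = m + ∑ w : PW Q e f with w ≠ 0, l (Q w) := by exact_mod_cast k3
  have k5 : Fintype.card F ^ (2 * k + 1) ≤ Fintype.card F ^ (2 * k + 2) :=
    Nat.pow_le_pow_right Fintype.card_pos (by omega)
  right
  nlinarith

end Ok

end Cfsg.Lib.Char.MDO
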