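import Cfsg.Agent.Char.MDO7

/-! Minimal character degrees of the odd-dimensional orthogonal groups: characters with the
smallest possible drop at long root elements. -/

set_option autoImplicit false

namespace Cfsg.Lib.Char.MDO

open QuadraticMap Module Finset Cfsg.Lib.Class Cfsg.Lib.Class.Orth Cfsg.Lib.Class.MD

variable {F V : Type*} [Field F] [AddCommGroup V] [Module F V] {Q : QuadraticForm F V}

theorem orth_of_eig {g : O Q} {w u : V} {a b : F} (hw : g.1 w = a • w) (hu : g.1 u = b • u)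
    (h : a * b ≠ 1) : polar Q w u = 0 := by
  have := O_polar g w u
  rw [hw, hu, polar_smul_left', polar_smul_right'] at this
  exact (mul_eq_zero.1 (show (a * b - 1) * _ = 0 by linear_combination this)).resolve_left (sub_ne_zero.2 h)

variable [FiniteDimensional F V] [Fintype F] {e f : V} (h2 : (2 : F) ≠ 0)
include h2

theorem Dec.triv_fix {M : V → EG Q → ℂ} (D : Dec Q M) (hQ : (polarBilin Q).Nondegenerate)
    (hn : 5 ≤ finrank F V) {a : F} (ha : a ≠ 0) (ha' : a ^ 2 ≠ 1) {w u : V} (hw : Q w = 0) (hu : Q u = 0)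
    (h : polar Q w u ≠ 0) (h1 : M w 1 = 1) {y : EG Q} (h3 : y.1.1 w = w) (h4 : y.1.1 u = u) : M w y = 1 := by
  have h5 : Hp Q w ((polar Q w u)⁻¹ • u) :=
    ⟨hw, by rw [Q_smul, hu, mul_zero], by rw [polar_smul_right', inv_mul_cancel₀ h]⟩
  obtain ⟨τ, hτ⟩ := h5.E_surj hQ (g := y) (a := 1) (by simpa) (by simp [h4])
  have h6 := (mem_EG_iff hQ h2 (by omega)).1 y.2
  rw [← hτ, h5.ds_E, map_one, Prod.mk_one_one, one_mul,
    ← mem_EG_iff _ _ (by have := h5.dim hQ; omega)] at h6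
  obtain ⟨_, ⟨z, hz, rfl⟩, e⟩ := EG_le (K := (((charKer fun h : MulAction.stabilizer (EG Q) w => M w h).map
    (Subgroup.subtype _)).map (EG Q).subtype).comap (extend hQ (h5.disj hQ))) (fun p r hp hr => by
      have k1 := mem_orth_pair.1 p.2
      have k2 := mem_orth_pair.1 r.2
      refine ⟨ee Q p r, ⟨⟨_, eich_apply_of_orth_orth k1.1 k2.1⟩, (D.char w).mem_charKer_iff.2 ?_, rfl⟩,
        (extend_eich _ _ p r).symm⟩
      by_cases k : p.1 ∈ spanL F [r.1, w]
      swap
      · exact (D.triv_tor' hQ (by omega) ha ha' hp ((polar_restrict _ _ _).symm.trans hr) h1 k1.1 k2.1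
          k).trans h1.symm
      obtain ⟨c, d, k⟩ := mem_spanL_pair.1 k
      have := k1.2
      rw [← k, polar_add_right, polar_smul_right', polar_smul_right', k2.2, polar_comm, h5.lr] at this
      exact congrArg (M w) (Subtype.ext (eich_eq_one_of_not_linearIndependent fun k3 => by
        simpa using (LinearIndependent.pair_iff.1 k3 1 (-c) (by
          rw [← k, show d = 0 by simpa using this]; module)).1))) h6
  rw [show y = z from Subtype.ext (hτ.symm.trans ((h5.E_inr hQ τ).trans e.symm))]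
  exact ((D.char w).mem_charKer_iff.1 hz).trans h1

open Classical in
theorem Ok.dec {Γ : Subgroup (O Q)} {χ : O Q → ℂ} {k : ℕ} (S : Ok Q Γ χ k) (hq : 3 < Fintype.card F)
    (hK : ∀ u v, LR Q u v → χ 1 - χ (eich Q u v) = Fintype.card F ^ (2 * k + 2)) (h : Hp Q e f)
    [Fintype (PW Q e f)] : ∃ θ : Fˣ × O (QW Q e f) → ℂ, IsCharacter (Γ.comap (h.E S.nd)) (fun p => θ p) ∧
      χ 1 + 1 = θ 1 + Fintype.card F ^ (2 * k + 2) ∧
      (∀ p, h.E S.nd p ∈ Γ → ‖χ (h.E S.nd p) - θ p‖ ≤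
        #{w : PW Q e f | w ≠ 0 ∧ Q w = 0 ∧ p.2.1 w = (p.1 : F) • w}) ∧
      (∀ c y u v, h.E S.nd (c, y) ∈ Γ → c ≠ 1 → LR (QW Q e f) u v → y.1 u = u → y.1 v = v →
        θ (c, y) - θ (c, y * eich _ u v) = χ (h.E S.nd (c, y)) - χ (h.E S.nd (c, y) * eich Q u v)) ∧
      (∀ u v, LR (QW Q e f) u v → θ 1 - θ (1, eich _ u v) = Fintype.card F ^ (2 * k)) ∧
      (1 ≤ k → ∀ y ∈ EG (QW Q e f), ∀ u u', QW Q e f u = 0 → polar (QW Q e f) u' u = 1 → y.1 u = u →
        y.1 u' = u' → Fintype.card F * (χ (h.E S.nd (1, y)) - χ (h.E S.nd (1, y) * eich Q e u)) =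
          #{w | y.1 w = w}) := by
  obtain ⟨ψ, hψ⟩ := exists_psi F
  obtain ⟨M, l, D, h0, h1, hl, hb, h3⟩ := S.core h2 h hψ
  have hQ' := h.nd S.nd
  have hn : finrank F (PW Q e f) = 2 * k + 3 := by have := h.dim S.nd; have := S.dim; omega
  obtain ⟨a, ha, ha'⟩ := exists_sq_ne_one hq
  obtain ⟨c₀, hc⟩ := exists_of_sum_eq_one (l := l) (by
    obtain ⟨u, v, huv⟩ := exists_LR S.nd (by rw [S.dim]; omega)
    have := (h3 u v huv).symm.trans (hK u v huv)
    exact (mul_eq_right₀ (pow_ne_zero _ Fintype.card_ne_zero)).1 (by exact_mod_cast this))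
  obtain rfl : c₀ = 0 := by
    by_contra k
    have := hb a c₀ ha
    rw [hc, hc, if_pos rfl, if_neg fun k' => ha' (mul_right_cancel₀ k (k'.trans (one_mul _).symm))] at this
    omega
  simp only [hc, Nat.cast_ite, Nat.cast_one, Nat.cast_zero] at hl
  have h4 : ∀ p, h.E S.nd p ∈ Γ → ∀ w, w ≠ 0 → ‖M w p‖ ≤ if Q w = 0 ∧ p ∈ sb _ w then 1 else 0 :=
    fun p hp w hw => by
      by_cases k : p ∈ sb _ w
      · refine ((D.char w).norm_le_re ⟨p, hp, k⟩).trans_eq ?_
        rw [OneMemClass.coe_one, hl w hw]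
        split_ifs <;> simp_all
      · simp [D.zero p hp w k, k]
  have h5 : ∀ p, h.E S.nd p ∈ Γ → ∀ w : PW Q e f, w ≠ 0 → Q w ≠ 0 → M w p = 0 := fun p hp w hw k => by
    simpa [k] using h4 p hp w hw
  have h6 : ∀ p u v, h.E S.nd p ∈ Γ → LR (QW Q e f) u v → ∀ w, w ≠ 0 → polar (QW Q e f) w u = 0 →
      polar (QW Q e f) w v = 0 → M w (p * (1, eich _ u v)) = M w p := fun p u v hp huv w hw k1 k2 => by
    have k3 := D.le _ (eich_mem_EG u v)
    have k4 : (1, eich _ u v) ∈ sb _ w := (eich_apply_of_orth_orth k1 k2).trans (one_smul F w).symm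
    by_cases k : p ∈ sb _ w
    swap
    · rw [D.zero p hp w k, D.zero _ (mul_mem hp k3) w fun k' => k ((mul_mem_cancel_right k4).1 k')]
    by_cases k5 : Q w = 0
    swap
    · rw [h5 p hp w hw k5, h5 _ ((Γ.comap _).mul_mem hp k3) w hw k5]
    have k6 : M w 1 = 1 := by rw [hl w hw, if_pos k5]
    exact (D.char w).apply_mul_right_of_eq (g := ⟨_, k3, k4⟩)
      ((D.dec.triv_tor hQ' (by omega) ha ha' huv k6 k1 k2).trans k6.symm) ⟨p, hp, k⟩
  refine ⟨M 0, D.char0, ?_, fun p hp => ?_, fun c y u v hp hc huv k1 k2 => ?_, fun u v huv => ?_,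
    fun hk y hy u u' hu huu k1 k2 => ?_⟩
  · have := card_sing (Q := QW Q e f)
    rw [sing_odd hQ' (m := k + 1) hn, Nat.card_eq_fintype_card] at this
    rw [← map_one (h.E S.nd), h1, sum_congr rfl fun w hw => hl w (mem_filter.1 hw).2, sum_boole,
      filter_filter, add_assoc, ← Nat.cast_add_one, ← Nat.cast_pow]
    exact congrArg (fun n : ℕ => M 0 1 + (n : ℂ)) this
  · rw [h1, add_sub_cancel_left, ← filter_filter, card_filter, Nat.cast_sum]
    exact norm_sum_le_of_le _ fun w hw => (h4 p hp w (mem_filter.1 hw).2).trans_eq (by push_cast; congr)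
  · rw [← h.E_eich S.nd, ← map_mul, h1, h1, Prod.mk_mul_mk, mul_one, add_sub_add_comm, ← sum_sub_distrib,
      left_eq_add]
    refine sum_eq_zero fun w hw => sub_eq_zero.2 ?_
    have k3 : ∀ y : O (QW Q e f), y.1 u = u → y.1 v = v → (c, y) ∈ sb _ w →
        polar (QW Q e f) w u = 0 ∧ polar (QW Q e f) w v = 0 := fun y k1 k2 k =>
      ⟨orth_of_eig k (k1.trans (one_smul F u).symm) (by simpa), orth_of_eig k (k2.trans (one_smul F v).symm)
        (by simpa)⟩
    by_cases k : polar (QW Q e f) w u = 0 ∧ polar (QW Q e f) w v = 0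
    · simpa using (h6 _ u v hp huv w (mem_filter.1 hw).2 k.1 k.2).symm
    · rw [D.zero _ hp w fun k' => k (k3 y k1 k2 k'), D.zero _ (by
        simpa [-map_mul] using (Γ.comap _).mul_mem hp (D.le _ (eich_mem_EG u v))) w fun k' => k (k3 _ (by
          rw [O_mul_apply, eich_apply_self, k1]) (by
          rw [O_mul_apply, eich_apply_of_orth_orth huv.rl (by simp [huv.r]), k2]) k')]
  · have k1 := sum_moved hQ' huv (fun c => if c = 0 then 1 else 0) hn
    simp only [sum_ite_eq', mem_univ, if_true, one_mul] at k1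
    have k2 := hK u v huv.coe
    rw [← h.E_eich S.nd, ← map_one (h.E S.nd), h1, h1, add_sub_add_comm, ← sum_sub_distrib, ← Nat.cast_pow,
      ← k1, sum_filter, Nat.cast_add, add_comm, Nat.cast_sum, sum_filter, sum_congr rfl fun w _ => ?_,
      add_right_inj, Nat.cast_pow] at k2
    · exact k2
    by_cases hw : w = 0
    · simp [hw]
    rw [if_pos hw]
    by_cases k : polar (QW Q e f) w u = 0 ∧ polar (QW Q e f) w v = 0
    · rw [if_neg (not_not.2 k), ← h6 1 u v (by simp) huv w hw k.1 k.2, one_mul, sub_self]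
    · rw [if_pos k, D.zero _ (D.le _ (eich_mem_EG u v)) w fun k3 => k ?_, sub_zero, hl w hw]
      · simp [restrict_apply']
      have k4 := (eich_apply huv.l huv.lr w).symm.trans k3
      have := LinearIndependent.pair_iff.1 huv.li (polar (QW Q e f) w v) (- polar (QW Q e f) w u)
        (by rw [huv.r, Units.val_one] at k4; linear_combination (norm := module) k4)
      exact ⟨neg_eq_zero.1 this.2, this.1⟩
  · have k3 := sum_shift (Q := QW Q e f) (R := ℂ) hu (fun c => if c = 0 then 1 else 0)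
      (fun w => if y.1 w = w then 1 - ψ (polar (QW Q e f) w u) else 0)
      (fun w s => by qsimp; simp [hu, k1]) fun w h => by simp [h]
    have k4 : ∑ w, (if y.1 w = w then ψ (polar (QW Q e f) w u) else 0) = 0 := by
      obtain ⟨s, hs⟩ := DFunLike.ne_iff.1 hψ
      refine (mul_eq_zero.1 (show (ψ s - 1) * _ = 0 from ?_)).resolve_left (sub_ne_zero.2 hs)
      rw [sub_mul, one_mul, mul_sum, sub_eq_zero]
      exact Fintype.sum_equiv (Equiv.addRight (s • u')) _ _ fun w => by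
        simp [polar_add_left, polar_smul_left', huu, k2, AddChar.map_add_eq_mul, mul_comm]
    have k5 := h0 (1, y) 0
    rw [ZeroMemClass.coe_zero, eich_zero, mul_one] at k5
    rw [h0, k5, ← sum_sub_distrib, sum_congr rfl fun w _ => ?_, k3]
    · rw [card_filter, ← sub_zero (Nat.cast _)]
      nth_rw 3 [← k4]
      rw [Nat.cast_sum, ← sum_sub_distrib]
      simp [ite_sub_ite]
    by_cases k : polar (QW Q e f) w u = 0
    · simp [← polar_restrict, k]
    have hw : w ≠ 0 := by rintro rfl; simp at k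
    by_cases k6 : y.1 w = w
    swap
    · simp [D.zero _ (D.le y hy) w fun k => k6 (k.trans (one_smul F w)), k6]
    by_cases k7 : QW Q e f w = 0
    swap
    · simp [h5 _ (D.le y hy) w hw k7, show Q w = 0 ↔ False from iff_false_intro k7]
    simp [D.dec.triv_fix h2 hQ' (by omega) ha ha' k7 hu k ((hl w hw).trans (if_pos k7)) (y := ⟨y, hy⟩) k6 k1,
      k6, k7, polar_restrict]

omit h2 [Fintype F] in
theorem Hp.eig (hQ : (polarBilin Q).Nondegenerate) (h : Hp Q e f) {p : Fˣ × O (QW Q e f)} {w : V} {a : F}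
    (hw : (h.E hQ p).1 w = a • w) (h1 : a * p.1 ≠ 1) (h3 : a ≠ p.1) :
    ∃ x : PW Q e f, x = w ∧ p.2.1 x = a • x := by
  refine ⟨⟨w, mem_orth_pair.2 ⟨?_, ?_⟩⟩, rfl, Subtype.ext ((h.E_w hQ p _).symm.trans hw)⟩ <;> rw [polar_comm]
  · exact orth_of_eig hw (h.E_l hQ p) h1
  · exact orth_of_eig hw (h.E_r hQ p) fun k => h3 ((mul_inv_eq_one₀ p.1.ne_zero).1 k)

omit h2 in
theorem Hp.card_fix [Fintype V] [DecidableEq V] [DecidableEq F] (hQ : (polarBilin Q).Nondegenerate)
    (h : Hp Q e f) {k : ℕ} (hn : finrank F V = 2 * k + 3) {c : Fˣ} (hc : c ≠ 1) :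
    #{w | w ≠ 0 ∧ Q w = 0 ∧ (tor Q e f c).1 w = ((1 : Fˣ) : F) • w} + 1 ≤ Fintype.card F ^ (2 * k) := by
  classical
  rw [← Nat.card_eq_fintype_card, ← sing_odd (h.nd hQ) (by have := h.dim hQ; omega), ← card_sing,
    add_le_add_iff_right]
  refine card_le_card_of_surjOn Subtype.val fun w hw => ?_
  simp only [coe_filter_univ, Set.mem_ofPred_eq, ← h.E_inl hQ] at hw
  obtain ⟨x, rfl, -⟩ := h.eig hQ hw.2.2 (by simpa) (by simpa [eq_comm])
  exact ⟨x, by simpa [restrict_apply'] using And.intro hw.1 hw.2.1, rfl⟩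

theorem Ok.diff {Γ : Subgroup (O Q)} {χ : O Q → ℂ} {k : ℕ} (S : Ok Q Γ χ k) (hq : 3 < Fintype.card F)
    (hK : ∀ u v, LR Q u v → χ 1 - χ (eich Q u v) = Fintype.card F ^ (2 * k + 2)) (hk : 1 ≤ k)
    {Y : Type*} [AddCommGroup Y] [Module F Y] [FiniteDimensional F Y] {Q' : QuadraticForm F Y}
    (hY : (polarBilin Q').Nondegenerate) {r : ℕ} (hr : finrank F Y = r + 1 + 2) (j : Y →ₗ[F] V)
    (hj : Function.Injective j) (hj' : ∀ x, Q (j x) = Q' x) {y : O Q} (hy : y ∈ EG Q)
    (hy' : ∀ w, y.1 w = w ↔ ∃ x, j x = w) {u v : Y} (h : LR Q' u v) :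
    χ y - χ (y * eich Q (j u) (j v)) = Fintype.card F ^ r := by
  classical
  have : Finite V := Module.finite_of_finite F
  have : Finite Y := Module.finite_of_finite F
  have := Fintype.ofFinite Y
  have h0 : ∀ a b, polar Q (j a) (j b) = polar Q' a b := fun a b =>
    (polar_of_sim j (c := 1) (by simp [hj']) a b).trans (one_mul _)
  obtain ⟨u', h1, h3, h4⟩ := exists_partner_orth hY h.l h.symm.nm (by simp [h.rl])
  have h5 := h1 v (by simp)
  obtain ⟨v', h6, -, h7⟩ := exists_partner_orth hY (l := [u, u']) h.r (fun k => by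
    obtain ⟨a, b, k⟩ := mem_spanL_pair.1 k
    have := h.lr
    rw [← k, polar_add_right, polar_smul_right', polar_smul_right', polar_self', h.l, h4] at this
    exact h.nm (mem_spanL_singleton.2 ⟨a, by rw [← k, show b = 0 by simpa using this]; simp⟩))
    (by simp [h.lr, polar_comm _ u', h5])
  simp only [List.forall_mem_cons] at h6
  have H : Hp Q (j u) (j u') := ⟨by rw [hj', h.l], by rw [hj', h3], by rw [h0, h4]⟩
  have := Fintype.ofFinite (PW Q (j u) (j u'))
  have k0 : ∀ x, y.1 (j x) = j x := fun x => (hy' _).2 ⟨x, rfl⟩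
  obtain ⟨τ, rfl⟩ := H.E_surj S.nd (g := y) (a := 1) (by simp [k0]) (by simp [k0])
  obtain ⟨-, -, -, -, -, -, h8⟩ := S.dec h2 hq hK H
  have h9 := (mem_EG_iff S.nd h2 (by rw [S.dim]; omega)).1 hy
  rw [H.ds_E, map_one, Prod.mk_one_one, one_mul,
    ← mem_EG_iff _ _ (by have := H.dim S.nd; have := S.dim; omega)] at h9
  have k1 : ∀ x : PW Q (j u) (j u'), τ.1 x = x ↔ ∃ a, j a = x := fun x => by
    rw [← hy', H.E_w, Subtype.ext_iff]
  refine mul_left_cancel₀ (card_cast_ne_zero F) ((h8 hk τ h9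
    ⟨j v, mem_orth_pair.2 ⟨by rw [h0, h.lr], by rw [h0, polar_comm, h5]⟩⟩
    ⟨j v', mem_orth_pair.2 ⟨by rw [h0, h6.1], by rw [h0, h6.2.1]⟩⟩ ((hj' v).trans h.r)
    (by rw [polar_restrict, h0, polar_comm, h7]) ((k1 _).2 ⟨_, rfl⟩) ((k1 _).2 ⟨_, rfl⟩)).trans ?_)
  rw [← pow_succ', ← Nat.cast_pow, ← card_two hY (linearIndependent_hyp h.l h4) hr, eq_comm]
  refine congrArg _ (card_bij (fun x hx => ⟨j x, mem_orth_pair.2 ?_⟩) (fun x _ => ?_)
    (fun a _ b _ e => hj (congrArg Subtype.val e)) fun x hx => ?_)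
  · simpa [h0, polar_comm _ x] using hx
  · simpa using (k1 _).2 ⟨x, rfl⟩
  · obtain ⟨a, ha⟩ := (k1 x).1 (mem_filter.1 hx).2
    have := mem_orth_pair.1 (ha ▸ x.2)
    exact ⟨a, by simpa [h0, polar_comm _ a] using this, Subtype.ext ha⟩

omit h2 in
theorem eq_top_of_sq (hq : 3 < Fintype.card F) {K : Subgroup Fˣ} (h : ∀ c : Fˣ, c ^ 2 ≠ 1 → c ∈ K) (c : Fˣ) :
    c ∈ K := by
  obtain ⟨a, ha, ha'⟩ := exists_sq_ne_one hq
  have k : Units.mk0 a ha ^ 2 ≠ 1 := fun k => ha' (congrArg Units.val k)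
  by_cases hc : c ^ 2 = 1
  · exact (K.mul_mem_cancel_left (h _ k)).1 (h _ (by rwa [mul_pow, hc, mul_one]))
  · exact h c hc

omit [Fintype F] in
theorem eq_one_of_fix (hQ : (polarBilin Q).Nondegenerate) (hn : finrank F V = 3) {v u : V} (hv : Q v ≠ 0)
    (hu : u ≠ 0) (h : polar Q v u = 0) {g : O Q} (h3 : g.1 v = v) (h4 : g.1 u = u) (h5 : dick g = 1) :
    g = 1 := by
  have := finrank_orth hQ (Submodule.span F {u, v})
  rw [finrank_span_pair (linearIndependent_pair_of hu fun k => by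
    obtain ⟨c, rfl⟩ := mem_spanL_singleton.1 k
    rw [polar_smul_left', polar_self'] at h
    exact hv (mul_left_cancel₀ h2 (by rw [Q_smul]; linear_combination c * h)))] at this
  obtain ⟨w, -, hw⟩ := exists_eq_span_of_finrank_eq_one (W := orth Q (Submodule.span F {u, v})) (by omega)
  obtain ⟨n, rfl⟩ := fixG_le_zpowers hQ hw (mem_fixG_span.2 (by rintro _ (rfl | rfl) <;> assumption) : g ∈ _)
  by_cases k : Q w = 0
  · simp [refl_of_eq_zero k]
  rcases Int.even_or_odd' n with ⟨m, rfl | rfl⟩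
  · simp only [zpow_mul, zpow_two, refl_mul_self, one_zpow]
  · simp only [zpow_mul, zpow_add, zpow_two, refl_mul_self, one_zpow, zpow_one, one_mul, dick_refl hQ k] at h5
    exact absurd h5 (by decide)

theorem good_refl (hQ : (polarBilin Q).Nondegenerate) (hn : finrank F V = 5) {x u : V} (hx : Q x ≠ 0)
    (hu : Q u ≠ 0) (h : polar Q x u = 0) : ∃ (e f : V) (a : Fˣ), Hp Q e f ∧
      (refl Q x * refl Q u).1 e = (a : F) • e ∧ (refl Q x * refl Q u).1 f = (a : F)⁻¹ • f ∧ ∀ w, polar Q e w = 0 →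
        polar Q f w = 0 → Q w = 0 → (refl Q x * refl Q u).1 w = (a : F) • w → w = 0 := by
  have h' : polar Q u x = 0 := by rw [polar_comm, h]
  have h1 : ∀ a b : F, (refl Q x * refl Q u).1 (a • x + b • u) = -(a • x + b • u) := fun a b => by
    simp only [O_mul_apply, map_add, map_smul, map_neg, refl_apply_of_orth h, refl_apply_of_orth h',
      refl_apply_self hx, refl_apply_self hu]
    module
  have h3 : ∀ a b : F, polar Q x (a • x + b • u) = 0 → polar Q u (a • x + b • u) = 0 → a • x + b • u = 0 :=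
    fun a b => by qsimp; simp +contextual [h, h', hx, hu, h2]
  by_cases k : ∃ a b : F, a ≠ 0 ∧ Q (a • x + b • u) = 0
  · obtain ⟨a, b, ha, k⟩ := k
    have k1 : a ^ 2 * Q x + b ^ 2 * Q u = 0 := by rw [← k]; qsimp; simp [h]
    have k2 : 4 * a ^ 2 * Q x ≠ 0 := by simp [ha, hx, show (4 : F) = 2 * 2 by norm_num, h2]
    have hb : b ≠ 0 := by rintro rfl; simp [ha, hx] at k1
    refine ⟨_, (4 * a ^ 2 * Q x)⁻¹ • (a • x + (-b) • u), -1, ⟨k, ?_, ?_⟩, by rw [h1]; simp [add_comm],
      by rw [map_smul, h1]; simp [add_comm], fun w k3 k4 _ k5 => ?_⟩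
    · qsimp; simp [h, k1]
    · rw [polar_smul_right', inv_mul_eq_one₀ k2]; qsimp; simp only [h, h']; linear_combination 2 * k1
    obtain ⟨c, d, rfl⟩ : ∃ c d : F, c • x + d • u = w := by
      rw [O_mul_apply, refl_apply, refl_apply] at k5
      generalize (Q x)⁻¹ * _ = c at k5
      generalize (Q u)⁻¹ * _ = d at k5
      exact ⟨2⁻¹ * c, 2⁻¹ * d, smul_right_injective V h2 (by
        simp only [smul_add, smul_smul, mul_inv_cancel_left₀ h2]
        linear_combination (norm := (simp; module)) -k5)⟩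
    rw [polar_smul_left', mul_eq_zero_iff_left (inv_ne_zero k2)] at k4
    rw [polar_add_left, polar_smul_left', polar_smul_left'] at k3 k4
    exact h3 c d (mul_left_cancel₀ (mul_ne_zero h2 ha) (by linear_combination k3 + k4))
      (mul_left_cancel₀ (mul_ne_zero h2 hb) (by linear_combination k3 - k4))
  obtain ⟨z, k1, k2, k3⟩ := exists_sing_orth_notMem hQ [x, u] [] (by simp [hn])
  obtain ⟨f, k4, k5, k6⟩ := exists_partner_orth hQ k1 (l := [x, u]) (fun k4 => by
    obtain ⟨a, b, rfl⟩ := mem_spanL_pair.1 k4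
    exact k3 (by rw [h3 a b (k2 x (by simp)) (k2 u (by simp))]; exact zero_mem _)) k2
  simp only [List.forall_mem_cons] at k2 k4
  have H : Hp Q z f := ⟨k1, k5, k6⟩
  refine ⟨z, f, 1, H, ?_, ?_, fun w k7 k8 k9 k10 => ?_⟩
  · simp [refl_apply_of_orth, polar_comm _ z, k2]
  · simp [refl_apply_of_orth, polar_comm _ f, k4]
  by_contra hw
  have k11 := orth_of_eig k10 ((show _ = _ by simpa using h1 1 0).trans (neg_one_smul F x).symm)
    (by simpa using fun k => h2 (by linear_combination -k))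
  have k12 := orth_of_eig k10 ((show _ = _ by simpa using h1 0 1).trans (neg_one_smul F u).symm)
    (by simpa using fun k => h2 (by linear_combination -k))
  let x' : PW Q z f := ⟨x, mem_orth_pair.2 ⟨by rw [polar_comm, k2.1], by rw [polar_comm, k4.1]⟩⟩
  let u' : PW Q z f := ⟨u, mem_orth_pair.2 ⟨by rw [polar_comm, k2.2.1], by rw [polar_comm, k4.2.1]⟩⟩
  let w' : PW Q z f := ⟨w, mem_orth_pair.2 ⟨k7, k8⟩⟩
  have := finrank_orth (H.nd hQ) (Submodule.span F {x', u'})
  rw [finrank_span_pair (linearIndependent_pair_of (fun k => hx (by simp [show x = 0 from congrArg Subtype.val k]))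
    fun k => by
      obtain ⟨c, k⟩ := mem_spanL_singleton.1 k
      obtain rfl : c • x = u := congrArg Subtype.val k
      simp [polar_smul_right', polar_self', h2, hx, Q_smul] at h hu
      exact hu h)] at this
  have k13 := (finrank_eq_one_iff_of_nonzero' (K := F) (⟨w', mem_orth_pair.2 ⟨by
    rw [polar_restrict, polar_comm, k11], by rw [polar_restrict, polar_comm, k12]⟩⟩ :
      orth (QW Q z f) (Submodule.span F {x', u'}))
    fun k => hw (congrArg (·.1.1) k)).1 (by have := H.dim hQ; omega)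
  obtain ⟨a, b, k14⟩ := mem_spanL_pair.1 (mem_spanL_of_orthQ (H.nd hQ) (l := [x', u']) (x := w') fun v hv => by
    obtain ⟨c, hc⟩ := k13 ⟨v, mem_orth_pair.2 (by simpa using hv)⟩
    rw [← show c • w' = v from congrArg Subtype.val hc, polar_smul_right', polar_self', restrict_apply', k9]
    simp)
  have k15 : a • x + b • u = w := congrArg Subtype.val k14
  exact hw (k15 ▸ h3 a b (by rw [k15, polar_comm, k11]) (by rw [k15, polar_comm, k12]))

end Cfsg.Lib.Char.MDO
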