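import Cfsg.Agent.Char.MDO8

/-! Minimal character degrees of the odd-dimensional orthogonal groups: the torus does not act by
scalars on the fixed points of the radical. -/

set_option autoImplicit false

namespace Cfsg.Lib.Char.MDO

open QuadraticMap Module Finset Cfsg.Lib.Class Cfsg.Lib.Class.Orth Cfsg.Lib.Class.MD

universe u

variable {F : Type*} {V : Type u} [Field F] [AddCommGroup V] [Module F V] {Q : QuadraticForm F V}
  [FiniteDimensional F V] [Fintype F] {e f : V} (h2 : (2 : F) ≠ 0) (hq : 3 < Fintype.card F)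

omit [FiniteDimensional F V] [Fintype F] in
theorem eq_of_le_card {W : Type*} [Fintype W] [Zero W] {P R : W → Prop} [DecidablePred fun w => w ≠ 0 ∧ P w ∧ R w]
    {a b : ℂ} (h : ‖a - b‖ ≤ #{w | w ≠ 0 ∧ P w ∧ R w}) (h' : ∀ w, P w → R w → w = 0) : a = b := by
  rw [filter_false_of_mem fun w _ k => k.1 (h' w k.2.1 k.2.2)] at h
  simpa [sub_eq_zero] using h

include h2 hq

theorem exists_lin (hQ : (polarBilin Q).Nondegenerate) (hn : 3 ≤ finrank F V) {θ : Fˣ × O Q → ℂ}
    (hθ : IsCharacter _ θ) (h1 : ∀ c : Fˣ, c ^ 2 ≠ 1 → (c, 1) ∈ charCenter θ)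
    (h3 : ∀ x y, Hp Q x y → ∀ c : Fˣ, c ^ 2 ≠ 1 → θ (1, tor Q x y c) = θ (c, 1)) :
    ∃ l : ℤˣ →* ℂˣ, ∀ p : Fˣ × O Q, dick p.2 = 1 → θ p = θ 1 * l (sqChar F p.1 * spin hQ h2 p.2) := by
  by_cases h0 : θ 1 = 0
  · exact ⟨1, by simp [hθ.eq_zero_of_apply_one h0]⟩
  have h4 : ∀ x y, Hp Q x y → ∀ c : Fˣ, c ^ 2 ≠ 1 → (1, tor Q x y c) ∈ charCenter θ := fun x y h c hc => by
    rw [hθ.mem_charCenter_iff, h3 x y h c hc, ← hθ.mem_charCenter_iff]
    exact h1 c hc
  obtain ⟨a, ha, ha'⟩ := exists_sq_ne_one hq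
  have h5 : ∀ g ∈ EG Q, (1, g) ∈ charKer θ := fun g hg =>
    EG_le (K := (charKer θ).comap (MonoidHom.inr Fˣ (O Q))) (fun p r hp hr => by
      by_cases k : p = 0
      · simp [k]
      obtain ⟨y, k1, k2⟩ := exists_partner hQ k hp
      have k3 : a - 1 ≠ 0 := fun k => ha' (by rw [sub_eq_zero.1 k, one_pow])
      have k4 : polar Q p ((a - 1)⁻¹ • (r + -polar Q y r • p)) = 0 := by qsimp; simp [hp, hr]
      have := hθ.isClassFunction.commutatorElement_mem_charKer (h4 p y ⟨hp, k1, k2⟩ (Units.mk0 a ha)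
        fun k => ha' (congrArg Units.val k)) (1, eich Q p ((a - 1)⁻¹ • (r + -polar Q y r • p)))
      rw [commutatorElement_def] at this
      simp only [Prod.mk_mul_mk, Prod.inv_mk, conj_eich, mul_one, inv_one, Units.val_mk0] at this
      rwa [tor_apply_left hp k1 k2 ha, tor_apply_orth _ k4 (by qsimp; simp [polar_comm _ y p, k2]),
        eich_smul_left hp k4, ← eich_neg, ← eich_add hp (by rw [polar_smul_right', k4, mul_zero])
        (by rw [polar_neg_right, k4, neg_zero]), smul_smul, ← neg_smul (a - 1)⁻¹, ← add_smul,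
        show a * (a - 1)⁻¹ + -(a - 1)⁻¹ = 1 by field_simp; ring, one_smul,
        eich_add_smul_self hp hr] at this) hg
  obtain ⟨x, y, h⟩ := exists_hp hQ hn
  have h6 : ∀ p : Fˣ × O Q, (1, sqChar F p.1) * ds hQ h2 p.2 = 1 → θ p = θ 1 := fun p hp => by
    have k1 : (p.1⁻¹, tor Q x y p.1) ∈ charKer θ := eq_top_of_sq hq (K := (charKer θ).comap
      (invMonoidHom.prod (torHom h.l h.r h.lr))) (fun c hc => hθ.mem_charKer_iff.2 (by
        refine mul_left_cancel₀ h0 ?_
        have := apply_mul_of_mem_charCenter (h4 x y h c hc) (c, 1)⁻¹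
        rw [h3 x y h c hc, ← apply_mul_of_mem_charCenter (h1 c hc), mul_inv_cancel] at this
        simpa [torHom] using this)) p.1
    refine hθ.mem_charKer_iff.1 ((mul_mem_cancel_left k1).1 ?_)
    simpa [Prod.mul_def] using h5 (tor Q x y p.1 * p.2) ((mem_EG_iff hQ h2 hn).2 (by
      rw [map_mul, h.ds_tor, hp]))
  obtain ⟨b, hb⟩ := exists_not_isSquare h2
  obtain ⟨b, rfl⟩ : ∃ c : Fˣ, c = b := ⟨Units.mk0 b fun k => hb (by simp [k]), rfl⟩
  rw [← sqChar_eq_neg_one_iff] at hb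
  obtain ⟨ω, hω⟩ := mem_charCenter_def.1 (eq_top_of_sq hq (K := (charCenter θ).comap (MonoidHom.inl Fˣ (O Q))) h1 b)
  refine ⟨pmHom ω (Units.ext (mul_right_cancel₀ h0 ?_)), fun p hp => ?_⟩
  · rw [Units.val_mul, mul_assoc, ← hω, ← hω, h6 _ (by simp [hb]), Units.val_one, one_mul]
  rcases Int.units_eq_one_or (sqChar F p.1 * spin hQ h2 p.2) with k | k
  · rw [k, map_one, Units.val_one, mul_one, h6 p (Prod.ext (by simpa [ds]) k)]
  · rw [k, pmHom_neg_one, ← mul_inv_cancel_left (MonoidHom.inl _ _ b) p, hω, mul_comm, h6]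
    refine Prod.ext (by simpa [ds]) ?_
    simpa [ds, hb, neg_eq_iff_eq_neg] using k

theorem ns_zero {χ : O Q → ℂ} (S : Ok Q ⊤ χ 0)
    (hK : ∀ u v, LR Q u v → χ 1 - χ (eich Q u v) = Fintype.card F ^ (2 * 0 + 2))
    (H : ∀ e f, Hp Q e f → ∀ c : Fˣ, c ^ 2 ≠ 1 →
      (χ 1).re + 1 ≤ ‖χ (tor Q e f c)‖ + Fintype.card F ^ (2 * 0 + 2)) : False := by
  classical
  have hQ := S.nd
  have : Finite V := Module.finite_of_finite F
  obtain ⟨e, f, h⟩ := exists_hp hQ (by rw [S.dim]; omega)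
  have := Fintype.ofFinite (PW Q e f)
  have hQ' := h.nd hQ
  have hn : finrank F (PW Q e f) = 3 := by have := h.dim hQ; have := S.dim; omega
  obtain ⟨θ, h1, h3, h4, -⟩ := S.dec h2 hq hK h
  replace h1 : IsCharacter _ θ := h1.comp ((MonoidHom.id _).codRestrict _ fun _ => trivial)
  have h5 : ∀ p : Fˣ × O (QW Q e f), (∀ w : PW Q e f, Q w = 0 → p.2.1 w = (p.1 : F) • w → w = 0) →
      χ (h.E hQ p) = θ p := fun p hp => eq_of_le_card (h4 p trivial) hp
  have h6 : ∀ c : Fˣ, c ^ 2 ≠ 1 → χ (tor Q e f c) = θ (c, 1) := fun c hc => by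
    rw [← h.E_inl hQ, h5 _ fun w _ k => ?_]
    exact (smul_eq_zero_iff_right (sub_ne_zero.2 fun k : (c : F) = 1 => hc (by
      rw [Units.val_eq_one.1 k, one_pow]))).1 (by rw [sub_smul, one_smul]; exact sub_eq_zero.2 k.symm)
  obtain ⟨m, hm⟩ := h1.exists_nat_degree
  obtain ⟨l, hl⟩ := exists_lin h2 hq hQ' hn.ge h1 (fun c hc => h1.mem_charCenter_iff.2
    (le_antisymm ((h1.norm_le_re _).trans (Complex.re_le_norm _)) (by
      have := H e f h c hc
      rw [h6 c hc, eq_sub_of_add_eq h3, hm] at this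
      simpa [hm, ← Complex.ofReal_natCast, ← Complex.ofReal_pow] using this))) fun x y k c hc => by
    have k1 := k.card_fix hQ' (k := 0) hn (c := c) (by rintro rfl; simp at hc)
    have k2 := h4 (1, tor _ x y c) trivial
    obtain ⟨g, k3, k4⟩ := exists_O_hyp hQ h.l h.r h.lr k.coe.l k.coe.r k.coe.lr
    rw [← h6 c hc, ← S.conj (g := g) trivial trivial, conj_tor, k3, k4]
    replace k2 := k2.trans (Nat.cast_le.2 (Nat.le_of_succ_le_succ k1))
    rw [h.E_tor, show tor Q e f (1 : Fˣ) = 1 from map_one (torHom h.l h.r h.lr), one_mul] at k2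
    exact (sub_eq_zero.1 (by simpa using k2)).symm
  have val : ∀ g : O Q, dick g = 1 → (∃ (e f : V) (a : Fˣ), Hp Q e f ∧ g.1 e = (a : F) • e ∧
      g.1 f = (a : F)⁻¹ • f ∧ ∀ w, polar Q e w = 0 → polar Q f w = 0 → Q w = 0 → g.1 w = (a : F) • w → w = 0) →
      χ g = m * l (spin hQ h2 g) := fun g hg ⟨e', f', a, k, k1, k2, k3⟩ => by
    obtain ⟨n, rfl, rfl⟩ := exists_O_hyp hQ h.l h.r h.lr k.l k.r k.lr
    obtain ⟨τ, hτ⟩ := h.E_surj hQ (g := n⁻¹ * g * n⁻¹⁻¹) (a := a) (by simp [k1]) (by simp [k2])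
    have k4 := h.ds_E hQ h2 (a, τ)
    rw [hτ, map_mul, map_mul, map_inv _ n⁻¹, mul_inv_cancel_comm, Prod.ext_iff] at k4
    rw [← S.conj (g := n⁻¹) trivial trivial, ← hτ, h5 _ fun w k5 k6 => ?_, hl _ (by
      simpa [ds, hg] using k4.1.symm), hm, show spin hQ h2 g = _ from k4.2]
    · rfl
    have k7 := (h.E_w hQ (a, τ) w).trans (congrArg Subtype.val k6)
    rw [hτ, inv_inv, O_mul_apply, O_mul_apply] at k7
    simpa using k3 (n.1 w) (by simpa using (mem_orth_pair.1 w.2).1) (by simpa using (mem_orth_pair.1 w.2).2)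
      (by simpa) (by simpa using congrArg n.1 k7)
  obtain ⟨x, y, h'⟩ := exists_hp hQ' hn.ge
  obtain ⟨z, k1, k2, k3⟩ := exists_nonsing_orth_hyp hQ' hn.ge h'.l h'.r h'.lr
  obtain ⟨b, hb⟩ := exists_not_isSquare h2
  obtain ⟨v, hv, an⟩ : ∃ v, QW Q e f v ≠ 0 ∧ ∀ w, polar (QW Q e f) v w = 0 → QW Q e f w = 0 → w = 0 := by
    refine ⟨x + (b * QW Q e f z) • y, by
      simpa [k3] using (Q_hyp h'.l h'.r h'.lr 1 (b * QW Q e f z)).trans_ne (mul_ne_zero one_ne_zero
        (mul_ne_zero (fun k => hb (by simp [k])) k3)), fun w k4 k5 => ?_⟩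
    obtain ⟨s, t, u, k6, k7, rfl⟩ := exists_hyp_decomp h'.l h'.r h'.lr w
    obtain ⟨c, hc⟩ := (finrank_eq_one_iff_of_nonzero' (K := F) (⟨z, mem_orth_pair.2 ⟨k1, k2⟩⟩ : PW _ x y)
      fun k => k3 (by simp [show z = 0 from congrArg Subtype.val k])).1 (by have := h'.dim hQ'; omega)
      ⟨u, mem_orth_pair.2 ⟨k6, k7⟩⟩
    obtain rfl : c • z = u := congrArg Subtype.val hc
    rw [Q_hyp_add h'.l h'.r h'.lr s t k6 k7, Q_smul] at k5
    revert k4
    qsimp
    simp only [h'.l, h'.r, h'.lr, k1, k2, polar_comm _ y x]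
    intro k4
    have k8 : s = 0 := by
      by_contra k
      exact hb ⟨c / s, by
        field_simp
        exact mul_right_cancel₀ k3 (by linear_combination s * k4 - k5)⟩
    simp_all
  let T := fixG (QW Q e f) (Submodule.span F {v})
  have hT : ∀ τ : T, τ.1.1 v = v := fun τ => τ.2 v (Submodule.mem_span_singleton_self v)
  have hv' : polar (QW Q e f) v v ≠ 0 := by rw [polar_self']; exact mul_ne_zero h2 hv
  have hc : Nat.card T = 2 * (Nat.card F + 1) := by
    have := finrank_orth hQ' (Submodule.span F {v})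
    rw [finrank_span_singleton (by rintro rfl; simp at hv)] at this
    rw [← Nat.card_congr (fixGEquiv hQ' (disjoint_span_singleton_orth hv')).toEquiv,
      card_O_of_aniso (restrict_orth_nondeg hQ' (disjoint_span_singleton_orth hv')) (by omega)
        fun w hw => Subtype.ext (an w (mem_orth_singleton.1 w.2) hw)]
  let δ : T →* ℤˣ := (dickHom hQ' (not_exc_of_two_ne_zero h2)).comp T.subtype
  let s := pmHom (refl Q (e + (1 : F) • f)) (refl_mul_self _)
  have hs : ∀ τ u, Commute (extend hQ (h.disj hQ) τ) (s u) := fun τ u => by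
    rcases Int.units_eq_one_or u with rfl | rfl
    · simp
    · exact (mul_refl _ _).trans (by rw [map_add, map_smul, h.ext_l, h.ext_r]; rfl)
  have hr : ∀ a : Fˣ, tor Q e f a * s (-1) = refl Q (e + (a : F)⁻¹ • f) := fun a => by
    have := refl_hyp_mul_refl_hyp h.l h.r h.lr (inv_ne_zero a.ne_zero) one_ne_zero
    rw [one_div, inv_inv] at this
    rw [pmHom_neg_one, ← this, mul_assoc, refl_mul_self, mul_one]
  let ι : ℤˣ →* MulAut Fˣ := pmHom (MulEquiv.inv Fˣ) (by ext; simp)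
  let Φ := SemidirectProduct.lift (φ := ι.comp δ) (torHom h.l h.r h.lr)
    (((extend hQ (h.disj hQ)).noncommCoprod s hs).comp (T.subtype.prod δ)) fun τ => MonoidHom.ext fun a => by
      have k : ∀ b, extend hQ (h.disj hQ) τ * tor Q e f b * (extend hQ (h.disj hQ) τ)⁻¹ = tor Q e f b :=
        fun b => by rw [conj_tor, h.ext_l, h.ext_r]
      change tor Q e f (ι (δ τ) a : Fˣ) = _ * s (δ τ) * tor Q e f a * (_ * s (δ τ))⁻¹
      rcases Int.units_eq_one_or (δ τ) with k' | k' <;> rw [k']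
      · simpa using (k a).symm
      · rw [← k, mul_inv_rev, ← map_inv s, inv_neg_one, ← mul_assoc, mul_assoc _ (tor Q e f a), hr,
          mul_assoc _ (s _), pmHom_neg_one, pmHom_neg_one,
          refl_hyp_mul_refl_hyp h.l h.r h.lr one_ne_zero (inv_ne_zero a.ne_zero)]
        simp
  have hΦ : ∀ p, Φ p = tor Q e f p.left * (extend hQ (h.disj hQ) p.right * s (dick p.right.1)) := fun _ => rfl
  have : Finite _ := .of_equiv _ (SemidirectProduct.equivProd (φ := ι.comp δ)).symm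
  have := Fintype.ofFinite (Fˣ ⋊[ι.comp δ] T)
  have key : ∀ p, χ (Φ p) = (m + if p = 1 then (Fintype.card F : ℂ) ^ 2 - 1 else 0) * l (spin hQ h2 (Φ p)) := by
    rintro ⟨a, σ, hσ⟩
    split_ifs with k
    · rw [k, map_one, map_one, map_one, eq_sub_of_add_eq h3, hm, Units.val_one, mul_one, add_sub_assoc]
    rw [add_zero, hΦ]
    rcases Int.units_eq_one_or (dick σ) with k' | k' <;> simp only [k']
    · rw [map_one, mul_one, ← h.E_apply hQ (a, σ)]
      refine val _ ((congrArg Prod.fst (h.ds_E hQ h2 _)).trans (by simpa [ds])) ⟨e, f, a, h, h.E_l hQ _,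
        h.E_r hQ _, fun w k4 k5 k6 k7 => ?_⟩
      obtain ⟨w, rfl⟩ : ∃ x : PW Q e f, x = w := ⟨⟨w, mem_orth_pair.2 ⟨k4, k5⟩⟩, rfl⟩
      have k8 : σ.1 w = (a : F) • w := Subtype.ext ((h.E_w hQ (a, σ) w).symm.trans k7)
      by_cases ha : a = 1
      swap
      · rw [an w (by rw [polar_comm, orth_of_eig k8 ((hT ⟨σ, hσ⟩).trans (one_smul F v).symm) (by simpa)]) k6]
        rfl
      by_cases k9 : w - (polar (QW Q e f) v w / polar (QW Q e f) v v) • v = 0
      · rw [sub_eq_zero] at k9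
        rw [← restrict_apply', k9, Q_smul, mul_eq_zero_iff_right hv, pow_eq_zero_iff two_ne_zero] at k6
        rw [k9, k6, zero_smul]
        rfl
      · exact absurd (SemidirectProduct.ext ha (Subtype.ext (eq_one_of_fix h2 hQ' hn hv k9 (by
          rw [polar_sub_right, polar_smul_right', div_mul_cancel₀ _ hv', sub_self]) (hT ⟨σ, hσ⟩)
          (by simp [k8, ha, hT ⟨σ, hσ⟩]) k'))) k
    obtain ⟨u₀, k4, k5⟩ := exists_nonsing_orth_one hQ' hn.ge v
    obtain ⟨u, k6, k7, k8⟩ : ∃ u, polar (QW Q e f) v u = 0 ∧ u ≠ 0 ∧ (refl _ u).1 (σ.1 u₀) = u₀ := by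
      have k6 : polar (QW Q e f) v (σ.1 u₀ - u₀) = 0 := by
        rw [polar_sub_right, k4, ← hT ⟨σ, hσ⟩, O_polar, k4, sub_self]
      by_cases k7 : σ.1 u₀ - u₀ = 0
      · obtain ⟨u, k8, k9⟩ := exists_orthQ_notMem hQ' [v, u₀] [] (by simp [hn])
        exact ⟨u, k8 v (by simp), fun k => k9 (k ▸ zero_mem _), by
          rw [sub_eq_zero.1 k7, refl_apply_of_orth (k8 u₀ (by simp))]⟩
      · exact ⟨_, k6, k7, refl_sub_apply (O_map _ _) fun k => k7 (an _ k6 k)⟩
    have k9 : QW Q e f u ≠ 0 := fun k => k7 (an _ k6 k)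
    obtain rfl : refl _ u = σ := by
      rw [← refl_inv, inv_eq_iff_mul_eq_one]
      exact eq_one_of_fix h2 hQ' hn hv (by rintro rfl; simp at k5) k4 (by
        rw [O_mul_apply, hT ⟨σ, hσ⟩, refl_apply_of_orth k6]) k8
        (by rw [dick_mul hQ' (not_exc_of_two_ne_zero h2), k', dick_refl hQ' k9]; rfl)
    have k10 : Q (e + (a : F)⁻¹ • f) ≠ 0 := by simpa using (Q_hyp h.l h.r h.lr 1 (a : F)⁻¹).trans_ne (by simp)
    rw [hs, ← mul_assoc, hr, extend_refl]
    exact val _ (by rw [dick_mul_refl hQ _ k9, dick_refl hQ k10]; rfl)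
      (good_refl h2 hQ S.dim k10 k9 (by qsimp; simp [mem_orth_pair.1 u.2]))
  obtain ⟨n, hn⟩ := (show IsCharacter _ fun p => χ (Φ p) from
    S.ch.comp (Φ.codRestrict ⊤ fun _ => trivial)).exists_nat_classInner
    (isIrrCharacter_monoidHom ((l.comp (spin hQ h2)).comp Φ)).isCharacter
  rw [classInner, inv_mul_eq_iff_eq_mul₀ (card_ne_zero _)] at hn
  simp only [key, MonoidHom.comp_apply, mul_assoc, Complex.mul_conj,
    Complex.normSq_eq_norm_sq, norm_monoidHom_apply, one_pow, Complex.ofReal_one, mul_one, sum_add_distrib,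
    sum_ite_eq', mem_univ, if_true, sum_const, card_univ, ← Nat.card_eq_fintype_card, nsmul_eq_mul,
    SemidirectProduct.card, hc, Nat.card_units] at hn
  rw [← Nat.card_eq_fintype_card] at hq
  obtain ⟨r, hr⟩ : ∃ r, Nat.card F = r + 2 := ⟨Nat.card F - 2, by omega⟩
  rw [hr, show r + 2 - 1 = r + 1 from rfl] at hn
  have : ((r + 1) * (r + 3) : ℤ) * (2 * m + 1) = (r + 1) * (r + 3) * (2 * n) := by
    have : (((r + 1) * (r + 3) * (2 * m + 1) : ℤ) : ℂ) = ((r + 1) * (r + 3) * (2 * n) : ℤ) := by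
      push_cast at hn ⊢; linear_combination hn
    exact_mod_cast this
  have := mul_left_cancel₀ (by positivity) this
  omega

theorem ns (k : ℕ) : ∀ {V : Type u} [AddCommGroup V] [Module F V] [FiniteDimensional F V]
    {Q : QuadraticForm F V} {χ : O Q → ℂ}, Ok Q ⊤ χ k →
    (∀ u v, LR Q u v → χ 1 - χ (eich Q u v) = Fintype.card F ^ (2 * k + 2)) →
    (∀ e f, Hp Q e f → ∀ c : Fˣ, c ^ 2 ≠ 1 →
      (χ 1).re + 1 ≤ ‖χ (tor Q e f c)‖ + Fintype.card F ^ (2 * k + 2)) → False := by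
  classical
  induction k with
  | zero => exact fun S => ns_zero h2 hq S
  | succ k ih =>
    intro V _ _ _ Q χ S hK H
    have : Finite V := Module.finite_of_finite F
    obtain ⟨e, f, h⟩ := exists_hp S.nd (by rw [S.dim]; omega)
    have := Fintype.ofFinite (PW Q e f)
    have hn : finrank F (PW Q e f) = 2 * k + 5 := by have := h.dim S.nd; have := S.dim; omega
    obtain ⟨θ, h1, h3, h4, -, h5, -⟩ := S.dec h2 hq hK h
    refine ih (χ := fun τ => θ (1, τ)) ⟨h.nd S.nd, hn, le_top, .inl rfl, h1.comp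
      (((MonoidHom.inr _ _).comp (⊤ : Subgroup _).subtype).codRestrict _ fun _ => trivial)⟩ h5 fun x y k0 c hc => ?_
    have k1 := k0.card_fix (h.nd S.nd) (k := k + 1) hn (c := c) (by rintro rfl; simp at hc)
    have k2 := (add_le_add_left (h4 (1, tor _ x y c) trivial) 1).trans
      (show _ ≤ (Fintype.card F : ℝ) ^ (2 * k + 2) by exact_mod_cast k1)
    rw [h.E_tor, show tor Q e f (1 : Fˣ) = 1 from map_one (torHom h.l h.r h.lr), one_mul] at k2
    have k3 := H _ _ k0.coe c hc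
    have k4 := congrArg Complex.re h3
    simp only [Complex.add_re, ← Complex.ofReal_natCast, ← Complex.ofReal_pow, Complex.ofReal_re,
      Complex.one_re] at k4
    have := norm_sub_norm_le (χ (tor Q x y c)) (θ (1, tor _ x y c))
    change (θ 1).re + 1 ≤ _
    linarith

end Cfsg.Lib.Char.MDO
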