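import Cfsg.Agent.Char.MDHeis

/-! Minimal character degree of the triality groups: the computation in the Borel subgroup. -/

set_option autoImplicit false

namespace Cfsg.Lib.Char.MD

open Finset

section
variable {G A : Type*} [Group G] [AddCommGroup A] [Fintype A] {ζ : AddChar A G} {χ : G → ℂ}

theorem acomp_conj' (hχ : IsClassFunction G χ) {l l' : AddChar A ℂ} {γ : G} {φ : A → A}
    (hφ : Function.Injective φ) (h : ∀ a, γ * ζ a = ζ (φ a) * γ) (hl : ∀ a, l (φ a) = l' a) (g : G) :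
    acomp ζ χ l (γ * g * γ⁻¹) = acomp ζ χ l' g :=
  acomp_conj hχ (Equiv.ofBijective φ (Finite.injective_iff_bijective.1 hφ)) h hl g

theorem mem_acStab' {l : AddChar A ℂ} {γ : G} {φ : A → A} (hφ : Function.Injective φ)
    (h : ∀ a, γ * ζ a = ζ (φ a) * γ) (hl : ∀ a, l (φ a) = l a) : γ ∈ acStab ζ l :=
  ⟨Equiv.ofBijective φ (Finite.injective_iff_bijective.1 hφ), h, hl⟩

theorem exists_sum_eq {B : Type*} [AddCommGroup B] [Fintype B] {K : Subgroup G} {μ : G → ℂ}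
    (hμ : IsCharacter K fun h => μ h) (b : AddChar B G) (hb : ∀ v, b v ∈ K) :
    ∃ n : ℕ, ∑ v, μ (b v) = Fintype.card B * n := by
  obtain ⟨n, hn⟩ := exists_acomp_one hμ
    { toFun v := ⟨b v, hb v⟩
      map_zero_eq_one' := Subtype.ext b.map_zero_eq_one
      map_add_eq_mul' u v := Subtype.ext (b.map_add_eq_mul u v) } 0
  refine ⟨n, ?_⟩
  rw [← hn, acomp, mul_inv_cancel_left₀ (card_cast_ne_zero B)]
  simp

end

variable {F : Type*} [Field F] [Fintype F] [DecidableEq F] {ψ : AddChar F ℂ}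

theorem sum_ne_char (hψ : ψ ≠ 0) {s : F} (hs : s ≠ 0) : ∑ r with r ≠ 0, ψ (s * r) = -1 := by
  have := sum_char hψ s
  rw [if_neg hs, ← add_sum_erase _ _ (mem_univ 0), ← filter_ne'] at this
  simp only [mul_zero, AddChar.map_zero_eq_one] at this
  linear_combination this

theorem card_ne_zero_cast : ((#{r : F | r ≠ 0} : ℕ) : ℂ) = Fintype.card F - 1 := by
  rw [filter_ne', card_erase_of_mem (mem_univ _), card_univ, Nat.cast_pred Fintype.card_pos]

theorem fib (hψ : ψ ≠ 0) {I : Type*} [Fintype I] (m : I → ℂ) (p : I → F) (X : F → ℂ) {e : ℂ}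
    (hX : ∀ r, X r = ∑ c, ψ (p c * r) * m c) (he : ∀ r, r ≠ 0 → X 0 - X r = e) {s : F} (hs : s ≠ 0) :
    Fintype.card F * ∑ c with p c = s, m c = e := by
  have h1 : ∑ r, ψ (-s * r) * X r = Fintype.card F * ∑ c with p c = s, m c := by
    simp only [hX, mul_sum, ← mul_assoc, ← AddChar.map_add_eq_mul, ← add_mul]
    rw [sum_comm, sum_filter]
    refine sum_congr rfl fun c _ => ?_
    rw [← sum_mul, sum_char hψ]
    simp only [neg_add_eq_zero, eq_comm (a := s), ite_mul, zero_mul]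
  rw [← h1, ← add_sum_erase _ _ (mem_univ 0), ← filter_ne', sum_congr rfl (g := fun r =>
    ψ (-s * r) * (X 0 - e)) fun r hr => by rw [← he r (mem_filter.1 hr).2]; ring, ← sum_mul,
    sum_ne_char hψ (neg_ne_zero.2 hs)]
  simp

theorem sum_norm (hψ : ψ ≠ 0) {K : Type*} [Field K] [Fintype K] {N : K →*₀ F} (hN : Function.Surjective N)
    (hK : Fintype.card K = Fintype.card F ^ 3) {r : F} (hr : r ≠ 0) :
    ∑ u, ψ (r * N u) = -(Fintype.card F ^ 2 + Fintype.card F) := by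
  classical
  have h1 : ∀ r, r ≠ 0 → ∑ u, ψ (r * N u) = ∑ u, ψ (N u) := fun r hr => by
    obtain ⟨a, rfl⟩ := hN r
    simp only [← map_mul]
    exact Equiv.sum_comp (Equiv.mulLeft₀ a ((map_ne_zero _).1 hr)) fun u => ψ (N u)
  have h2 : ∑ r, ∑ u, ψ (r * N u) = Fintype.card F := by
    rw [sum_comm]
    simp only [mul_comm _ (N _), sum_char hψ, map_eq_zero, sum_ite_eq', mem_univ, if_true]
  rw [← add_sum_erase _ _ (mem_univ 0), ← filter_ne', sum_congr rfl fun r hr => h1 r (mem_filter.1 hr).2,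
    sum_const, nsmul_eq_mul, card_ne_zero_cast] at h2
  simp only [zero_mul, AddChar.map_zero_eq_one, sum_const, card_univ, hK, nsmul_eq_mul, mul_one] at h2
  have h3 : (Fintype.card F : ℂ) - 1 ≠ 0 := sub_ne_zero.2 (by exact_mod_cast Fintype.one_lt_card.ne')
  refine mul_left_cancel₀ h3 ?_
  rw [h1 r hr]
  push_cast at h2
  linear_combination h2

/-- the part of a group of type `³D₄` or `G₂` that is needed -/
structure Tri (F K G : Type*) [Field F] [Field K] [Group G] where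
  ι : F →+* K
  T : K →+ F
  N : K → F
  ζ : AddChar (K × F × F) G
  b : AddChar F G
  w : AddChar K G
  a : K → G
  T_mul : ∀ s t, T (ι s * t) = s * T t
  T_ne : ∃ t, T t ≠ 0
  b_ζ : ∀ u t s r, b u * ζ (t, s, r) = ζ (t, s, r + u * s) * b u
  w_ζ : ∀ u t s r, w u * ζ (t, s, r) = ζ (t, s, r + T (u * t)) * w u
  a_ζ : ∀ u t s r, a u * ζ (t, s, r) = ζ (t, s + T (u * t), r) * a u
  a_b : ∀ u v, ∃ t t' r, a u * b v * (a u)⁻¹ = b v * w t * ζ (t', N u * v, r)

namespace Tri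

variable {K G : Type*} [Field K] [Fintype K] [Group G] (D : Tri F K G)

/-- the linear characters of the abelian group -/
def l (ψ : AddChar F ℂ) (c : K × F × F) : AddChar (K × F × F) ℂ where
  toFun x := ψ (D.T (c.1 * x.1) + c.2.1 * x.2.1 + c.2.2 * x.2.2)
  map_zero_eq_one' := by simp
  map_add_eq_mul' x y := by
    rw [← AddChar.map_add_eq_mul]
    simp only [Prod.fst_add, Prod.snd_add, mul_add, map_add]
    congr 1
    ring

omit [Fintype F] [DecidableEq F] [Fintype K] in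
theorem l_apply (c x : K × F × F) :
    D.l ψ c x = ψ (D.T (c.1 * x.1) + c.2.1 * x.2.1 + c.2.2 * x.2.2) := rfl

omit [DecidableEq F] in
theorem l_bijective (hψ : ψ ≠ 0) : Function.Bijective (D.l ψ) := by
  refine (Fintype.bijective_iff_injective_and_card _).2 ⟨fun c c' e => ?_, by rw [AddChar.card_eq]⟩
  have k : ∀ x : K × F × F, ψ (D.T ((c.1 - c'.1) * x.1) + (c.2.1 - c'.2.1) * x.2.1 +
      (c.2.2 - c'.2.2) * x.2.2) = 1 := fun x => by
    have := congrArg (fun l => l x * D.l ψ c' (-x)) e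
    simp only [← AddChar.map_add_eq_mul, add_neg_cancel, AddChar.map_zero_eq_one] at this
    rw [← this, l_apply, l_apply, ← AddChar.map_add_eq_mul]
    simp only [Prod.fst_neg, Prod.snd_neg, sub_mul, mul_neg, map_neg, map_sub]
    congr 1
    ring
  refine Prod.ext (sub_eq_zero.1 ?_) (Prod.ext (sub_eq_zero.1 (eq_zero_of_char hψ fun u => ?_))
    (sub_eq_zero.1 (eq_zero_of_char hψ fun u => ?_)))
  · by_contra h
    obtain ⟨t, ht⟩ := D.T_ne
    refine ht (eq_zero_of_char hψ fun u => ?_)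
    have := k ((c.1 - c'.1)⁻¹ * (D.ι u * t), 0, 0)
    rwa [mul_inv_cancel_left₀ h, mul_zero, mul_zero, add_zero, add_zero, D.T_mul, mul_comm] at this
  · simpa using k (0, u, 0)
  · simpa using k (0, 0, u)

/-- the components of a character -/
noncomputable def M (ψ : AddChar F ℂ) (χ : G → ℂ) (c : K × F × F) : G → ℂ := acomp D.ζ χ (D.l ψ c)

theorem M_eq_1' : type_of% @M.eq_1 := @M.eq_1

/-- torus elements -/
def Tor (h : G) (κ : K) (s r : F) : Prop :=
  κ ≠ 0 ∧ s ≠ 0 ∧ r ≠ 0 ∧ ∀ x : K × F × F, h * D.ζ x = D.ζ (κ * x.1, s * x.2.1, r * x.2.2) * h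

variable {χ : G → ℂ}

omit [DecidableEq F] in
theorem sum_M (hψ : ψ ≠ 0) (g : G) : χ g = ∑ c, D.M ψ χ c g := by
  rw [← sum_acomp D.ζ χ g, ← (D.l_bijective hψ).sum_comp]
  rfl

omit [DecidableEq F] in
theorem M_mul (c : K × F × F) (g : G) (x : K × F × F) :
    D.M ψ χ c (g * D.ζ x) = D.l ψ c x * D.M ψ χ c g := acomp_mul _ _ _

omit [DecidableEq F] in
theorem apply_ζ (hψ : ψ ≠ 0) (x : K × F × F) : χ (D.ζ x) = ∑ c, D.l ψ c x * D.M ψ χ c 1 := by
  simp only [← M_mul, one_mul, ← D.sum_M hψ]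

omit [Fintype F] [DecidableEq F] [Fintype K] in
theorem inj_b (u : F) : Function.Injective fun x : K × F × F => (x.1, x.2.1, x.2.2 + u * x.2.1) := by
  rintro ⟨_, _, _⟩ ⟨_, _, _⟩ e
  simp only [Prod.mk.injEq] at e ⊢
  obtain ⟨rfl, rfl, e⟩ := e
  simpa using e

omit [Fintype F] [DecidableEq F] [Fintype K] in
theorem inj_w (u : K) : Function.Injective fun x : K × F × F => (x.1, x.2.1, x.2.2 + D.T (u * x.1)) := by
  rintro ⟨_, _, _⟩ ⟨_, _, _⟩ e
  simp only [Prod.mk.injEq] at e ⊢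
  obtain ⟨rfl, rfl, e⟩ := e
  simpa using e

omit [Fintype F] [DecidableEq F] [Fintype K] in
theorem inj_a (u : K) : Function.Injective fun x : K × F × F => (x.1, x.2.1 + D.T (u * x.1), x.2.2) := by
  rintro ⟨_, _, _⟩ ⟨_, _, _⟩ e
  simp only [Prod.mk.injEq] at e ⊢
  obtain ⟨rfl, e, rfl⟩ := e
  simpa using e

variable {D} in
omit [Fintype F] [DecidableEq F] [Fintype K] in
theorem Tor.inj {h : G} {κ : K} {s r : F} (H : D.Tor h κ s r) :
    Function.Injective fun x : K × F × F => (κ * x.1, s * x.2.1, r * x.2.2) := by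
  rintro ⟨_, _, _⟩ ⟨_, _, _⟩ e
  simpa [H.1, H.2.1, H.2.2.1] using e

omit [DecidableEq F]

theorem char_M (hχ : IsCharacter G χ) (c : K × F × F) :
    IsCharacter (acStab D.ζ (D.l ψ c)) fun h => D.M ψ χ c h := isCharacter_acStab hχ _

theorem b_mem (t : K) (s v : F) : D.b v ∈ acStab D.ζ (D.l ψ (t, s, 0)) :=
  mem_acStab' (inj_b v) (fun _ => D.b_ζ v _ _ _) fun x => by simp [l_apply]

theorem w_mem (t : K) (s : F) (u : K) : D.w u ∈ acStab D.ζ (D.l ψ (t, s, 0)) :=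
  mem_acStab' (D.inj_w u) (fun _ => D.w_ζ u _ _ _) fun x => by simp [l_apply]

variable (hc : IsClassFunction G χ)
include hc

theorem conj_b (u : F) (t : K) (s r : F) (g : G) :
    D.M ψ χ (t, s, r) (D.b u * g * (D.b u)⁻¹) = D.M ψ χ (t, s + r * u, r) g :=
  acomp_conj' hc (inj_b u) (fun _ => D.b_ζ u _ _ _) (fun x => by simp only [l_apply]; congr 1; ring) g

theorem conj_w (u t : K) (s r : F) (g : G) :
    D.M ψ χ (t, s, r) (D.w u * g * (D.w u)⁻¹) = D.M ψ χ (t + D.ι r * u, s, r) g :=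
  acomp_conj' hc (D.inj_w u) (fun _ => D.w_ζ u _ _ _) (fun x => by
    simp only [l_apply, add_mul, map_add, mul_assoc, D.T_mul]; congr 1; ring) g

theorem conj_a (u t : K) (s r : F) (g : G) :
    D.M ψ χ (t, s, r) (D.a u * g * (D.a u)⁻¹) = D.M ψ χ (t + D.ι s * u, s, r) g :=
  acomp_conj' hc (D.inj_a u) (fun _ => D.a_ζ u _ _ _) (fun x => by
    simp only [l_apply, add_mul, map_add, mul_assoc, D.T_mul]; congr 1; ring) g

variable {D} in
theorem Tor.conj {h : G} {κ : K} {s' r' : F} (H : D.Tor h κ s' r') (t : K) (s r : F) (g : G) :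
    D.M ψ χ (t, s, r) (h * g * h⁻¹) = D.M ψ χ (t * κ, s * s', r * r') g :=
  acomp_conj' hc H.inj H.2.2.2 (fun x => by simp only [l_apply, mul_assoc]) g

theorem M_b_eq_zero (hψ : ψ ≠ 0) (t : K) (s : F) {r v : F} (hr : r ≠ 0) (hv : v ≠ 0) :
    D.M ψ χ (t, s, r) (D.b v) = 0 := by
  by_contra h
  refine mul_ne_zero hr hv (eq_zero_of_char hψ fun u => ?_)
  by_contra h'
  refine h (acomp_eq_zero hc (D.b_ζ v 0 u 0) fun e => h' ?_)
  simp only [l_apply, mul_zero, map_zero, zero_add, add_zero, AddChar.map_add_eq_mul] at e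
  rw [mul_assoc]
  exact (mul_eq_left₀ (AddChar.val_isUnit _ _).ne_zero).1 e.symm

theorem M_one_eq (t : K) (s : F) {r : F} (hr : r ≠ 0) : D.M ψ χ (t, s, r) 1 = D.M ψ χ (0, 0, r) 1 := by
  have k1 := D.conj_b (ψ := ψ) hc (r⁻¹ * s) 0 0 r 1
  have k2 := D.conj_w (ψ := ψ) hc ((D.ι r)⁻¹ * t) 0 s r 1
  rw [mul_one, mul_inv_cancel, mul_inv_cancel_left₀ (by simpa using hr), zero_add] at k1 k2
  rw [← k2, k1]

theorem sum_M_a {s : F} (hs : s ≠ 0) (g : G) :
    ∑ t, D.M ψ χ (t, s, 0) g = ∑ u, D.M ψ χ (0, s, 0) (D.a u * g * (D.a u)⁻¹) := by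
  rw [← Equiv.sum_comp (Equiv.mulLeft₀ (D.ι s) (by simpa using hs))]
  simp only [D.conj_a hc, zero_add, Equiv.mulLeft₀_apply]

omit hc

variable [DecidableEq F]

theorem split (hψ : ψ ≠ 0) (g : G) : χ g = ∑ t, D.M ψ χ (t, 0, 0) g +
    ∑ s with s ≠ 0, ∑ t, D.M ψ χ (t, s, 0) g + ∑ r with r ≠ 0, ∑ s, ∑ t, D.M ψ χ (t, s, r) g := by
  rw [D.sum_M (χ := χ) hψ, Fintype.sum_prod_type_right, Fintype.sum_prod_type_right, filter_ne',
    ← add_sum_erase _ _ (mem_univ 0), ← add_sum_erase _ _ (mem_univ 0)]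

theorem split_b (hψ : ψ ≠ 0) (hc : IsClassFunction G χ) {v : F} (hv : v ≠ 0) : χ (D.b v) =
    ∑ t, D.M ψ χ (t, 0, 0) (D.b v) + ∑ s with s ≠ 0, ∑ t, D.M ψ χ (t, s, 0) (D.b v) := by
  rw [D.split (χ := χ) hψ, add_eq_left]
  exact sum_eq_zero fun r hr => by simp [D.M_b_eq_zero hc hψ _ _ (mem_filter.1 hr).2 hv]

theorem exists_mult (hψ : ψ ≠ 0) (hχ : IsCharacter G χ) {d : ℕ} (hd : χ 1 = d) {e : ℂ}
    (he1 : ∀ r, r ≠ 0 → χ 1 - χ (D.ζ (0, 0, r)) = e) (he2 : ∀ r, r ≠ 0 → χ 1 - χ (D.ζ (0, r, 0)) = e) :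
    ∃ k R : ℕ, e = Fintype.card F ^ 2 * Fintype.card K * k ∧
      (∀ t s r, r ≠ 0 ∨ s ≠ 0 → D.M ψ χ (t, s, r) 1 = k) ∧ ∑ t, D.M ψ χ (t, 0, 0) 1 = R ∧
      d + Fintype.card K * k = R + Fintype.card F ^ 2 * Fintype.card K * k := by
  have hc := hχ.isClassFunction
  have hq := mul_ne_zero (card_cast_ne_zero F) (card_cast_ne_zero K)
  choose m hm using fun c => exists_acomp_one hχ D.ζ (D.l ψ c)
  have e1 : ∀ r, r ≠ 0 → Fintype.card F ^ 2 * Fintype.card K * D.M ψ χ (0, 0, r) 1 = e := fun r hr => by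
    have := fib hψ (D.M ψ χ · 1) (·.2.2) (fun r => χ (D.ζ (0, 0, r))) (fun r => by
      simp [D.apply_ζ hψ, l_apply]) (fun r hr => by simpa [Prod.mk_zero_zero] using he1 r hr) hr
    rw [sum_filter, Fintype.sum_prod_type, sum_congr rfl fun t _ => Fintype.sum_prod_type _] at this
    simp only [sum_ite_eq', mem_univ, if_true, D.M_one_eq hc _ _ hr, sum_const, card_univ,
      nsmul_eq_mul] at this
    linear_combination this
  obtain ⟨k, hk⟩ : ∃ k : ℕ, D.M ψ χ (0, 0, 1) 1 = k := ⟨_, hm _⟩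
  have e3 := e1 1 one_ne_zero
  rw [hk] at e3
  have e2 : ∀ t s r, r ≠ 0 → D.M ψ χ (t, s, r) 1 = k := fun t s r hr => by
    rw [D.M_one_eq hc t s hr]
    exact mul_left_cancel₀ (mul_ne_zero (card_cast_ne_zero F) hq) (by linear_combination e1 r hr - e3)
  have e4 : ∀ t s, s ≠ 0 → D.M ψ χ (t, s, 0) 1 = k := fun t s hs => by
    have k1 : ∀ t, D.M ψ χ (t, s, 0) 1 = D.M ψ χ (0, s, 0) 1 := fun t => by
      have := D.conj_a (ψ := ψ) hc ((D.ι s)⁻¹ * t) 0 s 0 1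
      rwa [mul_one, mul_inv_cancel, mul_inv_cancel_left₀ (by simpa using hs), zero_add, eq_comm] at this
    have := fib hψ (D.M ψ χ · 1) (·.2.1) (fun r => χ (D.ζ (0, r, 0))) (fun r => by
      simp [D.apply_ζ hψ, l_apply]) (fun r hr => by simpa [Prod.mk_zero_zero] using he2 r hr) hs
    rw [sum_filter, Fintype.sum_prod_type, sum_congr rfl fun t _ => Fintype.sum_prod_type_right _]
      at this
    simp only [sum_ite_eq', mem_univ, if_true] at this
    rw [sum_congr rfl fun t _ => by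
      rw [← add_sum_erase _ _ (mem_univ 0), ← filter_ne', k1,
        sum_congr rfl fun r hr => e2 t s r (mem_filter.1 hr).2, sum_const, nsmul_eq_mul,
        card_ne_zero_cast], sum_const, card_univ, nsmul_eq_mul] at this
    rw [k1]
    exact mul_left_cancel₀ hq (by linear_combination this - e3)
  obtain ⟨R, hR⟩ : ∃ R : ℕ, ∑ t, D.M ψ χ (t, 0, 0) 1 = R :=
    ⟨∑ t, m (t, 0, 0), by simp only [Nat.cast_sum, ← hm, M]⟩
  refine ⟨k, R, e3.symm, fun t s r h => ?_, hR, ?_⟩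
  · by_cases hr : r = 0
    · rw [hr, e4 t s (h.resolve_left (· hr))]
    · exact e2 t s r hr
  have e5 := D.split (χ := χ) hψ 1
  have k1 : ∀ s ∈ univ.filter (· ≠ 0), ∑ t, D.M ψ χ (t, s, 0) 1 = Fintype.card K * k := fun s hs => by
    simp [e4 _ s (mem_filter.1 hs).2]
  have k2 : ∀ r ∈ univ.filter (· ≠ 0), ∑ s, ∑ t, D.M ψ χ (t, s, r) 1 =
      Fintype.card F * (Fintype.card K * k) := fun r hr => by simp [e2 _ _ r (mem_filter.1 hr).2]
  rw [sum_congr rfl k1, sum_congr rfl k2, sum_const, sum_const, nsmul_eq_mul, nsmul_eq_mul,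
    card_ne_zero_cast, hd, hR] at e5
  have : (d : ℂ) + Fintype.card K * k = R + Fintype.card F ^ 2 * Fintype.card K * k := by
    linear_combination e5
  exact_mod_cast this

omit [DecidableEq F] in
theorem M_w (hχ : IsCharacter G χ) {s : F} (h1 : D.M ψ χ (0, s, 0) 1 = 1) {h : G} {κ κ' : K} {r : F}
    (H : D.Tor h κ' 1 r) (hw : ∀ t, h * D.w t * h⁻¹ = D.w (κ * t)) (hκ : κ ≠ 1) (t : K) :
    D.M ψ χ (0, s, 0) (D.w t) = 1 := by
  have sh : h ∈ acStab D.ζ (D.l ψ (0, s, 0)) := mem_acStab' H.inj H.2.2.2 fun x => by simp [l_apply]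
  refine SLDeg.lin_eq_one (D.char_M hχ _) h1 (D.w_mem 0 s ((κ - 1)⁻¹ * t)) (D.w_mem 0 s t) ?_
  rw [← SLDeg.lin_conj (D.char_M hχ _) sh (D.w_mem 0 s ((κ - 1)⁻¹ * t)), hw, ← AddChar.map_add_eq_mul]
  have := sub_ne_zero.2 hκ
  congr 2
  field_simp
  ring

omit [DecidableEq F] in
theorem sum_M_b (hχ : IsCharacter G χ) {s : F} (hs : s ≠ 0) (h1 : D.M ψ χ (0, s, 0) 1 = 1)
    (h2 : ∀ t, D.M ψ χ (0, s, 0) (D.w t) = 1) (v : F) :
    ∑ t, D.M ψ χ (t, s, 0) (D.b v) = (∑ u, ψ (s * v * D.N u)) * D.M ψ χ (0, s, 0) (D.b v) := by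
  rw [D.sum_M_a hχ.isClassFunction hs, sum_mul]
  refine sum_congr rfl fun u _ => ?_
  obtain ⟨t, t', r, e⟩ := D.a_b u v
  have := (D.char_M hχ _).map_mul_of_apply_one h1 ⟨_, D.b_mem 0 s v⟩ ⟨_, D.w_mem 0 s t⟩
  simp only [Subgroup.coe_mul, h2, mul_one] at this
  rw [e, M_mul, this, l_apply]
  congr 2
  simp only [zero_mul, map_zero, zero_add, add_zero]
  ring

theorem main [Finite G] (hK : Fintype.card K = Fintype.card F ^ 3) {N : K →*₀ F}
    (hN : Function.Surjective N) (hN' : ∀ u, D.N u = -N u) {h : G} {κ κ' : K} {r : F}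
    (H : D.Tor h κ' 1 r) (hw : ∀ t, h * D.w t * h⁻¹ = D.w (κ * t)) (hκ : κ ≠ 1) (hχ : IsCharacter G χ)
    {d : ℕ} (hd : χ 1 = d) {e : ℂ} (he0 : e ≠ 0) (he1 : ∀ r, r ≠ 0 → χ 1 - χ (D.ζ (0, 0, r)) = e)
    (he2 : ∀ r, r ≠ 0 → χ 1 - χ (D.ζ (0, r, 0)) = e) (he3 : ∀ r, r ≠ 0 → χ 1 - χ (D.b r) = e) :
    Fintype.card F ^ 5 + Fintype.card F ≤ d + Fintype.card F ^ 3 + 1 := by
  obtain ⟨ψ, hψ⟩ : ∃ ψ : AddChar F ℂ, ψ ≠ 0 :=
    (AddChar.exists_apply_ne_zero.2 (one_ne_zero (α := F))).imp fun ψ h k => by simp [k] at h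
  have hc := hχ.isClassFunction
  obtain ⟨k, R, e3, e4, hR, e6⟩ := D.exists_mult hψ hχ hd he1 he2
  rw [hK] at e3 e6
  have h2 : 2 ≤ Fintype.card F := Fintype.one_lt_card
  rcases Nat.lt_or_ge k 2 with k2 | k2
  swap
  · obtain ⟨q, hq'⟩ := Nat.exists_eq_add_of_le' h2
    obtain ⟨k, rfl⟩ := Nat.exists_eq_add_of_le k2
    rw [hq'] at e6 ⊢
    nlinarith [Nat.zero_le (q ^ 5 * k), Nat.zero_le (q ^ 4 * k), Nat.zero_le (q ^ 3 * k),
      Nat.zero_le (q ^ 2 * k), Nat.zero_le (q * k), Nat.zero_le (q ^ 5), Nat.zero_le (q ^ 4),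
      Nat.zero_le (q ^ 3), Nat.zero_le (q ^ 2)]
  obtain rfl : k = 1 := by
    have : k ≠ 0 := by rintro rfl; simp [he0] at e3
    omega
  rw [Nat.cast_one] at e4
  have f2 : ∀ s v, s ≠ 0 → v ≠ 0 → ∑ t, D.M ψ χ (t, s, 0) (D.b v) =
      -(Fintype.card F ^ 2 + Fintype.card F) * D.M ψ χ (0, s, 0) (D.b v) := fun s v hs hv => by
    have k1 := e4 0 s 0 (Or.inr hs)
    rw [D.sum_M_b hχ hs k1 (D.M_w hχ k1 H hw hκ), ← sum_norm hψ hN hK (r := -(s * v)) (by simp [hs, hv])]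
    simp only [hN', mul_neg, neg_mul]
  choose n hn using fun t => exists_sum_eq (D.char_M (ψ := ψ) hχ (t, 0, 0)) D.b (D.b_mem t 0)
  have f4 : ∑ v with v ≠ 0, χ (D.b v) = Fintype.card F * (∑ t, n t : ℕ) - R - (Fintype.card F ^ 2 +
      Fintype.card F) * ∑ v with v ≠ 0, ∑ s with s ≠ 0, D.M ψ χ (0, s, 0) (D.b v) := by
    rw [sum_congr rfl fun v hv => by
      rw [D.split_b hψ hc (mem_filter.1 hv).2,
        sum_congr rfl fun s hs => f2 s v (mem_filter.1 hs).2 (mem_filter.1 hv).2,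
        ← mul_sum], sum_add_distrib, ← mul_sum, Nat.cast_sum, mul_sum _ _ (Fintype.card F : ℂ)]
    simp only [← hn]
    rw [sum_comm (s := univ), ← add_sum_erase univ _ (mem_univ (0 : F)), ← filter_ne',
      AddChar.map_zero_eq_one, hR]
    ring
  rw [sum_congr rfl (g := fun _ => (d : ℂ) - Fintype.card F ^ 5) fun v hv => by
    push_cast at e3
    linear_combination hd - he3 v (mem_filter.1 hv).2 - e3, sum_const, nsmul_eq_mul,
    card_ne_zero_cast] at f4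
  have f5 : (∑ v with v ≠ 0, ∑ s with s ≠ 0, D.M ψ χ (0, s, 0) (D.b v)).re ≤
      (Fintype.card F - 1) ^ 2 := by
    have k1 : ((#{r : F | r ≠ 0} : ℕ) : ℝ) = Fintype.card F - 1 := by
      exact_mod_cast card_ne_zero_cast (F := F)
    rw [Complex.re_sum, sq, ← k1, ← nsmul_eq_mul, ← sum_const]
    refine sum_le_sum fun v _ => ?_
    rw [Complex.re_sum, ← mul_one ((#_ : ℕ) : ℝ), ← nsmul_eq_mul, ← sum_const]
    refine sum_le_sum fun s hs => (Complex.re_le_norm _).trans ?_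
    have := norm_acomp_le hχ (D.b_mem (ψ := ψ) 0 s v)
    rwa [← M, e4 0 s 0 (Or.inr (mem_filter.1 hs).2), Complex.one_re] at this
  have f6 := congrArg Complex.re f4
  simp only [← Complex.ofReal_natCast, ← Complex.ofReal_pow, ← Complex.ofReal_add, ← Complex.ofReal_one,
    ← Complex.ofReal_sub, ← Complex.ofReal_mul, Complex.sub_re, Complex.re_ofReal_mul,
    Complex.ofReal_re] at f6
  have f7 : (d : ℝ) + Fintype.card F ^ 3 = R + Fintype.card F ^ 5 := by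
    rw [mul_one, mul_one, ← pow_add] at e6
    exact_mod_cast e6
  have f8 : (Fintype.card F : ℝ) * (Fintype.card F - 1) ≤ Fintype.card F * R := by
    have k1 : (0 : ℝ) ≤ Fintype.card F * (∑ t, n t : ℕ) := by positivity
    have k2 := mul_le_mul_of_nonneg_left f5 (by positivity :
      (0 : ℝ) ≤ Fintype.card F ^ 2 + Fintype.card F)
    nlinarith
  have f9 := le_of_mul_le_mul_left f8 (by exact_mod_cast Fintype.card_pos)
  have : (Fintype.card F : ℝ) ^ 5 + Fintype.card F ≤ d + Fintype.card F ^ 3 + 1 := by linarith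
  exact_mod_cast this

end Tri

end Cfsg.Lib.Char.MD
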