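import Cfsg.Agent.Char.MDTri1
import Cfsg.Agent.Char.Degree
import Cfsg.Agent.Chev.TwistD4

/-! Minimal character degree of `³D₄(q)`: the root elements. -/

set_option autoImplicit false

namespace Cfsg.Lib.Char.MD

open Finset Cfsg.Lie Cfsg.Lib.Chev Cfsg.Lib.Chev.Core

section
variable {K G : Type*} [Field K] [Group G] {D : ChevalleyDatum} {x : ℕ → K → G}

/-- `x r` and `x s` commute -/
def cmChk (D : ChevalleyDatum) (r s : ℕ) : Prop :=
  r < D.nroots ∧ s < D.nroots ∧ s ≠ D.neg r ∧ D.chainRoot r s 1 = none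

theorem cmChk_eq_1' : type_of% @cmChk.eq_1 := @cmChk.eq_1

instance (D : ChevalleyDatum) (r s : ℕ) : Decidable (cmChk D r s) :=
  inferInstanceAs (Decidable (_ ∧ _ ∧ _ ∧ _))

/-- the commutator of `x r` and `x s` lies in `x k` -/
def ncChk (D : ChevalleyDatum) (r s k : ℕ) (N : ℤ) : Prop :=
  s < D.nroots ∧ s ≠ r ∧ s ≠ D.neg r ∧ D.commTerms r s = [(k, N, 1, 1)] ∧ cmChk D r k

theorem ncChk_eq_1' : type_of% @ncChk.eq_1 := @ncChk.eq_1

instance (D : ChevalleyDatum) (r s k : ℕ) (N : ℤ) : Decidable (ncChk D r s k N) :=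
  inferInstanceAs (Decidable (_ ∧ _ ∧ _ ∧ _ ∧ _))

variable (hx : StRel D x) (R : RootData D)
include hx R

theorem cm_swap {r s : ℕ} (h : cmChk D r s) (t u : K) : Commute (x r t) (x s u) :=
  hx.commute R h.1 h.2.1 h.2.2.1 h.2.2.2 t u

theorem cm_ord (L : List ℕ) {r s : ℕ} (h : L.idxOf s < L.idxOf r ∧ cmChk D r s) (t u : K) (g : G) :
    x r t * (x s u * g) = x s u * x r t * g := by rw [← mul_assoc, (cm_swap hx R h.2 t u).eq]

theorem nc_swap {r s k : ℕ} {N : ℤ} (h : ncChk D r s k N) (t u : K) (g : G) :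
    x r t * (x s u * g) = x s u * (x k (N * t * u) * (x r t * g)) := by
  have h1 := hx.comm r s h.2.2.2.2.1 h.1 h.2.1 h.2.2.1 t u
  rw [ChevalleyDatum.commWord, h.2.2.2.1] at h1
  simp only [List.map_cons, List.map_nil, word_cons, word_nil, mul_one, pow_one] at h1
  rw [← (cm_swap hx R h.2.2.2.2 _ _).left_comm, ← mul_assoc (x s u), h1, mul_assoc, mul_assoc,
    ← mul_assoc (x k _), hx.add k h.2.2.2.2.2.1]
  simp [hx.zero h.2.2.2.2.2.1]

omit R in
theorem add_assoc' {r : ℕ} (h : r < D.nroots) (t u : K) (g : G) :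
    x r t * (x r u * g) = x r (t + u) * g := by rw [← mul_assoc, hx.add r h]

theorem conj_long {S : Subgroup G} {χ : S → ℂ} (hχ : IsClassFunction S χ) {F : Subfield K}
    {r r' s k : ℕ} {N N' : ℤ} (h : ncChk D r s k N) (h' : ncChk D r' k s N') (hc : cmChk D s k)
    (hN : N = 1 ∨ N = -1) (hN' : N' = 1 ∨ N' = -1) (hr : ∀ t ∈ F, x r t ∈ S) (hr' : ∀ t ∈ F, x r' t ∈ S)
    {t u : K} (ht : t ∈ F) (hu : u ∈ F) (ht0 : t ≠ 0) (hu0 : u ≠ 0) (h1 : x s t ∈ S) (h2 : x k u ∈ S) :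
    χ ⟨x s t, h1⟩ = χ ⟨x k u, h2⟩ := by
  have k1 : ∀ {r s k : ℕ} {N : ℤ} {t u : K}, ncChk D r s k N → N = 1 ∨ N = -1 → (∀ t ∈ F, x r t ∈ S) →
      t ∈ F → u ∈ F → t ≠ 0 → ∀ (h1 : x s t ∈ S) (h2 : x k u ∈ S),
      χ ⟨x s t, h1⟩ = χ (⟨x s t, h1⟩ * ⟨x k u, h2⟩) := fun {r s k N t u} h hN hr ht hu ht0 h1 h2 => by
    rw [← hχ.apply_conj _ ⟨_, hr (N * u / t) (div_mem (mul_mem (intCast_mem F N) hu) ht)⟩]
    congr 1
    refine Subtype.ext (mul_inv_eq_of_eq_mul ?_)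
    have := nc_swap hx R h (N * u / t) t 1
    rw [mul_one, mul_one, mul_assoc, div_mul_cancel₀ _ ht0, ← mul_assoc (N : K), sign_cast_mul_self hN,
      one_mul, ← mul_assoc] at this
    exact this
  rw [k1 h hN hr ht hu ht0 h1 h2, k1 h' hN' hr' hu ht hu0 h2 h1]
  exact congrArg χ (Subtype.ext (cm_swap hx R hc t u).eq)

end

variable {K : Type*} [Field K] (f : K →+* K) (hf : ∀ t, f (f (f t)) = t)

theorem mem_twD4 {r s k : ℕ} {a b : ℤ} (h : (∀ i ∈ [r, s, k], chevD4.IsPosRoot i) ∧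
    gD4a.σ r = s ∧ gD4a.σ s = k ∧ gD4a.σ k = r ∧ gD4a.ε r = a ∧ gD4a.ε s * a = b ∧ gD4a.ε k * b = 1 ∧
    cmChk chevD4 r s ∧ cmChk chevD4 r k) (t : K) :
    xGL chevD4 K r t * xGL chevD4 K s (a * f t) * xGL chevD4 K k (b * f (f t)) ∈ (twD4 f hf).G1 := by
  have hy := Core.certD4.model K rootD4
  obtain ⟨h0, h1, h2, h3, h4, h5, h6, h7, h8⟩ := h
  have k1 : ∀ i ∈ [r, s, k], ∀ t, (endD4 f hf).σ (xGL chevD4 K i t) =
      xGL chevD4 K (gD4a.σ i) (gD4a.ε i * f t) := fun i hi t => by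
    rw [(endD4 f hf).map_x i (h0 i hi).1, RootSubst.app_apply, ← gD4a.sym_ρ rootD4 (h0 i hi).1]
    rfl
  have k2 : ∀ i ∈ [r, s, k], ∀ t, xGL chevD4 K i t ∈ (hy.toStRelW.rgd rootD4).U := fun i hi t =>
    (hy.toStRelW.rgd rootD4).X_le_U (rootD4.weyl_pos.2 (h0 i hi)) (x_mem_xSub _ i t)
  have k3 : ∀ i ∈ [r, s, k], ∀ t, xGL chevD4 K i t ∈ (hy.toStRelW.rgd rootD4).G0 := fun i hi t =>
    hy.x_mem_G0 (h0 i hi).1 t
  simp only [List.forall_mem_cons] at k1 k2 k3
  refine (twD4 f hf).U_inf_le_G1 hy.faithful ⟨mul_mem (mul_mem (k2.1 _) (k2.2.1 _)) (k2.2.2.1 _),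
    mul_mem (mul_mem (k3.1 _) (k3.2.1 _)) (k3.2.2.1 _), ?_⟩
  change (endD4 f hf).σ _ = _
  rw [(endD4 f hf).map_mul _ (mul_mem (k3.1 _) (k3.2.1 _)) _ (k3.2.2.1 _),
    (endD4 f hf).map_mul _ (k3.1 _) _ (k3.2.1 _), k1.1, k1.2.1, k1.2.2.1, h1, h2, h3, h4, map_mul, map_mul,
    map_intCast, map_intCast, ← mul_assoc, ← mul_assoc, ← Int.cast_mul, ← Int.cast_mul, h5, h6, hf,
    Int.cast_one, one_mul, mul_assoc, ← (cm_swap hy.toStRel rootD4 h8 _ _).eq,
    ← (cm_swap hy.toStRel rootD4 h7 _ _).left_comm, mul_assoc]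

/-- the fixed field -/
abbrev Fx : Subfield K := f.eqLocusField (RingHom.id K)

local notation "x" => xGL chevD4 K

theorem mem_w2 (t : K) : x 21 t * x 17 (-f t) * x 20 (f (f t)) ∈ (twD4 f hf).G1 := by
  simpa using mem_twD4 f hf (r := 21) (s := 17) (k := 20) (a := -1) (b := 1) (by decide +kernel) t

theorem mem_w1 (t : K) : x 19 (f t) * x 16 (-f (f t)) * x 15 (-t) ∈ (twD4 f hf).G1 := by
  simpa [hf] using mem_twD4 f hf (r := 19) (s := 16) (k := 15) (a := -1) (b := -1) (by decide +kernel) (f t)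

theorem mem_a (t : K) : x 18 (f t) * x 13 (f (f t)) * x 12 t ∈ (twD4 f hf).G1 := by
  simpa [hf] using mem_twD4 f hf (r := 18) (s := 13) (k := 12) (a := 1) (b := 1) (by decide +kernel) (f t)

theorem mem_l {r : ℕ} (h : r ∈ [14, 22, 23, 9, 1]) (t : K) (ht : t ∈ Fx f) : x r t ∈ (twD4 f hf).G1 :=
  x_mem_twD4 f hf (by revert r; decide +kernel) ht

theorem coll (t u : K) (g : GL chevD4.Idx K) :
    (x 22 t * (x 14 u * g) = x 14 u * (x 23 (-(t * u)) * (x 22 t * g)) ∧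
    x 21 t * (x 15 u * g) = x 15 u * (x 23 (t * u) * (x 21 t * g)) ∧
    x 17 t * (x 19 u * g) = x 19 u * (x 23 (t * u) * (x 17 t * g)) ∧
    x 20 t * (x 16 u * g) = x 16 u * (x 23 (t * u) * (x 20 t * g))) ∧
    (x 18 t * (x 14 u * g) = x 14 u * (x 19 (-(t * u)) * (x 18 t * g)) ∧
    x 18 t * (x 15 u * g) = x 15 u * (x 20 (-(t * u)) * (x 18 t * g)) ∧
    x 18 t * (x 16 u * g) = x 16 u * (x 21 (-(t * u)) * (x 18 t * g)) ∧
    x 18 t * (x 17 u * g) = x 17 u * (x 22 (-(t * u)) * (x 18 t * g))) ∧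
    (x 13 t * (x 14 u * g) = x 14 u * (x 16 (t * u) * (x 13 t * g)) ∧
    x 13 t * (x 15 u * g) = x 15 u * (x 17 (t * u) * (x 13 t * g)) ∧
    x 13 t * (x 19 u * g) = x 19 u * (x 21 (t * u) * (x 13 t * g)) ∧
    x 13 t * (x 20 u * g) = x 20 u * (x 22 (t * u) * (x 13 t * g))) ∧
    x 12 t * (x 14 u * g) = x 14 u * (x 15 (t * u) * (x 12 t * g)) ∧
    x 12 t * (x 16 u * g) = x 16 u * (x 17 (t * u) * (x 12 t * g)) ∧
    x 12 t * (x 19 u * g) = x 19 u * (x 20 (t * u) * (x 12 t * g)) ∧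
    x 12 t * (x 21 u * g) = x 21 u * (x 22 (t * u) * (x 12 t * g)) := by
  have hx := (Core.certD4.model K rootD4).toStRel
  have k1 := fun r s k (h : ncChk chevD4 r s k 1) => nc_swap hx rootD4 h t u g
  have k2 := fun r s k (h : ncChk chevD4 r s k (-1)) => nc_swap hx rootD4 h t u g
  simp only [Int.cast_neg, Int.cast_one, neg_mul, one_mul] at k1 k2
  refine ⟨⟨k2 _ _ _ ?_, k1 _ _ _ ?_, k1 _ _ _ ?_, k1 _ _ _ ?_⟩, ⟨k2 _ _ _ ?_, k2 _ _ _ ?_, k2 _ _ _ ?_,
    k2 _ _ _ ?_⟩, ⟨k1 _ _ _ ?_, k1 _ _ _ ?_, k1 _ _ _ ?_, k1 _ _ _ ?_⟩, k1 _ _ _ ?_, k1 _ _ _ ?_,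
    k1 _ _ _ ?_, k1 _ _ _ ?_⟩ <;> decide +kernel

/-- collection in the unipotent group -/
local macro "collectD4" : tactic => `(tactic| (
  refine (mul_one _).symm.trans (Eq.trans ?_ (mul_one _))
  simp (disch := decide +kernel) only [mul_assoc, coll, map_add, map_neg, map_mul, map_zero,
    cm_ord (Core.certD4.model K rootD4).toStRel rootD4 [14, 19, 16, 15, 21, 17, 20, 22, 23, 18, 13, 12],
    add_assoc' (Core.certD4.model K rootD4).toStRel, Prod.fst_add, Prod.snd_add, Subfield.coe_add,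
    Subfield.coe_mul, Subfield.coe_neg]))

/-- a long root subgroup -/
noncomputable def lr (r : ℕ) (h : r ∈ [14, 22, 23, 9, 1]) : AddChar (Fx f) (twD4 f hf).G1 where
  toFun v := ⟨_, mem_l f hf h _ v.2⟩
  map_zero_eq_one' := Subtype.ext ((Core.certD4.model K rootD4).toStRel.zero (by
    revert r; decide +kernel))
  map_add_eq_mul' _ _ := Subtype.ext ((Core.certD4.model K rootD4).toStRel.add _ (by
    revert r; decide +kernel) _ _).symm

theorem coe_lr (r : ℕ) (h : r ∈ [14, 22, 23, 9, 1]) (v : Fx f) : (lr f hf r h v).1 = x r v := rfl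

/-- the norm -/
def nrm : K →*₀ Fx f where
  toFun u := ⟨u * f u * f (f u), by
    change f _ = _
    simp only [map_mul, hf, RingHom.id_apply]; ring⟩
  map_zero' := Subtype.ext (by simp)
  map_one' := Subtype.ext (by simp)
  map_mul' t u := Subtype.ext (by simp only [map_mul, Subfield.coe_mul]; ring)

theorem coe_nrm (u : K) : (nrm f hf u : K) = u * f u * f (f u) := rfl

/-- the data for `³D₄` -/
noncomputable def triD4 (hne : ∃ a, f a ≠ a) : Tri (Fx f) K (twD4 f hf).G1 where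
  ι := (Fx f).subtype
  T := AddMonoidHom.mk' (fun t => ⟨t + f t + f (f t), by
    change f _ = _
    simp only [map_add, hf, RingHom.id_apply]; ring⟩) fun t u => Subtype.ext (by
      simp only [map_add, Subfield.coe_add]; ring)
  N u := -nrm f hf u
  ζ := { toFun c := ⟨_, mem_w2 f hf c.1⟩ * lr f hf 22 (by simp) c.2.1 * lr f hf 23 (by simp) c.2.2
         map_zero_eq_one' := Subtype.ext (by
           simp (disch := decide +kernel) [(Core.certD4.model K rootD4).toStRel.zero])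
         map_add_eq_mul' c c' := Subtype.ext (by
           simp only [Subgroup.coe_mul, coe_lr]
           collectD4
           simp only [neg_add]) }
  b := lr f hf 14 (by simp)
  w := { toFun t := ⟨_, mem_w1 f hf t⟩
         map_zero_eq_one' := Subtype.ext (by
           simp (disch := decide +kernel) [(Core.certD4.model K rootD4).toStRel.zero])
         map_add_eq_mul' c c' := Subtype.ext (by
           simp only [Subgroup.coe_mul]
           collectD4
           simp only [neg_add]) }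
  a t := ⟨_, mem_a f hf t⟩
  T_mul s t := Subtype.ext (by
    have : f s = s := s.2
    simp only [AddMonoidHom.mk'_apply, Subfield.coe_subtype, map_mul, this, Subfield.coe_mul]
    ring)
  T_ne := by
    by_contra! h
    obtain ⟨a, ha⟩ := hne
    have k : ∀ t, t + f t + f (f t) = 0 := fun t => congrArg Subtype.val (h t)
    have k1 := k 1
    have k2 := k a
    have k3 := k (a * a)
    simp only [map_one, map_mul] at k1 k3
    have : (f a - a) * (f a - f (f a)) = 0 := by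
      linear_combination k3 - a * k2 - f (f a) * (k2 - a * k1)
    exact ha ((mul_eq_zero.1 this).elim sub_eq_zero.1 fun e => (f.injective (sub_eq_zero.1 e)).symm)
  b_ζ u t s r := Subtype.ext (by
    simp only [AddChar.coe_mk, Subgroup.coe_mul, coe_lr]
    collectD4
    ring_nf)
  w_ζ u t s r := Subtype.ext (by
    simp only [AddChar.coe_mk, Subgroup.coe_mul, AddMonoidHom.mk'_apply, coe_lr]
    collectD4
    ring_nf)
  a_ζ u t s r := Subtype.ext (by
    simp only [AddChar.coe_mk, Subgroup.coe_mul, AddMonoidHom.mk'_apply, coe_lr]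
    collectD4
    ring_nf)
  a_b u v := ⟨-(u * v), -(f u * f (f u) * v), -nrm f hf u * v * v, mul_inv_eq_of_eq_mul (Subtype.ext (by
    have : f v = v := v.2
    simp only [AddChar.coe_mk, Subgroup.coe_mul, coe_lr]
    collectD4
    simp only [hf, this, coe_nrm]
    ring_nf))⟩

theorem nrm_eq_1' : type_of% @nrm.eq_1 := @nrm.eq_1
theorem lr_eq_1' : type_of% @lr.eq_1 := @lr.eq_1
theorem triD4_eq_1' : type_of% @triD4.eq_1 := @triD4.eq_1

theorem exists_tor (hne : ∃ a, f a ≠ a) : ∃ (h : (twD4 f hf).G1) (κ κ' : K),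
    (triD4 f hf hne).Tor h κ' 1 1 ∧ (∀ t, h * (triD4 f hf hne).w t * h⁻¹ = (triD4 f hf hne).w (κ * t)) ∧
    κ ≠ 1 := by
  obtain ⟨a, ha⟩ := id hne
  have h0 : a ≠ 0 := by rintro rfl; simp at ha
  have h1 : f a ≠ 0 := by simpa using h0
  have h2 : f (f a) ≠ 0 := by simpa using h0
  obtain ⟨t, ht⟩ : ∃ t, t = f a / a := ⟨_, rfl⟩
  have k0 : t ≠ 0 := by rw [ht]; positivity
  have k1 : f t ≠ 0 := by simpa using k0
  have k2 : f (f t) ≠ 0 := by simpa using k0
  have k3 : t * f t * f (f t) = 1 := by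
    simp only [ht, map_div₀, hf]
    field_simp
  have k := fun s hs u => (Core.certD4.model K rootD4).toStRelW.prod_hel_conj rootD4
    (w := [(18, t), (13, f t), (12, f (f t))]) (s := s) (by
      simp [k0, show chevD4.nroots = 24 by decide +kernel]) hs u
  obtain ⟨h, hh⟩ : ∃ h : (twD4 f hf).G1, ([(18, t), (13, f t), (12, f (f t))].map fun p =>
    hel chevD4 x p.1 p.2).prod = h := ⟨⟨_, hel_mem_twD4_three f hf t⟩, rfl⟩
  rw [hh] at k
  have k' : ∀ s a b c, s < chevD4.nroots ∧ chevD4.pairing 18 s = a ∧ chevD4.pairing 13 s = b ∧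
      chevD4.pairing 12 s = c → ∀ u, MulAut.conj h.1 (x s u) = x s (t ^ a * f t ^ b * f (f t) ^ c * u) :=
    fun s a b c hs u => by
      rw [MulAut.conj_apply, k s hs.1]
      simp [hs.2.1, hs.2.2.1, hs.2.2.2, mul_assoc]
  refine ⟨h, (t * f t)⁻¹ * f (f t), t * f t * (f (f t))⁻¹, ⟨by positivity, one_ne_zero, one_ne_zero,
    fun c => eq_mul_of_mul_inv_eq (Subtype.ext ?_)⟩, fun u => Subtype.ext ?_, fun e => ha ?_⟩
  · change MulAut.conj h.1 _ = _
    simp only [triD4, AddChar.coe_mk, Subgroup.coe_mul, coe_lr, map_mul, map_inv₀, hf,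
      k' 21 1 1 (-1) (by decide +kernel), k' 17 (-1) 1 1 (by decide +kernel),
      k' 20 1 (-1) 1 (by decide +kernel), k' 22 1 1 1 (by decide +kernel),
      k' 23 0 0 0 (by decide +kernel), zpow_one, zpow_neg_one, zpow_zero, k3, one_mul]
    ring_nf
  · change MulAut.conj h.1 _ = _
    simp only [triD4, AddChar.coe_mk, map_mul, map_inv₀, hf,
      k' 19 1 (-1) (-1) (by decide +kernel), k' 16 (-1) 1 (-1) (by decide +kernel),
      k' 15 (-1) (-1) 1 (by decide +kernel), zpow_one, zpow_neg_one]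
    ring_nf
  · have e1 : f (f t) = t * f t := by
      field_simp at e
      exact e
    rw [mul_assoc, mul_comm, mul_assoc, mul_comm _ t, mul_comm (f t), mul_assoc, mul_comm _ (f t),
      ← mul_assoc, ← e1] at k3
    have e2 : t * t = 1 := f.injective (f.injective (by simpa using k3))
    rcases mul_self_eq_one_iff.1 e2 with e | e <;> rw [ht, div_eq_iff h0] at e
    · rw [e, one_mul]
    · have := hf a
      simp only [e, map_mul, map_neg, map_one] at this
      linear_combination e + this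

theorem le_degree_twD4 [Fintype K] {q : ℕ} (hK : Fintype.card K = q ^ 3) (hq : ∀ t, f t = t ^ q)
    [IsSimpleGroup (twD4 f hf).G1] {χ : (twD4 f hf).G1 → ℂ} (hχ : IsIrrCharacter _ χ) {d : ℕ}
    (hd : χ 1 = d) (h2 : 2 ≤ d) : q ^ 5 + q ≤ d + q ^ 3 + 1 := by
  classical
  have hy := Core.certD4.model K rootD4
  have hF : Fintype.card (Fx f) = q := by
    rw [← card_pow_eq_self hK, Nat.card_eq_fintype_card]
    exact Fintype.card_congr (Equiv.subtypeEquivRight fun t => by rw [← hq]; rfl)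
  have hq2 := two_le_of_card hK
  have hne : ∃ a, f a ≠ a := by
    by_contra! h
    have := Fintype.card_congr (Equiv.subtypeUnivEquiv (p := (· ∈ Fx f)) h)
    rw [hK] at this
    have := hF.symm.trans this
    nlinarith [Nat.pow_le_pow_left hq2 2]
  obtain ⟨h, κ, κ', H, hw, hκ⟩ := exists_tor f hf hne
  have k1 : ∀ t u : Fx f, t ≠ 0 → u ≠ 0 → χ (lr f hf 22 (by simp) t) = χ (lr f hf 23 (by simp) u) :=
    fun t u ht hu => conj_long hy.toStRel rootD4 hχ.isClassFunction (r := 14) (r' := 9) (N := 1) (N' := 1)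
      (by decide +kernel) (by decide +kernel) (by decide +kernel) (Or.inl rfl) (Or.inl rfl)
      (mem_l f hf (by simp)) (mem_l f hf (by simp)) t.2 u.2 (by simpa using ht) (by simpa using hu) _ _
  have k2 : ∀ t u : Fx f, t ≠ 0 → u ≠ 0 → χ (lr f hf 14 (by simp) t) = χ (lr f hf 23 (by simp) u) :=
    fun t u ht hu => conj_long hy.toStRel rootD4 hχ.isClassFunction (r := 22) (r' := 1) (N := -1) (N' := -1)
      (by decide +kernel) (by decide +kernel) (by decide +kernel) (Or.inr rfl) (Or.inr rfl)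
      (mem_l f hf (by simp)) (mem_l f hf (by simp)) t.2 u.2 (by simpa using ht) (by simpa using hu) _ _
  have k3 : ∀ s r, (triD4 f hf hne).ζ (0, s, r) = lr f hf 22 (by simp) s * lr f hf 23 (by simp) r :=
    fun s r => Subtype.ext (by simp (disch := decide +kernel) [triD4, hy.toStRel.zero])
  rw [← hF] at hK ⊢
  refine (triD4 f hf hne).main hK (N := nrm f hf) (fun s => ?_) (fun _ => rfl) H hw hκ hχ.isCharacter hd
    (e := χ 1 - χ (lr f hf 23 (by simp) 1)) (fun e => ?_) (fun r hr => ?_) (fun r hr => ?_) fun r hr => ?_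
  · obtain ⟨u, rfl⟩ := FiniteField.norm_surjective (Fx f) K s
    refine ⟨u, Subtype.ext ((FiniteField.algebraMap_norm_eq_pow (K := Fx f)).trans ?_).symm⟩
    rw [Nat.card_eq_fintype_card, Nat.card_eq_fintype_card, hK, hF, coe_nrm, hq, hq, ← pow_mul,
      ← pow_succ', ← pow_add, Nat.div_eq_of_eq_mul_left (k := q + 1 + q * q) (by omega)]
    zify [Nat.one_le_pow 3 q (by omega), (by omega : 1 ≤ q)]
    ring
  · have := hχ.charKer_normal.eq_bot_or_eq_top.resolve_left fun k => one_ne_zero (hy.inj 23 (by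
      decide +kernel) 1 (congrArg Subtype.val ((Subgroup.eq_bot_iff_forall _).1 k _
        (hχ.mem_charKer_iff.2 (sub_eq_zero.1 e).symm))))
    rw [hχ.charKer_eq_top_iff.1 this] at hd
    have : 1 = d := Nat.cast_injective (R := ℂ) (Nat.cast_one.trans hd)
    omega
  · rw [k3, AddChar.map_zero_eq_one, one_mul, ← k1 1 r one_ne_zero hr, k1 1 1 one_ne_zero one_ne_zero]
  · rw [k3, AddChar.map_zero_eq_one, mul_one, k1 r 1 hr one_ne_zero]
  · exact congrArg _ (k2 r 1 hr one_ne_zero)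

theorem not_dvd_D4 {q d : ℕ} (hq : 2 ≤ q) (h : d + q ^ 3 + 1 = q ^ 5 + q) :
    ¬ d ∣ q ^ 12 * (q ^ 2 - 1) * (q ^ 6 - 1) * (q ^ 8 + q ^ 4 + 1) := fun k => by
  zify [Nat.one_le_pow 2 q (by omega), Nat.one_le_pow 6 q (by omega)] at k h hq
  generalize (q : ℤ) = y at *
  rw [show (d : ℤ) = (y - 1) * (y ^ 4 + y ^ 3 + 1) by linear_combination h, show y ^ 12 * (y ^ 2 - 1) *
    (y ^ 6 - 1) * (y ^ 8 + y ^ 4 + 1) = (y - 1) * (y ^ 12 * ((y + 1) * ((y ^ 3 + 1) * ((y ^ 3 - 1) *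
    (y ^ 8 + y ^ 4 + 1))))) by ring, mul_dvd_mul_iff_left (by omega)] at k
  have c1 : IsCoprime (y ^ 4 + y ^ 3 + 1) y := ⟨1, -(y ^ 3 + y ^ 2), by ring⟩
  have k1 := IsCoprime.dvd_of_dvd_mul_left ⟨y ^ 2, -(y ^ 3 + y ^ 2 - 1), by ring⟩
    (IsCoprime.dvd_of_dvd_mul_left ⟨1, -y ^ 3, by ring⟩ (c1.pow_right.dvd_of_dvd_mul_left k))
  have k2 : y ^ 4 + y ^ 3 + 1 ∣ y * (y * (2 * y ^ 2 + 1)) :=
    (dvd_iff_dvd_of_dvd_sub ⟨y ^ 7 - y ^ 6 + y ^ 5 - 2 * y ^ 4 + 2 * y ^ 3 - y ^ 2 - 1, by ring⟩).1 k1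
  have := Int.le_of_dvd (by positivity) (c1.dvd_of_dvd_mul_left (c1.dvd_of_dvd_mul_left k2))
  nlinarith [pow_le_pow_left₀ (by norm_num) hq 2, pow_pos (by omega : 0 < y) 3]

end Cfsg.Lib.Char.MD
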