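import Cfsg.Agent.Char.MDLace

/-! Twisted root elements (graph symmetry of order two) and weight spaces. -/

set_option autoImplicit false

namespace Cfsg.Lib.Char.MD

open Finset Module

section indep

variable {U ι : Type*} [AddCommGroup U] [Module ℂ U] {W : ι → Submodule ℂ U}

theorem eq_zero_of_sep {W0 : Submodule ℂ U} (s : Finset ι)
    (sep : ∀ j ∈ s, ∃ (T : End ℂ U) (a : ℂ) (c : ι → ℂ), (∀ v ∈ W0, T v = a • v) ∧
      (∀ k ∈ s, ∀ v ∈ W k, T v = c k • v) ∧ a ≠ c j) : ∀ v ∈ W0, v ∈ s.sup W → v = 0 := by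
  classical
  induction s using Finset.induction_on with
  | empty => simp
  | insert j s _ ih =>
    intro v h1 h2
    obtain ⟨T, a, c, hT0, hT, hc⟩ := sep j (by simp)
    rw [Finset.sup_insert, Submodule.mem_sup] at h2
    obtain ⟨w, hw, u, hu, e⟩ := h2
    have h3 : s.sup W ≤ (s.sup W).comap (T - c j • 1) := Finset.sup_le fun k hk x hx => by
      simp only [Submodule.mem_comap, LinearMap.sub_apply, hT k (by simp [hk]) x hx,
        LinearMap.smul_apply, End.one_apply, ← sub_smul]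
      exact Submodule.smul_mem _ _ (Finset.le_sup (f := W) hk hx)
    have h4 : (T - c j • (1 : End ℂ U)) u = (a - c j) • v := by
      rw [eq_sub_of_add_eq' e]
      simp [hT0 v h1, hT j (by simp) w hw, sub_smul, smul_sub]
    refine (smul_eq_zero.1 (ih (fun k hk => ?_) _ (Submodule.smul_mem _ _ h1)
      (h4 ▸ h3 hu))).resolve_left (sub_ne_zero.2 hc)
    obtain ⟨T, a, c, k1, k2, k3⟩ := sep k (by simp [hk])
    exact ⟨T, a, c, k1, fun l hl => k2 l (by simp [hl]), k3⟩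

theorem finrank_sup_of_disj [FiniteDimensional ℂ U] {A B : Submodule ℂ U}
    (h : ∀ v ∈ A, v ∈ B → v = 0) : finrank ℂ (A ⊔ B :) = finrank ℂ A + finrank ℂ B := by
  have := Submodule.finrank_sup_add_finrank_inf_eq A B
  rwa [(Submodule.disjoint_def.2 h).eq_bot, finrank_bot, add_zero] at this

theorem sum_finrank_le_sup [FiniteDimensional ℂ U] (s : Finset ι) (sep : ∀ i ∈ s, ∀ j ∈ s, i ≠ j →
      ∃ (T : End ℂ U) (c : ι → ℂ), (∀ k ∈ s, ∀ v ∈ W k, T v = c k • v) ∧ c i ≠ c j) :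
    ∑ i ∈ s, finrank ℂ (W i) ≤ finrank ℂ (s.sup W :) := by
  classical
  induction s using Finset.induction_on with
  | empty => simp
  | insert i s hi ih =>
    rw [Finset.sum_insert hi, Finset.sup_insert, finrank_sup_of_disj (eq_zero_of_sep s fun j hj => ?_)]
    · exact Nat.add_le_add_left (ih fun a ha b hb e => (sep a (by simp [ha]) b (by simp [hb]) e).imp
        fun T => Exists.imp fun c h => ⟨fun l hl => h.1 l (by simp [hl]), h.2⟩) _
    · obtain ⟨T, c, k1, k2⟩ := sep i (by simp) j (by simp [hj]) fun e => hi (e ▸ hj)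
      exact ⟨T, c i, c, k1 i (by simp), fun l hl => k1 l (by simp [hl]), k2⟩

end indep

variable {Φ K G : Type*} [Field K] [Group G]

theorem eq_of_char {ψ : AddChar K ℂ} (hψ : ψ ≠ 0) {a b : K} (h : ∀ u, ψ (a * u) = ψ (b * u)) :
    a = b := sub_eq_zero.1 (eq_zero_of_char hψ fun u => by
  rw [sub_mul, AddChar.map_sub_eq_div, h, div_self (ψ.val_isUnit _).ne_zero])

theorem exists_mul_char [Fintype K] {ψ : AddChar K ℂ} (hψ : ψ ≠ 0) (χ : AddChar K ℂ) :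
    ∃ a, ∀ u, χ u = ψ (a * u) := by
  have : Function.Bijective ψ.mulShift := (Fintype.bijective_iff_injective_and_card _).2
    ⟨fun a b e => eq_of_char hψ fun u => DFunLike.congr_fun e u, by rw [AddChar.card_eq]⟩
  obtain ⟨a, rfl⟩ := this.2 χ
  exact ⟨a, fun _ => rfl⟩

theorem reach_ex {P : (Φ → K) → Prop} (T : Finset Φ) {D : Φ → K → Prop}
    (h : ∀ γ ∈ T, ∀ w, D γ w → ∀ c, P c → ∃ c', P c' ∧ c' γ = c γ + w ∧ ∀ γ' ∈ T, γ' ≠ γ → c' γ' = c γ')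
    {c0 : Φ → K} (h0 : P c0) (a : Φ → K) (ha : ∀ γ ∈ T, D γ (a γ)) :
    ∃ c, P c ∧ ∀ γ ∈ T, c γ = c0 γ + a γ := by
  classical
  have key : ∀ T' ⊆ T, ∃ c, P c ∧ ∀ γ ∈ T, c γ = c0 γ + if γ ∈ T' then a γ else 0 := fun T' hT => by
    induction T' using Finset.induction_on with
    | empty => exact ⟨c0, h0, by simp⟩
    | insert β T' hβ ih =>
      obtain ⟨c, h1, h2⟩ := ih ((subset_insert _ _).trans hT)
      have h3 := hT (mem_insert_self _ _)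
      obtain ⟨c', h4, h5, h6⟩ := h β h3 _ (ha β h3) c h1
      refine ⟨c', h4, fun γ hγ => ?_⟩
      by_cases e : γ = β
      · rw [e, h5, h2 β h3, if_neg hβ, if_pos (mem_insert_self _ _), add_zero]
      · rw [h6 γ hγ e, h2 γ hγ]
        simp [e]
  obtain ⟨c, h1, h2⟩ := key T subset_rfl
  exact ⟨c, h1, fun γ hγ => by rw [h2 γ hγ, if_pos hγ]⟩

theorem reach [Fintype Φ] [DecidableEq Φ] [Fintype K] {P : (Φ → K) → Prop} [DecidablePred P]
    (T : Finset Φ) {D : Φ → K → Prop} [∀ γ, DecidablePred (D γ)]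
    (h : ∀ γ ∈ T, ∀ w, D γ w → ∀ c, P c → ∃ c', P c' ∧ c' γ = c γ + w ∧ ∀ γ' ∈ T, γ' ≠ γ → c' γ' = c γ')
    {c0 : Φ → K} (h0 : P c0) : ∏ γ ∈ T, #{w | D γ w} ≤ #{c | P c} := by
  classical
  rw [← card_pi]
  refine card_le_card_of_surjOn (fun c γ _ => c γ - c0 γ) fun a ha => ?_
  simp only [mem_coe, mem_pi, mem_filter, mem_univ, true_and] at ha
  obtain ⟨c, h1, h2⟩ := reach_ex T h h0 (fun γ => if h : γ ∈ T then a γ h else 0) fun γ hγ => by
    rw [dif_pos hγ]; exact ha γ hγ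
  exact ⟨c, by simpa using h1, funext₂ fun γ hγ => by simp [h2 γ hγ, hγ]⟩

/-- additive invariant functions on the roots -/
structure Lev (R : RS Φ) (σ : Φ → Φ) (l : Φ → ℤ) : Prop where
  add : R.Add l
  inv : ∀ r, l (σ r) = l r

theorem Lev.comb {R : RS Φ} {σ : Φ → Φ} {l l' : Φ → ℤ} (h : Lev R σ l) (h' : Lev R σ l') (a : ℤ) :
    Lev R σ fun r => a * l r + l' r :=
  ⟨fun r s => by simp only [h.add r s, h'.add r s]; ring, fun r => by rw [h.inv, h'.inv]⟩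

/-- the roots occurring in a commutator -/
def Comb (R : RS Φ) (σ : Φ → Φ) (r s δ : Φ) : Prop :=
  (R.p r s = -1 ∨ R.p (σ r) s = -1) ∧ ((∀ l, Lev R σ l → l δ = l r + l s) ∨
    (σ r ≠ r ∧ ∀ l, Lev R σ l → l δ = 2 * l r + l s) ∨ ∀ l, Lev R σ l → l δ = l r + 2 * l s)

theorem Comb.lev {R : RS Φ} {σ : Φ → Φ} {r s δ : Φ} (h : Comb R σ r s δ) {l l' l'' : Φ → ℤ}
    (h1 : Lev R σ l) (h2 : Lev R σ l') (h3 : Lev R σ l'') :
    (l δ = l r + l s ∧ l' δ = l' r + l' s ∧ l'' δ = l'' r + l'' s) ∨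
    (σ r ≠ r ∧ l δ = 2 * l r + l s ∧ l' δ = 2 * l' r + l' s ∧ l'' δ = 2 * l'' r + l'' s) ∨
    (l δ = l r + 2 * l s ∧ l' δ = l' r + 2 * l' s ∧ l'' δ = l'' r + 2 * l'' s) :=
  h.2.imp (fun k => ⟨k _ h1, k _ h2, k _ h3⟩)
    (Or.imp (fun k => ⟨k.1, k.2 _ h1, k.2 _ h2, k.2 _ h3⟩) fun k => ⟨k _ h1, k _ h2, k _ h3⟩)

/-- the commutators of `r` with the roots of `S` lie in `S'` -/
def NC (R : RS Φ) (σ : Φ → Φ) (r : Φ) (S S' : Set Φ) : Prop :=
  ∀ γ ∈ S, -1 ≤ R.p r γ ∧ -1 ≤ R.p (σ r) γ ∧ ∀ δ, Comb R σ r γ δ → δ ∈ S'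

/-- the relations between the twisted root elements -/
structure TW (R : RS Φ) (σ : Φ → Φ) (f : K →+* K) (y : Φ → K → G) : Prop where
  σσ : ∀ r, σ (σ r) = r
  pσ : ∀ r s, R.p (σ r) (σ s) = R.p r s
  p0 : ∀ r, σ r ≠ r → R.p (σ r) r = 0
  ex : ∀ r s, σ r ≠ r → σ s ≠ s → R.p r s = -1 → 0 ≤ R.p (σ r) s
  ff : ∀ t, f (f t) = t
  ne : ∃ t, t + f t ≠ 0
  add : ∀ r t u, y r t * y r u = y r (t + u)
  sym : ∀ r t, ∃ u, y r t = y (σ r) u
  fix : ∀ r, σ r = r → ∀ t, y r (f t) = y r t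
  comm : ∀ r s, 0 ≤ R.p r s → 0 ≤ R.p (σ r) s → ∀ t u, Commute (y r t) (y s u)
  r1 : ∀ r s, R.p r s = -1 → 0 ≤ R.p (σ r) s → ∀ t u,
    y r t * y s u * (y r t)⁻¹ = y s u * y (R.rf r s) (R.N r s * t * u)
  r2 : ∀ r s, σ r = r → σ s = s → R.p r s = -1 → ∀ t u,
    y r t * y s u * (y r t)⁻¹ = y s u * y (R.rf r s) (R.N r s * (t + f t) * u)
  r4 : ∀ r s, σ r ≠ r → σ s = s → R.p r s = -1 → ∀ t u, ∃ a b,
    y r t * y s u * (y r t)⁻¹ = y s u * (y (R.rf r s) a * y (R.rf (σ r) (R.rf r s)) b)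

/-- the subgroup generated by the root elements of `S` -/
def cl (y : Φ → K → G) (S : Set Φ) : Subgroup G := Subgroup.closure {g | ∃ γ ∈ S, ∃ u, g = y γ u}

theorem mem_cl {y : Φ → K → G} {S : Set Φ} {γ : Φ} (h : γ ∈ S) (u : K) : y γ u ∈ cl y S :=
  Subgroup.subset_closure ⟨γ, h, u, rfl⟩

theorem exists_tr {f : K →+* K} (ne : ∃ t, t + f t ≠ 0) (ff : ∀ t, f (f t) = t) {b : K} (hb : f b = b) :
    ∃ t, t + f t = b := by
  obtain ⟨t, ht⟩ := ne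
  refine ⟨b * t / (t + f t), ?_⟩
  rw [map_div₀, map_mul, map_add, ff, hb, add_comm (f t), ← add_div, ← mul_add, mul_div_cancel_right₀ _ ht]

namespace TW

variable {R : RS Φ} {σ : Φ → Φ} {f : K →+* K} {y : Φ → K → G} (X : TW R σ f y)
include X

theorem zero (r : Φ) : y r 0 = 1 := by
  have := X.add r 0 0
  rwa [add_zero, mul_eq_left] at this

theorem inv (r : Φ) (t : K) : (y r t)⁻¹ = y r (-t) :=
  inv_eq_of_mul_eq_one_right (by rw [X.add, add_neg_cancel, X.zero])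

theorem pσ' (r s : Φ) : R.p (σ r) s = R.p r (σ s) := by rw [← X.pσ, X.σσ]

theorem lev {ρ : Φ} (h : σ ρ = ρ) : Lev R σ (R.p ρ) := ⟨R.add_p ρ, fun r => by rw [← X.pσ', h]⟩

theorem σ_rf (r s : Φ) : σ (R.rf r s) = R.rf (σ r) (σ s) := R.ext' (by
  rw [R.p_rf, X.pσ, X.pσ, X.pσ, X.pσ, ← R.p_rf])

theorem conj {r : Φ} {S S' : Set Φ} (h : NC R σ r S S') {s : Φ} (hs : s ∈ S) (t u : K) :
    ∃ g ∈ cl y S', (y r t)⁻¹ * y s u * y r t = y s u * g := by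
  obtain ⟨h1, h2, h3⟩ := h s hs
  have k1 : R.p r s = -1 → R.rf r s ∈ S' := fun e =>
    h3 _ ⟨Or.inl e, Or.inl fun l hl => by rw [hl.add, e]; ring⟩
  by_cases e1 : R.p r s = -1 <;> by_cases e2 : R.p (σ r) s = -1
  · by_cases a : σ r = r <;> by_cases b : σ s = s
    · exact ⟨_, mem_cl (k1 e1) _, by rw [← X.r2 r s a b e1 (-t), X.inv, X.inv, neg_neg]⟩
    · obtain ⟨a1, a2, e⟩ := X.r4 s r b a (R.p_comm r s ▸ e1) (-u) t
      refine ⟨_, inv_mem (mul_mem (mem_cl (h3 (R.rf s r) ⟨Or.inl e1, Or.inl fun l hl => ?_⟩) a1)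
        (mem_cl (h3 (R.rf (σ s) (R.rf s r)) ⟨Or.inl e1, Or.inr (Or.inr fun l hl => ?_)⟩) a2)), ?_⟩
      · rw [hl.add, R.p_comm, e1]; ring
      · rw [hl.add, hl.add, R.p_rf, X.p0 s b, X.pσ', a, R.p_comm, e1, hl.inv]; ring
      · rw [← X.inv, inv_inv] at e
        rw [eq_mul_inv_iff_mul_eq, mul_assoc, mul_assoc, ← e]
        group
    · obtain ⟨a1, a2, e⟩ := X.r4 r s a b e1 (-t) u
      refine ⟨_, mul_mem (mem_cl (k1 e1) a1)
        (mem_cl (h3 (R.rf (σ r) (R.rf r s)) ⟨Or.inl e1, Or.inr (Or.inl ⟨a, fun l hl => ?_⟩)⟩) a2), ?_⟩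
      · rw [hl.add, hl.add, R.p_rf, X.p0 r a, e1, e2, hl.inv]; ring
      · rwa [← X.inv, inv_inv] at e
    · have := X.ex r s a b e1
      omega
  · exact ⟨_, mem_cl (k1 e1) _, by rw [← X.r1 r s e1 (by omega) (-t), X.inv, X.inv, neg_neg]⟩
  · obtain ⟨t', e⟩ := X.sym r t
    refine ⟨_, mem_cl (h3 (R.rf (σ r) s) ⟨Or.inr e2, Or.inl fun l hl => ?_⟩) _, by
      rw [← X.r1 _ s e2 (by rw [X.σσ]; omega) (-t'), e, X.inv, X.inv, neg_neg]⟩
    rw [hl.add, e2, hl.inv]; ring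
  · exact ⟨1, one_mem _, by
      rw [mul_assoc, ← (X.comm r s (by omega) (by omega) t u).eq, inv_mul_cancel_left, mul_one]⟩

theorem restrict (H : Subgroup G) (h : ∀ r t, y r t ∈ H) : TW R σ f fun r t => (⟨y r t, h r t⟩ : H) where
  σσ := X.σσ
  pσ := X.pσ
  p0 := X.p0
  ex := X.ex
  ff := X.ff
  ne := X.ne
  add r t u := Subtype.ext (X.add r t u)
  sym r t := (X.sym r t).imp fun _ e => Subtype.ext e
  fix r h t := Subtype.ext (X.fix r h t)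
  comm r s a b t u := Subtype.ext (X.comm r s a b t u).eq
  r1 r s a b t u := Subtype.ext (X.r1 r s a b t u)
  r2 r s a b c t u := Subtype.ext (X.r2 r s a b c t u)
  r4 r s a b c t u := (X.r4 r s a b c t u).imp fun _ => Exists.imp fun _ e => Subtype.ext e

end TW

end Cfsg.Lib.Char.MD
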