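import Cfsg.Agent.Char.MDTw1

/-! Weight spaces of twisted root elements: transport and counting. -/

set_option autoImplicit false

namespace Cfsg.Lib.Char.MD

open Finset Module

variable {Φ K : Type*} [Field K]

/-- a representation of a group with twisted root elements -/
structure TD (R : RS Φ) (σ : Φ → Φ) (f : K →+* K) (G W : Type*) [Group G] [AddCommGroup W]
    [Module ℂ W] where
  y : Φ → K → G
  ρ : G →* End ℂ W
  Ψ : AddChar K ℂ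
  tw : TW R σ f y
  Ψ_ne : Ψ ≠ 0
  Ψ_f : ∀ t, Ψ (f t) = Ψ t

namespace TD

variable {R : RS Φ} {σ : Φ → Φ} {f : K →+* K} {G W : Type*} [Group G] [AddCommGroup W] [Module ℂ W]
  (D : TD R σ f G W)

/-- the weight space -/
def Wt (S : Set Φ) (c : Φ → K) : Submodule ℂ W where
  carrier := {v | ∀ γ ∈ S, ∀ u, D.ρ (D.y γ u) v = D.Ψ (c γ * u) • v}
  zero_mem' _ _ _ := by simp
  add_mem' hv hw γ h u := by rw [map_add, hv γ h, hw γ h, smul_add]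
  smul_mem' a v hv γ h u := by rw [map_smul, hv γ h, smul_comm]

/-- the roots fixing `E` -/
def Fx (E : Submodule ℂ W) : Set Φ := {r | ∀ t, ∀ v ∈ E, D.ρ (D.y r t) v = v}

/-- the roots stabilizing `E` -/
def St (E : Submodule ℂ W) : Set Φ := {r | ∀ t, ∀ v ∈ E, D.ρ (D.y r t) v ∈ E}

/-- `c` is a weight of multiplicity at least `n` -/
def M (S : Set Φ) (n : ℕ) (c : Φ → K) : Prop := n ≤ finrank ℂ (D.Wt S c) ∧ ∀ γ ∉ S, c γ = 0

theorem ap_mul (g h : G) (v : W) : D.ρ (g * h) v = D.ρ g (D.ρ h v) := by rw [map_mul]; rfl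

theorem ap_inj (g : G) : Function.Injective (D.ρ g) := fun v w e => by
  have := congrArg (D.ρ g⁻¹) e
  simpa [← D.ap_mul] using this

theorem ap_ne (g : G) {v : W} (h : v ≠ 0) : D.ρ g v ≠ 0 := fun e => h (D.ap_inj g (e.trans (map_zero _).symm))

variable {D} {S S' : Set Φ} {c c' : Φ → K} {E : Submodule ℂ W} {n : ℕ}

theorem Wt_mono (h : S ⊆ S') (hc : ∀ γ ∈ S, c γ = c' γ) : D.Wt S' c' ≤ D.Wt S c :=
  fun _ hv γ k u => hc γ k ▸ hv γ (h k) u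

theorem mem_Fx {γ : Φ} (h : γ ∈ S) (hc : c γ = 0) : γ ∈ D.Fx (D.Wt S c) := fun t v hv => by
  rw [hv γ h, hc, zero_mul, AddChar.map_zero_eq_one, one_smul]

theorem Fx_le_St : D.Fx E ⊆ D.St E := fun _ h t v hv => (h t v hv).symm ▸ hv

theorem cl_ind {P : G → Prop} (h1 : P 1) (h2 : ∀ γ ∈ S, ∀ u, P (D.y γ u))
    (h3 : ∀ a b, P a → P b → P (a * b)) {g : G} (h : g ∈ cl D.y S) : P g := by
  refine Subgroup.closure_induction'' ?_ ?_ h1 (fun a b _ _ => h3 a b) h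
  · rintro _ ⟨γ, k, u, rfl⟩
    exact h2 γ k u
  · rintro _ ⟨γ, k, u, rfl⟩
    exact D.tw.inv γ u ▸ h2 γ k _

theorem cl_fix {g : G} (h : g ∈ cl D.y S) (hS : S ⊆ D.Fx E) : ∀ v ∈ E, D.ρ g v = v :=
  cl_ind (P := fun g => ∀ v ∈ E, D.ρ g v = v) (by simp) (fun γ k u => hS k u)
    (fun a b ha hb v hv => by rw [D.ap_mul, hb v hv, ha v hv]) h

theorem cl_scalar {g : G} (h : g ∈ cl D.y S) (c : Φ → K) : ∃ z : ℂ, ∀ v ∈ D.Wt S c, D.ρ g v = z • v :=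
  cl_ind (P := fun g => ∃ z : ℂ, ∀ v ∈ D.Wt S c, D.ρ g v = z • v) ⟨1, by simp⟩
    (fun γ k u => ⟨_, fun v hv => hv γ k u⟩) (fun a b ⟨z, ha⟩ ⟨z', hb⟩ => ⟨z' * z, fun v hv => by
      rw [D.ap_mul, hb v hv, map_smul, ha v hv, smul_smul]⟩) h

theorem ap_conj (g h : G) (v : W) : D.ρ h (D.ρ g v) = D.ρ g (D.ρ (g⁻¹ * h * g) v) := by
  rw [← D.ap_mul, ← D.ap_mul, ← mul_assoc, mul_inv_cancel_left]

theorem stab {r : Φ} (h : NC R σ r S (D.Fx (D.Wt S c))) : r ∈ D.St (D.Wt S c) := fun t v hv γ k u => by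
  obtain ⟨g, h1, h2⟩ := D.tw.conj h k t u
  rw [ap_conj, h2, D.ap_mul, cl_fix h1 subset_rfl v hv, hv γ k, map_smul]

theorem eq_of_smul {v : W} (hv : v ≠ 0) {a b : K} (h : ∀ u, D.Ψ (a * u) • v = D.Ψ (b * u) • v) : a = b :=
  eq_of_char D.Ψ_ne fun u => smul_left_injective ℂ hv (h u)

theorem eq_of_map {g : G} {v : W} (hv : v ≠ 0) (h : D.ρ g v ∈ D.Wt S c') {γ : Φ} (hγ : γ ∈ S) {a : K}
    (ha : ∀ u, D.ρ (g⁻¹ * D.y γ u * g) v = D.Ψ (a * u) • v) : c' γ = a :=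
  eq_of_smul (D.ap_ne g hv) fun u => by rw [← h γ hγ, ap_conj, ha, map_smul]

theorem M.ex (h : D.M S n c) (hn : 1 ≤ n) : ∃ v ∈ D.Wt S c, v ≠ 0 :=
  (Submodule.ne_bot_iff _).1 fun e => by
    have := h.1
    rw [e, finrank_bot] at this
    omega

theorem m_one [FiniteDimensional ℂ W] {v : W} (h : v ∈ D.Wt S c) (hv : v ≠ 0) (hc : ∀ γ ∉ S, c γ = 0) :
    D.M S 1 c := ⟨Submodule.one_le_finrank_iff.2 ((Submodule.ne_bot_iff _).2 ⟨v, h, hv⟩), hc⟩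

theorem M.fix (h : D.M S n c) (hn : 1 ≤ n) {γ : Φ} (hγ : γ ∈ S) (h1 : σ γ = γ) : f (c γ) = c γ := by
  obtain ⟨v, h2, h3⟩ := h.ex hn
  refine eq_of_smul (D := D) h3 fun u => ?_
  rw [← D.Ψ_f, map_mul, D.tw.ff, ← h2 γ hγ, ← h2 γ hγ, D.tw.fix γ h1]

theorem M.sym (h : D.M S n c) (hn : 1 ≤ n) {γ : Φ} (hγ : γ ∈ S) (h1 : σ γ ∈ S) (h0 : c (σ γ) = 0) :
    c γ = 0 := by
  obtain ⟨v, h2, h3⟩ := h.ex hn
  refine eq_of_smul (D := D) h3 fun u => ?_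
  obtain ⟨t, e⟩ := D.tw.sym γ u
  rw [← h2 γ hγ, e, h2 _ h1, h0, zero_mul, zero_mul]

variable [Fintype K]

theorem exists_map {r : Φ} (h : NC R σ r S S) (t : K) (c : Φ → K) :
    ∃ c' : Φ → K, (∀ γ ∉ S, c' γ = 0) ∧ ∀ v ∈ D.Wt S c, D.ρ (D.y r t) v ∈ D.Wt S c' := by
  classical
  by_cases h0 : D.Wt S c = ⊥
  · exact ⟨0, fun _ _ => rfl, fun v hv => by simp [(Submodule.eq_bot_iff _).1 h0 v hv]⟩
  obtain ⟨v0, h1, h2⟩ := (Submodule.ne_bot_iff _).1 h0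
  have key : ∀ γ, ∃ a, (γ ∉ S → a = 0) ∧ (γ ∈ S → ∀ u, ∀ v ∈ D.Wt S c,
      D.ρ ((D.y r t)⁻¹ * D.y γ u * D.y r t) v = D.Ψ (a * u) • v) := fun γ => by
    by_cases k : γ ∈ S
    · have h3 : ∀ u, ∃ z : ℂ, ∀ v ∈ D.Wt S c, D.ρ ((D.y r t)⁻¹ * D.y γ u * D.y r t) v = z • v := fun u => by
        obtain ⟨g, h3, h4⟩ := D.tw.conj h k t u
        exact cl_scalar (h4 ▸ mul_mem (mem_cl k u) h3) c
      choose z hz using h3
      obtain ⟨a, ha⟩ := exists_mul_char D.Ψ_ne ⟨z, smul_left_injective ℂ h2 (by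
        simp [← hz 0 v0 h1, D.tw.zero]), fun a b => smul_left_injective ℂ h2 (by
        simp only
        rw [← hz _ v0 h1, mul_comm (z a), ← smul_smul, ← hz _ v0 h1, ← map_smul, ← hz _ v0 h1,
          ← D.ap_mul, ← D.tw.add]
        congr 2
        group)⟩
      exact ⟨a, fun l => absurd k l, fun _ u v hv => ha u ▸ hz u v hv⟩
    · exact ⟨0, fun _ => rfl, fun l => absurd l k⟩
  choose a h3 h4 using key
  exact ⟨a, h3, fun v hv γ k u => by rw [ap_conj, h4 γ k u v hv, map_smul]⟩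

theorem exists_eig {γ : Φ} (h : γ ∈ D.St E) {v : W} (hv : v ∈ E) : ∃ w : K → W,
    (∀ a, w a ∈ E ∧ ∀ u, D.ρ (D.y γ u) (w a) = D.Ψ (a * u) • w a) ∧
      ∑ a, w a = (Fintype.card K : ℂ) • v := by
  classical
  refine ⟨fun a => ∑ t, D.Ψ (-t * a) • D.ρ (D.y γ t) v, fun a => ⟨Submodule.sum_mem _ fun t _ =>
    Submodule.smul_mem _ _ (h t v hv), fun u => ?_⟩, ?_⟩
  · rw [map_sum, smul_sum]
    refine Fintype.sum_equiv (Equiv.addLeft u) _ _ fun t => ?_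
    rw [map_smul, ← D.ap_mul, D.tw.add, Equiv.coe_addLeft, smul_smul, ← AddChar.map_add_eq_mul]
    congr 2
    ring
  · rw [sum_comm]
    simp only [← sum_smul, sum_char D.Ψ_ne, neg_eq_zero, ite_smul, zero_smul, sum_ite_eq', mem_univ,
      if_true, D.tw.zero, map_one, End.one_apply]

theorem extend [DecidableEq Φ] {γ : Φ} (h : γ ∈ D.St (D.Wt S c)) (hγ : γ ∉ S) {v : W}
    (hv : v ∈ D.Wt S c) (h0 : v ≠ 0) :
    ∃ a, ∃ w ∈ D.Wt (insert γ S) (Function.update c γ a), w ≠ 0 := by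
  obtain ⟨w, h1, h2⟩ := exists_eig h hv
  obtain ⟨a, -, ha⟩ := exists_ne_zero_of_sum_ne_zero (h2 ▸ smul_ne_zero (card_cast_ne_zero K) h0)
  refine ⟨a, w a, fun δ k u => ?_, ha⟩
  rcases k with rfl | k
  · rw [Function.update_self, (h1 a).2]
  · rw [Function.update_of_ne (by rintro rfl; exact hγ k), (h1 a).1 δ k]

variable [FiniteDimensional ℂ W]

theorem exists_wt [Fintype Φ] [DecidableEq Φ] {α : Φ} (hα : α ∈ S) (h : ∀ γ ∈ S, NC R σ γ S ∅)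
    (h0 : α ∉ D.Fx ⊤) : ∃ c, D.M S 1 c ∧ c α ≠ 0 := by
  classical
  have key : ∀ T : Finset Φ, (T : Set Φ) ⊆ S → ∃ c : Φ → K, (∃ v ∈ D.Wt (insert α T) c, v ≠ 0) ∧
      (∀ γ ∉ insert α (T : Set Φ), c γ = 0) ∧ c α ≠ 0 := fun T hT => by
    induction T using Finset.induction_on with
    | empty =>
      simp only [Fx, Set.mem_ofPred_eq, not_forall] at h0
      obtain ⟨t, v, -, h1⟩ := h0
      obtain ⟨w, h2, h3⟩ := exists_eig (D := D) (γ := α) (E := ⊤) (fun _ _ _ => trivial) (v := v) trivial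
      obtain ⟨a, h4, h5⟩ : ∃ a, a ≠ 0 ∧ w a ≠ 0 := by
        by_contra! k
        refine h1 (smul_right_injective W (card_cast_ne_zero K) ?_)
        simp only
        rw [← map_smul, ← h3, sum_eq_single 0 (fun a _ => k a) (by simp), (h2 0).2]
        simp
      exact ⟨Pi.single α a, ⟨w a, by simpa [Wt] using (h2 a).2, h5⟩, fun γ k =>
        Pi.single_eq_of_ne (by simpa using k) _, by simpa⟩
    | insert β T hβ ih =>
      rw [coe_insert, Set.insert_subset_iff] at hT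
      obtain ⟨c, ⟨v, h1, h2⟩, h3, h4⟩ := ih hT.2
      rw [coe_insert, Set.insert_comm]
      by_cases k : β ∈ insert α (T : Set Φ)
      · rw [Set.insert_eq_of_mem k]
        exact ⟨c, ⟨v, h1, h2⟩, h3, h4⟩
      obtain ⟨a, h5⟩ := extend (stab fun γ l => (h β hT.1 γ (Set.insert_subset hα hT.2 l)).imp_right
        (And.imp_right fun m δ n => (m δ n).elim)) k h1 h2
      refine ⟨_, h5, fun γ l => ?_, by rwa [Function.update_of_ne (by rintro rfl; exact k (Set.mem_insert _ _))]⟩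
      rw [Set.mem_insert_iff, not_or] at l
      rw [Function.update_of_ne l.1, h3 γ l.2]
  obtain ⟨c, ⟨v, h1, h2⟩, h3, h4⟩ := key S.toFinset (by simp)
  rw [Set.coe_toFinset, Set.insert_eq_of_mem hα] at h1 h3
  exact ⟨c, m_one h1 h2 h3, h4⟩

theorem shift (hn : 1 ≤ n) {π γ : Φ} (hπ : σ π = π) (h1 : π ∈ S) (h2 : γ ∈ S) (hp : R.p π γ = 1)
    (N : NC R σ (R.rf γ π) S S) (hc : D.M S n c) (h0 : c π ≠ 0) {w : K} (hw : σ γ = γ → f w = w) :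
    ∃ c', D.M S n c' ∧ c' γ = c γ + w ∧
      (∀ γ' ∈ S, 1 ≤ R.p π γ' → γ' ≠ γ → γ' ≠ σ γ → c' γ' = c γ') ∧
      ∀ S'' ⊆ S, NC R σ (R.rf γ π) S'' S'' → (∀ δ ∈ S'', c δ = 0) → ∀ δ ∈ S'', c' δ = 0 := by
  have X := D.tw
  have k0 : ∀ δ, R.p (R.rf γ π) δ = R.p π δ - R.p γ δ := fun δ => by
    rw [R.p_comm, R.p_rf, R.p_comm γ π, hp, R.p_comm δ, R.p_comm δ, one_mul]
  have k1 : R.p (R.rf γ π) γ = -1 := by rw [k0, hp, R.p_self]; rfl
  have k2 : ∀ δ, 1 ≤ R.p π δ → R.p (R.rf γ π) δ = -1 → δ = γ := fun δ a b =>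
    (R.eq_of_two γ δ (by rw [k0] at b; omega)).symm
  have k3 : R.rf (R.rf γ π) γ = π := (R.ext' (by
    rw [R.p_rf, k1, hp, R.p_comm π, k0, R.p_self, R.p_comm γ, hp]; rfl)).symm
  have k4 := R.N_ne (F := K) k1
  obtain ⟨t, ht⟩ : ∃ t, ∀ u, (D.y (R.rf γ π) t)⁻¹ * D.y γ u * D.y (R.rf γ π) t =
      D.y γ u * D.y π ((c π)⁻¹ * w * u) := by
    by_cases e : σ γ = γ
    · obtain ⟨t, ht⟩ := exists_tr X.ne X.ff (b := (R.N (R.rf γ π) γ : K)⁻¹ * ((c π)⁻¹ * w)) (by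
        rw [map_mul, map_mul, map_inv₀, map_inv₀, map_intCast, hc.fix hn h1 hπ, hw e])
      refine ⟨-t, fun u => ?_⟩
      rw [← X.inv, inv_inv, X.r2 _ γ (by rw [X.σ_rf, e, hπ]) e k1, k3, ht, mul_inv_cancel_left₀ k4]
    · refine ⟨-((R.N (R.rf γ π) γ : K)⁻¹ * ((c π)⁻¹ * w)), fun u => ?_⟩
      rw [← X.inv, inv_inv, X.r1 _ γ k1 (by
        rw [X.pσ', k0, (X.lev hπ).inv, hp, R.p_comm γ, X.p0 γ e]; omega), k3, mul_inv_cancel_left₀ k4]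
  obtain ⟨c', h3, h4⟩ := exists_map (D := D) N t c
  obtain ⟨v, h5, h6⟩ := hc.ex hn
  refine ⟨c', ⟨hc.1.trans ?_, h3⟩, eq_of_map h6 (h4 v h5) h2 fun u => ?_,
    fun δ a b d e => eq_of_map h6 (h4 v h5) a fun u => ?_,
    fun S'' a b d δ e => eq_of_map h6 (h4 v h5) (a e) fun u => ?_⟩
  · exact LinearMap.finrank_le_finrank_of_injective (f := (D.ρ _).restrict h4) fun a b e =>
      Subtype.ext (D.ap_inj _ (congrArg Subtype.val e))
  · rw [ht, D.ap_mul, h5 π h1, map_smul, h5 γ h2, smul_smul, ← AddChar.map_add_eq_mul]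
    congr 2
    field_simp
    ring
  · have := mt (k2 δ b) d
    have := mt (k2 (σ δ) (by rwa [(X.lev hπ).inv])) fun l => e (by rw [← l, X.σσ])
    rw [← X.pσ'] at this
    have := (N δ a).1
    have := (N δ a).2.1
    rw [mul_assoc, ← (X.comm _ δ (by omega) (by omega) t u).eq, inv_mul_cancel_left, h5 δ a]
  · obtain ⟨g, l1, l2⟩ := X.conj b e t u
    rw [l2, D.ap_mul, cl_fix l1 (fun δ l => mem_Fx (a l) (d δ l)) v h5, h5 δ (a e), d δ e]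

theorem dim_le {S0 S1 : Set Φ} (h1 : S0 ⊆ S1) (h0 : S0 ⊆ S) (C : Finset (Φ → K))
    (hC : ∀ c ∈ C, D.M S n c ∧ (∀ γ ∈ S0, c γ = 0) ∧ ∃ γ ∈ S, γ ∈ S1 ∧ c γ ≠ 0) :
    finrank ℂ (D.Wt S1 0) + n * #C ≤ finrank ℂ (D.Wt S0 0) := by
  have k : ∀ {a b : K}, a ≠ b → ∃ u, D.Ψ (a * u) ≠ D.Ψ (b * u) := fun h =>
    not_forall.1 fun l => h (eq_of_char D.Ψ_ne l)
  have h2 := sum_finrank_le_sup (W := D.Wt S) C fun c a c' b e => by
    obtain ⟨γ, e⟩ := Function.ne_iff.1 e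
    have l : γ ∈ S := by
      by_contra l
      exact e (((hC c a).1.2 γ l).trans ((hC c' b).1.2 γ l).symm)
    obtain ⟨u, hu⟩ := k e
    exact ⟨D.ρ (D.y γ u), fun c => D.Ψ (c γ * u), fun c _ v hv => hv γ l u, hu⟩
  have h3 := finrank_sup_of_disj (eq_zero_of_sep (W0 := D.Wt S1 0) (W := D.Wt S) C fun c a => by
    obtain ⟨γ, l1, l2, e⟩ := (hC c a).2.2
    obtain ⟨u, hu⟩ := k e.symm
    exact ⟨D.ρ (D.y γ u), _, fun c => D.Ψ (c γ * u), fun v hv => hv γ l2 u, fun c _ v hv => hv γ l1 u, hu⟩)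
  have h4 := Submodule.finrank_mono (sup_le (Wt_mono (D := D) (c := 0) h1 fun _ _ => rfl)
    (Finset.sup_le (f := D.Wt S) fun c a => Wt_mono h0 fun γ l => ((hC c a).2.1 γ l).symm))
  have h5 := card_nsmul_le_sum C _ n fun c a => (hC c a).1.1
  rw [smul_eq_mul, mul_comm] at h5
  omega

end TD

end Cfsg.Lib.Char.MD
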