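import Cfsg.Agent.Char.MDTw2

/-! Weight spaces of twisted root elements: pairs of long roots. -/

set_option autoImplicit false

namespace Cfsg.Lib.Char.MD

open Finset Module

variable {Φ K : Type*} [Field K] {R : RS Φ} {σ : Φ → Φ} {f : K →+* K}

/-- the abelian group of a pair -/
abbrev SA (R : RS Φ) (α β : Φ) : Set Φ := {γ | 1 ≤ R.p α γ ∧ 1 ≤ R.p β γ}

/-- the stabilizer of the line of a pair -/
abbrev SB (R : RS Φ) (α β : Φ) : Set Φ := {γ | 1 ≤ R.p α γ ∨ R.p α γ = 0 ∧ R.p β γ ≤ 0}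

/-- the combinatorial conditions on a pair -/
structure GP [Fintype Φ] [LinearOrder Φ] (R : RS Φ) (σ : Φ → Φ) (α β : Φ) : Prop where
  fα : σ α = α
  fβ : σ β = β
  p : R.p α β = 1
  dec : ∀ r, R.p α r = 0 ∧ R.p β r ≤ 0 ∨ R.p α r = 1 ∧ R.p β r = 0 →
    ∃ ε, R.p α ε = 0 ∧ R.p β ε = 0 ∧ R.p ε r = 1 ∧ R.p (σ ε) ε ≤ R.p (σ ε) r
  dec' : ∀ r, R.p α r = 1 → R.p β r = -1 → σ r = r ∧
    ∃ ε, σ ε = ε ∧ R.p α ε = 0 ∧ R.p β ε = -1 ∧ R.p ε r = 1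
  wt : ∑ γ with (R.p α γ = 1 ∧ 1 ≤ R.p β γ) ∧ γ ≤ σ γ, (if σ γ = γ then 1 else 2) = 10

theorem nc_of {r : Φ} {S S' : Set Φ} {l : Φ → ℤ} (hl : Lev R σ l) (h : ∀ γ ∈ S, l r + l γ ≠ 0 ∧
    ∀ δ, Comb R σ r γ δ → δ ∈ S') : NC R σ r S S' := fun γ k =>
  ⟨hl.add.p_ge (h γ k).1, hl.add.p_ge (by rw [hl.inv]; exact (h γ k).1), (h γ k).2⟩

theorem nc_top {α r : Φ} (hα : Lev R σ (R.p α)) {S S' : Set Φ} (hr : 1 ≤ R.p α r)
    (hS : ∀ γ ∈ S, 1 ≤ R.p α γ) (h : α ∈ S') : NC R σ r S S' := nc_of hα fun γ k => by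
  have := hS γ k
  refine ⟨by omega, fun δ l => R.eq_of_two α δ ?_ ▸ h⟩
  have := l.lev hα hα hα
  omega

theorem Comb.ne {r s δ : Φ} (h : Comb R σ r s δ) (hs : Lev R σ (R.p s)) : R.p s r = -1 := by
  rcases h.1 with k | k
  · rwa [R.p_comm]
  · rwa [R.p_comm, hs.inv] at k

namespace TD

variable {G W : Type*} [Group G] [AddCommGroup W] [Module ℂ W] {D : TD R σ f G W} {S : Set Φ}
  {c : Φ → K} {E : Submodule ℂ W} {n q : ℕ}

theorem fix_of_conj (hE : finrank ℂ E ≤ 1) [FiniteDimensional ℂ W] {r s k : Φ} (hr : r ∈ D.St E)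
    (hs : s ∈ D.St E)
    (h : ∀ w, ∃ t u, D.y r t * D.y s u * (D.y r t)⁻¹ = D.y s u * D.y k w) : k ∈ D.Fx E := fun w v hv => by
  obtain ⟨t, u, h⟩ := h w
  obtain ⟨v0, h0⟩ := finrank_le_one_iff.1 hE
  obtain ⟨z, hz⟩ := h0 ⟨_, hs u _ v0.2⟩
  have h1 : ∀ v ∈ E, D.ρ (D.y s u) v = z • v := fun v hv => by
    obtain ⟨a, ha⟩ := h0 ⟨v, hv⟩
    obtain rfl : a • v0.1 = v := congrArg Subtype.val ha
    rw [map_smul, smul_comm]
    exact congrArg _ (congrArg Subtype.val hz).symm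
  refine D.ap_inj (D.y s u) ?_
  rw [← D.ap_mul, ← h, D.ap_mul, D.ap_mul, h1 _ (D.tw.inv r t ▸ hr _ v hv), map_smul, ← D.ap_mul, h1 v hv]
  simp

theorem fix1 (hE : finrank ℂ E ≤ 1) [FiniteDimensional ℂ W] {ε r : Φ} (h1 : ε ∈ D.St E)
    (h2 : R.rf ε r ∈ D.St E) (h3 : R.p ε r = 1) (h4 : R.p (σ ε) ε ≤ R.p (σ ε) r) : r ∈ D.Fx E := by
  have k : R.p ε (R.rf ε r) = -1 := by rw [R.p_rf, h3, R.p_self]; rfl
  refine fix_of_conj hE h1 h2 fun w => ⟨1, (R.N ε (R.rf ε r) : K)⁻¹ * w, ?_⟩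
  rw [D.tw.r1 _ _ k (by rw [R.p_rf, h3]; omega), R.rf_rf, mul_one, mul_inv_cancel_left₀ (R.N_ne k)]

theorem fix2 (hE : finrank ℂ E ≤ 1) [FiniteDimensional ℂ W] {ε r : Φ} (h1 : ε ∈ D.St E)
    (h2 : R.rf ε r ∈ D.St E) (h3 : R.p ε r = 1) (h4 : σ ε = ε) (h5 : σ r = r) : r ∈ D.Fx E := by
  have k : R.p ε (R.rf ε r) = -1 := by rw [R.p_rf, h3, R.p_self]; rfl
  obtain ⟨t, ht⟩ := exists_tr D.tw.ne D.tw.ff (map_one f)
  refine fix_of_conj hE h1 h2 fun w => ⟨t, (R.N ε (R.rf ε r) : K)⁻¹ * w, ?_⟩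
  rw [D.tw.r2 _ _ h4 (by rw [D.tw.σ_rf, h4, h5]) k, R.rf_rf, ht, mul_one,
    mul_inv_cancel_left₀ (R.N_ne k)]

variable [Fintype Φ] [LinearOrder Φ] [FiniteDimensional ℂ W] {α β : Φ}

theorem line (g : GP R σ α β) {s : K} (hE : finrank ℂ (D.Wt (SA R α β) (Pi.single β s)) ≤ 1) :
    D.Wt (SA R α β) (Pi.single β s) ≤ D.Wt (SB R α β) (Pi.single β s) := by
  have la := D.tw.lev g.fα
  have lb := D.tw.lev g.fβ
  have gp := g.p
  have gp' := R.p_comm α β ▸ gp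
  generalize hE' : D.Wt (SA R α β) (Pi.single β s) = E at hE
  have st : ∀ r, NC R σ r (SA R α β) (D.Fx E) → r ∈ D.St E := fun r h => hE' ▸ stab (hE' ▸ h)
  have F0 : ∀ γ, 1 ≤ R.p α γ → R.p β γ = 1 → γ ∈ D.Fx E := fun γ a b => hE' ▸ mem_Fx ⟨a, b.ge⟩
    (Pi.single_eq_of_ne (by rintro rfl; rw [R.p_self] at b; omega) _)
  have Fα : ∀ γ, 2 ≤ R.p α γ → γ ∈ D.Fx E := fun γ a =>
    R.eq_of_two α γ a ▸ F0 α (by rw [R.p_self]; omega) gp'
  have S1 : ∀ r, R.p α r = 1 → r ∈ D.St E := fun r a =>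
    st r (nc_top la a.ge (fun _ h => h.1) (Fα α (R.p_self α).ge))
  have S0 : ∀ r, R.p α r = 0 → R.p β r = 0 → r ∈ D.St E := fun r a b => st r (nc_of la fun γ k => by
    have k1 := k.1
    have k2 := k.2
    refine ⟨by omega, fun δ l => ?_⟩
    have k3 : β ≠ γ := by
      rintro rfl
      have := l.ne lb
      omega
    have := R.p_le k3
    have := l.lev la lb lb
    by_cases e : 2 ≤ R.p α δ
    · exact Fα δ e
    · exact F0 δ (by omega) (by omega))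
  have F : ∀ r, R.p α r = 0 ∧ R.p β r ≤ 0 ∨ R.p α r = 1 ∧ R.p β r = 0 →
      (∀ r', R.p α r' = R.p α r → R.p β r' = R.p β r → r' ∈ D.St E) → r ∈ D.Fx E := fun r a b => by
    obtain ⟨ε, k1, k2, k3, k4⟩ := g.dec r a
    exact fix1 hE (S0 ε k1 k2) (b _ (by rw [R.p_rf, k1]; ring) (by rw [R.p_rf, k2]; ring)) k3 k4
  have F1 : ∀ r, R.p α r = 1 → R.p β r = 0 → r ∈ D.Fx E := fun r a b =>
    F r (Or.inr ⟨a, b⟩) fun r' k _ => S1 r' (k.trans a)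
  have S2 : ∀ r, R.p α r = 0 → R.p β r = -1 →
      (σ r ≠ r → ∀ γ, R.p α γ = 1 → R.p β γ = -1 → γ ∈ D.Fx E) → r ∈ D.St E :=
    fun r a b h => st r (nc_of la fun γ k => by
      have k1 := k.1
      have k2 := k.2
      refine ⟨by omega, fun δ l => ?_⟩
      have := RS.p_le_two (R := R) β γ
      have := l.lev la lb lb
      by_cases e : 2 ≤ R.p α δ
      · exact Fα δ e
      by_cases e1 : R.p β δ = 1
      · exact F0 δ (by omega) e1
      by_cases e2 : R.p β δ = 0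
      · exact F1 δ (by omega) e2
      · exact h (this.elim (by omega) fun k => k.elim And.left (by omega)) δ (by omega) (by omega))
  have F2 : ∀ r, R.p α r = 1 → R.p β r = -1 → r ∈ D.Fx E := fun r a b => by
    obtain ⟨k, ε, k1, k2, k3, k4⟩ := g.dec' r a b
    exact fix2 hE (S2 ε k2 k3 fun l => absurd k1 l) (S1 _ (by rw [R.p_rf, k2, a]; ring)) k4 k1 k
  intro v hv γ k u
  by_cases e : γ = β
  · exact (hE' ▸ hv) γ (by rw [e]; exact ⟨gp.ge, by rw [R.p_self]; omega⟩) u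
  rw [Pi.single_eq_of_ne e, zero_mul, AddChar.map_zero_eq_one, one_smul]
  have := R.p_le (Ne.symm e)
  have := R.p_ge (r := β) (s := γ) α (by rcases k with k | k <;> omega)
  refine (?_ : γ ∈ D.Fx E) u v hv
  rcases k with k | k
  · by_cases e : 2 ≤ R.p α γ
    · exact Fα γ e
    by_cases e1 : R.p β γ = 1
    · exact F0 γ k e1
    by_cases e2 : R.p β γ = 0
    · exact F1 γ (by omega) e2
    · exact F2 γ (by omega) (by omega)
  · refine F γ (Or.inl k) fun r a b => ?_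
    by_cases e2 : R.p β γ = 0
    · exact S0 r (a.trans k.1) (b.trans e2)
    · exact S2 r (a.trans k.1) (by omega) fun _ => F2

variable [Fintype K] [DecidableEq K]

theorem step {S0 S1 : Set Φ} (hn : 1 ≤ n) (h01 : S0 ⊆ S1) (h0 : S0 ⊆ S) (hq : #{w : K | f w = w} = q)
    (hK : Fintype.card K = q ^ 2) (P : Finset Φ) (S'' : Φ → Set Φ) (T : Φ → Φ → Prop)
    [∀ π, DecidablePred (T π)]
    (h1 : ∀ π ∈ P, σ π = π ∧ π ∈ S ∧ π ∈ S1 ∧ S0 ⊆ S'' π ∧ S'' π ⊆ S ∧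
      ∀ s, s ≠ 0 → f s = s → ∃ c, D.M S n c ∧ c π = s ∧ ∀ γ ∈ S'' π, c γ = 0)
    (h2 : ∀ π ∈ P, ∀ γ, T π γ → γ ∈ S ∧ R.p π γ = 1 ∧ NC R σ (R.rf γ π) S S ∧
      NC R σ (R.rf γ π) (S'' π) (S'' π))
    (h3 : ∀ π ∈ P, ∀ π' ∈ P, π ≠ π' → π ∈ S'' π' ∨ π' ∈ S'' π) :
    finrank ℂ (D.Wt S1 0) + n * ((q - 1) * ∑ π ∈ P,
      q ^ ∑ γ with T π γ ∧ γ ≤ σ γ, if σ γ = γ then 1 else 2) ≤ finrank ℂ (D.Wt S0 0) := by
  classical
  refine le_trans ?_ (dim_le (n := n) h01 h0 ((P ×ˢ ({w : K | f w = w} : Finset K).erase 0).biUnion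
    fun x => {c | D.M S n c ∧ c x.1 = x.2 ∧ ∀ γ ∈ S'' x.1, c γ = 0}) fun c hc => ?_)
  · gcongr
    rw [card_biUnion, sum_product, mul_sum]
    · refine sum_le_sum fun π hπ => ?_
      obtain ⟨a1, a2, -, -, a3, a4⟩ := h1 π hπ
      rw [← hq, ← card_erase_of_mem (a := 0) (by simp), ← smul_eq_mul]
      refine card_nsmul_le_sum _ _ _ fun s hs => ?_
      simp only [mem_erase, mem_filter, mem_univ, true_and] at hs
      obtain ⟨c0, b0⟩ := a4 s hs.1 hs.2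
      refine le_trans (le_of_eq ?_) (reach {γ | T π γ ∧ γ ≤ σ γ} (D := fun γ w => σ γ = γ → f w = w)
        (fun γ hγ w hw c hc => ?_) b0)
      · rw [← prod_pow_eq_pow_sum]
        refine prod_congr rfl fun γ _ => ?_
        by_cases e : σ γ = γ <;> simp [e, hq, hK]
      · simp only [mem_filter, mem_univ, true_and] at hγ ⊢
        obtain ⟨b1, b2, b3, b4⟩ := h2 π hπ γ hγ.1
        obtain ⟨c', d1, d2, d3, d4⟩ := shift hn a1 a2 b1 b2 b3 hc.1 (hc.2.1 ▸ hs.1) hw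
        refine ⟨c', ⟨d1, (d3 π a2 (by rw [R.p_self]; omega) ?_ ?_).trans hc.2.1, d4 _ a3 b4 hc.2.2⟩, d2,
          fun γ' l e => d3 γ' (h2 π hπ γ' l.1).1 (h2 π hπ γ' l.1).2.1.ge e fun e' => e ?_⟩
        · rintro rfl
          rw [R.p_self] at b2; omega
        · intro e
          rw [← (D.tw.lev a1).inv, ← e, R.p_self] at b2; omega
        · exact le_antisymm (by simpa only [e', D.tw.σσ] using l.2) (e' ▸ hγ.2)
    · rintro ⟨π, s⟩ a ⟨π', s'⟩ b e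
      simp only [coe_product, Set.mem_prod, mem_coe, mem_erase] at a b
      refine disjoint_left.2 fun c k l => ?_
      simp only [mem_filter, mem_univ, true_and] at k l
      by_cases e' : π = π'
      · exact e (Prod.ext e' (k.2.1.symm.trans (e' ▸ l.2.1)))
      · rcases h3 π a.1 π' b.1 e' with m | m
        · exact a.2.1 (k.2.1.symm.trans (l.2.2 π m))
        · exact b.2.1 (l.2.1.symm.trans (k.2.2 π' m))
  · simp only [mem_biUnion, mem_product, mem_erase, mem_filter, mem_univ, true_and] at hc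
    obtain ⟨⟨π, s⟩, a, b⟩ := hc
    obtain ⟨-, a2, a3, a4, -⟩ := h1 π a.1
    exact ⟨b.1, fun γ l => b.2.2 γ (a4 l), π, a2, a3, b.2.1 ▸ a.2.1⟩

omit [Fintype Φ] [LinearOrder Φ] in
theorem ncA (la : Lev R σ (R.p α)) {S : Set Φ} (hS : ∀ γ ∈ S, 1 ≤ R.p α γ) (h : α ∈ S) {γ : Φ}
    (hγ : R.p α γ = 1) : NC R σ (R.rf γ α) S S :=
  nc_top la (by rw [R.p_rf, R.p_self, R.p_comm γ, hγ]; omega) hS h

theorem to_single (hn : 1 ≤ n) (g : GP R σ α β) (hc : D.M (SA R α β) n c) (h0 : c α ≠ 0) {s : K}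
    (hs : s ≠ 0) (hs' : f s = s) : D.M (SA R α β) n (Pi.single β s) := by
  have la := D.tw.lev g.fα
  have lb := D.tw.lev g.fβ
  have hα : α ∈ SA R α β := ⟨by rw [R.p_self]; omega, by rw [R.p_comm, g.p]⟩
  have hβ : β ∈ SA R α β := ⟨g.p.ge, by rw [R.p_self]; omega⟩
  obtain ⟨c1, h1, h2, -⟩ := shift hn g.fα hα hβ g.p (ncA la (fun _ h => h.1) hα g.p) hc h0
    (w := s - c β) fun _ => by rw [map_sub, hs', hc.fix hn hβ g.fβ]
  obtain ⟨c2, h3, h4⟩ := reach_ex (P := fun c => D.M (SA R α β) n c ∧ c β = s)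
    {γ | (1 ≤ R.p α γ ∧ R.p β γ = 1) ∧ γ ≤ σ γ} (D := fun γ w => σ γ = γ → f w = w)
    (fun γ hγ w hw c hc => by
      simp only [mem_filter, mem_univ, true_and] at hγ ⊢
      obtain ⟨c', d1, d2, d3, -⟩ := shift hn g.fβ hβ ⟨hγ.1.1, hγ.1.2.ge⟩ hγ.1.2
        (ncA lb (fun _ h => h.2) hβ hγ.1.2) hc.1 (hc.2 ▸ hs) hw
      refine ⟨c', ⟨d1, (d3 β hβ hβ.2 ?_ ?_).trans hc.2⟩, d2,
        fun γ' l e => d3 γ' ⟨l.1.1, l.1.2.ge⟩ l.1.2.ge e fun e' => e ?_⟩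
      · rintro rfl
        rw [R.p_self β] at hγ; omega
      · intro e
        rw [← lb.inv, ← e, R.p_self] at hγ; omega
      · exact le_antisymm (by simpa only [e', D.tw.σσ] using l.2) (e' ▸ hγ.2))
    ⟨h1, by rw [h2, add_sub_cancel]⟩ (-c1) fun γ hγ e => by
      simp only [mem_filter, mem_univ, true_and] at hγ
      rw [Pi.neg_apply, map_neg, h1.fix hn ⟨hγ.1.1, hγ.1.2.ge⟩ e]
  simp only [mem_filter, mem_univ, true_and, Pi.neg_apply, add_neg_cancel] at h4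
  refine (?_ : c2 = Pi.single β s) ▸ h3.1
  ext γ
  by_cases e : γ = β
  · rw [e, h3.2, Pi.single_eq_same]
  rw [Pi.single_eq_of_ne e]
  by_cases k : γ ∈ SA R α β
  · have l : R.p β γ = 1 := le_antisymm (R.p_le (Ne.symm e)) k.2
    rcases le_total γ (σ γ) with m | m
    · exact h4 γ ⟨⟨k.1, l⟩, m⟩
    · exact h3.1.sym hn k ⟨la.inv γ ▸ k.1, lb.inv γ ▸ k.2⟩
        (h4 _ ⟨⟨la.inv γ ▸ k.1, lb.inv γ ▸ l⟩, by rwa [D.tw.σσ]⟩)
  · exact h3.1.2 γ k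

theorem level0 (hn : 1 ≤ n) (hq : #{w : K | f w = w} = q) (hK : Fintype.card K = q ^ 2)
    (g : GP R σ α β) {s : K} (hs : s ≠ 0) (hc : D.M (SA R α β) n (Pi.single β s)) :
    finrank ℂ (D.Wt {α} 0) + n * ((q - 1) * q ^ 10) ≤ finrank ℂ W := by
  have la := D.tw.lev g.fα
  have lb := D.tw.lev g.fβ
  have hα : α ∈ SA R α β := ⟨by rw [R.p_self]; omega, by rw [R.p_comm, g.p]⟩
  have hβ : β ∈ SA R α β := ⟨g.p.ge, by rw [R.p_self]; omega⟩
  have := step (D := D) (S := SA R α β) (S0 := ∅) (S1 := {α}) hn (by simp) (by simp) hq hK {α}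
    (fun _ => ∅) (fun _ γ => R.p α γ = 1 ∧ 1 ≤ R.p β γ) (by
      simp only [mem_singleton, forall_eq]
      refine ⟨g.fα, hα, rfl, subset_rfl, by simp, fun a _ ha => ?_⟩
      obtain ⟨c, h1, h2, -⟩ := shift hn g.fβ hβ hα (R.p_comm α β ▸ g.p)
        (ncA lb (fun _ h => h.2) hβ (R.p_comm α β ▸ g.p)) hc (by simpa) fun _ => ha
      refine ⟨c, h1, ?_, by simp⟩
      rw [h2, Pi.single_eq_of_ne, zero_add]
      rintro rfl
      have := g.p
      rw [R.p_self] at this; omega) (by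
      simp only [mem_singleton, forall_eq]
      exact fun γ k => ⟨⟨k.1.ge, k.2⟩, k.1, ncA la (fun _ h => h.1) hα k.1, fun _ h => h.elim⟩) (by simp)
  rw [sum_singleton, g.wt] at this
  exact this.trans (Submodule.finrank_le _)

theorem pair (hq : #{w : K | f w = w} = q) (hK : Fintype.card K = q ^ 2) (g : GP R σ α β)
    (h0 : α ∉ D.Fx ⊤) (hd : finrank ℂ W < 2 * ((q - 1) * q ^ 10)) {s : K} (hs : s ≠ 0) (hs' : f s = s) :
    ∃ v ∈ D.Wt (SB R α β) (Pi.single β s), v ≠ 0 := by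
  have la := D.tw.lev g.fα
  have lb := D.tw.lev g.fβ
  obtain ⟨c, h1, h2⟩ := exists_wt (S := SA R α β) ⟨by rw [R.p_self]; omega, by rw [R.p_comm, g.p]⟩
    (fun γ k => nc_of la fun γ' k' => by
      have := k.1; have := k.2; have := k'.1; have := k'.2
      refine ⟨by omega, fun δ l => ?_⟩
      have := l.lev la lb lb
      have := g.p
      rw [R.eq_of_two α δ (by omega), R.eq_of_two β δ (by omega), R.p_self] at this
      omega) h0
  have h3 := to_single le_rfl g h1 h2 hs hs'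
  obtain ⟨v, h4, h5⟩ := h3.ex le_rfl
  refine ⟨v, line g ?_ h4, h5⟩
  by_contra h6
  have := level0 (D := D) (n := 2) (by omega) hq hK g hs ⟨by omega, h3.2⟩
  omega

end TD

end Cfsg.Lib.Char.MD
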