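import Cfsg.Agent.Char.MDTw3

/-! Weight spaces of twisted root elements: the dimension count. -/

set_option autoImplicit false

namespace Cfsg.Lib.Char.MD

open Finset Module

variable {Φ K : Type*} [Field K] {R : RS Φ} {σ : Φ → Φ} {f : K →+* K} [Fintype Φ] [LinearOrder Φ]

theorem sum_pow_of_map {P : Finset Φ} {e : Φ → ℕ} {L : List ℕ} (h : P.1.map e = L) (q : ℕ) :
    ∑ π ∈ P, q ^ e π = (L.map (q ^ ·)).sum := by
  rw [← Multiset.sum_coe, ← Multiset.map_coe, ← h, Multiset.map_map]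
  rfl

/-- the combinatorial conditions for the count -/
structure GM (R : RS Φ) (σ : Φ → Φ) (α β : Φ) (o : Φ → ℤ) : Prop where
  fβ : σ β = β
  p : R.p α β = 1
  g1 : ∀ π, σ π = π → R.p α π = 1 → GP R σ α π
  g2 : ∀ π, σ π = π → R.p α π = 0 → R.p β π = 1 → GP R σ β π
  lt : ∀ π, R.p α π = 1 → o π < o α
  inj : ∀ π π', σ π = π → σ π' = π' → R.p α π = R.p α π' → o π = o π' → π = π'
  l1 : (univ.filter fun π => σ π = π ∧ R.p α π = 1 ∧ 0 ≤ R.p β π).1.map (fun π => ∑ γ with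
    (R.p α γ = 1 ∧ R.p π γ = 1 ∧ o γ < o π) ∧ γ ≤ σ γ, if σ γ = γ then 1 else 2) =
    ([1, 3, 4, 5, 6, 8, 9] : List ℕ)
  l2 : (univ.filter fun π => σ π = π ∧ R.p α π = 0 ∧ R.p β π = 1).1.map (fun π => ∑ γ with
    (R.p α γ = 0 ∧ R.p β γ = 1 ∧ R.p π γ = 1 ∧ o γ < o π) ∧ γ ≤ σ γ, if σ γ = γ then 1 else 2) =
    ([0, 2, 4] : List ℕ)

/-- the radical of the second parabolic -/
abbrev SR (R : RS Φ) (α β : Φ) : Set Φ :=
  {γ | 1 ≤ R.p α γ ∧ 0 ≤ R.p β γ ∨ R.p α γ = 0 ∧ R.p β γ = 1}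

namespace TD

variable {G W : Type*} [Group G] [AddCommGroup W] [Module ℂ W] {D : TD R σ f G W}
  [FiniteDimensional ℂ W] {α β : Φ} [Fintype K]

theorem avg (fα : σ α = α) (fβ : σ β = β) (gp : R.p α β = 1) {π : Φ} (h1 : σ π = π) (h2 : R.p α π = 0)
    (h3 : R.p β π = 1) {s : K} (hs : s ≠ 0) {v : W} (hv : v ∈ D.Wt (SB R β π) (Pi.single π s))
    (h0 : v ≠ 0) : ∃ c, D.M (SR R α β) 1 c ∧ c π = s ∧ ∀ γ ∈ SR R α β, γ ≠ π → c γ = 0 := by
  have la := D.tw.lev fα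
  have lb := D.tw.lev fβ
  have lp := D.tw.lev h1
  have a2 : ∀ δ, 2 ≤ R.p α δ → R.p β δ = 1 := fun δ h => by rw [← R.eq_of_two α δ h, R.p_comm, gp]
  have b2 : ∀ δ, 2 ≤ R.p β δ → R.p α δ = 1 := fun δ h => by rw [← R.eq_of_two β δ h, gp]
  obtain ⟨γ0, k0, k⟩ : ∃ γ0, σ γ0 = γ0 ∧ ∀ t, R.p t γ0 = R.p t α - R.p t β + R.p t π :=
    ⟨R.rf π (R.rf β α), by rw [D.tw.σ_rf, D.tw.σ_rf, h1, fα, fβ], fun t => by
      rw [R.p_rf, R.p_rf, R.p_rf, R.p_comm π, R.p_comm π, R.p_comm β α, gp, h2, h3]; ring⟩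
  have k1 : R.p α γ0 = 1 := by rw [k, R.p_self, gp, h2]; rfl
  have k2 : R.p β γ0 = 0 := by rw [k, R.p_self, R.p_comm, gp, h3]; rfl
  have k3 : R.p π γ0 = 1 := by rw [k, R.p_self, R.p_comm, R.p_comm π, h2, h3]; rfl
  have k4 : ∀ r, r ≠ γ0 → R.p α r - R.p β r + R.p π r ≤ 1 := fun r h => by
    have := R.p_le h
    rwa [k, R.p_comm r, R.p_comm r, R.p_comm r] at this
  have hπ : π ∈ SR R α β := Or.inr ⟨h2, h3⟩
  have hγ : γ0 ∈ SR R α β := Or.inl ⟨k1.ge, k2.ge⟩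
  obtain ⟨a, w, h4, h5⟩ := extend (D := D) (S := SR R α β \ {γ0}) (c := Pi.single π s) (γ := γ0)
    (stab (nc_of la fun γ l => by
      have l1 := l.1
      simp only [Set.mem_ofPred_eq] at l1
      refine ⟨by omega, fun δ m => ?_⟩
      have := m.lev la lb lb
      refine mem_Fx ⟨Or.inl (by omega), ?_⟩ (Pi.single_eq_of_ne ?_ _) <;> rintro rfl <;> omega))
    (by simp) (Wt_mono (fun γ l => by
      have l1 := l.1
      have := k4 γ l.2
      have := a2 γ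
      simp only [Set.mem_ofPred_eq] at l1 ⊢
      omega) (fun _ _ => rfl) hv) h0
  rw [Set.insert_sdiff_singleton, Set.insert_eq_of_mem hγ] at h4
  have e : π ≠ γ0 := by rintro rfl; omega
  have h6 := m_one h4 h5 fun γ l => by
    rw [Function.update_of_ne (by rintro rfl; exact l hγ), Pi.single_eq_of_ne (by rintro rfl; exact l hπ)]
  have n0 : σ (R.rf γ0 π) = R.rf γ0 π := by rw [D.tw.σ_rf, h1, k0]
  have n1 : R.p α (R.rf γ0 π) = -1 := by rw [R.p_rf, R.p_comm γ0, k3, k1, h2]; rfl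
  have n2 : R.p β (R.rf γ0 π) = 1 := by rw [R.p_rf, R.p_comm γ0, k3, k2, h3]; rfl
  have n3 : R.p π (R.rf γ0 π) = 1 := by rw [R.p_rf, R.p_comm γ0, k3, R.p_self]; rfl
  have N : NC R σ (R.rf γ0 π) (SR R α β) (SR R α β) := nc_of (la.comb lb 1) fun γ l => by
    simp only [Set.mem_ofPred_eq] at l ⊢
    refine ⟨by omega, fun δ m => ?_⟩
    have := m.lev la lb lb
    have := b2 δ
    have := RS.p_le_two (R := R) β δ
    simp only [n0, ne_eq, not_true, false_and, false_or] at *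
    omega
  obtain ⟨c, h7, h8, h9, h10⟩ := shift le_rfl h1 hπ hγ k3 N h6 (by simpa [e]) (w := -a) fun _ => by
    simpa using h6.fix le_rfl hγ k0
  refine ⟨c, h7, by simpa [e] using h9 π hπ (by rw [R.p_self]; omega) e (k0.symm ▸ e), fun γ l m => ?_⟩
  by_cases e' : γ = γ0
  · simpa [e'] using h8
  refine h10 {γ | γ ∈ SR R α β ∧ γ ≠ π ∧ γ ≠ γ0} (fun _ h => h.1) (fun δ l => ?_) (fun δ l => ?_) γ
    ⟨l, m, e'⟩
  · refine (N δ l.1).imp_right (And.imp_right fun a ε b => ⟨a ε b, ?_, ?_⟩) <;> rintro rfl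
    all_goals
      have := b.lev la lb lp
      have := k4 δ l.2.2
      have := R.p_self ε
      have l1 := l.1
      simp only [n0, ne_eq, not_true, false_and, false_or, Set.mem_ofPred_eq] at *
      omega
  · rw [Function.update_of_ne l.2.2, Pi.single_eq_of_ne l.2.1]

theorem main [DecidableEq K] {q : ℕ} (hq : #{w : K | f w = w} = q) (hK : Fintype.card K = q ^ 2)
    {o : Φ → ℤ} (lo : Lev R σ o) (g : GM R σ α β o) (hα : α ∉ D.Fx ⊤) (hβ : β ∉ D.Fx ⊤) :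
    2 * ((q - 1) * q ^ 10) ≤ finrank ℂ W ∨ (q - 1) * (q ^ 10 + q ^ 9 + q ^ 8 + q ^ 6 + q ^ 5 + 2 * q ^ 4 +
      q ^ 3 + q ^ 2 + q + 2) ≤ finrank ℂ W := by
  refine (Nat.lt_or_ge _ _).symm.imp_right fun hd => ?_
  have g0 := g.g1 β g.fβ g.p
  have la := D.tw.lev g0.fα
  have lb := D.tw.lev g.fβ
  have gp := g.p
  have gp' := R.p_comm α β ▸ gp
  have a0 := R.p_self α
  have a2 : ∀ δ, 2 ≤ R.p α δ → o δ = o α := fun δ h => by rw [← R.eq_of_two α δ h]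
  have b2 : ∀ δ, 2 ≤ R.p β δ → R.p α δ = 1 := fun δ h => by rw [← R.eq_of_two β δ h, gp]
  have hrf : ∀ {l : Φ → ℤ}, Lev R σ l → ∀ {π γ}, R.p π γ = 1 → l (R.rf γ π) = l π - l γ :=
    fun h π γ k => by rw [h.add, R.p_comm, k, one_mul]
  have sing : ∀ {S : Set Φ} {π π' : Φ} {s : K}, S ⊆ SB R π' π → π ∈ S →
      (∃ v ∈ D.Wt (SB R π' π) (Pi.single π s), v ≠ 0) → D.M S 1 (Pi.single π s) :=
    fun a b ⟨v, k, l⟩ => m_one (Wt_mono a (fun _ _ => rfl) k) l fun γ m =>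
      Pi.single_eq_of_ne (by rintro rfl; exact m b) _
  have h0 := level0 le_rfl hq hK g0 one_ne_zero (sing (fun _ h => Or.inl h.1)
    ⟨gp.ge, by rw [R.p_self]; omega⟩ (pair hq hK g0 hα hd one_ne_zero (map_one f)))
  have h1 := step (D := D) (S := {γ | 1 ≤ R.p α γ}) (S0 := {α}) (S1 := {γ | 1 ≤ R.p α γ ∧ 0 ≤ R.p β γ})
    le_rfl (by simp [a0, gp']) (by simp [a0]) hq hK {π | σ π = π ∧ R.p α π = 1 ∧ 0 ≤ R.p β π}
    (fun π => {γ | 1 ≤ R.p α γ ∧ o π < o γ}) (fun π γ => R.p α γ = 1 ∧ R.p π γ = 1 ∧ o γ < o π)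
    (fun π k => by
      simp only [mem_filter, mem_univ, true_and] at k
      refine ⟨k.1, k.2.1.ge, ⟨k.2.1.ge, k.2.2⟩, by simp [a0, g.lt π k.2.1], fun _ h => h.1,
        fun s a b => ⟨_, sing (fun _ h => Or.inl h) k.2.1.ge (pair hq hK (g.g1 π k.1 k.2.1) hα hd a b),
          by simp, fun γ l => Pi.single_eq_of_ne (by rintro rfl; exact l.2.false) _⟩⟩)
    (fun π k γ l => by
      simp only [mem_filter, mem_univ, true_and] at k
      have e1 := hrf la l.2.1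
      have e2 := hrf lo l.2.1
      have := g.lt π k.2.1
      refine ⟨l.1.ge, l.2.1, nc_of la fun γ' m => ?_, nc_of la fun γ' m => ?_⟩
      all_goals
        simp only [Set.mem_ofPred_eq] at m ⊢
        refine ⟨by omega, fun δ n => ?_⟩
        have := n.lev la lo lo
        have := a2 δ
        omega)
    (fun π k π' k' e => by
      simp only [mem_filter, mem_univ, true_and, Set.mem_ofPred_eq] at k k' ⊢
      have := mt (g.inj π π' k.1 k'.1 (by omega)) e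
      omega)
  have h2 := step (D := D) (S := SR R α β) (S0 := {γ | 1 ≤ R.p α γ ∧ 0 ≤ R.p β γ}) (S1 := SR R α β)
    le_rfl (fun _ => Or.inl) (fun _ => Or.inl) hq hK {π | σ π = π ∧ R.p α π = 0 ∧ R.p β π = 1}
    (fun π => {γ | 1 ≤ R.p α γ ∧ 0 ≤ R.p β γ ∨ R.p α γ = 0 ∧ R.p β γ = 1 ∧ o π < o γ})
    (fun π γ => R.p α γ = 0 ∧ R.p β γ = 1 ∧ R.p π γ = 1 ∧ o γ < o π)
    (fun π k => by
      simp only [mem_filter, mem_univ, true_and] at k
      refine ⟨k.1, Or.inr k.2, Or.inr k.2, fun _ => Or.inl, fun _ h => h.imp_right fun h => ⟨h.1, h.2.1⟩,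
        fun s a b => ?_⟩
      obtain ⟨v, l1, l2⟩ := pair hq hK (g.g2 π k.1 k.2.1 k.2.2) hβ hd a b
      obtain ⟨c, l3, l4, l5⟩ := avg g0.fα g.fβ gp k.1 k.2.1 k.2.2 a l1 l2
      refine ⟨c, l3, l4, fun γ l => l5 γ (l.imp_right fun h => ⟨h.1, h.2.1⟩) ?_⟩
      rintro rfl
      simp only [Set.mem_ofPred_eq] at l
      omega)
    (fun π k γ l => by
      simp only [mem_filter, mem_univ, true_and] at k
      have e1 := hrf la l.2.2.1
      have e2 := hrf lo l.2.2.1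
      have e3 := hrf lb l.2.2.1
      refine ⟨Or.inr ⟨l.1, l.2.1⟩, l.2.2.1, nc_of (la.comb lb 1) fun γ' m => ?_,
        nc_of (la.comb lb 1) fun γ' m => ?_⟩
      all_goals
        simp only [Set.mem_ofPred_eq] at m ⊢
        refine ⟨by omega, fun δ n => ?_⟩
        have := n.lev la lb lo
        have := b2 δ
        omega)
    (fun π k π' k' e => by
      simp only [mem_filter, mem_univ, true_and, Set.mem_ofPred_eq] at k k' ⊢
      have := mt (g.inj π π' k.1 k'.1 (by omega)) e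
      omega)
  obtain ⟨μ, m0, m⟩ : ∃ μ, σ μ = μ ∧ ∀ t, R.p μ t = R.p α t - R.p β t :=
    ⟨R.rf β α, by rw [D.tw.σ_rf, g0.fα, g.fβ], fun t => by
      rw [R.p_comm, R.p_rf, gp', R.p_comm t, R.p_comm t, one_mul]⟩
  have m1 : R.p α μ = 1 := by rw [R.p_comm, m, a0, gp']; rfl
  have m2 : R.p β μ = -1 := by rw [R.p_comm, m, gp, R.p_self]; rfl
  have h3 := step (D := D) (S := {γ | 1 ≤ R.p α γ ∨ R.p α γ = 0 ∧ R.p β γ = 1}) (S0 := SR R α β)
    (S1 := {γ | 1 ≤ R.p α γ ∨ R.p α γ = 0 ∧ R.p β γ = 1}) le_rfl (fun _ => Or.imp_left And.left)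
    (fun _ => Or.imp_left And.left) hq hK {μ} (fun _ => SR R α β) (fun _ _ => False) (by
      simp only [mem_singleton, forall_eq]
      refine ⟨m0, Or.inl m1.ge, Or.inl m1.ge, subset_rfl, fun _ => Or.imp_left And.left, fun s a b =>
        ⟨_, sing (fun γ => Or.imp_right fun h => ⟨h.1, by rw [m]; omega⟩) (Or.inl m1.ge)
          (pair hq hK (g.g1 μ m0 m1) hα hd a b), by simp, fun γ l => Pi.single_eq_of_ne ?_ _⟩⟩
      rintro rfl
      simp only [Set.mem_ofPred_eq] at l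
      omega) (fun _ _ _ h => h.elim) (by simp)
  rw [sum_pow_of_map g.l1] at h1
  rw [sum_pow_of_map g.l2] at h2
  simp only [List.map_cons, List.map_nil, List.sum_cons, List.sum_nil, false_and, filter_false,
    sum_empty, sum_singleton] at h1 h2 h3
  generalize q - 1 = r at *
  ring_nf at h0 h1 h2 h3 ⊢
  omega

end TD

end Cfsg.Lib.Char.MD
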