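import Cfsg.Agent.Char.MDTw4

/-! Twisted root elements in a simply laced group. -/

set_option autoImplicit false

namespace Cfsg.Lib.Char.MD

variable {Φ K G : Type*} [Field K] [Group G] {R : RS Φ} {σ : Φ → Φ} {f : K →+* K} {x : Φ → K → G}

theorem TW.of_lace (L : Lace R Set.univ x) (ε : Φ → ℤ) (σσ : ∀ r, σ (σ r) = r)
    (pσ : ∀ r s, R.p (σ r) (σ s) = R.p r s) (p0 : ∀ r, σ r ≠ r → R.p (σ r) r = 0)
    (ex : ∀ r s, σ r ≠ r → σ s ≠ s → R.p r s = -1 → 0 ≤ R.p (σ r) s) (ff : ∀ t, f (f t) = t)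
    (ne : ∃ t, t + f t ≠ 0) (εσ : ∀ r, ε (σ r) * ε r = 1) (ε1 : ∀ r, σ r = r → ε r = 1)
    (hN : ∀ r s, R.p r s = -1 → ε (R.rf r s) * R.N r s = ε s * ε r * R.N (σ r) (σ s)) :
    TW R σ f fun r t => x r t * x (σ r) (ε r * f t) := by
  have pσ' : ∀ r s, R.p (σ r) s = R.p r (σ s) := fun r s => by rw [← pσ, σσ]
  have σ_rf : ∀ r s, σ (R.rf r s) = R.rf (σ r) (σ s) := fun r s => R.ext' (by
    rw [R.p_rf, pσ, pσ, pσ, pσ, ← R.p_rf])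
  have pp : ∀ r, 0 ≤ R.p (σ r) r := fun r => by
    by_cases h : σ r = r
    · rw [h, R.p_self]; omega
    · exact (p0 r h).ge
  have add := fun r => L.add r trivial
  have cm := fun r s => L.comm0 r trivial s trivial
  have c0 : ∀ r s, 0 ≤ R.p r s → ∀ t u, MulAut.conj (x r t) (x s u) = x s u := fun r s h t u => by
    rw [MulAut.conj_apply, (cm r s h t u).eq, mul_inv_cancel_right]
  have c1 : ∀ r s, R.p r s = -1 → ∀ t u,
      MulAut.conj (x r t) (x s u) = x s u * x (R.rf r s) (R.N r s * t * u) :=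
    fun r s => L.comm1 r trivial s trivial
  have hN' : ∀ r s, R.p r s = -1 → ∀ t u : K, (ε (R.rf r s) : K) * f (R.N r s * t * u) =
      R.N (σ r) (σ s) * (ε r * f t) * (ε s * f u) := fun r s h t u => by
    have := congrArg (Int.cast : ℤ → K) (hN r s h)
    push_cast at this
    rw [map_mul, map_mul, map_intCast]
    linear_combination f t * f u * this
  have fx : ∀ r, σ r = r → ∀ t, x r t * x (σ r) (ε r * f t) = x r (t + f t) := fun r h t => by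
    rw [ε1 r h, h, add, Int.cast_one, one_mul]
  refine ⟨σσ, pσ, p0, ex, ff, ne, fun r t u => ?_, fun r t => ⟨ε r * f t, ?_⟩, fun r h t => ?_,
    fun r s a b t u => ?_, fun r s a b t u => ?_, fun r s a b c t u => ?_, fun r s a b c t u => ?_⟩
  · rw [mul_assoc, (cm _ r (pp r) _ _).left_comm, add, ← mul_assoc, add, map_add, mul_add]
  · rw [σσ, map_mul, map_intCast, ff, ← mul_assoc, ← Int.cast_mul, εσ, Int.cast_one, one_mul,
      (cm _ r (pp r) _ _).eq]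
  · rw [fx r h, fx r h, ff, add_comm]
  · exact ((cm _ _ a _ _).mul_right (cm _ _ (pσ' r s ▸ b) _ _)).mul_left
      ((cm _ _ b _ _).mul_right (cm _ _ (by rwa [pσ]) _ _))
  · have := pp r
    have := pp s
    have a' : R.p (σ r) (σ s) = -1 := by rwa [pσ]
    rw [← MulAut.conj_apply, map_mul MulAut.conj, MulAut.mul_apply]
    simp only [map_mul (MulAut.conj _)]
    rw [c0 _ _ b, c1 _ _ a', map_mul, c1 _ _ a, c0 r (σ s) (pσ' r s ▸ b), c0 r _ (by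
      rw [R.p_rf, a', ← pσ' r, R.p_comm r]; omega), hN' r s a, σ_rf, mul_assoc, mul_assoc,
      (cm (R.rf r s) (σ s) (by
        rw [R.p_comm, R.p_rf, a, R.p_comm _ r, ← pσ' r]; omega) _ _).left_comm, ← mul_assoc]
  · have d : σ (R.rf r s) = R.rf r s := by rw [σ_rf, a, b]
    rw [fx r a, fx s b, fx _ d, ← MulAut.conj_apply, c1 _ _ c]
    congr 2
    simp only [map_mul, map_add, map_intCast, ff]
    ring
  · have c' : R.p (σ r) s = -1 := by rwa [pσ', b]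
    have d0 := p0 r a
    have d1 : R.p r (R.rf (σ r) s) = -1 := by rw [R.p_rf, c, c', R.p_comm r, d0]; rfl
    have d2 : R.rf r (R.rf (σ r) s) = R.rf (σ r) (R.rf r s) := R.ext' (by
      rw [R.p_rf _ r, d1, R.p_rf _ (σ r), R.p_rf _ (σ r), R.p_rf (σ r), R.p_rf _ r s, c, c', d0]
      ring)
    have d3 : σ (R.rf (σ r) (R.rf r s)) = R.rf (σ r) (R.rf r s) := by
      rw [σ_rf, σ_rf, σσ, b, d2]
    obtain ⟨w, hw⟩ := exists_tr ne ff (b := R.N r (R.rf (σ r) s) * t *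
      (R.N (σ r) s * (ε r * f t) * (u + f u))) (by
        simp only [map_mul, map_add, map_intCast, ff]
        ring)
    refine ⟨R.N r s * t * (u + f u), w, ?_⟩
    rw [fx s b, fx _ d3, hw, ← MulAut.conj_apply, map_mul MulAut.conj, MulAut.mul_apply, c1 _ _ c',
      map_mul, c1 _ _ c, c1 _ _ d1, hN' r s c, σ_rf, b, ε1 s b, d2, map_add, ff, add_comm (f u)]
    simp only [mul_assoc, Int.cast_one, one_mul]

theorem not_dvd_E6 {q d : ℕ} (hq : 2 ≤ q) (h : d + q ^ 8 + q ^ 4 + 1 = q ^ 11 + q ^ 7 + q ^ 5 + q ∨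
    d + q ^ 8 + q ^ 4 + 2 = q ^ 11 + q ^ 7 + q ^ 5 + q) : ¬ d ∣ q ^ 36 * (q ^ 2 - 1) * (q ^ 5 + 1) *
      (q ^ 6 - 1) * (q ^ 8 - 1) * (q ^ 9 + 1) * (q ^ 12 - 1) := fun k => by
  have hp := fun n => Nat.one_le_pow n q (by omega)
  zify [hp] at k h
  obtain ⟨y, hy⟩ : ∃ y : ℤ, y = q := ⟨_, rfl⟩
  have hq' : 2 ≤ y := by omega
  rw [← hy] at k h
  rcases h with h | h
  · rw [show (d : ℤ) = (y ^ 4 - y ^ 2 + 1) * (y ^ 7 + y ^ 5 - y ^ 4 + y ^ 3 - y ^ 2 + y - 1) by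
      linear_combination h, show y ^ 36 * (y ^ 2 - 1) * (y ^ 5 + 1) * (y ^ 6 - 1) * (y ^ 8 - 1) *
      (y ^ 9 + 1) * (y ^ 12 - 1) = (y ^ 4 - y ^ 2 + 1) * (y ^ 36 * ((y ^ 2 - 1) * (y ^ 5 + 1) *
      (y ^ 6 - 1) * (y ^ 8 - 1) * (y ^ 9 + 1) * (y ^ 6 - 1) * (y ^ 2 + 1))) by ring,
      mul_dvd_mul_iff_left (by nlinarith [sq_nonneg (y ^ 2 - 1)])] at k
    have c1 : IsCoprime (y ^ 7 + y ^ 5 - y ^ 4 + y ^ 3 - y ^ 2 + y - 1) y :=
      ⟨-1, y ^ 6 + y ^ 4 - y ^ 3 + y ^ 2 - y + 1, by ring⟩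
    have k2 : y ^ 7 + y ^ 5 - y ^ 4 + y ^ 3 - y ^ 2 + y - 1 ∣ 117649 :=
      (dvd_iff_dvd_of_dvd_sub ⟨-(86440 + 79103 * y ^ 1 + 145884 * y ^ 2 + 113592 * y ^ 3 + (-27818) * y ^ 4 +
        335052 * y ^ 5 + 11342 * y ^ 6 + (-25272) * y ^ 7 + (-247109) * y ^ 8 +
        (-236801) * y ^ 9 + 186913 * y ^ 10 + (-251055) * y ^ 11 + 54720 * y ^ 12 +
        (-426645) * y ^ 13 + 92638 * y ^ 14 + 148981 * y ^ 15 + (-29082) * y ^ 16 +
        126428 * y ^ 17 + (-473808) * y ^ 18 + 394927 * y ^ 19 + (-99035) * y ^ 20 +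
        31314 * y ^ 21 + (-261394) * y ^ 22 + (-311563) * y ^ 23 + 309321 * y ^ 24 +
        (-73184) * y ^ 25 + 260806 * y ^ 26 + (-195154) * y ^ 27 + 167141 * y ^ 28 +
        247483 * y ^ 29 + 140607 * y ^ 30 + 204661 * y ^ 31 + (-136377) * y ^ 32 +
        121261 * y ^ 33 + (-18953) * y ^ 34 + (-45503) * y ^ 35 + (-111815) * y ^ 36 +
        (-170397) * y ^ 37), by ring⟩).1 ((c1.pow_right.dvd_of_dvd_mul_left k).mul_left (204089 + (-7337) * y ^ 1 + 153221 * y ^ 2 + (-39629) * y ^ 3 + 215900 * y ^ 4 +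
        111815 * y ^ 5 + 170397 * y ^ 6))
    have k3 := Int.le_of_dvd (by norm_num) k2
    have k4 : y < 6 := by
      by_contra! k4
      obtain ⟨z, rfl⟩ : ∃ z, y = z + 6 := ⟨y - 6, by ring⟩
      have : 0 ≤ z := by omega
      ring_nf at k3
      have : 0 ≤ z ^ 2 ∧ 0 ≤ z ^ 3 ∧ 0 ≤ z ^ 4 ∧ 0 ≤ z ^ 5 ∧ 0 ≤ z ^ 6 ∧ 0 ≤ z ^ 7 := by
        refine ⟨?_, ?_, ?_, ?_, ?_, ?_⟩ <;> positivity
      omega
    clear * - k2 k4 hq'
    interval_cases y <;> norm_num at k2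
  · rw [show (d : ℤ) = (y - 1) * (y ^ 10 + y ^ 9 + y ^ 8 + y ^ 6 + y ^ 5 + 2 * y ^ 4 + y ^ 3 + y ^ 2 +
      y + 2) by linear_combination h, show y ^ 36 * (y ^ 2 - 1) * (y ^ 5 + 1) * (y ^ 6 - 1) * (y ^ 8 - 1) *
      (y ^ 9 + 1) * (y ^ 12 - 1) = (y - 1) * (y ^ 36 * ((y + 1) * (y ^ 5 + 1) *
      (y ^ 6 - 1) * (y ^ 8 - 1) * (y ^ 9 + 1) * (y ^ 12 - 1))) by ring,
      mul_dvd_mul_iff_left (by omega)] at k
    have k1 : y ^ 10 + y ^ 9 + y ^ 8 + y ^ 6 + y ^ 5 + 2 * y ^ 4 + y ^ 3 + y ^ 2 + y + 2 ∣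
        y ^ 36 * 2737152 := (dvd_iff_dvd_of_dvd_sub (Dvd.intro (y ^ 36 * -(720187 + (-385750) * y ^ 1 + 2428700 * y ^ 2 + 2531666 * y ^ 3 + (-793972) * y ^ 4 +
        (-3007203) * y ^ 5 + (-2250573) * y ^ 6 + 2774444 * y ^ 7 + 3425791 * y ^ 8 +
        (-332219) * y ^ 9 + (-4554064) * y ^ 10 + (-2982413) * y ^ 11 + 2129459 * y ^ 12 +
        2747877 * y ^ 13 + (-2354522) * y ^ 14 + (-5559259) * y ^ 15 + (-692402) * y ^ 16 +
        4845710 * y ^ 17 + 3046285 * y ^ 18 + (-4270815) * y ^ 19 + (-6175784) * y ^ 20 +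
        1030359 * y ^ 21 + 6835795 * y ^ 22 + 2908466 * y ^ 23 + (-3930794) * y ^ 24 +
        (-5102305) * y ^ 25 + 1341802 * y ^ 26 + 5598015 * y ^ 27 + 2257517 * y ^ 28 +
        (-1990571) * y ^ 29 + (-1746112) * y ^ 30 + 2484787 * y ^ 31 + 2940073 * y ^ 32 +
        62180 * y ^ 33 + (-2319747) * y ^ 34 + (-762405) * y ^ 35 + 2183612 * y ^ 36 +
        1675730 * y ^ 37 + (-541612) * y ^ 38 + (-2494390) * y ^ 39 + (-1493447) * y ^ 40)) (by ring))).1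
      (k.mul_left ((-1296778) + 1245465 * y ^ 1 + 3946372 * y ^ 2 + 3880097 * y ^ 3 + 546949 * y ^ 4 +
        (-1149496) * y ^ 5 + (-674787) * y ^ 6 + 2035059 * y ^ 7 + 2494390 * y ^ 8 +
        1493447 * y ^ 9))
    obtain ⟨u, hu⟩ : ∃ u, y ^ 10 + y ^ 9 + y ^ 8 + y ^ 6 + y ^ 5 + 2 * y ^ 4 + y ^ 3 + y ^ 2 + y + 2 =
        2 - y * u := ⟨-(y ^ 9 + y ^ 8 + y ^ 7 + y ^ 5 + y ^ 4 + 2 * y ^ 3 + y ^ 2 + y + 1), by ring⟩
    have k2 : 2 - y * u ∣ 2 ^ 36 * 2737152 := (dvd_iff_dvd_of_dvd_sub (by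
      rw [← sub_mul]; exact (sub_dvd_pow_sub_pow _ _ 36).mul_right _)).2 (by
      rw [mul_pow, mul_right_comm]; exact (hu ▸ k1).mul_right _)
    rw [← hu] at k2
    have k3 := Int.le_of_dvd (by norm_num) k2
    have k4 : q < 60 := by
      by_contra! k4
      have : (60 : ℤ) ^ 10 ≤ y ^ 10 := pow_le_pow_left₀ (by norm_num) (by omega) _
      have : 0 ≤ y ^ 9 + y ^ 8 + y ^ 6 + y ^ 5 + 2 * y ^ 4 + y ^ 3 + y ^ 2 + y := by positivity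
      omega
    have k5 : ∀ q : Fin 60, 2 ≤ q.1 → ¬ (q : ℤ) ^ 10 + (q : ℤ) ^ 9 + (q : ℤ) ^ 8 + (q : ℤ) ^ 6 + (q : ℤ) ^ 5 +
        2 * (q : ℤ) ^ 4 + (q : ℤ) ^ 3 + (q : ℤ) ^ 2 + (q : ℤ) + 2 ∣ 2 ^ 36 * 2737152 := by decide +kernel
    exact k5 ⟨q, k4⟩ hq (hy ▸ k2)

end Cfsg.Lib.Char.MD
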