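import Cfsg.Agent.Char.MDTw5
import Cfsg.Agent.S2340
import Cfsg.Agent.Chev.TwistE6

/-! Minimal character degree of `²E₆(q)`. -/

set_option autoImplicit false

namespace Cfsg.Lib.Char.MD

open Finset Module Cfsg.Lie Cfsg.Lib.Chev Cfsg.Lib.Chev.Core Cfsg.Agent.S2340

set_option maxRecDepth 100000

set_option synthInstance.maxSize 2000 in
instance {n : ℕ} (R : RS (Fin n)) (σ : Fin n → Fin n) (α β : Fin n) : Decidable (GP R σ α β) :=
  decidable_of_iff (_ ∧ _ ∧ _ ∧ _ ∧ _ ∧ _) ⟨fun h => ⟨h.1, h.2.1, h.2.2.1, h.2.2.2.1, h.2.2.2.2.1,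
    h.2.2.2.2.2⟩, fun h => ⟨h.1, h.2, h.3, h.4, h.5, h.6⟩⟩

/-- the graph symmetry of the roots -/
noncomputable def σ6 (r : Fin chevE6.nroots) : Fin chevE6.nroots := ⟨gE6.σ r, gE6.ok.lt r r.2⟩

theorem σ6_eq_1' : type_of% @σ6.eq_1 := @σ6.eq_1

local notation "R6" => tab.rs rootE6

theorem gm6 : GM R6 σ6 71 70 fun r =>
    100 * (R6).p 71 r + (5 * (R6).p 60 r + (3 * (R6).p 44 r + (R6).p 39 r)) :=
  ⟨by decide +kernel, by decide +kernel, by decide +kernel, by decide +kernel, by decide +kernel,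
    by decide +kernel, by decide +kernel, by decide +kernel⟩

variable {K : Type*} [Field K] (f : K →+* K) (hf : ∀ t, f (f t) = t)

include hf in
theorem tw6 (ne : ∃ t, t + f t ≠ 0) : TW R6 σ6 f fun r t =>
    xGL chevE6 K r t * xGL chevE6 K (σ6 r) (gE6.ε r * f t) :=
  TW.of_lace (tab.lace rootE6 (certE6.model K rootE6).toStRel _) (fun r => gE6.ε r) (by decide +kernel)
    (fun r s => (tab.eq _ _).trans ((gE6.pairing_σ r.2 s.2).trans (tab.eq r s).symm))
    (by decide +kernel) (by decide +kernel) hf ne (by decide +kernel) (by decide +kernel) fun r s h => by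
      replace h : chevE6.pairing r s = -1 := tab.eq r s ▸ h
      have := gE6.ok.coef r r.2 s s.2 0 _ (rootE6.chainRoot_one_of_add r.2 s.2
        (rootE6.refl_lt r.2 s.2) (by
          rw [rootE6.rc_refl r.2 s.2, h, neg_smul, one_smul, sub_neg_eq_add, add_comm]))
      rwa [zero_add, pow_one] at this

theorem mem6 (r : Fin chevE6.nroots) (t : K) :
    xGL chevE6 K r t * xGL chevE6 K (σ6 r) (gE6.ε r * f t) ∈ (twE6 f hf).G1 := by
  have hy := certE6.model K rootE6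
  have k1 : ∀ (i : Fin chevE6.nroots) t, (endE6 f hf).σ (xGL chevE6 K i t) =
      xGL chevE6 K (σ6 i) (gE6.ε i * f t) := fun i t => by
    rw [(endE6 f hf).map_x i i.2, RootSubst.app_apply]
    exact congrArg₂ _ (gE6.sym_ρ rootE6 i.2) rfl
  have k2 : ∀ r, σ6 (σ6 r) = r ∧ gE6.ε (σ6 r) * gE6.ε r = 1 ∧ 0 ≤ (R6).p r (σ6 r) := by decide +kernel
  have k3 : xGL chevE6 K r t * xGL chevE6 K (σ6 r) (gE6.ε r * f t) ∈ (twE6 f hf).F :=
    ⟨mul_mem (hy.x_mem_G0 r.2 _) (hy.x_mem_G0 (σ6 r).2 _), by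
      change (endE6 f hf).σ _ = _
      rw [(endE6 f hf).map_mul _ (hy.x_mem_G0 r.2 _) _ (hy.x_mem_G0 (σ6 r).2 _), k1, k1, (k2 r).1,
        map_mul, map_intCast, hf, ← mul_assoc, ← Int.cast_mul, (k2 r).2.1, Int.cast_one, one_mul]
      exact ((tab.lace rootE6 hy.toStRel .univ).comm0 r trivial _ trivial (k2 r).2.2 _ _).eq.symm⟩
  have k4 : rootE6.weyl.Pos (σ6 r) ↔ rootE6.weyl.Pos r := by
    rw [rootE6.weyl_pos, rootE6.weyl_pos]
    exact gE6.isPosRoot_σ rootE6 r.2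
  by_cases hp : rootE6.weyl.Pos r
  · exact (twE6 f hf).U_inf_le_G1 hy.faithful ⟨mul_mem
      ((hy.toStRelW.rgd rootE6).X_le_U hp (x_mem_xSub _ _ _))
      ((hy.toStRelW.rgd rootE6).X_le_U (k4.2 hp) (x_mem_xSub _ _ _)), k3⟩
  · exact (twE6 f hf).V_inf_le_G1 hy.faithful ⟨mul_mem
      ((hy.toStRelW.rgd rootE6).X_le_V (rootE6.weyl_mem.2 r.2) hp (x_mem_xSub _ _ _))
      ((hy.toStRelW.rgd rootE6).X_le_V (rootE6.weyl_mem.2 (σ6 r).2) (mt k4.1 hp) (x_mem_xSub _ _ _)), k3⟩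

theorem le_degree_twE6 [Fintype K] {q : ℕ} (hK : Fintype.card K = q ^ 2) (hq : ∀ t, f t = t ^ q)
    [IsSimpleGroup (twE6 f hf).G1] {d : ℕ} (ρ : Representation ℂ (twE6 f hf).G1 (Fin d → ℂ))
    (hρ : ρ.IsIrreducible) (h2 : 2 ≤ d) : 2 * ((q - 1) * q ^ 10) ≤ d ∨
      (q - 1) * (q ^ 10 + q ^ 9 + q ^ 8 + q ^ 6 + q ^ 5 + 2 * q ^ 4 + q ^ 3 + q ^ 2 + q + 2) ≤ d := by
  classical
  have hχ := isIrrCharacter_rep ρ
  have hd : ρ.character 1 = d := by rw [Representation.char_one, Module.finrank_fin_fun]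
  have hF : #{w : K | f w = w} = q := by
    rw [← card_pow_eq_self hK, Nat.card_eq_fintype_card, Fintype.card_subtype]
    simp only [hq]
  have hq2 := two_le_of_card hK
  obtain ⟨t, ht⟩ : ∃ t, t + f t ≠ 0 := by
    by_contra! h
    have h1 := h 1
    rw [filter_true_of_mem fun t _ => by
      rw [map_one] at h1; linear_combination h t - t * h1, card_univ, hK] at hF
    nlinarith
  obtain ⟨ψ, hψ⟩ := (AddChar.exists_apply_ne_zero (α := K)).2 ht
  let D : TD R6 σ6 f (twE6 f hf).G1 (Fin d → ℂ) :=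
    { y r t := ⟨_, mem6 f hf r t⟩
      ρ := ρ
      Ψ := ψ.compAddMonoidHom (AddMonoidHom.id K + f.toAddMonoidHom)
      tw := (tw6 f hf ⟨t, ht⟩).restrict _ _
      Ψ_ne e := hψ (DFunLike.congr_fun e t)
      Ψ_f u := congrArg ψ (by simp [hf, add_comm]) }
  have key : ∀ r, gE6.σ r.1 = r.1 ∧ gE6.ε r.1 = 1 → r ∉ D.Fx ⊤ := fun r h k => by
    have hy := certE6.model K rootE6
    have := hχ.charKer_normal.eq_bot_or_eq_top.resolve_left fun l => ht (hy.inj r r.2 _ (by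
      have := congrArg Subtype.val ((Subgroup.eq_bot_iff_forall _).1 l (D.y r t)
        (hχ.mem_charKer_iff.2 (by
          rw [Representation.character, Representation.character, map_one]
          exact congrArg _ (LinearMap.ext fun v => k t v trivial))))
      simpa [D, σ6, h.1, h.2, hy.toStRel.add r r.2] using this))
    rw [hχ.charKer_eq_top_iff.1 this] at hd
    have : 1 = d := Nat.cast_injective (R := ℂ) (Nat.cast_one.trans hd)
    omega
  have X := D.tw
  simpa using TD.main (D := D) hF hK ((X.lev (by decide +kernel)).comb ((X.lev (by decide +kernel)).comb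
    ((X.lev (by decide +kernel)).comb (X.lev (by decide +kernel)) 3) 5) 100) gm6
    (key 71 (by decide +kernel)) (key 70 (by decide +kernel))

end Cfsg.Lib.Char.MD
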