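import Cfsg.Agent.Char.MinDegSL2

/-! Weights of a character on an abelian group spanned by root subgroups (simply laced case). -/

set_option autoImplicit false

namespace Cfsg.Lib.Char.MD

open Matrix Finset

/-- simply laced root combinatorics -/
structure RS (Φ : Type*) where
  p : Φ → Φ → ℤ
  rf : Φ → Φ → Φ
  N : Φ → Φ → ℤ
  N_sq : ∀ r s, p r s = -1 → N r s * N r s = 1
  p_comm : ∀ r s, p r s = p s r
  p_self : ∀ r, p r r = 2
  p_rf : ∀ t r s, p t (rf r s) = p t s - p r s * p t r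
  eq_of_two : ∀ r s, 2 ≤ p r s → r = s

namespace RS

variable {Φ : Type*} (R : RS Φ)

theorem ext' {r s : Φ} (h : R.p r s = R.p r r) : r = s := R.eq_of_two r s (by rw [h, R.p_self])

theorem rf_rf (r s : Φ) : R.rf r (R.rf r s) = s := by
  refine (R.ext' ?_).symm
  rw [R.p_rf, R.p_rf, R.p_rf, R.p_self r]; ring

theorem p_le {r s : Φ} (h : r ≠ s) : R.p r s ≤ 1 := by
  by_contra h'
  exact h (R.eq_of_two r s (by omega))

theorem p_ge {r s : Φ} (t : Φ) (h : R.p t r + R.p t s ≠ 0) : -1 ≤ R.p r s := by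
  by_contra h'
  have : s = R.rf r r := R.eq_of_two _ _ (by rw [R.p_rf, R.p_self r, R.p_comm s r]; omega)
  rw [this, R.p_rf, R.p_self r] at h
  omega

end RS

variable {Φ : Type*} {F : Type*} [Field F] {H : Type*} [Group H]

/-- root elements `y ε` (`ε ∈ S0`) acting on the abelian group spanned by the `y γ` (`γ ∈ S1`) -/
structure AStep (R : RS Φ) (S0 S1 : Set Φ) (y : Φ → F → H) : Prop where
  add : ∀ r, r ∈ S0 ∨ r ∈ S1 → ∀ t u, y r t * y r u = y r (t + u)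
  comm11 : ∀ γ ∈ S1, ∀ γ' ∈ S1, ∀ t u, Commute (y γ t) (y γ' u)
  ge : ∀ ε ∈ S0, ∀ γ ∈ S1, -1 ≤ R.p ε γ
  comm0 : ∀ ε ∈ S0, ∀ s, s ∈ S0 ∨ s ∈ S1 → 0 ≤ R.p ε s → ∀ t u, Commute (y ε t) (y s u)
  comm1 : ∀ ε ∈ S0, ∀ s, s ∈ S0 ∨ s ∈ S1 → R.p ε s = -1 → ∃ η : F, η ≠ 0 ∧ ∀ t u,
    y ε t * y s u * (y ε t)⁻¹ = y s u * y (R.rf ε s) (η * t * u)
  mem1 : ∀ ε ∈ S0, ∀ γ ∈ S1, R.p ε γ = -1 → R.rf ε γ ∈ S1

/-- the character `a ↦ ψ (c ⬝ a)` -/
def lc [Fintype Φ] (ψ : AddChar F ℂ) (c : Φ → F) : AddChar (Φ → F) ℂ where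
  toFun a := ψ (c ⬝ᵥ a)
  map_zero_eq_one' := by simp
  map_add_eq_mul' a b := by rw [dotProduct_add, ψ.map_add_eq_mul]

theorem lc_apply [Fintype Φ] (ψ : AddChar F ℂ) (c a : Φ → F) : lc ψ c a = ψ (c ⬝ᵥ a) := rfl

theorem eq_zero_of_char {ψ : AddChar F ℂ} (hψ : ψ ≠ 0) {r : F} (h : ∀ u, ψ (r * u) = 1) : r = 0 := by
  by_contra hr
  refine hψ (AddChar.ext _ _ fun u => ?_)
  simpa [hr] using h (r⁻¹ * u)

theorem sum_char [Fintype F] {ψ : AddChar F ℂ} (hψ : ψ ≠ 0) (r : F) [Decidable (r = 0)] :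
    ∑ u, ψ (r * u) = if r = 0 then (Fintype.card F : ℂ) else 0 := by
  split_ifs with h
  · simp [h]
  · rw [show ∑ s : F, ψ (r * s) = ∑ s, ψ s from Equiv.sum_comp (Equiv.mulLeft₀ _ h) ψ,
      AddChar.sum_eq_zero_iff_ne_zero.2 hψ]

variable [Fintype Φ] [DecidableEq Φ]

theorem lc_bijective [Fintype F] {ψ : AddChar F ℂ} (hψ : ψ ≠ 0) :
    Function.Bijective (lc (Φ := Φ) ψ) := by
  refine (Fintype.bijective_iff_injective_and_card _).2 ⟨fun c c' e => ?_, by rw [AddChar.card_eq]⟩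
  funext γ
  refine sub_eq_zero.1 (eq_zero_of_char hψ fun u => ?_)
  have := DFunLike.congr_fun e (Pi.single γ u)
  simp only [lc_apply, dotProduct_single] at this
  rw [sub_mul, AddChar.map_sub_eq_div, this, div_self (ψ.val_isUnit _).ne_zero]

theorem addChar_ext_single {f g : AddChar (Φ → F) H} (h : ∀ γ u, f (Pi.single γ u) = g (Pi.single γ u))
    (a : Φ → F) : f a = g a := by
  rw [← Finset.univ_sum_single a]
  induction (univ : Finset Φ) using Finset.induction_on with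
  | empty => simp
  | insert b s hb ih => rw [sum_insert hb, f.map_add_eq_mul, g.map_add_eq_mul, h, ih]

section conj

variable [Fintype F] {ζ : AddChar (Φ → F) H} {ξ : H → ℂ} {ψ : AddChar F ℂ}

/-- `g` acts on the abelian group through the invertible matrix `M` -/
def ActM (ζ : AddChar (Φ → F) H) (g : H) (M : Matrix Φ Φ F) : Prop :=
  IsUnit M ∧ ∀ γ u, g * ζ (Pi.single γ u) * g⁻¹ = ζ (M *ᵥ Pi.single γ u)

omit [Fintype F] in
theorem ActM.exists_equiv {g : H} {M : Matrix Φ Φ F} (h : ActM ζ g M) :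
    ∃ φ : (Φ → F) ≃ (Φ → F), (∀ a, g * ζ a = ζ (φ a) * g) ∧ ∀ a, φ a = M *ᵥ a := by
  refine ⟨Equiv.ofBijective _ ⟨mulVec_injective_iff_isUnit.2 h.1, mulVec_surjective_iff_isUnit.2 h.1⟩,
    fun a => ?_, fun _ => rfl⟩
  rw [← mul_inv_eq_iff_eq_mul]
  exact addChar_ext_single (f := (MulAut.conj g).toMonoidHom.compAddChar ζ)
    (g := ζ.compAddMonoidHom (Matrix.mulVecLin M).toAddMonoidHom) h.2 a

theorem ActM.acomp_conj (hξ : IsClassFunction H ξ) {g : H} {M : Matrix Φ Φ F} (h : ActM ζ g M)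
    (c : Φ → F) (x : H) : acomp ζ ξ (lc ψ c) (g * x * g⁻¹) = acomp ζ ξ (lc ψ (c ᵥ* M)) x := by
  obtain ⟨φ, h1, h2⟩ := h.exists_equiv
  exact Char.acomp_conj hξ φ h1 (fun a => by rw [h2, lc_apply, lc_apply, dotProduct_mulVec]) x

omit [Fintype F] in
theorem ActM.mem_acStab {g : H} {M : Matrix Φ Φ F} (h : ActM ζ g M) {c : Φ → F} (hc : c ᵥ* M = c) :
    g ∈ acStab ζ (lc ψ c) := by
  obtain ⟨φ, h1, h2⟩ := h.exists_equiv
  exact ⟨φ, h1, fun a => by rw [h2, lc_apply, lc_apply, dotProduct_mulVec, hc]⟩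

theorem ActM.acomp_eq_zero (hψ : ψ ≠ 0) (hξ : IsClassFunction H ξ) {g : H} {M : Matrix Φ Φ F}
    (h : ActM ζ g M) {c : Φ → F} (hc : c ᵥ* M ≠ c) : acomp ζ ξ (lc ψ c) g = 0 := by
  obtain ⟨φ, h1, h2⟩ := h.exists_equiv
  by_contra h0
  refine hc ((lc_bijective hψ).1 (AddChar.ext _ _ fun a => ?_))
  by_contra h3
  exact h0 (Char.acomp_eq_zero hξ (h1 a) fun e => h3 (by
    rw [e, h2, lc_apply, lc_apply, dotProduct_mulVec]))

theorem ActM.acomp_eq_zero' (hψ : ψ ≠ 0) (hξ : IsCharacter H ξ) {g : H} {M : Matrix Φ Φ F}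
    (h : ActM ζ g M) {c : Φ → F} (hc : acomp ζ ξ (lc ψ c) 1 = 0) : acomp ζ ξ (lc ψ c) g = 0 := by
  by_cases e : c ᵥ* M = c
  · exact congrFun ((isCharacter_acStab hξ (lc ψ c)).eq_zero_of_apply_one hc) ⟨g, h.mem_acStab e⟩
  · exact h.acomp_eq_zero hψ hξ.isClassFunction e

omit [Fintype F] in
theorem actM_one : ActM ζ 1 1 := ⟨isUnit_one, fun γ u => by rw [one_mulVec]; simp⟩

theorem sum_lc (hψ : ψ ≠ 0) (g : H) : ∑ c, acomp ζ ξ (lc ψ c) g = ξ g := by
  rw [← sum_acomp ζ ξ g]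
  exact (lc_bijective hψ).sum_comp fun l => acomp ζ ξ l g

end conj

namespace AStep

variable {R : RS Φ} {S0 S1 : Set Φ} {y : Φ → F → H} (A : AStep R S0 S1 y)

include A

omit [Fintype Φ] [DecidableEq Φ] in
theorem zero {r : Φ} (hr : r ∈ S0 ∨ r ∈ S1) : y r 0 = 1 := by
  have := A.add r hr 0 0
  rwa [add_zero, mul_eq_left] at this

open Classical in
omit [Fintype Φ] [DecidableEq Φ] in
theorem comm_ite (γ γ' : Φ) (t u : F) :
    Commute (if γ ∈ S1 then y γ t else 1) (if γ' ∈ S1 then y γ' u else 1) := by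
  split_ifs with h1 h2
  · exact A.comm11 _ h1 _ h2 _ _
  all_goals simp

open Classical in
omit [DecidableEq Φ] in
theorem pw (a : Φ → F) : ((univ : Finset Φ) : Set Φ).Pairwise
    (Function.onFun Commute fun γ => if γ ∈ S1 then y γ (a γ) else 1) :=
  fun _ _ _ _ _ => A.comm_ite _ _ _ _

open Classical in
/-- the abelian group spanned by the root elements of `S1` -/
noncomputable def zeta : AddChar (Φ → F) H where
  toFun a := univ.noncommProd (fun γ => if γ ∈ S1 then y γ (a γ) else 1) (A.pw a)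
  map_zero_eq_one' := noncommProd_eq_pow_card _ _ _ 1 (fun γ _ => by
    split_ifs with h
    · exact A.zero (Or.inr h)
    · rfl) |>.trans (one_pow _)
  map_add_eq_mul' a b := by
    rw [← noncommProd_mul_distrib (fun γ => if γ ∈ S1 then y γ (a γ) else 1)
      (fun γ => if γ ∈ S1 then y γ (b γ) else 1) (A.pw a) (A.pw b)
      (fun _ _ _ _ _ => A.comm_ite _ _ _ _)]
    refine noncommProd_congr rfl (fun γ _ => ?_) _
    by_cases h : γ ∈ S1
    · simp [h, A.add _ (Or.inr h)]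
    · simp [h]

open Classical in
theorem zeta_single (γ : Φ) (u : F) : A.zeta (Pi.single γ u) = if γ ∈ S1 then y γ u else 1 := by
  change univ.noncommProd _ (A.pw (Pi.single γ u)) = _
  rw [← mul_noncommProd_erase _ (mem_univ γ), Pi.single_eq_same]
  refine mul_eq_left.2 ((noncommProd_eq_pow_card _ _ _ 1 fun b hb => ?_).trans (one_pow _))
  rw [Pi.single_eq_of_ne (ne_of_mem_erase hb)]
  split_ifs with h
  · exact A.zero (Or.inr h)
  · rfl

theorem zeta_single_of_mem {γ : Φ} (h : γ ∈ S1) (u : F) : A.zeta (Pi.single γ u) = y γ u := by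
  rw [A.zeta_single, if_pos h]

theorem exists_actM {ε : Φ} (hε : ε ∈ S0) : ∃ η : Φ → F, (∀ γ ∈ S1, R.p ε γ = -1 → η γ ≠ 0) ∧
    (∀ γ, ¬ (γ ∈ S1 ∧ R.p ε γ = -1) → η γ = 0) ∧ ∀ t, ∃ M, ActM A.zeta (y ε t) M ∧
      ∀ c γ, (c ᵥ* M) γ = c γ + η γ * t * c (R.rf ε γ) := by
  classical
  have h : ∀ γ, ∃ η : F, (γ ∈ S1 ∧ R.p ε γ = -1 → η ≠ 0 ∧ ∀ t u,
      y ε t * y γ u * (y ε t)⁻¹ = y γ u * y (R.rf ε γ) (η * t * u)) ∧
      (¬ (γ ∈ S1 ∧ R.p ε γ = -1) → η = 0) := fun γ => by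
    by_cases h : γ ∈ S1 ∧ R.p ε γ = -1
    · obtain ⟨η, h1⟩ := A.comm1 ε hε γ (Or.inr h.1) h.2
      exact ⟨η, fun _ => h1, fun h' => absurd h h'⟩
    · exact ⟨0, fun h' => absurd h' h, fun _ => rfl⟩
  choose η h1 h2 using h
  refine ⟨η, fun γ a b => (h1 γ ⟨a, b⟩).1, h2, fun t => ?_⟩
  let N : F → Matrix Φ Φ F := fun t => Matrix.of fun β γ => if β = R.rf ε γ then η γ * t else 0
  have hN : ∀ t c γ, (c ᵥ* (1 + N t)) γ = c γ + η γ * t * c (R.rf ε γ) := fun t c γ => by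
    rw [vecMul_add, vecMul_one, Pi.add_apply]
    simp [N, vecMul, dotProduct, mul_comm]
  have h3 : ∀ γ, η γ * η (R.rf ε γ) = 0 := fun γ => by
    by_cases h : γ ∈ S1 ∧ R.p ε γ = -1
    · rw [h2 (R.rf ε γ), mul_zero]
      rw [R.p_rf, R.p_self, h.2]; omega
    · rw [h2 γ h, zero_mul]
  refine ⟨1 + N t, ⟨?_, fun γ u => ?_⟩, hN t⟩
  · refine vecMul_surjective_iff_isUnit.1 fun c => ⟨c ᵥ* (1 + N (-t)), funext fun γ => ?_⟩
    simp only [hN]
    linear_combination (-t ^ 2 * c (R.rf ε (R.rf ε γ))) * h3 γ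
  · have : (1 + N t) *ᵥ Pi.single γ u = Pi.single γ u + Pi.single (R.rf ε γ) (η γ * t * u) := by
      rw [add_mulVec, one_mulVec]
      congr 1
      ext β
      simp [N, Pi.single_apply]
    rw [this, AddChar.map_add_eq_mul]
    by_cases hγ : γ ∈ S1
    · rw [A.zeta_single_of_mem hγ]
      by_cases hp : R.p ε γ = -1
      · rw [A.zeta_single_of_mem (A.mem1 ε hε γ hγ hp), (h1 γ ⟨hγ, hp⟩).2]
      · have := A.ge ε hε γ hγ
        rw [h2 γ (by tauto), (A.comm0 ε hε γ (Or.inr hγ) (by omega) t u).eq]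
        simp
    · rw [h2 γ (by tauto), A.zeta_single, if_neg hγ]
      simp

theorem actM_diag {g : H} {κ : Φ → F} (hκ : ∀ γ, κ γ ≠ 0)
    (hg : ∀ γ ∈ S1, ∀ u, g * y γ u * g⁻¹ = y γ (κ γ * u)) : ActM A.zeta g (diagonal κ) := by
  refine ⟨(isUnit_diagonal).2 (Pi.isUnit_iff.2 fun γ => (hκ γ).isUnit), fun γ u => ?_⟩
  rw [diagonal_mulVec_single, A.zeta_single, A.zeta_single]
  split_ifs with h
  · exact hg γ h u
  · simp

end AStep

section shift

variable [Fintype F] [DecidableEq F] {f : (Φ → F) → ℂ}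

theorem sum_shift_one {P : (Φ → F) → Prop} [DecidablePred P] (β : Φ)
    (h : ∀ w, ∃ σ : (Φ → F) → (Φ → F), Function.Injective σ ∧
      ∀ c, P c → P (σ c) ∧ f (σ c) = f c ∧ σ c β = c β + w) :
    ∑ c with P c, f c = Fintype.card F * ∑ c with P c ∧ c β = 0, f c := by
  rw [← sum_fiberwise (s := univ.filter P) (fun c => c β), ← nsmul_eq_mul, ← card_univ, ← sum_const]
  refine sum_congr rfl fun w _ => ?_
  obtain ⟨σ, h1, h2⟩ := h w
  rw [filter_filter]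
  symm
  refine sum_nbij σ (fun c hc => ?_) h1.injOn (fun c hc => ?_) fun c hc => ?_
  · simp only [mem_filter, mem_univ, true_and] at hc ⊢
    exact ⟨(h2 c hc.1).1, by rw [(h2 c hc.1).2.2, hc.2, zero_add]⟩
  · simp only [coe_filter, mem_univ, true_and, Set.mem_ofPred_eq] at hc
    obtain ⟨c', h3, rfl⟩ := (((Set.toFinite {c | P c}).injOn_iff_bijOn_of_mapsTo
      fun c hc => (h2 c hc).1).1 h1.injOn).surjOn hc.1
    refine ⟨c', ?_, rfl⟩
    simp only [coe_filter, mem_univ, true_and, Set.mem_ofPred_eq]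
    exact ⟨h3, add_eq_right.1 ((h2 c' h3).2.2.symm.trans hc.2)⟩
  · simp only [mem_filter, mem_univ, true_and] at hc
    exact (h2 c hc.1).2.1.symm

theorem sum_shift {P : (Φ → F) → Prop} [DecidablePred P] (T : Finset Φ)
    (h : ∀ β ∈ T, ∀ w, ∃ σ : (Φ → F) → (Φ → F), Function.Injective σ ∧
      ∀ c, P c → P (σ c) ∧ f (σ c) = f c ∧ σ c β = c β + w ∧ ∀ β' ∈ T, β' ≠ β → σ c β' = c β') :
    ∑ c with P c, f c = Fintype.card F ^ T.card * ∑ c with P c ∧ ∀ β ∈ T, c β = 0, f c := by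
  induction T using Finset.induction_on with
  | empty => simp
  | insert β T hβ ih =>
    rw [ih fun b hb w => ?_, card_insert_of_notMem hβ, pow_succ, mul_assoc, sum_shift_one β fun w => ?_]
    · congr 3
      ext c
      simp only [mem_filter, mem_univ, true_and, mem_insert, forall_eq_or_imp]
      tauto
    · obtain ⟨σ, h1, h2⟩ := h β (mem_insert_self _ _) w
      refine ⟨σ, h1, fun c hc => ⟨⟨(h2 c hc.1).1, fun b hb => ?_⟩, (h2 c hc.1).2.1, (h2 c hc.1).2.2.1⟩⟩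
      rw [(h2 c hc.1).2.2.2 b (mem_insert_of_mem hb) fun e => hβ (e ▸ hb), hc.2 b hb]
    · obtain ⟨σ, h1, h2⟩ := h b (mem_insert_of_mem hb) w
      exact ⟨σ, h1, fun c hc => ⟨(h2 c hc).1, (h2 c hc).2.1, (h2 c hc).2.2.1,
        fun b' hb' => (h2 c hc).2.2.2 b' (mem_insert_of_mem hb')⟩⟩

end shift

theorem eq_of_sum_eq_one {I : Type*} {s : Finset I} {f : I → ℂ} (hf : ∀ i, ∃ n : ℕ, f i = n)
    (h : ∑ i ∈ s, f i = 1) {i j : I} (hi : i ∈ s) (hj : j ∈ s) (h1 : f i ≠ 0) (h2 : f j ≠ 0) : i = j := by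
  classical
  choose n hn using hf
  simp only [hn] at h h1 h2
  by_contra e
  have := Finset.add_le_sum (f := n) (fun _ _ => Nat.zero_le _) hi hj e
  have h3 : ∑ i ∈ s, n i = 1 := by exact_mod_cast h
  have : n i ≠ 0 := by exact_mod_cast h1
  have : n j ≠ 0 := by exact_mod_cast h2
  omega

end Cfsg.Lib.Char.MD
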