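import Cfsg.Agent.Char.McKay
import Cfsg.Agent.Block.GalPow

/-!
# Restriction bijection for an invariant character with irreducible restriction;
the McKay count of real characters of odd degree
-/

set_option autoImplicit false

open scoped ComplexConjugate commutatorElement Pointwise
open Cfsg

namespace Cfsg.Lib.Char

universe u w

section Res

variable {G A X : Type*} [Group G] [Group A] [Group X] {K N C : Subgroup G} {θ : K → ℂ}
  {ι : A →* X} {lam : A →* ℂˣ}

/-- restriction of a character triple to a supplement -/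
def CTriple.supplement (T : CTriple.{w} K.subtype θ ι lam) (hCK : C ≤ K) (hCN : C ≤ N)
    (hC : K ⊓ N ≤ C) (hsup : ∀ g : G, ∃ k ∈ K, ∃ n ∈ N, k * n = g)
    (hη : IsIrrCharacter C fun c => θ (Subgroup.inclusion hCK c)) :
    CTriple.{w} (Subgroup.inclusion hCN) (fun c => θ (Subgroup.inclusion hCK c)) ι lam where
  Γ := N.comap T.π
  π := T.π.subgroupComap N
  q := T.q.comp (N.comap T.π).subtype
  j := (T.j.comp (Subgroup.inclusion hCK)).codRestrict _ fun c => by
    rw [Subgroup.mem_comap, MonoidHom.comp_apply, T.π_j]; exact hCN c.2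
  b := T.b.codRestrict _ fun a => by
    rw [Subgroup.mem_comap, T.π_b]; exact N.one_mem
  Θ := fun γ => T.Θ γ
  π_surj := T.π.subgroupComap_surjective_of_surjective N T.π_surj
  q_surj := by
    intro x
    obtain ⟨γ, rfl⟩ := T.q_surj x
    obtain ⟨k, hk, n, hn, e⟩ := hsup (T.π γ)
    refine ⟨⟨(T.j ⟨k, hk⟩)⁻¹ * γ, ?_⟩, by simp⟩
    rw [Subgroup.mem_comap, map_mul, map_inv, T.π_j, ← e]
    simpa using hn
  i_inj := Subgroup.inclusion_injective _
  ι_inj := T.ι_inj
  π_j := fun c => Subtype.ext (T.π_j _)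
  q_b := fun a => T.q_b a
  range_j := by
    ext γ
    rw [MonoidHom.mem_ker]
    change _ ↔ (γ : T.Γ) ∈ T.q.ker
    rw [← T.range_j]
    refine ⟨fun ⟨c, hc⟩ => ⟨_, congrArg Subtype.val hc⟩, fun ⟨k, hk⟩ => ?_⟩
    have h1 : (k : G) ∈ N := by
      have := γ.2
      rwa [Subgroup.mem_comap, ← hk, T.π_j] at this
    exact ⟨⟨k, hC ⟨k.2, h1⟩⟩, Subtype.ext hk⟩
  range_b := by
    ext γ
    rw [MonoidHom.mem_ker, Subtype.ext_iff]
    change _ ↔ (γ : T.Γ) ∈ T.π.ker
    rw [← T.range_b]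
    exact ⟨fun ⟨n, hn⟩ => ⟨n, congrArg Subtype.val hn⟩, fun ⟨n, hn⟩ => ⟨n, Subtype.ext hn⟩⟩
  central := T.central
  isChar := T.isChar.res _
  irr := hη
  Θ_j := fun c => T.Θ_j _
  Θ_b := fun a γ => T.Θ_b a γ

end Res

/-- If `G = K N` and the invariant `θ` restricts irreducibly to `K ∩ N`, restriction is a bijection
between the characters over `θ` and those over its restriction. -/
theorem exists_res_equiv {G : Type u} [Group G] [Finite G] {K N C : Subgroup G} [K.Normal]
    (hCK : C ≤ K) (hCN : C ≤ N) (hC : K ⊓ N ≤ C) (hsup : K ⊔ N = ⊤) {θ : K → ℂ}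
    (hθ : IsIrrCharacter K θ) (hinv : ∀ g, InvBy K.subtype θ g)
    (hη : IsIrrCharacter C fun c => θ (Subgroup.inclusion hCK c)) :
    ∃ e : {χ : IrrCharacter G // Over K.subtype χ.1 θ} ≃ {ψ : IrrCharacter N //
      Over (Subgroup.inclusion hCN) ψ.1 fun c => θ (Subgroup.inclusion hCK c)},
      ∀ χ n, (e χ).1.1 n = χ.1.1 n := by
  have := Fintype.ofFinite K
  have := Fintype.ofFinite C
  obtain ⟨X, _, _, A, lam, T, -⟩ := exists_cTriple K hθ
    (fun g n => hinv g n _ rfl) (Deg.apply_one_eq hθ.isCharacter)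
  let T' := T.supplement hCK hCN hC (fun g => (Solv.mem_sup_of_le_normalizer (fun x _ =>
    Subgroup.le_normalizer_of_normal (Subgroup.mem_top x))).1 (hsup ▸ Subgroup.mem_top g)) hη
  refine ⟨((Equiv.subtypeEquivRight fun _ => over_iff).trans T.irrEquiv).trans
    ((Equiv.subtypeEquivRight fun _ => over_iff).trans T'.irrEquiv).symm, fun χ n => ?_⟩
  set β := T.irrEquiv ⟨χ.1, over_iff.1 χ.2⟩ with hβ
  have h1 := T.corr_irrEquiv ⟨χ.1, over_iff.1 χ.2⟩
  have h2 := T'.corr_irrEquiv (T'.irrEquiv.symm β)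
  rw [Equiv.apply_symm_apply] at h2
  have h3 : T'.Corr (fun n : N => χ.1.1 n) β.1.1 := fun γ => h1 γ.1
  exact congrFun (h2.left_unique h3) n

section Real

variable {N : Type*} {G : Type u} [Group N] [Group G]

/-- real-valued -/
def RealVal {G : Type*} (χ : G → ℂ) : Prop := ∀ g, (χ g).im = 0

theorem realVal_iff {G : Type*} {χ : G → ℂ} : RealVal χ ↔ (fun g => conj (χ g)) = χ := by
  simp only [RealVal, funext_iff, Complex.conj_eq_iff_im]

theorem RealVal.comp {G H : Type*} {χ : G → ℂ} (h : RealVal χ) (f : H → G) :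
    RealVal fun x => χ (f x) := fun _ => h _

theorem realVal_iff_inv [Finite G] {χ : G → ℂ} (hχ : IsCharacter G χ) :
    RealVal χ ↔ ∀ g, χ g⁻¹ = χ g := by
  simp only [realVal_iff, funext_iff, hχ.apply_inv]

/-- over a normal subgroup of odd index there is a unique real character over a real one -/
theorem exists_realVal_over [Finite G] {i : N →* G} (hi : Function.Injective i)
    (hN : i.range.Normal) (hodd : Odd i.range.index) {θ : N → ℂ} (hθ : IsIrrCharacter N θ)
    (hr : RealVal θ) : ∃ χ, IsIrrCharacter G χ ∧ RealVal χ ∧ Over i χ θ ∧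
      ((∀ g, InvBy i θ g) → ∀ n, χ (i n) = θ n) ∧
      ∀ χ', IsIrrCharacter G χ' → RealVal χ' → Over i χ' θ → χ' = χ := by
  have := Fintype.ofFinite i.range
  obtain ⟨k, hk, hk'⟩ := Block.exists_pow_eq_inv G
  have hinv : ∀ g : G, g ^ k * g ∈ i.range := fun g => by rw [hk', inv_mul_cancel]; exact one_mem _
  let θ' : IrrCharacter i.range := ⟨toRange hi θ, isIrr_toRange hi hθ⟩
  have hθ' : Block.powI (Block.coprime_card_subgroup hk i.range) θ' = θ' := by
    rw [Block.powI_eq_self_iff]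
    intro n
    have : n ^ k = n⁻¹ := Subtype.ext (hk' n)
    rw [this]
    exact (realVal_iff_inv θ'.2.isCharacter).1 (hr.comp _) n
  have hr' : ∀ χ : IrrCharacter G, Block.powI hk χ = χ ↔ RealVal χ.1 := fun χ => by
    rw [Block.powI_eq_self_iff, realVal_iff_inv χ.2.isCharacter]
    simp only [hk']
  have ho : ∀ χ : IrrCharacter G, Block.Over i.range χ.1 θ'.1 ↔ Over i χ.1 θ := fun χ => by
    rw [Block.over_iff, ← over_toRange hi, over_subtype_iff]
  obtain ⟨χ, ⟨h1, h2⟩, hu⟩ := Block.existsUnique_powI_eq_over hodd hk hinv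
    (hθ'.trans (Block.cjI_one θ').symm)
  refine ⟨χ.1, χ.2, (hr' χ).1 h2, (ho χ).1 h1, fun hG n => ?_, fun χ' h3 h4 h5 =>
    congrArg Subtype.val (hu ⟨χ', h3⟩ ⟨(ho ⟨χ', h3⟩).2 h5, (hr' ⟨χ', h3⟩).2 h4⟩)⟩
  rw [← toRange_apply hi θ n]
  exact Block.res_eq_of_powI_eq_of_over hodd hk hinv hθ'
    (fun g => Subtype.ext (funext (invariant_toRange hi hG g))) h1 h2 ⟨i n, n, rfl⟩

/-- the number of real irreducible characters of odd degree over `θ` -/
noncomputable def rcnt (i : N →* G) (θ : N → ℂ) : ℕ :=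
  Nat.card {χ : IrrCharacter G // (RealVal χ.1 ∧ ¬ 2 ∣ charDegree χ.1) ∧ Over i χ.1 θ}

theorem rcnt_congr {N' : Type*} {G' : Type u} [Group N'] [Group G'] {i : N →* G} {i' : N' →* G'}
    (e : G ≃* G') (f : N ≃* N') (h : ∀ n, e (i n) = i' (f n)) {θ : N → ℂ} {θ' : N' → ℂ}
    (hθ : ∀ n, θ n = θ' (f n)) : rcnt i θ = rcnt i' θ' := by
  refine Nat.card_congr ((irrCongr e).subtypeEquiv fun χ => and_congr (and_congr ?_ ?_) ?_)
  · exact ⟨fun h => h.comp _, fun h g => by simpa using h (e g)⟩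
  · rw [Deg.deg_congr (χ := χ.1) (φ := (irrCongr e χ).1) (by simp)]
  · exact Over.congr f (fun n => by simp [← h]) hθ

theorem rcnt_top (L : Subgroup G) (ν : L → ℂ) :
    rcnt (Subgroup.inclusion (le_top : L ≤ ⊤)) ν = rcnt L.subtype ν :=
  rcnt_congr Subgroup.topEquiv (MulEquiv.refl L) (fun _ => rfl) (fun _ => rfl)

theorem rcnt_inclusion_congr {L X Y : Subgroup G} (h : X = Y) (hX : L ≤ X) (hY : L ≤ Y)
    (ν : L → ℂ) : rcnt (Subgroup.inclusion hX) ν = rcnt (Subgroup.inclusion hY) ν := by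
  subst h; rfl

theorem rcnt_clifford [Finite G] {T : Type u} [Group T] {i : N →* G} {j : T →* G} {k : N →* T}
    {θ : N → ℂ} (hi : Function.Injective i) (hN : i.range.Normal)
    (hj : Function.Injective j) (hk : ∀ n, j (k n) = i n) (hθ : IsIrrCharacter N θ)
    (hr : RealVal θ) (hT : ∀ g, InvBy i θ g → g ∈ j.range) (hpT : ¬ 2 ∣ j.range.index) :
    rcnt i θ = rcnt k θ := by
  have : Finite N := Finite.of_injective i hi
  have : Finite T := Finite.of_injective j hj
  obtain ⟨e, he', he⟩ := exists_clifford_equiv hi hN hj hk hθ hT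
  rw [rcnt, rcnt, card_and_eq _ fun χ : IrrCharacter G => Over i χ.1 θ,
    card_and_eq _ fun χ : IrrCharacter T => Over k χ.1 θ]
  refine (Nat.card_congr (e.subtypeEquiv fun ψ => and_congr ?_ ?_)).symm
  · have h1 := ((he' ψ (e ψ)).1 rfl).conj
    have h2 := ψ.2.conj
    have h3 := (e ψ).2.conj
    rw [realVal_iff.1 hr] at h2 h3
    rw [realVal_iff, realVal_iff]
    constructor
    · intro h
      rw [h] at h1
      exact (congrArg (fun x => x.1.1) ((he' ψ ⟨⟨_, (e ψ).1.2.conj⟩, h3⟩).2 h1)).symm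
    · intro h
      rw [h] at h1
      exact congrArg (fun x => x.1.1)
        (e.injective ((he' ⟨⟨_, ψ.1.2.conj⟩, h2⟩ (e ψ)).2 h1))
  · rw [he, Nat.prime_two.dvd_mul]
    tauto

theorem rcard_fiber_over {L M : Type*} [Group L] [Group M] [Finite G]
    [Finite M] {i : L →* G} {j : M →* G} {k : L →* M} (hk : ∀ n, j (k n) = i n)
    (hi : Function.Injective i) (hN : i.range.Normal) {ν : L → ℂ} (hν : IsIrrCharacter L ν)
    (hinv : ∀ g, InvBy i ν g) {φ : M → ℂ} (hφ : IsIrrCharacter M φ) [Decidable (Over k φ ν)] :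
    Nat.card {a : {χ : IrrCharacter G // (RealVal χ.1 ∧ ¬ 2 ∣ charDegree χ.1) ∧ Over i χ.1 ν} //
      Over j a.1.1 φ} = if Over k φ ν then rcnt j φ else 0 := by
  split_ifs with h
  · refine Nat.card_congr ((Equiv.subtypeSubtypeEquivSubtypeInter _
      (fun χ : IrrCharacter G => Over j χ.1 φ)).trans (Equiv.subtypeEquivRight fun χ => ?_))
    exact ⟨fun h' => ⟨h'.1.1, h'.2⟩, fun h' =>
      ⟨⟨h'.1, (over_iff_of_over hk hi hN hν hinv χ.2 hφ h'.2).2 h⟩, h'.2⟩⟩
  · rw [Nat.card_eq_zero]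
    exact Or.inl ⟨fun a => h ((over_iff_of_over hk hi hN hν hinv a.1.1.2 hφ a.2).1 a.1.2.2)⟩

variable [Finite G] (S : Sylow 2 G)

theorem mem_of_sq_mem {I : Subgroup G} (hS : (S : Subgroup G) ≤ I) {n : G}
    (hn : n ∈ Subgroup.normalizer ((S : Subgroup G) : Set G)) (h : n * n ∈ I) : n ∈ I := by
  have h1 := not_dvd_relIndex_of_sylow_le S le_rfl (Subgroup.le_normalizer (H := (S : Subgroup G)))
  have : ((S : Subgroup G).subgroupOf (Subgroup.normalizer ((S : Subgroup G) : Set G))).Normal :=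
    Subgroup.normal_in_normalizer
  have h2 : n ^ (S : Subgroup G).relIndex (Subgroup.normalizer ((S : Subgroup G) : Set G)) ∈ S :=
    Subgroup.pow_index_mem ((S : Subgroup G).subgroupOf _) ⟨n, hn⟩
  obtain ⟨m, hm⟩ := Nat.odd_iff.2 (Nat.two_dvd_ne_zero.1 h1)
  rw [hm, pow_succ, pow_mul, pow_two] at h2
  exact (I.mul_mem_cancel_left (I.pow_mem h m)).1 (hS h2)

theorem exists_real_sylow_inv_under {K X : Subgroup G} [K.Normal] (hKX : K ≤ X)
    (hSX : (S : Subgroup G) ≤ X) {χ : X → ℂ} (hχ : IsIrrCharacter X χ) (hr : RealVal χ)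
    (hd : ¬ 2 ∣ charDegree χ) :
    ∃ θ, IsIrrCharacter K θ ∧ RealVal θ ∧ (S : Subgroup G) ≤ inertia K θ ∧
      Over (Subgroup.inclusion hKX) χ θ := by
  obtain ⟨θ, h1, h2, h3⟩ := exists_sylow_inv_under S hKX hSX hχ hd
  refine ⟨θ, h1, ?_, h2, h3⟩
  have h4 := h3.conj
  rw [realVal_iff.1 hr] at h4
  obtain ⟨n, hn, e⟩ := exists_normalizer_conjChar S hKX hχ h1 h1.conj h2
    (by rw [inertia_conj]; exact h2) h3 h4
  have h5 : n * n ∈ inertia K θ := by
    rw [mem_inertia, conjChar_mul, e, conjChar_conj, e]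
    simp
  rw [realVal_iff, ← e]
  exact mem_inertia.1 (mem_of_sq_mem S h2 hn h5)

theorem rcnt_eq_of_forall_inv {L K X Y : Subgroup G} [L.Normal] [K.Normal] (hLK : L ≤ K)
    (hKX : K ≤ X) (hKY : K ≤ Y) (hX : Subgroup.normalizer ((S : Subgroup G) : Set G) ≤ X)
    (hY : Subgroup.normalizer ((S : Subgroup G) : Set G) ≤ Y) {ν : L → ℂ}
    (hν : IsIrrCharacter L ν) (hinv : ∀ g, InvBy L.subtype ν g)
    (h : ∀ θ, IsIrrCharacter K θ → RealVal θ → (S : Subgroup G) ≤ inertia K θ →
      rcnt (Subgroup.inclusion hKX) θ = rcnt (Subgroup.inclusion hKY) θ) :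
    rcnt (Subgroup.inclusion (hLK.trans hKX)) ν = rcnt (Subgroup.inclusion (hLK.trans hKY)) ν := by
  classical
  have hn : ∀ Z : Subgroup G, Z ≤ Subgroup.normalizer (L : Set G) := fun Z x _ =>
    Subgroup.le_normalizer_of_normal (Subgroup.mem_top x)
  refine card_eq_of_double
    (X := {θ : IrrCharacter K // RealVal θ.1 ∧ (S : Subgroup G) ≤ inertia K θ.1})
    (fun a θ => Over (Subgroup.inclusion hKX) a.1.1 θ.1.1)
    (fun b θ => Over (Subgroup.inclusion hKY) b.1.1 θ.1.1)
    (fun θ θ' => ∃ n ∈ Subgroup.normalizer ((S : Subgroup G) : Set G), conjChar K θ.1.1 n = θ'.1.1)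
    (fun a => ?_) (fun a θ h θ' => ?_) (fun a => ?_) (fun a θ h θ' => ?_) (fun θ => ?_)
  · obtain ⟨θ, h1, h0, h2, h3⟩ := exists_real_sylow_inv_under S hKX
      (Subgroup.le_normalizer.trans hX) a.1.2 a.2.1.1 a.2.1.2
    exact ⟨⟨⟨θ, h1⟩, h0, h2⟩, h3⟩
  · exact ⟨exists_normalizer_conjChar S hKX a.1.2 θ.1.2 θ'.1.2 θ.2.2 θ'.2.2 h, fun ⟨n, hn, e⟩ =>
      e ▸ (over_conjChar hKX a.1.2.isClassFunction (hX hn)).2 h⟩
  · obtain ⟨θ, h1, h0, h2, h3⟩ := exists_real_sylow_inv_under S hKY
      (Subgroup.le_normalizer.trans hY) a.1.2 a.2.1.1 a.2.1.2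
    exact ⟨⟨⟨θ, h1⟩, h0, h2⟩, h3⟩
  · exact ⟨exists_normalizer_conjChar S hKY a.1.2 θ.1.2 θ'.1.2 θ.2.2 θ'.2.2 h, fun ⟨n, hn, e⟩ =>
      e ▸ (over_conjChar hKY a.1.2.isClassFunction (hY hn)).2 h⟩
  · rw [rcard_fiber_over (k := Subgroup.inclusion hLK) (fun _ => rfl)
        (Subgroup.inclusion_injective _) (normal_range_inclusion _ (hn X)) hν
        (fun g => (invBy_inclusion _).2 (hinv g)) θ.1.2,
      rcard_fiber_over (k := Subgroup.inclusion hLK) (fun _ => rfl)
        (Subgroup.inclusion_injective _) (normal_range_inclusion _ (hn Y)) hν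
        (fun g => (invBy_inclusion _).2 (hinv g)) θ.1.2, h θ.1.1 θ.1.2 θ.2.1 θ.2.2]

/-- passing to the unique real character of an odd extension -/
theorem rcnt_eq_of_odd {L K X : Subgroup G} [L.Normal] (hLK : L ≤ K) (hKX : K ≤ X)
    (hSX : (S : Subgroup G) ≤ X) {K' : Subgroup G} [K'.Normal] (hK' : K = K' ⊓ X)
    (hodd : Odd (L.relIndex K)) {ν : L → ℂ} (hν : IsIrrCharacter L ν) (hr : RealVal ν)
    (hinv : ∀ g, InvBy L.subtype ν g) {θ : K → ℂ} (hθ : IsIrrCharacter K θ) (hθr : RealVal θ)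
    (ho : Over (Subgroup.inclusion hLK) θ ν) :
    rcnt (Subgroup.inclusion (hLK.trans hKX)) ν = rcnt (Subgroup.inclusion hKX) θ := by
  have hn : ∀ Z : Subgroup G, Z ≤ Subgroup.normalizer (L : Set G) := fun Z x _ =>
    Subgroup.le_normalizer_of_normal (Subgroup.mem_top x)
  refine Nat.card_congr (Equiv.subtypeEquivRight fun χ => and_congr_right fun h => ?_)
  refine ⟨fun h' => ?_, fun h' => h'.trans (k := Subgroup.inclusion hLK) (fun _ => rfl)
    χ.2.isCharacter hθ hν.isCharacter ho⟩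
  have hKn : (K.subgroupOf X).Normal := ⟨fun k hk x => by
    rw [hK'] at hk ⊢
    exact ⟨‹K'.Normal›.conj_mem _ hk.1 _, (x * k * x⁻¹).2⟩⟩
  obtain ⟨φ, h1, h2, -, h3⟩ := exists_real_sylow_inv_under (S.subtype hSX)
    (le_top : K.subgroupOf X ≤ ⊤) le_top (χ.2.comp_equiv Subgroup.topEquiv) (h.1.comp _)
    h.2
  let f := Subgroup.subgroupOfEquivOfLe hKX
  have h4 : Over (Subgroup.inclusion hKX) χ.1 fun k => φ (f.symm k) :=
    (Over.congr f (fun _ => rfl) (fun _ => rfl)).1 h3
  obtain ⟨ξ, -, -, -, -, hu⟩ := exists_realVal_over (Subgroup.inclusion_injective hLK)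
    (normal_range_inclusion hLK (hn K)) (by rwa [index_range_inclusion]) hν hr
  rwa [hu θ hθ hθr ho, ← hu _ (h1.comp_equiv f.symm) (h2.comp _)
    ((over_iff_of_over (k := Subgroup.inclusion hLK) (fun _ => rfl) (Subgroup.inclusion_injective _)
      (normal_range_inclusion _ (hn X)) hν (fun g => (invBy_inclusion _).2 (hinv g)) χ.2
      (h1.comp_equiv f.symm) h4).1 h')]

theorem rcnt_normal {L K N : Subgroup G} [L.Normal] [K.Normal] (hLK : L ≤ K) (hLN : L ≤ N)
    (hSN : (S : Subgroup G) ≤ N) (hsup : K ⊔ N = ⊤) (hodd : Odd (L.relIndex K)) {ν : L → ℂ}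
    (hν : IsIrrCharacter L ν) (hr : RealVal ν) (hinv : ∀ g, InvBy L.subtype ν g) :
    rcnt L.subtype ν = rcnt (Subgroup.inclusion hLN) ν := by
  have hn : ∀ {Z : Subgroup G} [Z.Normal] (g : G), g ∈ Subgroup.normalizer (Z : Set G) :=
    fun x => Subgroup.le_normalizer_of_normal (Subgroup.mem_top x)
  obtain ⟨θ, h1, h2, h3, h4, hu⟩ := exists_realVal_over (Subgroup.inclusion_injective hLK)
    (normal_range_inclusion hLK fun x _ => hn x) (by rwa [index_range_inclusion]) hν hr
  have h5 := h4 fun g => (invBy_inclusion _).2 (hinv g)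
  have hθi : ∀ g, InvBy K.subtype θ g := fun g => by
    rw [invBy_iff_conjAut (hn g)]
    refine hu _ (h1.comp_equiv _) (h2.comp _) (over_of_ext hν fun l => ?_)
    rw [← hinv g l (conjAut L (hn g) l) rfl, ← h5]
    rfl
  have hLC : L ≤ K ⊓ N := le_inf hLK hLN
  have hη : IsIrrCharacter (K ⊓ N : Subgroup G) fun c => θ (Subgroup.inclusion inf_le_left c) :=
    (h1.isCharacter.comp _).isIrrCharacter_of_comp (Subgroup.inclusion hLC)
      ((funext h5 : (fun k => θ (Subgroup.inclusion hLK k)) = ν) ▸ hν)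
  rw [← rcnt_top, rcnt_eq_of_odd S hLK le_top le_top (inf_top_eq K).symm hodd hν hr hinv h1 h2 h3,
    rcnt_top, rcnt_eq_of_odd S hLC inf_le_right hSN rfl
      (hodd.of_dvd_nat (by
        rw [← Solv.card_map_mk', ← Solv.card_map_mk']
        exact Subgroup.card_dvd_of_le (Subgroup.map_mono inf_le_left))) hν hr hinv hη (h2.comp _)
      (over_of_ext hν h5)]
  obtain ⟨e, he⟩ := exists_res_equiv inf_le_left inf_le_right le_rfl hsup h1 hθi hη
  rw [rcnt, rcnt, card_and_eq _ fun χ : IrrCharacter G => Over K.subtype χ.1 θ,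
    card_and_eq _ fun χ : IrrCharacter N => Over (Subgroup.inclusion inf_le_right) χ.1
      fun c => θ (Subgroup.inclusion inf_le_left c)]
  refine Nat.card_congr (e.subtypeEquiv fun χ => and_congr ?_ ?_)
  · refine ⟨fun h n => by rw [he]; exact h _, fun h => ?_⟩
    have h6 := χ.2.conj
    rw [realVal_iff.1 h2] at h6
    rw [realVal_iff]
    refine congrArg (fun x => x.1.1) (e.injective (a₁ := ⟨⟨_, χ.1.2.conj⟩, h6⟩) (a₂ := χ)
      (Subtype.ext (Subtype.ext (funext fun n => ?_))))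
    rw [he, ← congrFun (realVal_iff.1 h) n, he]
  · rw [Deg.deg_congr (χ := (e χ).1.1) (φ := χ.1.1) (he χ 1)]

end Real

/-- The relative real McKay statement for index `n`. -/
def RealMcKayStmt (n : ℕ) : Prop :=
  ∀ (G : Type u) [Group G] [Finite G], IsPSolvable 2 G → ∀ (L : Subgroup G) [L.Normal]
    (S : Sylow 2 G) (hLN : L ≤ Subgroup.normalizer ((L ⊔ S : Subgroup G) : Set G)) (ν : L → ℂ),
    IsIrrCharacter L ν → RealVal ν → (∀ s ∈ (S : Subgroup G), InvBy L.subtype ν s) → L.index = n →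
    rcnt L.subtype ν = rcnt (Subgroup.inclusion hLN) ν

theorem RealMcKayStmt.sub {n : ℕ} (h : RealMcKayStmt.{u} n) {G : Type u} [Group G] [Finite G]
    {L X : Subgroup G} [L.Normal] (hX : IsPSolvable 2 X) (S : Sylow 2 G) (hLX : L ≤ X)
    (hSX : (S : Subgroup G) ≤ X)
    (hLN : L ≤ X ⊓ Subgroup.normalizer ((L ⊔ S : Subgroup G) : Set G)) {ν : L → ℂ}
    (hν : IsIrrCharacter L ν) (hr : RealVal ν) (hi : ∀ s ∈ (S : Subgroup G), InvBy L.subtype ν s)
    (hn : L.relIndex X = n) :
    rcnt (Subgroup.inclusion hLX) ν = rcnt (Subgroup.inclusion hLN) ν := by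
  let f := Subgroup.subgroupOfEquivOfLe hLX
  have hN : Subgroup.normalizer
      ((L.subgroupOf X ⊔ (S.subtype hSX : Subgroup X) : Subgroup X) : Set X) =
      (Subgroup.normalizer ((L ⊔ S : Subgroup G) : Set G)).subgroupOf X := by
    rw [Sylow.coe_subtype, ← Subgroup.subgroupOf_sup hLX hSX,
      Subgroup.subgroupOf_normalizer_eq (sup_le hLX hSX)]
  have := h X hX (L.subgroupOf X) (S.subtype hSX)
    (le_sup_left.trans Subgroup.le_normalizer) (fun l => ν (f l)) (hν.comp_equiv f) (hr.comp _)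
    (fun s hs a b e => hi s hs _ _ (congrArg Subtype.val e)) hn
  rw [rcnt_inclusion_congr hN _ (fun l hl => (hLN hl).2)] at this
  refine (rcnt_congr (MulEquiv.refl X) f (fun _ => rfl) (fun _ => rfl)).symm.trans
    (this.trans (rcnt_congr ?_ f ?_ fun _ => rfl))
  · exact
      { toFun := fun x => ⟨x, (x : X).2, x.2⟩
        invFun := fun x => ⟨⟨x, x.2.1⟩, x.2.2⟩
        left_inv := fun _ => rfl
        right_inv := fun _ => rfl
        map_mul' := fun _ _ => rfl }
  · exact fun _ => rfl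

theorem realMcKayStmt (n : ℕ) : RealMcKayStmt.{u} n := by
  induction n using Nat.strong_induction_on with
  | _ n ih =>
  intro G _ _ hG L hLn S hLN ν hν hr hi hn
  have hLr : L.subtype.range.Normal := by rw [Subgroup.range_subtype]; exact hLn
  have hnorm : ∀ {Z : Subgroup G} [Z.Normal] (W : Subgroup G),
      W ≤ Subgroup.normalizer (Z : Set G) := fun W x _ =>
    Subgroup.le_normalizer_of_normal (Subgroup.mem_top x)
  have hsub : ∀ X : Subgroup G, L ≤ X → X ≠ ⊤ → L.relIndex X < n := by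
    intro X hLX hXt
    rw [← hn, ← Subgroup.relIndex_mul_index hLX]
    have h1 : 1 < X.index := Subgroup.one_lt_index_of_ne_top hXt
    have h2 : 0 < L.relIndex X := Nat.pos_of_ne_zero Subgroup.index_ne_zero_of_finite
    nlinarith
  set N := Subgroup.normalizer ((L ⊔ S : Subgroup G) : Set G) with hN
  set T := inertia L ν with hT
  have hLT : L ≤ T := le_inertia hν.isClassFunction
  have hST : (S : Subgroup G) ≤ T := fun s hs => invBy_subtype_iff.1 (hi s hs)
  have hSN : (S : Subgroup G) ≤ N := le_sup_right.trans Subgroup.le_normalizer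
  by_cases hTt : T = ⊤
  swap
  · rw [rcnt_clifford L.subtype_injective hLr T.subtype_injective
        (k := Subgroup.inclusion hLT) (fun _ => rfl) hν hr
        (fun g hg => by rw [Subgroup.range_subtype]; exact invBy_subtype_iff.1 hg)
        (by
          rw [Subgroup.range_subtype]
          exact fun h => S.not_dvd_index (h.trans (Subgroup.index_dvd_of_le hST))),
      rcnt_clifford (Subgroup.inclusion_injective hLN) (normal_range_inclusion hLN (hnorm _))
        (Subgroup.inclusion_injective (inf_le_right : T ⊓ N ≤ N))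
        (k := Subgroup.inclusion (le_inf hLT hLN)) (fun _ => rfl) hν hr
        (fun g hg => ⟨⟨g, invBy_subtype_iff.1 ((invBy_inclusion _).1 hg), g.2⟩, rfl⟩)
        (by
          rw [index_range_inclusion]
          exact not_dvd_relIndex_of_sylow_le S (le_inf hST hSN) inf_le_right)]
    exact (ih _ (hsub T hLT hTt)).sub (hG.subgroup T) S hLT hST _ hν hr hi rfl
  have hinv : ∀ g, InvBy L.subtype ν g := fun g => invBy_subtype_iff.2 (by
    rw [← hT, hTt]; exact Subgroup.mem_top g)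
  by_cases htop : N = ⊤
  · rw [rcnt_inclusion_congr htop hLN le_top, rcnt_top]
  have hLt : L ≠ ⊤ := by
    rintro rfl
    exact htop (top_le_iff.1 hLN)
  obtain ⟨M, hMn, hM0, -, hM⟩ := ((hG.quotient L).subgroup ⊤).exists_normal_le (by
    have := QuotientGroup.nontrivial_iff.2 hLt
    exact top_ne_bot)
  set K := M.comap (QuotientGroup.mk' L) with hK
  have hLK : L ≤ K := fun x hx => by
    rw [hK, Subgroup.mem_comap, QuotientGroup.mk'_apply, (QuotientGroup.eq_one_iff x).2 hx]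
    exact M.one_mem
  have hMK : K.map (QuotientGroup.mk' L) = M :=
    Subgroup.map_comap_eq_self_of_surjective (QuotientGroup.mk'_surjective L) M
  have hrel : L.relIndex K = Nat.card M := by rw [← Solv.card_map_mk', hMK]
  have hlt : K.index < n := by
    rw [← hn, ← Subgroup.relIndex_mul_index hLK, hrel]
    have h1 : 1 < Nat.card M := (Subgroup.one_lt_card_iff_ne_bot M).2 hM0
    have h2 := Nat.pos_of_ne_zero K.index_ne_zero_of_finite
    nlinarith
  set X := Subgroup.normalizer ((K ⊔ S : Subgroup G) : Set G) with hX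
  have hKX : K ≤ X := le_sup_left.trans Subgroup.le_normalizer
  have hNX : Subgroup.normalizer ((S : Subgroup G) : Set G) ≤ X :=
    Solv.le_normalizer_sup (hnorm _) le_rfl
  have hNN : Subgroup.normalizer ((S : Subgroup G) : Set G) ≤ N :=
    Solv.le_normalizer_sup (hnorm _) le_rfl
  by_cases hXt : X = ⊤
  · have hKS : (K ⊔ S).Normal := Subgroup.normalizer_eq_top_iff.1 hXt
    rcases hM with hM | hM
    · exfalso
      apply htop
      have h1 : K ≤ L ⊔ S := by
        have := hM.le_sylow_of_normal (S.mapSurjective (QuotientGroup.mk'_surjective L))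
        have h2 := Subgroup.comap_mono (f := QuotientGroup.mk' L) this
        rwa [Sylow.coe_mapSurjective, Subgroup.comap_map_eq, QuotientGroup.ker_mk',
          sup_comm] at h2
      rw [hN, ← le_antisymm (sup_le h1 le_sup_right) (sup_le_sup_right hLK _)]
      exact hXt
    · refine rcnt_normal S hLK hLN hSN ?_ (hrel ▸ Nat.coprime_two_right.1 hM) hν hr hinv
      rw [eq_top_iff, ← S.normalizer_sup_eq_top' (le_sup_right : (S : Subgroup G) ≤ K ⊔ S)]
      exact sup_le (hNN.trans le_sup_right) (sup_le_sup_left hSN _)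
  · have h1 := rcnt_eq_of_forall_inv S hLK le_top hKX le_top hNX hν hinv fun θ hθ hθr hi => by
      rw [rcnt_top]
      exact ih _ hlt G hG K S hKX θ hθ hθr (fun s hs => invBy_subtype_iff.2 (hi hs)) rfl
    rw [rcnt_top] at h1
    have hLX := hLK.trans hKX
    rw [h1, (ih _ (hsub X hLX hXt)).sub (hG.subgroup X) S hLX (Subgroup.le_normalizer.trans hNX)
      (le_inf hLX hLN) hν hr hi rfl]
    refine rcnt_inclusion_congr (inf_eq_right.2 ?_) _ _ ν
    have : K ⊔ S = K ⊔ (L ⊔ S) := by rw [← sup_assoc, sup_eq_left.2 hLK]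
    rw [hX, this]
    exact Solv.le_normalizer_sup (hnorm _) le_rfl

theorem rcnt_bot {G : Type u} {H : Type*} [Group G] [Group H] [Subsingleton H] (i : H →* G) :
    rcnt i (fun _ => 1) =
      Nat.card {χ : IrrCharacter G // RealVal χ.1 ∧ ¬ 2 ∣ charDegree χ.1} := by
  refine Nat.card_congr (Equiv.subtypeEquivRight fun χ => and_iff_left ?_)
  have : Unique H := uniqueOfSubsingleton 1
  rw [Over, finsum_unique, Subsingleton.elim default (1 : H)]
  simpa using χ.2.apply_one_ne_zero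

/-- The McKay count of real characters of odd degree. -/
theorem mckay_real {G : Type u} [Group G] [Finite G] (hG : IsPSolvable 2 G) (S : Sylow 2 G) :
    Nat.card {χ : IrrCharacter G // RealVal χ.1 ∧ ¬ 2 ∣ charDegree χ.1} =
      Nat.card {χ : IrrCharacter (Subgroup.normalizer ((S : Subgroup G) : Set G)) //
        RealVal χ.1 ∧ ¬ 2 ∣ charDegree χ.1} := by
  have := realMcKayStmt _ G hG ⊥ S bot_le _ isIrrCharacter_one (fun _ => Complex.one_im)
    (fun _ _ _ _ _ => rfl) rfl
  rw [rcnt_inclusion_congr (by rw [bot_sup_eq]) _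
    (bot_le : ⊥ ≤ Subgroup.normalizer ((S : Subgroup G) : Set G)), rcnt_bot, rcnt_bot] at this
  exact this

end Cfsg.Lib.Char
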