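import Cfsg.Agent.Char.AbComp
import Cfsg.Agent.Class.RootSL

/-! Averages of characters over pairs of transvection groups in subspace stabilisers of `SL`. -/

set_option autoImplicit false

namespace Cfsg.Lib.Char

theorem sum_family_mul {H I : Type*} [Group H] [Finite H] [Fintype I] (t : I → H)
    (ht : ∀ h : H, ∃ e : I → I, Function.Injective e ∧ ∀ i, h * t i * h⁻¹ = t (e i))
    {η : H → ℂ} (hη : IsIrrCharacter H η) (x : H) :
    ∑ i, η (t i * x) = (∑ i, η (t i)) * η x / η 1 := by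
  classical
  let := Fintype.ofFinite H
  let φ : H → ℂ := fun g => ∑ i, if t i = g then 1 else 0
  have hφ : IsClassFunction H φ := by
    intro g h
    obtain ⟨e, he, h1⟩ := ht h
    simp only [φ]
    rw [← (Equiv.ofBijective e (Finite.injective_iff_bijective.1 he)).sum_comp]
    refine Finset.sum_congr rfl fun i _ => ?_
    simp [← h1]
  have key : ∀ f : H → ℂ, ∑ g, φ g * f g = ∑ i, f (t i) := by
    intro f
    simp only [φ, Finset.sum_mul]
    rw [Finset.sum_comm]
    simp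
  have := hη.sum_mul_apply_mul hφ x
  rwa [key (fun g => η (g * x)), key] at this

theorem card_eq_mul_card_ker {F U : Type*} [Field F] [AddCommGroup U] [Module F U] (f : U →ₗ[F] F)
    {x : U} (hx : f x = 1) : Nat.card U = Nat.card F * Nat.card (LinearMap.ker f) := by
  have hf : Function.Surjective f := fun c => ⟨c • x, by simp [hx]⟩
  rw [Submodule.card_eq_card_quotient_mul_card (LinearMap.ker f),
    Nat.card_congr (f.quotKerEquivOfSurjective hf).toEquiv, mul_comm]

namespace SLDeg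

open Matrix Cfsg.Lib.Class

variable {ι : Type*} [Fintype ι] [DecidableEq ι] {F : Type*} [Field F]

/-- the annihilator of a vector -/
def ann (v : ι → F) : Submodule F (ι → F) where
  carrier := {φ | φ ⬝ᵥ v = 0}
  add_mem' := fun {a b} ha hb => by
    simp only [Set.mem_ofPred_eq] at *
    rw [add_dotProduct, ha, hb, add_zero]
  zero_mem' := zero_dotProduct v
  smul_mem' := fun c a ha => by
    simp only [Set.mem_ofPred_eq] at *
    rw [smul_dotProduct, ha, smul_zero]

omit [DecidableEq ι] in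
theorem mem_ann {v φ : ι → F} : φ ∈ ann v ↔ φ ⬝ᵥ v = 0 := Iff.rfl

/-- pairing with a vector -/
def dotL (U : Submodule F (ι → F)) (w : ι → F) : U →ₗ[F] F where
  toFun φ := φ.1 ⬝ᵥ w
  map_add' a b := add_dotProduct _ _ _
  map_smul' c a := smul_dotProduct _ _ _

omit [DecidableEq ι] in
theorem card_inf_ann (U : Submodule F (ι → F)) {w φ : ι → F} (hφ : φ ∈ U) (h : φ ⬝ᵥ w = 1) :
    Nat.card U = Nat.card F * Nat.card (U ⊓ ann w : Submodule F (ι → F)) := by
  rw [card_eq_mul_card_ker (dotL U w) (x := ⟨φ, hφ⟩) h]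
  congr 1
  exact Nat.card_congr ⟨fun x => ⟨x.1.1, x.1.2, x.2⟩, fun x => ⟨⟨x.1, x.2.1⟩, x.2.2⟩, fun _ => rfl,
    fun _ => rfl⟩

theorem card_ann {v : ι → F} (hv : v ≠ 0) :
    Nat.card F ^ Fintype.card ι = Nat.card F * Nat.card (ann v) := by
  obtain ⟨f, hf⟩ := exists_dot_eq_one hv
  have := card_inf_ann ⊤ Submodule.mem_top hf
  rwa [top_inf_eq, Nat.card_congr Submodule.topEquiv.toEquiv, Nat.card_fun,
    Nat.card_eq_fintype_card (α := ι)] at this

/-- stabiliser of a subspace -/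
def St (W : Submodule F (ι → F)) : Subgroup (SpecialLinearGroup ι F) where
  carrier := {g | ∀ x, (g : Matrix ι ι F) *ᵥ x ∈ W ↔ x ∈ W}
  one_mem' := fun x => by simp
  mul_mem' := fun {a b} ha hb x => by rw [SL_mul_mulVec, ha, hb]
  inv_mem' := fun {a} ha x => by
    rw [← ha, ← SL_mul_mulVec, mul_inv_cancel]; simp

theorem tvS_mem_St {W : Submodule F (ι → F)} {v : ι → F} (hv : v ∈ W) (φ : ι → F) :
    tvS v φ ∈ St W := by
  by_cases h : φ ⬝ᵥ v = 0
  · intro x
    rw [tvS_mulVec h, Submodule.add_mem_iff_left _ (W.smul_mem _ hv)]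
  · rw [tvS, dif_neg h]; exact one_mem _

open Classical in
/-- a transvection as an element of the stabiliser -/
noncomputable def tW (W : Submodule F (ι → F)) (v φ : ι → F) : St W :=
  if h : v ∈ W then ⟨tvS v φ, tvS_mem_St h φ⟩ else 1

theorem coe_tW {W : Submodule F (ι → F)} {v : ι → F} (hv : v ∈ W) (φ : ι → F) :
    (tW W v φ : SpecialLinearGroup ι F) = tvS v φ := by
  rw [tW, dif_pos hv]

/-- the group of transvections with centre `v` -/
noncomputable def zR (v : ι → F) : AddChar (ann v) (SpecialLinearGroup ι F) where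
  toFun φ := tvS v φ
  map_zero_eq_one' := tvS_zero_right v
  map_add_eq_mul' a b := tvS_add_right a.2 b.2

/-- the group of transvections with centre `v` in a stabiliser -/
noncomputable def zW {W : Submodule F (ι → F)} {v : ι → F} (hv : v ∈ W) : AddChar (ann v) (St W) where
  toFun φ := tW W v φ
  map_zero_eq_one' := Subtype.ext (by simp [coe_tW hv])
  map_add_eq_mul' a b := Subtype.ext (by simp [coe_tW hv, tvS_add_right a.2 b.2])

variable [Fintype F] {W : Submodule F (ι → F)}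

noncomputable instance instFintypeSub (U : Submodule F (ι → F)) : Fintype U := Fintype.ofFinite U

/-- sum over a transvection group -/
noncomputable def cS (η : St W → ℂ) (v : ι → F) : ℂ := ∑ φ : ann v, η (tW W v φ)

/-- sum over the products of two transvection groups -/
noncomputable def ES (η : St W → ℂ) (w v : ι → F) : ℂ :=
  ∑ ψ : ann w, ∑ φ : ann v, η (tW W w ψ * tW W v φ)

theorem sum_conj (h : St W) {v : ι → F} (hv : v ∈ W) (f : St W → ℂ) :
    ∑ φ : ann ((h.1 : Matrix ι ι F) *ᵥ v), f (tW W ((h.1 : Matrix ι ι F) *ᵥ v) φ) =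
      ∑ φ : ann v, f (h * tW W v φ * h⁻¹) := by
  symm
  refine Fintype.sum_bijective (fun φ => ⟨φ.1 ᵥ* ((h.1⁻¹ : SpecialLinearGroup ι F) : Matrix ι ι F),
    (SL_vecMul_inv_dot_mulVec _ _ _).trans φ.2⟩) ⟨fun a b e => Subtype.ext ?_, fun b =>
      ⟨⟨b.1 ᵥ* (h.1 : Matrix ι ι F), by rw [mem_ann, ← dotProduct_mulVec]; exact b.2⟩,
        Subtype.ext ?_⟩⟩ _ _ fun φ => ?_
  · have := congrArg (fun x : ann _ => x.1 ᵥ* (h.1 : Matrix ι ι F)) e
    simpa only [vecMul_vecMul, ← Matrix.SpecialLinearGroup.coe_mul, inv_mul_cancel,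
      Matrix.SpecialLinearGroup.coe_one, vecMul_one] using this
  · simp only [vecMul_vecMul, ← Matrix.SpecialLinearGroup.coe_mul, mul_inv_cancel,
      Matrix.SpecialLinearGroup.coe_one, vecMul_one]
  · congr 1
    refine Subtype.ext ?_
    rw [coe_tW ((h.2 v).2 hv), ← conj_tvS _ φ.2]
    simp [coe_tW hv]

theorem sum_smul {v : ι → F} (hv : v ∈ W) {a : F} (ha : a ≠ 0) (f : St W → ℂ) :
    ∑ φ : ann (a • v), f (tW W (a • v) φ) = ∑ φ : ann v, f (tW W v φ) := by
  have h1 : ∀ φ : ann (a • v), φ.1 ⬝ᵥ v = 0 := fun φ => by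
    simpa [ha] using mem_ann.1 φ.2
  refine Fintype.sum_bijective (fun φ => ⟨a • φ.1, (ann v).smul_mem _ (h1 φ)⟩)
    ⟨fun x y e => Subtype.ext (smul_right_injective _ ha (congrArg Subtype.val e)), fun b =>
      ⟨⟨a⁻¹ • b.1, by simp [mem_ann, mem_ann.1 b.2]⟩, Subtype.ext (by simp [smul_smul, ha])⟩⟩ _ _
    fun φ => ?_
  congr 1
  exact Subtype.ext (by rw [coe_tW (W.smul_mem _ hv), coe_tW hv, tvS_smul_left _ (h1 φ)])

variable {η : St W → ℂ}

theorem cS_eq (hη : IsClassFunction (St W) η) {v w : ι → F} (hv : v ∈ W) (hw : w ∈ W) (hv0 : v ≠ 0)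
    (hw0 : w ≠ 0) : cS η w = cS η v := by
  by_cases h : ∃ c : F, w = c • v
  · obtain ⟨c, rfl⟩ := h
    exact sum_smul hv (by rintro rfl; simp at hw0) η
  push Not at h
  obtain ⟨f, hf, hf'⟩ := exists_dot_of_notMem_span h
  obtain ⟨g, hg, hg'⟩ := exists_dot_of_notMem_span (u := v) (w := w) fun c e => by
    have : c ≠ 0 := by rintro rfl; simp [hv0] at e
    exact h c⁻¹ (by simp [e, smul_smul, this])
  have h0 : (f + g) ⬝ᵥ (w - v) = 0 := by simp [hf, hf', hg, hg']
  have := sum_conj (tW W (w - v) (f + g)) hv η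
  have e : ((tW W (w - v) (f + g)).1 : Matrix ι ι F) *ᵥ v = w := by
    rw [coe_tW (W.sub_mem hw hv), tvS_mulVec h0]; simp [hf, hg']
  rw [e] at this
  simpa only [hη.apply_conj, cS] using this

theorem ES_eq (hη : IsClassFunction (St W) η) {v w w' : ι → F} (hv : v ∈ W) (hw : w ∈ W)
    (hw' : w' ∈ W) (h : ∀ c : F, w ≠ c • v) (h' : ∀ c : F, w' ≠ c • v) : ES η w' v = ES η w v := by
  obtain ⟨f, hf, h1, h2⟩ := exists_dot_zero_ne_ne h h'
  set a := f ⬝ᵥ w / f ⬝ᵥ w' with ha
  have ha0 : a ≠ 0 := div_ne_zero h1 h2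
  have h0 : ((f ⬝ᵥ w)⁻¹ • f) ⬝ᵥ (a • w' - w) = 0 := by
    simp only [smul_dotProduct, dotProduct_sub, dotProduct_smul, smul_eq_mul, ha]
    field_simp
    simp
  have hm := W.sub_mem (W.smul_mem a hw') hw
  set g := tW W (a • w' - w) ((f ⬝ᵥ w)⁻¹ • f) with hg
  have e1 : (g.1 : Matrix ι ι F) *ᵥ w = a • w' := by
    rw [hg, coe_tW hm, tvS_mulVec h0]; simp [h1]
  have e2 : (g.1 : Matrix ι ι F) *ᵥ v = v := by
    rw [hg, coe_tW hm, tvS_mulVec h0]; simp [hf]
  unfold ES
  rw [← sum_smul hw' ha0 (fun x => ∑ φ : ann v, η (x * tW W v φ)), ← e1,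
    sum_conj g hw (fun x => ∑ φ : ann v, η (x * tW W v φ))]
  refine Finset.sum_congr rfl fun ψ _ => ?_
  have := sum_conj g hv (fun x => η (g * tW W w ψ * g⁻¹ * x))
  rw [e2] at this
  rw [this]
  refine Finset.sum_congr rfl fun φ _ => ?_
  rw [← hη.apply_conj (tW W w ψ * tW W v φ) g]
  congr 1
  group

theorem ES_smul {v : ι → F} (hv : v ∈ W) {a : F} (ha : a ≠ 0) :
    ES η (a • v) v = Fintype.card (ann v) * cS η v := by
  unfold ES
  rw [sum_smul hv ha (fun x => ∑ φ : ann v, η (x * tW W v φ))]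
  have : ∀ ψ : ann v, ∑ φ : ann v, η (tW W v ψ * tW W v φ) = cS η v := fun ψ => by
    rw [cS, ← Equiv.sum_comp (Equiv.addLeft ψ) fun φ : ann v => η (tW W v φ)]
    exact Finset.sum_congr rfl fun φ _ => congrArg η ((zW hv).map_add_eq_mul ψ φ).symm
  simp [this]

theorem lemmaE (hη : IsIrrCharacter (St W) η) {v w : ι → F} (hv : v ∈ W) (hw : w ∈ W) (hv0 : v ≠ 0)
    (h : ∀ c : F, w ≠ c • v) :
    (((Fintype.card F : ℂ) - 1) * (Fintype.card (ann v) * cS η v) +
      ((Fintype.card W : ℂ) - Fintype.card F) * ES η w v) * η 1 =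
        ((Fintype.card W : ℂ) - 1) * cS η v ^ 2 := by
  classical
  let I := Σ x : {x : W // x ≠ 0}, ann (x.1 : ι → F)
  have inj : Function.Injective fun i : I => ((i.1.1 : ι → F), (i.2 : ι → F)) := by
    rintro ⟨⟨⟨a, _⟩, _⟩, ⟨b, _⟩⟩ ⟨⟨⟨c, _⟩, _⟩, ⟨d, _⟩⟩ e
    simp only [Prod.mk.injEq] at e
    obtain ⟨rfl, rfl⟩ := e
    rfl
  have key := sum_family_mul (fun i : I => tW W i.1.1 i.2) (fun g =>
    ⟨fun i => ⟨⟨⟨(g.1 : Matrix ι ι F) *ᵥ i.1.1, (g.2 _).2 i.1.1.2⟩, fun e =>
        SL_mulVec_ne_zero g.1 (fun e' => i.1.2 (Subtype.ext e')) (congrArg Subtype.val e)⟩,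
      ⟨i.2.1 ᵥ* ((g.1⁻¹ : SpecialLinearGroup ι F) : Matrix ι ι F),
        (SL_vecMul_inv_dot_mulVec _ _ _).trans i.2.2⟩⟩, fun a b e => inj (by
      have e1 := congrArg (fun i : I => ((g.1⁻¹ : SpecialLinearGroup ι F) : Matrix ι ι F) *ᵥ i.1.1.1) e
      have e2 := congrArg (fun i : I => i.2.1 ᵥ* (g.1 : Matrix ι ι F)) e
      simp only [vecMul_vecMul, mulVec_mulVec, ← Matrix.SpecialLinearGroup.coe_mul, inv_mul_cancel,
        Matrix.SpecialLinearGroup.coe_one, vecMul_one, one_mulVec] at e1 e2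
      exact Prod.ext e1 e2), fun i => Subtype.ext (by
        rw [coe_tW ((g.2 _).2 i.1.1.2), ← conj_tvS _ i.2.2]
        simp [coe_tW i.1.1.2])⟩) hη
  have hc := hη.isClassFunction
  have hcard : (Fintype.card {x : W // x ≠ 0} : ℂ) = Fintype.card W - 1 := by
    rw [Fintype.card_subtype_compl, Fintype.card_subtype_eq, Nat.cast_sub Fintype.card_pos, Nat.cast_one]
  have h1 : ∑ i : I, η (tW W i.1.1 i.2) = ((Fintype.card W : ℂ) - 1) * cS η v := by
    rw [Fintype.sum_sigma]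
    have : ∀ x : {x : W // x ≠ 0}, ∑ φ : ann (x.1 : ι → F), η (tW W x.1 φ) = cS η v := fun x =>
      cS_eq hc hv x.1.2 hv0 fun e => x.2 (Subtype.ext e)
    simp only [this, Finset.sum_const, Finset.card_univ, nsmul_eq_mul, hcard]
  have h2 : ∑ φ : ann v, ∑ i : I, η (tW W i.1.1 i.2 * tW W v φ) =
      ∑ x : {x : W // x ≠ 0}, ES η x.1 v := by
    rw [Finset.sum_comm, Fintype.sum_sigma]; rfl
  have h3 : ∀ x : {x : W // x ≠ 0}, ES η x.1 v = ES η w v +
      ∑ a : {a : F // a ≠ 0}, if (x.1 : ι → F) = a.1 • v then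
        Fintype.card (ann v) * cS η v - ES η w v else 0 := by
    intro x
    by_cases hx : ∃ c : F, (x.1 : ι → F) = c • v
    · obtain ⟨c, e⟩ := hx
      have hc0 : c ≠ 0 := by rintro rfl; exact x.2 (Subtype.ext (by simpa using e))
      rw [Finset.sum_eq_single ⟨c, hc0⟩, if_pos e, e, ES_smul hv hc0]
      · ring
      · intro b _ hb
        rw [if_neg]
        rw [e]
        exact fun e' => hb (Subtype.ext (smul_left_injective F hv0 e').symm)
      · simp
    · push Not at hx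
      rw [ES_eq hc hv hw x.1.2 h hx]
      simp [hx]
  have h4 : ∀ a : {a : F // a ≠ 0}, ∀ y : ℂ,
      ∑ x : {x : W // x ≠ 0}, (if (x.1 : ι → F) = a.1 • v then y else 0) = y := by
    intro a y
    rw [Finset.sum_eq_single ⟨⟨a.1 • v, W.smul_mem _ hv⟩, fun e =>
      smul_ne_zero a.2 hv0 (congrArg Subtype.val e)⟩, if_pos rfl]
    · intro b _ hb
      exact if_neg fun e => hb (Subtype.ext (Subtype.ext e))
    · simp
  have hcF : (Fintype.card {a : F // a ≠ 0} : ℂ) = Fintype.card F - 1 := by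
    rw [Fintype.card_subtype_compl, Fintype.card_subtype_eq, Nat.cast_sub Fintype.card_pos, Nat.cast_one]
  simp only [key, h1, h3, Finset.sum_add_distrib] at h2
  rw [Finset.sum_comm] at h2
  simp only [h4, Finset.sum_const, Finset.card_univ, nsmul_eq_mul, hcard, hcF, ← Finset.sum_div,
    ← Finset.mul_sum] at h2
  rw [div_eq_iff hη.apply_one_ne_zero] at h2
  change _ * cS η v = _ at h2
  linear_combination -h2

end SLDeg

end Cfsg.Lib.Char
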