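import Cfsg.Agent.Char.AbComp
import Cfsg.Agent.Class.HermCenter
import Cfsg.Agent.Class.SpCore
import Cfsg.Agent.Known.QuadNormal

/-! The Landazuri-Seitz bound for the symplectic groups in characteristic two. -/

set_option autoImplicit false

namespace Cfsg.Lib.Char.SpDeg

open Module Cfsg.Lib.Class Cfsg.Lib.Class.Form

variable {F V : Type*} [Field F] [AddCommGroup V] [Module F V] {B : LinearMap.BilinForm F V}

instance : CoeFun (SpB B) fun _ => V → V := ⟨fun g => (g : V ≃ₗ[F] V)⟩

theorem sext {g g' : SpB B} (h : ∀ x, g x = g' x) : g = g' := Subtype.ext (LinearEquiv.ext h)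

theorem smul_apply' (g g' : SpB B) (x : V) : (g * g' : SpB B) x = g (g' x) := rfl

theorem sapply_inv (g : SpB B) (x : V) : g ((g⁻¹ : SpB B) x) = x := g.1.apply_symm_apply x

theorem sinv_apply (g : SpB B) (x : V) : (g⁻¹ : SpB B) (g x) = x := g.1.symm_apply_apply x

theorem sisom (g : SpB B) (x y : V) : B (g x) (g y) = B x y := g.2 x y

theorem spT_apply (hA : B.IsAlt) (w : V) (c : F) (x : V) :
    spT hA w c x = x + (c * B x w) • w := altTEquiv_apply' hA w c x

/-- the elements of the unipotent radical of the stabiliser of `e` -/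
def IsU (e w : V) (c : F) (g : SpB B) : Prop :=
  ∀ x, g x = x + B x e • w + (B x w + c * B x e) • e

theorem IsU.unique {e w : V} {c : F} {g g' : SpB B} (h : IsU e w c g) (h' : IsU e w c g') :
    g = g' := sext fun x => (h x).trans (h' x).symm

theorem IsU.mul (hA : B.IsAlt) {e w w' : V} {c c' : F} {g g' : SpB B} (hw : B e w = 0)
    (hw' : B e w' = 0) (h : IsU e w c g) (h' : IsU e w' c' g') :
    IsU e (w + w') (c + c' + B w' w) (g * g') := by
  intro v
  have hw'' : B w' e = 0 := by rw [← hA.neg_eq, hw', neg_zero]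
  rw [smul_apply', h, h']
  simp only [map_add, map_smul, smul_eq_mul, hA.self_eq_zero, hw, hw'', LinearMap.add_apply,
    LinearMap.smul_apply]
  module

theorem IsU.conj {e w : V} {c : F} {g γ : SpB B} (hγ : γ e = e) (h : IsU e w c g) :
    IsU e (γ w) c (γ * g * γ⁻¹) := by
  intro v
  obtain ⟨u, rfl⟩ : ∃ u, v = γ u := ⟨_, (sapply_inv γ v).symm⟩
  have h1 : B (γ u) e = B u e := by conv_lhs => rw [← hγ, sisom]
  rw [smul_apply', smul_apply', sinv_apply, h, h1, sisom]
  simp only [map_add, map_smul, hγ]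

theorem isU_spT (hA : B.IsAlt) (e : V) (c : F) : IsU e 0 c (spT hA e c) := by
  intro x
  rw [spT_apply]
  simp

theorem exists_isU [FiniteDimensional F V] (hB : B.Nondegenerate) (hA : B.IsAlt) {e w : V}
    (hw : B e w = 0) (c : F) : ∃ g : SpB B, IsU e w c g := by
  have hw' : B w e = 0 := by rw [← hA.neg_eq, hw, neg_zero]
  refine ⟨(good_of_isAlt B hB hA).ofLin (LinearMap.id + (B.flip e).smulRight w +
    (B.flip w + c • B.flip e).smulRight e) fun x y => ?_, fun x => ?_⟩
  · simp only [LinearMap.add_apply, LinearMap.id_apply, LinearMap.smulRight_apply,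
      LinearMap.BilinForm.flip_apply, LinearMap.smul_apply, map_add, map_smul, smul_eq_mul,
      hA.self_eq_zero, hw, hw', ← hA.neg_eq y w, ← hA.neg_eq y e]
    ring
  · rw [Good.ofLin_apply]
    simp

theorem exists_apply_eq {W : Submodule F V} (hWn : NondegOn B W) {w : V} (hw : w ∈ W) (hw0 : w ≠ 0)
    (x : F) : ∃ w' ∈ W, B w w' = x := by
  have : ∃ w' ∈ W, B w w' ≠ 0 := by
    by_contra hcon
    push Not at hcon
    exact hw0 (hWn w hw hcon)
  obtain ⟨w', hw', h0⟩ := this
  exact ⟨(x / B w w') • w', W.smul_mem _ hw', by rw [map_smul, smul_eq_mul]; field_simp⟩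

/-- the embedding of the symplectic group of the orthogonal complement -/
noncomputable def emb [FiniteDimensional F V] (hB : B.Nondegenerate) (hA : B.IsAlt)
    {P : Submodule F V} (hP : NondegOn B P) : SpB (restr B (orth B P)) →* SpB B :=
  (stab B P).subtype.comp (((good_of_isAlt B hB hA).stabEquivProd hP).symm.toMonoidHom.comp
    (MonoidHom.inr _ _))

theorem emb_left [FiniteDimensional F V] (hB : B.Nondegenerate) (hA : B.IsAlt)
    {P : Submodule F V} (hP : NondegOn B P) (g : SpB (restr B (orth B P))) {a : V} (ha : a ∈ P) :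
    emb hB hA hP g a = a :=
  (good_of_isAlt B hB hA).glue_apply_left hP (1, g) ⟨a, ha⟩

theorem emb_right [FiniteDimensional F V] (hB : B.Nondegenerate) (hA : B.IsAlt)
    {P : Submodule F V} (hP : NondegOn B P) (g : SpB (restr B (orth B P))) (b : orth B P) :
    emb hB hA hP g b = (g b : orth B P) :=
  (good_of_isAlt B hB hA).glue_apply_right hP (1, g) b

theorem isAlt_restr (hA : B.IsAlt) (W : Submodule F V) :
    LinearMap.BilinForm.IsAlt (restr B W) := fun x => hA x

theorem nondeg_restr (hA : B.IsAlt) {W : Submodule F V} (hW : NondegOn B W) :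
    LinearMap.BilinForm.Nondegenerate (restr B W) :=
  ⟨fun x hx => Subtype.ext (hW x x.2 fun v hv => hx ⟨v, hv⟩), fun x hx =>
    Subtype.ext (hW x x.2 fun v hv => by
      rw [← hA.neg_eq, neg_eq_zero]; exact hx ⟨v, hv⟩)⟩

theorem emb_spT [FiniteDimensional F V] (hB : B.Nondegenerate) (hA : B.IsAlt)
    {P : Submodule F V} (hP : NondegOn B P) (v : orth B P) (c : F) :
    emb hB hA hP (spT (isAlt_restr hA _) v c) = spT hA (v : V) c := by
  refine Subtype.ext ((good_of_isAlt B hB hA).ext_of_nondegOn hP (fun a ha => ?_) fun b hb => ?_)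
  · rw [emb_left hB hA hP _ ha, spT_apply, mem_orth.1 v.2 a ha]
    simp
  · refine (emb_right hB hA hP _ ⟨b, hb⟩).trans ?_
    rw [spT_apply, spT_apply]
    rfl

section two
variable [CharP F 2]

theorem symm_two (hA : B.IsAlt) (x y : V) : B x y = B y x := by
  rw [← hA.neg_eq, CharTwo.neg_eq]

/-- the unipotent radical as an additive group -/
@[ext] structure QE (hA : B.IsAlt) (W : Submodule F V) where
  w : W
  c : F

variable {hA : B.IsAlt} {W : Submodule F V}

instance : Add (QE hA W) := ⟨fun x y => ⟨x.w + y.w, x.c + y.c + B y.w x.w⟩⟩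
instance : Zero (QE hA W) := ⟨⟨0, 0⟩⟩
instance : Neg (QE hA W) := ⟨fun x => ⟨-x.w, -x.c⟩⟩

omit [CharP F 2] in
theorem QE.add_def (x y : QE hA W) : x + y = ⟨x.w + y.w, x.c + y.c + B y.w x.w⟩ := rfl
omit [CharP F 2] in
theorem QE.zero_def : (0 : QE hA W) = ⟨0, 0⟩ := rfl
omit [CharP F 2] in
theorem QE.neg_def (x : QE hA W) : -x = ⟨-x.w, -x.c⟩ := rfl

instance : AddCommGroup (QE hA W) where
  add_assoc x y z := by
    simp only [QE.add_def, QE.mk.injEq, add_assoc, true_and, Submodule.coe_add, map_add,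
      LinearMap.add_apply]
    ring
  zero_add x := by simp [QE.add_def, QE.zero_def]
  add_zero x := by simp [QE.add_def, QE.zero_def]
  nsmul := nsmulRec
  zsmul := zsmulRec
  neg_add_cancel x := by simp [QE.add_def, QE.zero_def, QE.neg_def, hA.self_eq_zero]
  add_comm x y := by
    simp only [QE.add_def, add_comm x.w, add_comm x.c, symm_two hA x.w]

omit [CharP F 2] in
/-- coordinates -/
def QE.equivProd (hA : B.IsAlt) (W : Submodule F V) : QE hA W ≃ W × F :=
  ⟨fun x => (x.w, x.c), fun p => ⟨p.1, p.2⟩, fun _ => rfl, fun _ => rfl⟩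

/-- the centre -/
def iota (hA : B.IsAlt) (W : Submodule F V) : F →+ QE hA W :=
  AddMonoidHom.mk' (fun c => ⟨0, c⟩) fun c d => by simp [QE.add_def]

theorem iota_apply (c : F) : iota hA W c = ⟨0, c⟩ := rfl

theorem mk_eq_add (w : W) (c : F) : (⟨w, c⟩ : QE hA W) = ⟨w, 0⟩ + iota hA W c := by
  simp [QE.add_def, iota_apply]

/-- the unipotent radical inside the symplectic group -/
noncomputable def zeta [FiniteDimensional F V] (hB : B.Nondegenerate) (hA : B.IsAlt) {e : V}
    {W : Submodule F V} (hW : ∀ w ∈ W, B e w = 0) : AddChar (QE hA W) (SpB B) where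
  toFun x := (exists_isU hB hA (hW _ x.w.2) x.c).choose
  map_zero_eq_one' := (exists_isU hB hA (hW _ (0 : QE hA W).w.2) (0 : QE hA W).c).choose_spec.unique
    fun x => by simp [QE.zero_def]
  map_add_eq_mul' x y :=
    (exists_isU hB hA (hW _ (x + y).w.2) (x + y).c).choose_spec.unique
      (IsU.mul hA (hW _ x.w.2) (hW _ y.w.2) (exists_isU hB hA (hW _ x.w.2) x.c).choose_spec
        (exists_isU hB hA (hW _ y.w.2) y.c).choose_spec)

theorem exists_sq [Finite F] (c : F) : ∃ s : F, s ^ 2 = c := (frobeniusEquiv F 2).surjective c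

theorem sum_sq [Fintype F] {ψ : AddChar F ℂ} (hψ : ψ ≠ 0) : ∑ x, ψ (x ^ 2) = 0 :=
  (Equiv.sum_comp (frobeniusEquiv F 2).toEquiv ψ).trans (AddChar.sum_eq_zero_iff_ne_zero.2 hψ)

theorem apply_spT_eq [Finite F] [FiniteDimensional F V] (hB : B.Nondegenerate) (hA : B.IsAlt)
    {χ : SpB B → ℂ} (hχ : IsClassFunction (SpB B) χ) {v v' : V} (hv : v ≠ 0) (hv' : v' ≠ 0) {c : F}
    (hc : c ≠ 0) : χ (spT hA v' c) = χ (spT hA v 1) := by
  obtain ⟨s, rfl⟩ := exists_sq c
  obtain ⟨g, hg, hgv⟩ := SpB_exists_apply_eq hB hA hv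
    (smul_ne_zero (fun h : s = 0 => hc (by simp [h])) hv')
  rw [← hχ.apply_conj (spT hA v 1) ⟨g, hg⟩, spT_conj, hgv, spT_smul, mul_one]

theorem exists_mulShift {F : Type*} [Field F] [Finite F] {ψ : AddChar F ℂ} (hψ : ψ ≠ 0)
    (φ : AddChar F ℂ) : ∃ r : F, ∀ x, φ x = ψ (r * x) := by
  have := Fintype.ofFinite F
  have hb : Function.Bijective ψ.mulShift :=
    (Fintype.bijective_iff_injective_and_card _).2
      ⟨AddChar.to_mulShift_inj_of_isPrimitive (AddChar.IsPrimitive.of_ne_one hψ),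
        AddChar.card_eq.symm⟩
  obtain ⟨r, rfl⟩ := hb.2 φ
  exact ⟨r, fun _ => rfl⟩

theorem exists_artinSchreier [Finite F] {ψ : AddChar F ℂ} (hψ : ψ ≠ 0) :
    ∃ s : F, s ≠ 0 ∧ ∀ x, ψ (s ^ 2 * x) = 1 → ∃ y, y ^ 2 + y = x := by
  classical
  have h2 : (2 : F) = 0 := CharTwo.two_eq_zero
  let φ : AddChar F ℂ :=
    { toFun := fun x => if ∃ y, y ^ 2 + y = x then 1 else -1
      map_zero_eq_one' := if_pos ⟨0, by simp⟩
      map_add_eq_mul' := fun a b => by
        by_cases ha : ∃ y, y ^ 2 + y = a <;> by_cases hb : ∃ y, y ^ 2 + y = b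
        · obtain ⟨y, rfl⟩ := ha
          obtain ⟨z, rfl⟩ := hb
          rw [if_pos ⟨y + z, by linear_combination y * z * h2⟩, if_pos ⟨y, rfl⟩, if_pos ⟨z, rfl⟩,
            mul_one]
        · obtain ⟨y, rfl⟩ := ha
          rw [if_neg hb, if_pos (⟨y, rfl⟩ : ∃ z, z ^ 2 + z = y ^ 2 + y), if_neg, one_mul]
          rintro ⟨z, hz⟩
          exact hb ⟨y + z, by linear_combination hz + (y * z + y ^ 2 + y) * h2⟩
        · obtain ⟨y, rfl⟩ := hb
          rw [if_neg ha, if_pos (⟨y, rfl⟩ : ∃ z, z ^ 2 + z = y ^ 2 + y), if_neg, mul_one]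
          rintro ⟨z, hz⟩
          exact ha ⟨y + z, by linear_combination hz + (y * z + y ^ 2 + y) * h2⟩
        · rw [if_neg ha, if_neg hb, if_pos]
          · simp
          · exact Cfsg.Lib.Known.exists_sq_add_self_eq h2
              (fun t ht => ha ⟨t, by linear_combination ht - a * h2⟩)
              (fun t ht => hb ⟨t, by linear_combination ht - b * h2⟩) }
  obtain ⟨r, hr⟩ := exists_mulShift hψ φ
  obtain ⟨s, rfl⟩ := exists_sq r
  have key : ∀ x, ψ (s ^ 2 * x) = 1 → ∃ y, y ^ 2 + y = x := fun x hx => by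
    by_contra hcon
    have h1 : φ x = -1 := if_neg hcon
    rw [hr, hx] at h1
    norm_num at h1
  refine ⟨s, ?_, key⟩
  rintro rfl
  have hs : Function.Surjective fun y : F => y ^ 2 + y := fun x => key x (by simp)
  have := Finite.injective_iff_surjective.2 hs (a₁ := 0) (a₂ := 1)
    (by linear_combination -h2)
  exact zero_ne_one this

section count
variable [Fintype F] [Fintype W] (hWn : NondegOn B W) {l : AddChar (QE hA W) ℂ}
  (hl : l.compAddMonoidHom (iota hA W) ≠ 0)

include hWn hl in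
theorem gauss_sq : (∑ w : W, l ⟨w, 0⟩) ^ 2 = Fintype.card W := by
  classical
  have h1 : ∀ w s : W, l ⟨w, 0⟩ * l ⟨w + s, 0⟩ = l ⟨s, 0⟩ * l (iota hA W (B s w)) := by
    intro w s
    rw [← AddChar.map_add_eq_mul, ← AddChar.map_add_eq_mul, ← mk_eq_add, QE.add_def]
    congr 2
    · rw [← add_assoc, ← two_smul F w, show (2 : F) = 0 from CharTwo.two_eq_zero, zero_smul,
        zero_add]
    · simp [hA.self_eq_zero]
  rw [sq, Finset.sum_mul_sum]
  simp_rw [fun w : W => (Equiv.sum_comp (Equiv.addLeft w) fun s : W => l ⟨w, 0⟩ * l ⟨s, 0⟩).symm,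
    Equiv.coe_addLeft, h1]
  rw [Finset.sum_comm, Finset.sum_eq_single 0]
  · simp [← QE.zero_def]
  · intro s _ hs
    rw [← Finset.mul_sum]
    refine mul_eq_zero_of_right _ ?_
    let ψ : AddChar W ℂ := (l.compAddMonoidHom (iota hA W)).compAddMonoidHom
      ((B s).comp W.subtype).toAddMonoidHom
    refine (AddChar.sum_eq_zero_iff_ne_zero (ψ := ψ)).2 fun h0 => hl (AddChar.ext _ _ fun x => ?_)
    obtain ⟨w, hw, rfl⟩ := exists_apply_eq hWn s.2 (fun h => hs (Subtype.ext h)) x
    exact DFunLike.congr_fun h0 ⟨w, hw⟩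
  · simp

include hWn hl in
theorem gauss_eq {Q : ℕ} (hQ : Fintype.card W = Q ^ 2) :
    ∑ w : W, l ⟨w, 0⟩ = Q ∨ ∑ w : W, l ⟨w, 0⟩ = -Q := by
  rw [← sq_eq_sq_iff_eq_or_eq_neg, gauss_sq hWn hl, hQ, Nat.cast_pow]

/-- the commutators with a transvection -/
def lineHom (hA : B.IsAlt) {W : Submodule F V} (v : W) : F →+ QE hA W :=
  AddMonoidHom.mk' (fun x => ⟨x • v, x ^ 2⟩) fun x y => by
    simp [QE.add_def, add_smul, hA.self_eq_zero, CharTwo.add_sq]

include hWn hl in
theorem card_fixed_le [DecidableEq (AddChar F ℂ)] {Q : ℕ} (hQ : Fintype.card W = Q ^ 2) :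
    Fintype.card F * (Finset.univ.filter fun v : W => l.compAddMonoidHom (lineHom hA v) = 0).card ≤
      Q ^ 2 + Q := by
  classical
  have h1 : ((Fintype.card F * (Finset.univ.filter
      fun v : W => l.compAddMonoidHom (lineHom hA v) = 0).card : ℕ) : ℂ) =
      ∑ v : W, ∑ x : F, l ⟨x • v, x ^ 2⟩ := by
    rw [Finset.card_filter, Nat.cast_mul, Nat.cast_sum, Finset.mul_sum]
    refine Finset.sum_congr rfl fun v _ => ?_
    have := AddChar.sum_eq_ite (l.compAddMonoidHom (lineHom hA v))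
    refine Eq.trans ?_ this.symm
    split_ifs <;> simp
  have h2 : ∀ x : F, x ≠ 0 → ∑ v : W, l ⟨x • v, x ^ 2⟩ =
      (∑ w : W, l ⟨w, 0⟩) * l (iota hA W (x ^ 2)) := fun x hx => by
    rw [Finset.sum_mul, ← Equiv.sum_comp (MulAction.toPerm (Units.mk0 x hx))
      fun w : W => l ⟨w, 0⟩ * l (iota hA W (x ^ 2))]
    refine Finset.sum_congr rfl fun v _ => ?_
    rw [mk_eq_add, AddChar.map_add_eq_mul]
    rfl
  have h3 := sum_sq hl
  rw [← Finset.add_sum_erase _ _ (Finset.mem_univ 0)] at h3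
  rw [Finset.sum_comm, ← Finset.add_sum_erase _ _ (Finset.mem_univ 0),
    Finset.sum_congr rfl fun x hx => h2 x (Finset.ne_of_mem_erase hx), ← Finset.mul_sum] at h1
  simp only [AddChar.compAddMonoidHom_apply, ne_eq, OfNat.ofNat_ne_zero, not_false_eq_true,
    zero_pow, AddChar.map_zero_eq_one, zero_smul, ← QE.zero_def, Finset.sum_const,
    Finset.card_univ, hQ, nsmul_eq_mul, mul_one] at h1 h3
  rw [eq_neg_of_add_eq_zero_right h3] at h1
  rcases gauss_eq hWn hl hQ with h | h
  · rw [h] at h1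
    have : ((Fintype.card F * (Finset.univ.filter
      fun v : W => l.compAddMonoidHom (lineHom hA v) = 0).card + Q : ℕ) : ℂ) = (Q ^ 2 : ℕ) := by
      rw [Nat.cast_add, h1]; ring
    have := Nat.cast_injective this
    omega
  · rw [h] at h1
    have : ((Fintype.card F * (Finset.univ.filter
      fun v : W => l.compAddMonoidHom (lineHom hA v) = 0).card : ℕ) : ℂ) = (Q ^ 2 + Q : ℕ) := by
      rw [h1]; push_cast; ring
    exact (Nat.cast_injective this).le

include hWn hl in
theorem le_card_plus [DecidableEq ℂ] {Q : ℕ} (hQ : Fintype.card W = Q ^ 2) :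
    Q ^ 2 ≤ 2 * (Finset.univ.filter fun v : W => l ⟨v, 0⟩ = 1).card + Q := by
  have h1 : ((2 * (Finset.univ.filter fun v : W => l ⟨v, 0⟩ = 1).card : ℕ) : ℂ) =
      (Q ^ 2 : ℕ) + ∑ w : W, l ⟨w, 0⟩ := by
    rw [Finset.card_filter, Nat.cast_mul, Nat.cast_sum, Finset.mul_sum, ← hQ, Fintype.card,
      Finset.card_eq_sum_ones, Nat.cast_sum, ← Finset.sum_add_distrib]
    refine Finset.sum_congr rfl fun v _ => ?_
    have : l ⟨v, 0⟩ * l ⟨v, 0⟩ = 1 := by
      rw [← AddChar.map_add_eq_mul, QE.add_def, ← l.map_zero_eq_one, QE.zero_def]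
      congr 2
      · rw [← two_smul F v, show (2 : F) = 0 from CharTwo.two_eq_zero, zero_smul]
      · simp [hA.self_eq_zero]
    rcases mul_self_eq_one_iff.1 this with h | h
    · rw [h]; norm_num
    · rw [h, if_neg (by norm_num)]; simp
  rcases gauss_eq hWn hl hQ with h | h
  · rw [h, ← Nat.cast_add] at h1
    have := Nat.cast_injective h1
    omega
  · rw [h] at h1
    have : ((2 * (Finset.univ.filter fun v : W => l ⟨v, 0⟩ = 1).card + Q : ℕ) : ℂ) = (Q ^ 2 : ℕ) := by
      rw [Nat.cast_add, h1]; ring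
    exact (Nat.cast_injective this).ge

end count

/-- the action of a transvection of `W` on the unipotent radical -/
def tPerm (hA : B.IsAlt) {W : Submodule F V} (v : W) (d : F) : QE hA W ≃ QE hA W :=
  Function.Involutive.toPerm (fun a => ⟨a.w + (d * B a.w v) • v, a.c⟩) fun a => by
    refine QE.ext ?_ rfl
    simp only [Submodule.coe_add, Submodule.coe_smul, map_add, map_smul, LinearMap.add_apply,
      LinearMap.smul_apply, hA.self_eq_zero, smul_zero, add_zero]
    rw [add_assoc, ← add_smul, CharTwo.add_self_eq_zero, zero_smul, add_zero]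

theorem tPerm_eq (v : W) (d : F) (a : QE hA W) :
    tPerm hA v d a = a + ⟨(d * B a.w v) • v, d * B a.w v ^ 2⟩ := by
  refine QE.ext rfl ?_
  change a.c = a.c + d * B a.w v ^ 2 + B (((d * B a.w v) • v : W) : V) a.w
  rw [Submodule.coe_smul, map_smul, LinearMap.smul_apply, smul_eq_mul, symm_two hA v]
  linear_combination -(d * B a.w v ^ 2) * (CharTwo.two_eq_zero : (2 : F) = 0)

/-- squares of linear forms -/
def sqHom (hA : B.IsAlt) {W : Submodule F V} (u : W) : QE hA W →+ F :=
  AddMonoidHom.mk' (fun a => B a.w u ^ 2) fun a b => by simp [QE.add_def, CharTwo.add_sq]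

/-- twisting a character -/
def tw (l : AddChar (QE hA W) ℂ) (u : W) : AddChar (QE hA W) ℂ :=
  l + (l.compAddMonoidHom (iota hA W)).compAddMonoidHom (sqHom hA u)

theorem tw_apply (l : AddChar (QE hA W) ℂ) (u : W) (a : QE hA W) :
    tw l u a = l a * l (iota hA W (B a.w u ^ 2)) := rfl

theorem tw_iota (l : AddChar (QE hA W) ℂ) (u : W) :
    (tw l u).compAddMonoidHom (iota hA W) = l.compAddMonoidHom (iota hA W) :=
  AddChar.ext _ _ fun c => by simp [tw_apply, iota_apply, ← QE.zero_def]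

theorem tw_injective [Finite F] (hWn : NondegOn B W) {l : AddChar (QE hA W) ℂ}
    (hl : l.compAddMonoidHom (iota hA W) ≠ 0) : Function.Injective (tw l) := by
  intro u u' h
  by_contra hne
  refine hl (AddChar.ext _ _ fun x => ?_)
  obtain ⟨s, rfl⟩ := exists_sq x
  obtain ⟨w, hw, rfl⟩ := exists_apply_eq hWn (u - u').2
    (fun h0 => hne (sub_eq_zero.1 (Subtype.ext h0))) s
  have h1 := DFunLike.congr_fun h ⟨⟨w, hw⟩, 0⟩
  rw [tw_apply, tw_apply] at h1
  have h0 : ∀ a, l a ≠ 0 := fun a h0 => by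
    have := l.map_add_eq_mul a (-a)
    rw [add_neg_cancel, l.map_zero_eq_one, h0, zero_mul] at this
    exact one_ne_zero this
  have h2 := mul_left_cancel₀ (h0 _) h1
  have h3 : B ((u - u' : W) : V) w ^ 2 = B w u ^ 2 - B w u' ^ 2 := by
    rw [symm_two hA, Submodule.coe_sub, map_sub, CharTwo.sub_eq_add, CharTwo.sub_eq_add,
      CharTwo.add_sq]
  rw [h3, AddChar.compAddMonoidHom_apply, map_sub, AddChar.map_sub_eq_div, h2, div_self (h0 _)]
  rfl

section main
variable [FiniteDimensional F V] (hB : B.Nondegenerate) {e : V} (hW : ∀ w ∈ W, B e w = 0)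

theorem isU_zeta (x : QE hA W) : IsU e x.w x.c (zeta hB hA hW x) :=
  (exists_isU hB hA (hW _ x.w.2) x.c).choose_spec

theorem zeta_iota (c : F) : zeta hB hA hW (iota hA W c) = spT hA e c :=
  (isU_zeta hB hW _).unique (isU_spT hA e c)

theorem spT_mul_zeta (v : W) (d : F) (a : QE hA W) :
    spT hA (v : V) d * zeta hB hA hW a = zeta hB hA hW (tPerm hA v d a) * spT hA (v : V) d := by
  rw [← mul_inv_eq_iff_eq_mul]
  refine ((isU_zeta hB hW a).conj (by rw [spT_apply, hW _ v.2]; simp)).unique ?_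
  rw [spT_apply]
  exact isU_zeta hB hW (tPerm hA v d a)

variable [Fintype F] [Fintype (QE hA W)] {χ : SpB B → ℂ}

theorem acomp_tw (hχ : IsClassFunction (SpB B) χ) {l : AddChar (QE hA W) ℂ}
    (hl : l.compAddMonoidHom (iota hA W) ≠ 0) {s : F}
    (hs : ∀ x, l (iota hA W (s ^ 2 * x)) = 1 → ∃ y, y ^ 2 + y = x) {u : W}
    (hu : l ⟨s • u, 0⟩ = 1) : acomp (zeta hB hA hW) χ (tw l u) 1 = acomp (zeta hB hA hW) χ l 1 := by
  have h2 : (2 : F) = 0 := CharTwo.two_eq_zero
  let η : F →+ QE hA W := AddMonoidHom.mk' (fun x => ⟨x • u, 0⟩) fun x y => by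
    simp [QE.add_def, add_smul, hA.self_eq_zero]
  obtain ⟨κ, hκ⟩ := exists_mulShift hl ((l.compAddMonoidHom η).compAddMonoidHom
    (frobeniusEquiv F 2).symm.toAddMonoidHom)
  have hκ' : ∀ x : F, l ⟨x • u, 0⟩ = l (iota hA W (κ * x ^ 2)) := fun x => by
    have := hκ (frobeniusEquiv F 2 x)
    change l (η ((frobeniusEquiv F 2).symm (frobeniusEquiv F 2 x))) = _ at this
    rw [RingEquiv.symm_apply_apply] at this
    exact this
  obtain ⟨y, hy⟩ := hs κ (by rw [mul_comm, ← hκ', hu])
  obtain ⟨d, hd⟩ : ∃ d : F, κ * d ^ 2 + d = 1 := by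
    by_cases h0 : κ = 0
    · exact ⟨1, by simp [h0]⟩
    · refine ⟨(y + 1) / κ, ?_⟩
      field_simp
      linear_combination hy + (y + 1) * h2
  rw [← acomp_conj hχ (l := l) (l' := tw l u) (tPerm hA u d) (spT_mul_zeta hB hW u d) (fun a => by
    rw [tPerm_eq, AddChar.map_add_eq_mul, tw_apply, mk_eq_add, AddChar.map_add_eq_mul, hκ',
      ← AddChar.map_add_eq_mul l (iota hA W _), ← map_add]
    congr 3
    linear_combination (B a.w u) ^ 2 * hd) 1, mul_one, mul_inv_cancel]

open Classical in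
theorem norm_acomp_spT_le [Finite (SpB B)] (hWn : NondegOn B W) (hχ : IsCharacter (SpB B) χ)
    (l : AddChar (QE hA W) ℂ) {v : W} (hv : v ≠ 0) :
    ‖acomp (zeta hB hA hW) χ l (spT hA (v : V) 1)‖ ≤
      if l.compAddMonoidHom (lineHom hA v) = 0 then (acomp (zeta hB hA hW) χ l 1).re else 0 := by
  have h1 : ∀ a, l (tPerm hA v 1 a) = l a * l (lineHom hA v (B a.w v)) := fun a => by
    rw [tPerm_eq, AddChar.map_add_eq_mul, one_mul, one_mul]; rfl
  split_ifs with h
  · refine norm_acomp_le hχ ⟨tPerm hA v 1, spT_mul_zeta hB hW v 1, fun a => ?_⟩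
    rw [h1, show l (lineHom hA v (B a.w v)) = 1 from DFunLike.congr_fun h _, mul_one]
  · obtain ⟨x, hx⟩ : ∃ x, l (lineHom hA v x) ≠ 1 := by
      by_contra hcon
      push Not at hcon
      exact h (AddChar.ext _ _ hcon)
    obtain ⟨w, hw, rfl⟩ := exists_apply_eq hWn v.2 (fun h => hv (Subtype.ext h)) x
    rw [acomp_eq_zero hχ.isClassFunction (spT_mul_zeta hB hW v 1 ⟨⟨w, hw⟩, 0⟩), norm_zero]
    rw [h1, symm_two hA]
    intro h0
    apply hx
    have h3 := congrArg norm h0
    have h4 : l ⟨⟨w, hw⟩, 0⟩ ≠ 0 := fun h5 => by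
      have := l.norm_apply ⟨⟨w, hw⟩, 0⟩
      rw [h5, norm_zero] at this
      exact zero_ne_one this
    exact (mul_left_cancel₀ h4 (by rw [mul_one]; exact h0)).symm

end main

universe u

theorem bound [Fintype F] (n : ℕ) :
    ∀ {V : Type u} [AddCommGroup V] [Module F V] [FiniteDimensional F V]
      {B : LinearMap.BilinForm F V} (_ : B.Nondegenerate) (hA : B.IsAlt), finrank F V = 2 * n →
      ∀ {χ : SpB B → ℂ}, IsCharacter (SpB B) χ → (∃ v, χ (spT hA v 1) ≠ χ 1) →
      ((Fintype.card F : ℝ) ^ n - 1) * ((Fintype.card F : ℝ) ^ n - Fintype.card F) ≤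
        2 * (Fintype.card F + 1) * (χ 1).re := by
  classical
  induction n with
  | zero =>
    intro V _ _ _ B hB hA hn χ hχ _
    obtain ⟨d, hd⟩ := hχ.exists_nat_degree
    simp only [pow_zero, sub_self, zero_mul, hd, Complex.natCast_re]
    positivity
  | succ m ih =>
  intro V _ _ _ B hB hA hn χ hχ ⟨e, hτ1⟩
  have : Finite V := Module.finite_of_finite F
  have : Finite (V ≃ₗ[F] V) := DFunLike.finite _
  set q := Fintype.card F with hqdef
  have hq : 2 ≤ q := Fintype.one_lt_card
  have he0 : e ≠ 0 := by rintro rfl; exact hτ1 (by rw [spT_zero_left])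
  obtain ⟨f, hef⟩ := exists_alt_eq_one hB he0
  have hfe : B f e = -1 := by rw [← hA.neg_eq, hef]
  have hG := good_of_isAlt B hB hA
  have hnd : NondegOn B (Submodule.span F {e, f}) := by
    intro u hu hu'
    obtain ⟨a, b, rfl⟩ := Submodule.mem_span_pair.1 hu
    have h1 := hu' e (Submodule.subset_span (by simp))
    have h2 := hu' f (Submodule.subset_span (by simp))
    simp [hA.self_eq_zero, hef, hfe] at h1 h2
    simp [h1, h2]
  set W := orth B (Submodule.span F {e, f}) with hWdef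
  have hWn : NondegOn B W := hG.nondegOn_orth hnd
  have hW : ∀ w ∈ W, B e w = 0 := fun w hw => mem_orth_span.1 hw e (by simp)
  have hm : finrank F W = 2 * m := by
    have h1 := hG.finrank_orth (Submodule.span F {e, f})
    have hli : LinearIndependent F ![e, f] := by
      rw [LinearIndependent.pair_iff]
      intro s t hst
      have h1 := congrArg (B e) hst
      have h2 := congrArg (B f) hst
      simp [hA.self_eq_zero, hef, hfe] at h1 h2
      exact ⟨h2, h1⟩
    have h2 := finrank_span_eq_card hli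
    rw [Matrix.range_cons_cons_empty, Fintype.card_fin] at h2
    rw [← hWdef] at h1
    omega
  have := Fintype.ofFinite W
  have : Finite (QE hA W) := Finite.of_equiv _ (QE.equivProd hA W).symm
  have := Fintype.ofFinite (QE hA W)
  set Q := q ^ m with hQdef
  have hQ : Fintype.card W = Q ^ 2 := by
    rw [Module.card_eq_pow_finrank (K := F), hm, hQdef, ← pow_mul, mul_comm]
  set ζ := zeta hB hA hW with hζ
  set τ := χ (spT hA e 1) with hτ
  have hconst : ∀ a : F, a ≠ 0 → χ (ζ.compAddMonoidHom (iota hA W) a) = τ := fun a ha => by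
    rw [AddChar.compAddMonoidHom_apply, zeta_iota]
    exact apply_spT_eq hB hA hχ.isClassFunction he0 he0 ha
  have hqc : (q : ℂ) ≠ 0 := by exact_mod_cast (show q ≠ 0 by omega)
  have hdeg := fun l => acomp_one_of_const hconst l
  rw [← hqdef] at hdeg
  choose mu hmu using exists_acomp_one hχ ζ
  obtain ⟨a, ha⟩ := exists_acomp_one hχ (ζ.compAddMonoidHom (iota hA W)) 0
  -- splitting off the fixed points of the root group
  have hsplit : ∀ g, χ g = acomp (ζ.compAddMonoidHom (iota hA W)) χ 0 g +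
      ∑ l ∈ Finset.univ.filter fun l : AddChar (QE hA W) ℂ => l.compAddMonoidHom (iota hA W) ≠ 0,
        acomp ζ χ l g := fun g => by
    rw [acomp_comp, ← sum_acomp ζ χ g, Finset.sum_filter, ← Finset.sum_add_distrib]
    refine Finset.sum_congr rfl fun l _ => ?_
    split_ifs <;> simp_all
  have h1 := hsplit 1
  simp only [hmu, ha] at h1
  obtain ⟨l, hl, hl'⟩ : ∃ l ∈ Finset.univ.filter fun l : AddChar (QE hA W) ℂ =>
      l.compAddMonoidHom (iota hA W) ≠ 0, mu l ≠ 0 := by
    by_contra hcon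
    push Not at hcon
    rw [Finset.sum_eq_zero (fun l hl => by rw [hcon l hl, Nat.cast_zero]), add_zero, ← ha, hdeg,
      if_pos rfl] at h1
    apply hτ1
    have h2 : ((q - 1 : ℕ) : ℂ) * (χ 1 - τ) = 0 := by
      rw [Nat.cast_sub (by omega)]
      field_simp at h1
      linear_combination h1
    have := (mul_eq_zero.1 h2).resolve_left (by exact_mod_cast (show q - 1 ≠ 0 by omega))
    linear_combination -this
  replace hl := (Finset.mem_filter.1 hl).2
  obtain ⟨b, hb⟩ := exists_acomp_one hχ (ζ.compAddMonoidHom (iota hA W))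
    (l.compAddMonoidHom (iota hA W))
  have hb' := hb
  have ha' := ha
  rw [hdeg, if_neg hl, add_zero] at hb'
  rw [hdeg, if_pos rfl, hb'] at ha'
  have hχ1 : χ 1 = a + (q - 1) * b := by
    have : χ 1 - τ = q * b := by rw [← hb']; field_simp
    linear_combination this + ha'
  -- lower bound for `b`
  have hlow : Q ^ 2 ≤ 2 * b + Q ∧ 1 ≤ b := by
    obtain ⟨s, hs0, hs⟩ := exists_artinSchreier hl
    have h2 : b = ∑ l' ∈ Finset.univ.filter fun l' : AddChar (QE hA W) ℂ =>
        l'.compAddMonoidHom (iota hA W) = l.compAddMonoidHom (iota hA W), mu l' := by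
      rw [acomp_comp, ← Finset.sum_filter] at hb
      simp only [hmu] at hb
      exact_mod_cast hb.symm
    have h3 : (Finset.univ.filter fun v : W => l ⟨v, 0⟩ = 1).card ≤ b := by
      rw [h2, Finset.card_eq_sum_ones]
      refine le_trans ?_ (Finset.sum_le_sum_of_subset (s := (Finset.univ.filter
        fun v : W => l ⟨v, 0⟩ = 1).image fun v => tw l (s⁻¹ • v)) fun l' hl' => ?_)
      · rw [Finset.sum_image fun v _ v' _ h =>
          smul_right_injective W (inv_ne_zero hs0) (tw_injective hWn hl h)]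
        refine Finset.sum_le_sum fun v hv => ?_
        have := acomp_tw hB hW hχ.isClassFunction hl hs (u := s⁻¹ • v)
          (by rw [smul_inv_smul₀ hs0]; exact (Finset.mem_filter.1 hv).2)
        rw [hmu, hmu, Nat.cast_inj] at this
        change 1 ≤ mu (tw l (s⁻¹ • v))
        omega
      · obtain ⟨v, -, rfl⟩ := Finset.mem_image.1 hl'
        exact Finset.mem_filter.2 ⟨Finset.mem_univ _, tw_iota l _⟩
    have h4 := le_card_plus hWn hl hQ
    have h5 : 1 ≤ (Finset.univ.filter fun v : W => l ⟨v, 0⟩ = 1).card :=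
      Finset.card_pos.2 ⟨0, Finset.mem_filter.2 ⟨Finset.mem_univ _, l.map_zero_eq_one⟩⟩
    omega
  -- lower bound for `a`
  have hlowa : ((Q : ℝ) - 1) * (Q - q) ≤ 2 * (q + 1) * a := by
    rcases Nat.lt_or_ge m 2 with hm2 | hm2
    · have : (0 : ℝ) ≤ 2 * (q + 1) * a := by positivity
      interval_cases m <;> simpa [hQdef] using this
    have hθ := isCharacter_acomp (ζ := ζ.compAddMonoidHom (iota hA W)) hχ (l := 0)
      (emb hB hA hnd) fun g => ⟨Equiv.refl F, fun c => by
        rw [AddChar.compAddMonoidHom_apply, zeta_iota, ← mul_inv_eq_iff_eq_mul, spT_conj,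
          emb_left hB hA hnd g (Submodule.subset_span (by simp))]
        exact (zeta_iota hB hW c).symm, fun _ => rfl⟩
    have := ih (nondeg_restr hA hWn) (isAlt_restr hA W) hm hθ ?_
    · rwa [map_one, ha, Complex.natCast_re, ← Nat.cast_pow] at this
    by_contra hcon
    push Not at hcon
    have h2 : ∀ v : W, v ≠ 0 → (b : ℝ) ≤ ∑ l ∈ Finset.univ.filter
        fun l : AddChar (QE hA W) ℂ => l.compAddMonoidHom (iota hA W) ≠ 0,
          if l.compAddMonoidHom (lineHom hA v) = 0 then (mu l : ℝ) else 0 := fun v hv => by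
      have h3 := hsplit (spT hA v 1)
      have h4 := hcon v
      rw [map_one, ha] at h4
      replace h4 := (congrArg _ (emb_spT hB hA hnd v 1)).symm.trans h4
      rw [h4, apply_spT_eq hB hA hχ.isClassFunction he0 (fun h => hv (Subtype.ext h))
        one_ne_zero, ← hτ] at h3
      have h5 : (b : ℂ) = -∑ l ∈ Finset.univ.filter fun l : AddChar (QE hA W) ℂ =>
          l.compAddMonoidHom (iota hA W) ≠ 0, acomp ζ χ l (spT hA v 1) := by
        linear_combination ha' - h3
      have h6 := congrArg norm h5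
      rw [norm_neg, Complex.norm_natCast] at h6
      rw [h6]
      refine (norm_sum_le _ _).trans (Finset.sum_le_sum fun l _ => ?_)
      have := norm_acomp_spT_le hB hW hWn hχ l hv
      rwa [hmu, Complex.natCast_re] at this
    have h3 := Finset.sum_le_sum fun v (hv : v ∈ (Finset.univ : Finset W).erase 0) =>
      h2 v (Finset.ne_of_mem_erase hv)
    rw [Finset.sum_const, Finset.card_erase_of_mem (Finset.mem_univ _), Finset.card_univ, hQ,
      Finset.sum_comm] at h3
    have h4 : (q : ℝ) * ∑ l ∈ Finset.univ.filter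
        fun l : AddChar (QE hA W) ℂ => l.compAddMonoidHom (iota hA W) ≠ 0,
          ∑ v ∈ (Finset.univ : Finset W).erase 0,
          (if l.compAddMonoidHom (lineHom hA v) = 0 then (mu l : ℝ) else 0) ≤
        (Q ^ 2 + Q) * ∑ l ∈ Finset.univ.filter
        fun l : AddChar (QE hA W) ℂ => l.compAddMonoidHom (iota hA W) ≠ 0, (mu l : ℝ) := by
      rw [Finset.mul_sum, Finset.mul_sum]
      refine Finset.sum_le_sum fun l hl => ?_
      have h5 : ((q * (Finset.univ.filter fun v : W =>
          l.compAddMonoidHom (lineHom hA v) = 0).card : ℕ) : ℝ) ≤ ((Q ^ 2 + Q : ℕ) : ℝ) :=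
        Nat.cast_le.2 (card_fixed_le hWn (Finset.mem_filter.1 hl).2 hQ)
      have h6 : ∑ v ∈ (Finset.univ : Finset W).erase 0,
          (if l.compAddMonoidHom (lineHom hA v) = 0 then (mu l : ℝ) else 0) ≤
          (Finset.univ.filter fun v : W => l.compAddMonoidHom (lineHom hA v) = 0).card * mu l := by
        rw [← nsmul_eq_mul, ← Finset.sum_const, Finset.sum_filter]
        exact Finset.sum_le_sum_of_subset_of_nonneg (Finset.erase_subset _ _) fun _ _ _ => by
          split_ifs <;> positivity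
      push_cast at h5
      calc _ ≤ (q : ℝ) * ((Finset.univ.filter fun v : W =>
            l.compAddMonoidHom (lineHom hA v) = 0).card * mu l) := by gcongr
        _ ≤ _ := by rw [← mul_assoc]; gcongr
    have h5 : ∑ l ∈ Finset.univ.filter
        fun l : AddChar (QE hA W) ℂ => l.compAddMonoidHom (iota hA W) ≠ 0, (mu l : ℝ) =
        (q - 1) * b := by
      have : ∑ l ∈ Finset.univ.filter
        fun l : AddChar (QE hA W) ℂ => l.compAddMonoidHom (iota hA W) ≠ 0, (mu l : ℂ) =
        (q - 1) * b := by linear_combination hχ1 - h1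
      exact_mod_cast this
    have hQq : q ^ 2 ≤ Q := Nat.pow_le_pow_right (by omega) hm2
    have hQ1 : 1 ≤ Q ^ 2 := Nat.one_le_pow _ _ (by nlinarith)
    rw [h5] at h4
    rw [nsmul_eq_mul, Nat.cast_sub hQ1] at h3
    push_cast at h3
    have hb1 : (1 : ℝ) ≤ b := by exact_mod_cast hlow.2
    have hq2 : (2 : ℝ) ≤ q := by exact_mod_cast hq
    have hQq' : (q : ℝ) ^ 2 ≤ Q := by exact_mod_cast hQq
    have h6 : (q : ℝ) * ((Q ^ 2 - 1) * b) ≤ (Q ^ 2 + Q) * ((q - 1) * b) :=
      (mul_le_mul_of_nonneg_left h3 (by positivity)).trans h4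
    have h7 : 0 < ((Q : ℝ) + 1) * b * (Q - q) := by
      have : (0 : ℝ) < Q - q := by nlinarith
      positivity
    nlinarith
  have hlowb : (Q : ℝ) ^ 2 ≤ 2 * b + Q := by exact_mod_cast hlow.1
  have hq2 : (2 : ℝ) ≤ q := by exact_mod_cast hq
  have h2 : (χ 1).re = a + (q - 1) * b := by rw [hχ1]; simp
  have h3 : (q : ℝ) ^ (m + 1) = q * Q := by rw [hQdef]; push_cast; ring
  rw [h2, h3]
  have h4 : 0 ≤ ((q : ℝ) + 1) * (q - 1) * (2 * b + Q - Q ^ 2) := by
    have : (0 : ℝ) ≤ q - 1 := by linarith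
    have : (0 : ℝ) ≤ 2 * b + Q - Q ^ 2 := by linarith
    positivity
  nlinarith

theorem le_degree [Fintype F] [DecidableEq F] (n k : ℕ)
    (ρ : Representation ℂ (Matrix.symplecticGroup (Fin n) F) (Fin k → ℂ))
    (hρ : ρ.IsIrreducible) (hk : 2 ≤ k) :
    ((Fintype.card F : ℝ) ^ n - 1) * ((Fintype.card F : ℝ) ^ n - Fintype.card F) ≤
      2 * (Fintype.card F + 1) * k := by
  have : Finite ((Fin n ⊕ Fin n → F) ≃ₗ[F] (Fin n ⊕ Fin n → F)) := DFunLike.finite _
  have hχ : IsIrrCharacter (SpB (sympBilin n F)) fun g => ρ.character ((spEquivSpB n F).symm g) :=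
    (isIrrCharacter_rep ρ).comp_equiv (spEquivSpB n F).symm
  have h1 : ρ.character ((spEquivSpB n F).symm 1) = k := by
    rw [map_one, Representation.char_one, Module.finrank_fin_fun]
  have := bound n (sympBilin_nondegenerate n) (sympBilin_isAlt n) (finrank_symp_space n)
    hχ.isCharacter ?_
  · rwa [h1, Complex.natCast_re] at this
  by_contra hcon
  push Not at hcon
  have htop := SpB_eq_top_of_spT_mem (sympBilin_nondegenerate n) (sympBilin_isAlt n)
    (charKer fun g => ρ.character ((spEquivSpB n F).symm g)) fun w c => by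
      obtain ⟨s, rfl⟩ := exists_sq c
      rw [hχ.mem_charKer_iff, ← mul_one (s ^ 2), ← spT_smul, hcon]
  have := congrFun (hχ.charKer_eq_top_iff.1 htop) 1
  rw [h1] at this
  have : k = 1 := by exact_mod_cast this
  omega

end two

end Cfsg.Lib.Char.SpDeg
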