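import Cfsg.Agent.Char.MinDegSL1
import Cfsg.Agent.Char.MinDegSp

/-! The minimal degree of a non-linear irreducible character of `SL_n(q)`. -/

set_option autoImplicit false

namespace Cfsg.Lib.Char.SLDeg

open Matrix Cfsg.Lib.Class

variable {ι : Type*} [Fintype ι] [DecidableEq ι] {F : Type*} [Field F] [Fintype F]
  {W : Submodule F (ι → F)}

theorem delta_irr {η : St W → ℂ} (hη : IsIrrCharacter (St W) η) (hW : Fintype.card W = Fintype.card F ^ 2)
    {v w : ι → F} (hv : v ∈ W) (hw : w ∈ W) (hv0 : v ≠ 0) (h : ∀ c : F, w ≠ c • v) :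
    ∃ d : ℝ, (d = 0 ∨ ((Fintype.card F : ℝ) + 1) / (2 * Fintype.card F) ≤ d) ∧
      Fintype.card (ann v) * cS η v - ES η w v = (Fintype.card (ann v) : ℂ) ^ 2 * d := by
  classical
  have key := lemmaE hη hv hw hv0 h
  choose m hm using exists_acomp_one hη.isCharacter (zW hv)
  have h1 := sum_acomp (zW hv) η 1
  rw [← Finset.add_sum_erase _ _ (Finset.mem_univ 0)] at h1
  simp only [hm] at h1
  rw [← Nat.cast_sum] at h1
  have hQ := card_cast_ne_zero (ann v)
  have h2 : cS η v = Fintype.card (ann v) * m 0 := by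
    rw [← hm, acomp, mul_inv_cancel_left₀ hQ]
    simp only [AddChar.zero_apply, one_mul]
    rfl
  set j := m 0
  set r := ∑ l ∈ Finset.univ.erase 0, m l
  have hN : (j : ℂ) + r ≠ 0 := h1 ▸ hη.apply_one_ne_zero
  have hq : 1 < Fintype.card F := Fintype.one_lt_card
  set q := Fintype.card F
  have hq0 : (q : ℂ) ≠ 0 := by exact_mod_cast (by omega : q ≠ 0)
  have hq1 : (q : ℂ) - 1 ≠ 0 := sub_ne_zero.2 (by exact_mod_cast hq.ne')
  refine ⟨(q + 1) * (j * r) / (q * (j + r)), ?_, ?_⟩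
  · rcases Nat.eq_zero_or_pos j with hj | hj
    · left; simp [hj]
    rcases Nat.eq_zero_or_pos r with hr | hr
    · left; simp [hr]
    right
    have hj' : (1 : ℝ) ≤ j := by exact_mod_cast hj
    have hr' : (1 : ℝ) ≤ r := by exact_mod_cast hr
    have hq' : (1 : ℝ) < q := by exact_mod_cast hq
    rw [div_le_div_iff₀ (by positivity) (by positivity)]
    have : (j : ℝ) + r ≤ 2 * (j * r) := by nlinarith
    have h3 : 0 ≤ (q + 1 : ℝ) * q := by positivity
    nlinarith
  · rw [← h1, hW, h2] at key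
    rw [h2]
    push_cast at key ⊢
    field_simp
    apply mul_left_cancel₀ hq1
    linear_combination -key

theorem delta_char {θ : St W → ℂ} (hθ : IsCharacter (St W) θ) (hW : Fintype.card W = Fintype.card F ^ 2)
    {v w : ι → F} (hv : v ∈ W) (hw : w ∈ W) (hv0 : v ≠ 0) (h : ∀ c : F, w ≠ c • v) :
    ∃ d : ℝ, (d = 0 ∨ ((Fintype.card F : ℝ) + 1) / (2 * Fintype.card F) ≤ d) ∧
      Fintype.card (ann v) * cS θ v - ES θ w v = (Fintype.card (ann v) : ℂ) ^ 2 * d := by
  refine hθ.induction_on (P := fun θ => ∃ d : ℝ,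
    (d = 0 ∨ ((Fintype.card F : ℝ) + 1) / (2 * Fintype.card F) ≤ d) ∧
      Fintype.card (ann v) * cS θ v - ES θ w v = (Fintype.card (ann v) : ℂ) ^ 2 * d)
    ⟨0, Or.inl rfl, by simp [cS, ES]⟩ ?_
  rintro η θ hη - ⟨d, hd, e⟩
  obtain ⟨d', hd', e'⟩ := delta_irr hη hW hv hw hv0 h
  have h0 : 0 ≤ ((Fintype.card F : ℝ) + 1) / (2 * Fintype.card F) := by positivity
  refine ⟨d' + d, ?_, ?_⟩
  · rcases hd with rfl | hd
    · simpa using hd'
    · right; rcases hd' with rfl | hd' <;> linarith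
  · simp only [cS, ES, Pi.add_apply, Finset.sum_add_distrib] at e e' ⊢
    push_cast
    linear_combination e + e'

theorem addChar_map_sum {A I : Type*} [AddCommGroup A] (l : AddChar A ℂ) (s : Finset I) (f : I → A) :
    l (∑ i ∈ s, f i) = ∏ i ∈ s, l (f i) := by
  classical
  induction s using Finset.induction_on with
  | empty => simp
  | insert a s ha ih => rw [Finset.sum_insert ha, Finset.prod_insert ha, l.map_add_eq_mul, ih]

theorem exists_dot_char {ψ : AddChar F ℂ} (hψ : ψ ≠ 0) (U : Submodule F (ι → F)) (l : AddChar U ℂ) :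
    ∃ u : ι → F, ∀ φ : U, l φ = ψ (φ.1 ⬝ᵥ u) := by
  obtain ⟨U', hU⟩ := U.exists_isCompl
  let π := U.projectionOnto U' hU
  choose r hr using fun i : ι => SpDeg.exists_mulShift hψ
    (l.compAddMonoidHom (π.toAddMonoidHom.comp (AddMonoidHom.single (fun _ => F) i)))
  refine ⟨r, fun φ => ?_⟩
  have h1 : φ = ∑ i, π (Pi.single i (φ.1 i)) := by
    rw [← map_sum, Finset.univ_sum_single]
    exact (Submodule.projectionOnto_apply_left hU φ).symm
  conv_lhs => rw [h1]
  rw [dotProduct, addChar_map_sum, addChar_map_sum]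
  exact Finset.prod_congr rfl fun i _ => by rw [mul_comm, ← hr]; rfl

omit [Fintype F] in
theorem zR_injective {v : ι → F} (hv : v ≠ 0) : Function.Injective (zR v) := by
  intro a b e
  have : zR v (a - b) = 1 := by
    have := (zR v).map_add_eq_mul (a - b) b
    rw [sub_add_cancel, e] at this
    exact (right_eq_mul.1 this)
  exact sub_eq_zero.1 (Subtype.ext (((tvS_eq_one_iff (a - b).2).1 this).resolve_left hv))

theorem exists_equiv_of_normalizes {G A : Type*} [Group G] [AddCommGroup A] [Finite A] {ζ : AddChar A G}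
    (hζ : Function.Injective ζ) {g : G} (e : A → A) (he : ∀ a, g * ζ a * g⁻¹ = ζ (e a)) :
    ∃ φ : A ≃ A, (∀ a, g * ζ a = ζ (φ a) * g) ∧ ∀ a, φ a = e a := by
  have hi : Function.Injective e := fun a b h => hζ (by
    have := (he a).trans ((congrArg ζ h).trans (he b).symm)
    simpa using this)
  exact ⟨Equiv.ofBijective e (Finite.injective_iff_bijective.1 hi), fun a => by
    rw [Equiv.ofBijective_apply, ← he]; group, fun _ => rfl⟩

theorem mem_acStab {ψ : AddChar F ℂ} {v u : ι → F} (hv : v ≠ 0) {l : AddChar (ann v) ℂ}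
    (hl : ∀ φ : ann v, l φ = ψ (φ.1 ⬝ᵥ u)) {g : SpecialLinearGroup ι F} {a : F}
    (h1 : (g : Matrix ι ι F) *ᵥ v = a • v) (h2 : (g : Matrix ι ι F) *ᵥ u = a • u) :
    g ∈ acStab (zR v) l := by
  have ha : a ≠ 0 := by rintro rfl; exact SL_mulVec_ne_zero g hv (by simpa using h1)
  have h3 : ∀ φ : ann v, (φ.1 ᵥ* ((g⁻¹ : SpecialLinearGroup ι F) : Matrix ι ι F)) ⬝ᵥ v = 0 := fun φ => by
    have := (SL_vecMul_inv_dot_mulVec g φ.1 v).trans φ.2
    rw [h1] at this
    simpa only [dotProduct_smul, smul_eq_mul, mul_eq_zero, ha, false_or] using this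
  obtain ⟨e, he, he'⟩ := exists_equiv_of_normalizes (zR_injective hv) (g := g)
    (fun φ => ⟨a • (φ.1 ᵥ* ((g⁻¹ : SpecialLinearGroup ι F) : Matrix ι ι F)), (ann v).smul_mem _ (h3 φ)⟩)
    fun φ => (conj_tvS g φ.2).trans (by rw [h1, tvS_smul_left _ (h3 φ)]; rfl)
  refine ⟨e, he, fun φ => ?_⟩
  rw [he', hl, hl, ← SL_vecMul_inv_dot_mulVec g φ.1 u, h2, smul_dotProduct, dotProduct_smul]

section lin

variable {G : Type*} [Group G] {K : Subgroup G} {μ : G → ℂ}

theorem lin_conj (hμ : IsCharacter K fun h => μ h) {g x : G} (hg : g ∈ K) (hx : x ∈ K) :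
    μ (g * x * g⁻¹) = μ x :=
  hμ.isClassFunction.apply_conj ⟨x, hx⟩ ⟨g, hg⟩

theorem lin_eq_one (hμ : IsCharacter K fun h => μ h) (h1 : μ 1 = 1) {x y : G} (hx : x ∈ K) (hy : y ∈ K)
    (h : μ (x * y) = μ x) : μ y = 1 := by
  have h2 := hμ.map_mul_of_apply_one h1 ⟨x, hx⟩ ⟨y, hy⟩
  have h3 := hμ.map_mul_of_apply_one h1 ⟨x⁻¹, inv_mem hx⟩ ⟨x, hx⟩
  simp only [Subgroup.coe_mul, inv_mul_cancel, h1] at h2 h3
  rw [h] at h2
  linear_combination (μ y - 1) * h3 - μ x⁻¹ * h2

end lin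

omit [Fintype F] in
theorem lin_tvS {K : Subgroup (SpecialLinearGroup ι F)} {μ : SpecialLinearGroup ι F → ℂ}
    (hμ : IsCharacter K fun h => μ h) (h1 : μ 1 = 1) {v w u β : ι → F}
    (hK : ∀ (g : SpecialLinearGroup ι F) (a : F), (g : Matrix ι ι F) *ᵥ v = a • v →
      (g : Matrix ι ι F) *ᵥ u = a • u → g ∈ K)
    (hβ : β ≠ 0) (hv : β ⬝ᵥ v = 0) (hw : β ⬝ᵥ w = 0) (hu : β ⬝ᵥ u = 0)
    (hn : 5 ≤ Fintype.card ι ∨ (Fintype.card ι = 4 ∧ ∃ b : F, b ≠ 0 ∧ b ^ 2 ≠ 1) ∨
      ∃ a : F, a ≠ 0 ∧ a ^ Fintype.card ι ≠ 1) : μ (tvS w β) = 1 := by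
  have hK1 : ∀ x f : ι → F, f ⬝ᵥ x = 0 → f ⬝ᵥ v = 0 → f ⬝ᵥ u = 0 → tvS x f ∈ K := fun x f e1 e2 e3 =>
    hK _ 1 (by simp [tvS_mulVec e1, e2]) (by simp [tvS_mulVec e1, e3])
  have hx : ∀ s : F, tvS w (s • β) ∈ K := fun s => hK1 _ _ (by simp [hw]) (by simp [hv]) (by simp [hu])
  have hscale : ∀ κ : F, κ ≠ 1 → (∀ s : F, μ (tvS w ((κ * s) • β)) = μ (tvS w (s • β))) →
      μ (tvS w β) = 1 := by
    intro κ hκ h
    have hκ' : κ - 1 ≠ 0 := sub_ne_zero.2 hκ
    refine lin_eq_one hμ h1 (hx (κ - 1)⁻¹) (by simpa using hx 1) ?_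
    rw [← tvS_add_right (by simp [hw]) hw, ← h]
    congr 2
    rw [← add_left_inj (-β), add_neg_cancel_right, ← sub_eq_add_neg]
    nth_rw 3 [← one_smul F β]
    rw [← sub_smul]
    congr 1
    field_simp
    ring
  obtain ⟨z', hz'⟩ := exists_dot_eq_one' hβ
  have hB : ∀ S : Submodule F (ι → F), v ∈ S → w ∈ S → u ∈ S →
      Module.finrank F S + 2 ≤ Fintype.card ι → μ (tvS w β) = 1 := by
    intro S h2 h3 h4 h5
    obtain ⟨a', ha'⟩ := exists_notMem_of_finrank_lt (W := S ⊔ Submodule.span F {z'}) (by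
      have := Submodule.finrank_add_le_finrank_add_finrank S (Submodule.span F {z'})
      have := finrank_span_le_card (R := F) ({z'} : Set (ι → F))
      simp only [Set.toFinset_singleton, Finset.card_singleton] at this
      omega)
    have ha : a' - (β ⬝ᵥ a') • z' ∉ S := fun e => ha' (by
      have := add_mem (Submodule.mem_sup_left e : _ ∈ S ⊔ Submodule.span F {z'})
        (Submodule.mem_sup_right (Submodule.smul_mem _ (β ⬝ᵥ a') (Submodule.mem_span_singleton_self z')))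
      simpa using this)
    have ha0 : β ⬝ᵥ (a' - (β ⬝ᵥ a') • z') = 0 := by simp [hz']
    obtain ⟨f, hf, hf1⟩ := exists_dot_of_notMem ha
    have m1 := hK1 _ _ ha0 hv hu
    refine lin_eq_one hμ h1 m1 (hK1 _ _ hw hv hu) ?_
    rw [← tvS_add_left ha0 hw, ← lin_conj hμ (hK1 w f (hf _ h3) (hf _ h2) (hf _ h4)) m1,
      tvS_conj_tvS (hf _ h3) ha0, hf1, hw]
    simp
  rcases hn with hn | ⟨hn, b, hb, hb'⟩ | ⟨a, ha, ha'⟩
  · refine hB (Submodule.span F {v, w} ⊔ Submodule.span F {u})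
      (Submodule.mem_sup_left (Submodule.subset_span (by simp)))
      (Submodule.mem_sup_left (Submodule.subset_span (by simp)))
      (Submodule.mem_sup_right (Submodule.subset_span (by simp))) ?_
    have := Submodule.finrank_add_le_finrank_add_finrank (Submodule.span F {v, w}) (Submodule.span F {u})
    have := finrank_span_le_card (R := F) ({u} : Set (ι → F))
    simp only [Set.toFinset_singleton, Finset.card_singleton] at this
    have := finrank_span_pair_le v w
    omega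
  · by_cases h : w ∈ Submodule.span F {v, u}
    · refine hB _ (Submodule.subset_span (by simp)) h (Submodule.subset_span (by simp)) ?_
      have := finrank_span_pair_le v u
      omega
    obtain ⟨α, hα, hα1⟩ := exists_dot_of_notMem h
    have hαv := hα v (Submodule.subset_span (by simp))
    have hαu := hα u (Submodule.subset_span (by simp))
    set z := z' - (α ⬝ᵥ z') • w with hz
    have hαz : α ⬝ᵥ z = 0 := by simp [hz, hα1]
    have hβz : β ⬝ᵥ z = 1 := by simp [hz, hz', hw]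
    have hy : ∀ s : F, tvS z (s • α) ∈ K := fun s =>
      hK1 _ _ (by simp [hαz]) (by simp [hαv]) (by simp [hαu])
    refine hscale _ hb' fun s => ?_
    have c1 := mul_mem (mul_mem (hy 1) (hx s)) (inv_mem (hy 1))
    have c2 := mul_mem (mul_mem (hx (b - 1)) c1) (inv_mem (hx (b - 1)))
    rw [← lin_conj hμ (hy 1) (hx s), ← lin_conj hμ (hx (b - 1)) c1, ← lin_conj hμ (hy (-b⁻¹)) c2,
      tvS_conj_tvS (by simp [hαz]) (by simp [hw]),
      tvS_conj_tvS (by simp [hw]) (by simp [hw, hαz, hβz, hα1]),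
      tvS_conj_tvS (by simp [hαz]) (by simp [hw, hαz, hβz, hα1]; ring), sq, mul_assoc, mul_smul,
      ← tvS_smul_left _ (by simp [hw])]
    congr 2
    · simp only [smul_dotProduct, dotProduct_add, dotProduct_smul, hα1, hαz, hw, hβz, smul_eq_mul]
      match_scalars <;> field_simp <;> ring
    · simp only [smul_dotProduct, sub_dotProduct, hα1, hαz, hw, hβz, smul_eq_mul]
      match_scalars <;> field_simp <;> ring
  · set n := Fintype.card ι
    have hdet : (a • (1 + vecMulVec z' (((a ^ n)⁻¹ - 1) • β))).det = 1 := by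
      rw [det_smul, det_one_add_vecMulVec]; simp [hz', n, ha]
    obtain ⟨g, hgd⟩ : ∃ g : SpecialLinearGroup ι F, (g : Matrix ι ι F) =
      a • (1 + vecMulVec z' (((a ^ n)⁻¹ - 1) • β)) := ⟨⟨_, hdet⟩, rfl⟩
    have hg : ∀ x, β ⬝ᵥ x = 0 → (g : Matrix ι ι F) *ᵥ x = a • x := fun x e => by
      rw [hgd, smul_mulVec, one_add_vecMulVec_mulVec]; simp [e]
    have hg' : β ᵥ* (g : Matrix ι ι F) = (a * (a ^ n)⁻¹) • β := by
      rw [hgd, vecMul_smul, vecMul_one_add_vecMulVec]; simp [hz', sub_smul, mul_smul]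
    refine hscale _ ha' fun s => ?_
    rw [← lin_conj hμ (inv_mem (hK g a (hg _ hv) (hg _ hu))) (hx (a ^ n * s)),
      conj_tvS _ (by simp [hw]), inv_inv]
    have : ((g⁻¹ : SpecialLinearGroup ι F) : Matrix ι ι F) *ᵥ w = a⁻¹ • w := by
      have : w = a⁻¹ • (g : Matrix ι ι F) *ᵥ w := by rw [hg _ hw, smul_smul, inv_mul_cancel₀ ha, one_smul]
      conv_lhs => rw [this, mulVec_smul, ← SL_mul_mulVec, inv_mul_cancel]
      simp
    rw [this, smul_vecMul, hg', tvS_smul_left _ (by simp [hw]), smul_smul, smul_smul]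
    congr 3
    field_simp

end Cfsg.Lib.Char.SLDeg
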