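import Cfsg.Agent.Char.AbComp
import Cfsg.Agent.Char.ProjRep
import Cfsg.Agent.Class.HermSimple

/-! The Landazuri-Seitz bound for the special unitary groups. -/

set_option autoImplicit false

namespace Cfsg.Lib.Char

open scoped ComplexConjugate
open Module Cfsg.Lib.Class Cfsg.Lib.Class.Form

theorem heis_degree {N : Type*} [Group N] [Fintype N] {φ : N → ℂ} (hφ : IsCharacter N φ)
    {A : Type*} [Fintype A] [Nonempty A] (z : A → N) (hz : Function.Injective z) {Q : ℕ}
    (hQ : Nat.card N = Q ^ 2 * Fintype.card A) (h0 : ∀ n, n ∉ Set.range z → φ n = 0)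
    (h1 : ∀ a, ‖φ (z a)‖ = ‖φ 1‖) : ∃ k : ℕ, φ 1 = (k * Q : ℕ) ∧ classInner φ φ = (k ^ 2 : ℕ) := by
  obtain ⟨d, hd⟩ := hφ.exists_nat_degree
  obtain ⟨m, hm⟩ := hφ.exists_nat_classInner hφ
  have hs : ∑ n, φ n * conj (φ n) = Fintype.card A * (d : ℂ) ^ 2 := by
    rw [← Fintype.sum_of_injective z hz (fun a => φ (z a) * conj (φ (z a))) _
      (fun n hn => by rw [h0 n hn, zero_mul]) (fun _ => rfl)]
    simp only [Complex.mul_conj', h1, hd, Finset.sum_const, Finset.card_univ, nsmul_eq_mul,
      Complex.norm_natCast, Complex.ofReal_natCast]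
  have h2 := card_mul_classInner φ φ
  rw [hs, hm, hQ] at h2
  have h3 : Fintype.card A * (Q ^ 2 * m) = Fintype.card A * d ^ 2 := by
    have : ((Fintype.card A * (Q ^ 2 * m) : ℕ) : ℂ) = ((Fintype.card A * d ^ 2 : ℕ) : ℂ) := by
      push_cast at h2 ⊢; linear_combination h2
    exact_mod_cast this
  have h4 := Nat.eq_of_mul_eq_mul_left Fintype.card_pos h3
  obtain ⟨k, hk⟩ := (Nat.pow_dvd_pow_iff two_ne_zero).1 (Dvd.intro _ h4)
  have hQ0 : 0 < Q := Nat.pos_of_ne_zero fun h => by
    rw [h] at hQ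
    exact absurd hQ (by simp)
  refine ⟨k, by rw [hd, hk, mul_comm], ?_⟩
  rw [hm]
  rw [hk, mul_pow] at h4
  rw [Nat.eq_of_mul_eq_mul_left (pow_pos hQ0 2) h4]

namespace SUDeg

variable {F V : Type*} [Field F] [AddCommGroup V] [Module F V] {σ : F →+* F}
  {B : V →ₛₗ[σ] V →ₗ[F] F}

instance : CoeFun (sIsom B) fun _ => V → V := ⟨fun g => ((g : isomGroup B) : V ≃ₗ[F] V)⟩

theorem sext {g g' : sIsom B} (h : ∀ x, g x = g' x) : g = g' := Subtype.ext (isom_ext h)

theorem smul_apply' (g g' : sIsom B) (x : V) : (g * g' : sIsom B) x = g (g' x) := rfl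

theorem sapply_inv (g : sIsom B) (x : V) : g ((g⁻¹ : sIsom B) x) = x := isom_apply_inv g.1 x

theorem sinv_apply (g : sIsom B) (x : V) : (g⁻¹ : sIsom B) (g x) = x := isom_inv_apply g.1 x

theorem sisom (g : sIsom B) (x y : V) : B (g x) (g y) = B x y := isom_apply g.1 x y

/-- `g` is the Eichler map attached to `e, w, b` -/
def IsE (e w : V) (b : F) (g : sIsom B) : Prop :=
  ∀ v, g v = v + B e v • w - (B w v + b * B e v) • e

theorem IsE.unique {e w : V} {b : F} {g g' : sIsom B} (h : IsE e w b g) (h' : IsE e w b g') :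
    g = g' := sext fun x => (h x).trans (h' x).symm

theorem IsE.mul {e w w' : V} {b b' : F} {g g' : sIsom B} (he : B e e = 0) (hw : B w e = 0)
    (hw' : B e w' = 0) (h : IsE e w b g) (h' : IsE e w' b' g') :
    IsE e (w + w') (b + b' + B w w') (g * g') := by
  intro v
  rw [smul_apply', h, h']
  simp only [map_add, map_sub, map_smul, smul_eq_mul, he, hw, hw', LinearMap.add_apply]
  module

theorem IsE.conj {e w : V} {b : F} {g γ : sIsom B} (hγ : γ e = e) (h : IsE e w b g) :
    IsE e (γ w) b (γ * g * γ⁻¹) := by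
  intro v
  obtain ⟨u, rfl⟩ : ∃ u, v = γ u := ⟨_, (sapply_inv γ v).symm⟩
  have h1 : B e (γ u) = B e u := by conv_lhs => rw [← hγ, sisom]
  rw [smul_apply', smul_apply', sinv_apply, h, h1, sisom]
  simp only [map_add, map_sub, map_smul, hγ]

variable [FiniteDimensional F V]

/-- transvections as elements of the special unitary group -/
def T (h : Herm B) (v : V) (hv : B v v = 0) (c : F) (hc : c + σ c = 0) : sIsom B :=
  ⟨h.transv v hv c hc, (h.isTransv_transv v hv c hc).mem_sIsom⟩

theorem T_apply (h : Herm B) (v : V) (hv : B v v = 0) (c : F) (hc : c + σ c = 0) (x : V) :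
    T h v hv c hc x = x + (c * B v x) • v := h.transv_apply v hv c hc x

theorem isE_T (h : Herm B) (v : V) (hv : B v v = 0) (c : F) (hc : c + σ c = 0) :
    IsE v 0 (-c) (T h v hv c hc) := by
  intro x
  rw [T_apply]
  simp

theorem mul_T (h : Herm B) (g : sIsom B) {v v' : V} (hv : B v v = 0) (hv' : B v' v' = 0) {c c' a : F}
    (hc : c + σ c = 0) (hc' : c' + σ c' = 0) (hg : g v = a • v') (hcc : c' = σ a * a * c) :
    g * T h v hv c hc = T h v' hv' c' hc' * g := by
  refine sext fun x => ?_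
  rw [smul_apply', smul_apply', T_apply, T_apply, map_add, map_smul, ← sisom g v x, hg, hcc,
    map_smulₛₗ, LinearMap.smul_apply, smul_smul, smul_eq_mul]
  congr 2
  ring

/-- the trace zero elements -/
def A0 (σ : F →+* F) : AddSubgroup F where
  carrier := {c | c + σ c = 0}
  zero_mem' := by simp
  add_mem' := fun {a b} ha hb => by
    simp only [Set.mem_ofPred_eq, map_add] at *; linear_combination ha + hb
  neg_mem' := fun {a} ha => by
    simp only [Set.mem_ofPred_eq, map_neg] at *; linear_combination -ha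

theorem A0.prop (c : A0 σ) : (c : F) + σ c = 0 := c.2

/-- the root group -/
def zeta (h : Herm B) (e : V) (he : B e e = 0) : AddChar (A0 σ) (sIsom B) where
  toFun c := T h e he c (A0.prop c)
  map_zero_eq_one' := sext fun x => by rw [T_apply]; simp
  map_add_eq_mul' c d := sext fun x => by
    rw [smul_apply', T_apply, T_apply, T_apply]
    simp only [AddSubgroup.coe_add, map_add, map_smul, he, smul_eq_mul]
    module

theorem zeta_apply (h : Herm B) (e : V) (he : B e e = 0) (c : A0 σ) :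
    zeta h e he c = T h e he c (A0.prop c) := rfl

theorem mul_zeta (h : Herm B) {e : V} (he : B e e = 0) {g : sIsom B} (hg : g e = e) (c : A0 σ) :
    g * zeta h e he c = zeta h e he c * g :=
  mul_T h g he he c.2 c.2 (a := 1) (by rw [hg, one_smul]) (by simp)

theorem mem_acStab (h : Herm B) {e : V} (he : B e e = 0) {g : sIsom B} (hg : g e = e)
    (l : AddChar (A0 σ) ℂ) : g ∈ acStab (zeta h e he) l :=
  ⟨Equiv.refl _, mul_zeta h he hg, fun _ => rfl⟩

/-- the Heisenberg group of `W` -/
@[ext] structure Heis (h : Herm B) (W : Submodule F V) where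
  w : W
  b : F
  hb : b + σ b = B w w

omit [FiniteDimensional F V] in
instance (h : Herm B) (W : Submodule F V) : Group (Heis h W) where
  mul x y := ⟨x.w + y.w, x.b + y.b + B x.w y.w, by
    simp only [map_add, Submodule.coe_add, LinearMap.add_apply, h.conj]
    linear_combination x.hb + y.hb⟩
  one := ⟨0, 0, by simp⟩
  inv x := ⟨-x.w, σ x.b, by
    simp only [Submodule.coe_neg, map_neg, LinearMap.neg_apply, neg_neg, h.invol]
    linear_combination x.hb⟩
  mul_assoc x y z := by
    refine Heis.ext (add_assoc _ _ _) ?_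
    change x.b + y.b + B x.w y.w + z.b + B ((x.w + y.w : W) : V) z.w =
      x.b + (y.b + z.b + B y.w z.w) + B x.w ((y.w + z.w : W) : V)
    simp only [map_add, Submodule.coe_add, LinearMap.add_apply]
    ring
  one_mul x := by
    refine Heis.ext (zero_add _) ?_
    change 0 + x.b + B ((0 : W) : V) x.w = x.b
    simp
  mul_one x := by
    refine Heis.ext (add_zero _) ?_
    change x.b + 0 + B x.w ((0 : W) : V) = x.b
    simp
  inv_mul_cancel x := by
    refine Heis.ext (neg_add_cancel _) ?_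
    change σ x.b + x.b + B ((-x.w : W) : V) x.w = 0
    simp only [Submodule.coe_neg, map_neg, LinearMap.neg_apply]
    linear_combination x.hb

omit [FiniteDimensional F V] in
theorem Heis.mul_w {h : Herm B} {W : Submodule F V} (x y : Heis h W) : (x * y).w = x.w + y.w := rfl

omit [FiniteDimensional F V] in
theorem Heis.mul_b {h : Herm B} {W : Submodule F V} (x y : Heis h W) :
    (x * y).b = x.b + y.b + B x.w y.w := rfl

omit [FiniteDimensional F V] in
/-- coordinates -/
def Heis.equivSigma (h : Herm B) (W : Submodule F V) :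
    Heis h W ≃ Σ w : W, {b : F // b + σ b = B w w} :=
  ⟨fun x => ⟨x.w, x.b, x.hb⟩, fun p => ⟨p.1, p.2.1, p.2.2⟩, fun _ => rfl, fun _ => rfl⟩

theorem card_trace [Fintype F] {q : ℕ} (hF : Fintype.card F = q ^ 2) (hσ : σ ≠ RingHom.id F)
    (hσ2 : ∀ a, σ (σ a) = a) {n : F} (hn : σ n = n) : Nat.card {b : F // b + σ b = n} = q := by
  obtain rfl := eq_frobq hF hσ hσ2
  exact card_trace_eq hF hn

theorem card_Heis [Fintype F] {q : ℕ} (hF : Fintype.card F = q ^ 2) (h : Herm B)
    (W : Submodule F V) : Nat.card (Heis h W) = (q ^ finrank F W) ^ 2 * q := by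
  have : Finite W := Module.finite_of_finite F
  have := Fintype.ofFinite W
  rw [Nat.card_congr (Heis.equivSigma h W), Nat.card_sigma]
  simp only [card_trace hF h.ne_id h.invol (h.conj _ _), Finset.sum_const, Finset.card_univ,
    smul_eq_mul]
  rw [Module.card_eq_pow_finrank (K := F), hF, ← pow_mul, ← pow_mul, mul_comm 2]

/-- the Heisenberg group inside the unitary group -/
noncomputable def jH (h : Herm B) {e : V} (he : B e e = 0) {W : Submodule F V}
    (hW : ∀ w ∈ W, B e w = 0) (x : Heis h W) : sIsom B :=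
  ⟨h.eich he (hW _ x.w.2) x.b x.hb, h.eich_mem_sIsom _ _ _ _⟩

theorem isE_jH (h : Herm B) {e : V} (he : B e e = 0) {W : Submodule F V}
    (hW : ∀ w ∈ W, B e w = 0) (x : Heis h W) : IsE e x.w x.b (jH h he hW x) :=
  h.eich_apply he (hW _ x.w.2) x.b x.hb

theorem jH_fix (h : Herm B) {e : V} (he : B e e = 0) {W : Submodule F V}
    (hW : ∀ w ∈ W, B e w = 0) (x : Heis h W) : jH h he hW x e = e := by
  rw [isE_jH, he, h.eq_zero_comm.1 (hW _ x.w.2)]
  simp

/-- the Heisenberg group inside the stabiliser of a character of the root group -/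
noncomputable def jS (h : Herm B) {e : V} (he : B e e = 0) {W : Submodule F V}
    (hW : ∀ w ∈ W, B e w = 0) (l : AddChar (A0 σ) ℂ) : Heis h W →* acStab (zeta h e he) l :=
  MonoidHom.mk' (fun x => ⟨jH h he hW x, mem_acStab h he (jH_fix h he hW x) l⟩) fun x y =>
    Subtype.ext ((isE_jH h he hW (x * y)).unique
      ((isE_jH h he hW x).mul he (h.eq_zero_comm.1 (hW _ x.w.2)) (hW _ y.w.2) (isE_jH h he hW y)))

/-- the centre of the Heisenberg group -/
def zH (h : Herm B) (W : Submodule F V) (c : A0 σ) : Heis h W :=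
  ⟨0, -c, by have : (c : F) + σ c = 0 := c.2; simp only [map_neg]; simp; linear_combination -this⟩

theorem jH_zH (h : Herm B) {e : V} (he : B e e = 0) {W : Submodule F V}
    (hW : ∀ w ∈ W, B e w = 0) (c : A0 σ) : jH h he hW (zH h W c) = zeta h e he c :=
  (isE_jH h he hW (zH h W c)).unique (isE_T h e he c c.2)

theorem IsE.eq_mul (h : Herm B) {e w : V} {b b' : F} {g g' : sIsom B} (he : B e e = 0)
    (hw : B w e = 0) (hg : IsE e w b g) (hg' : IsE e w b' g') (hb : (b' - b) + σ (b' - b) = 0) :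
    g = g' * zeta h e he ⟨b' - b, hb⟩ := by
  have := hg'.mul he hw (map_zero _) (isE_T h e he (b' - b) hb)
  rw [add_zero, map_zero, add_zero, show b' + -(b' - b) = b by ring] at this
  exact hg.unique this

theorem exists_sub_eq (h : Herm B) (c : A0 σ) : ∃ x : F, x - σ x = c := by
  obtain ⟨s, hs⟩ := h.exists_trace_eq (n := 1) (map_one σ)
  refine ⟨c * s, ?_⟩
  rw [map_mul]
  linear_combination (c : F) * hs - σ s * A0.prop c

theorem card_A0 [Fintype F] {q : ℕ} (hF : Fintype.card F = q ^ 2) (h : Herm B)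
    [Fintype (A0 σ)] : Fintype.card (A0 σ) = q := by
  rw [← Nat.card_eq_fintype_card]
  exact card_trace hF h.ne_id h.invol (map_zero σ)

section step
variable [Fintype F] [Fintype (A0 σ)] {q : ℕ} (hF : Fintype.card F = q ^ 2) (h : Herm B) {e : V}
  (he : B e e = 0) {W : Submodule F V} (hW : ∀ w ∈ W, B e w = 0) (hWn : NondegOn B W)
  {χ : sIsom B → ℂ} (hχ : IsCharacter (sIsom B) χ) {l : AddChar (A0 σ) ℂ} (hl : l ≠ 0)

theorem exists_apply_ne (hWn : NondegOn B W) {w : V} (hw : w ∈ W) (hw0 : w ≠ 0) (x : F) :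
    ∃ w' ∈ W, B w w' = x := by
  have : ∃ w' ∈ W, B w w' ≠ 0 := by
    by_contra hcon
    push Not at hcon
    exact hw0 (hWn w hw hcon)
  obtain ⟨w', hw', h0⟩ := this
  exact ⟨(x / B w w') • w', W.smul_mem _ hw', by rw [map_smul, smul_eq_mul]; field_simp⟩

include hWn hχ hl in
theorem acomp_jH_eq_zero (x : Heis h W) (hx : x ∉ Set.range (zH h W)) :
    acomp (zeta h e he) χ l (jH h he hW x) = 0 := by
  have hw0 : (x.w : V) ≠ 0 := fun h0 => hx ⟨⟨-x.b, by
    have := x.hb
    rw [h0, map_zero] at this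
    exact (A0 σ).neg_mem this⟩, Heis.ext (Subtype.ext h0.symm) (neg_neg _)⟩
  obtain ⟨c, hc⟩ : ∃ c, l c ≠ 1 := by
    by_contra hcon
    push Not at hcon
    exact hl (AddChar.ext _ _ hcon)
  obtain ⟨y, hy⟩ := exists_sub_eq h c
  obtain ⟨w', hw', hy'⟩ := exists_apply_ne hWn x.w.2 hw0 y
  obtain ⟨b', hb'⟩ := h.exists_trace_eq (h.conj w' w')
  let x' : Heis h W := ⟨⟨w', hw'⟩, b', hb'⟩
  have e1 : x' * x = x * x' * zH h W c := by
    refine Heis.ext ?_ ?_
    · change x'.w + x.w = x.w + x'.w + 0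
      rw [add_zero, add_comm]
    · change b' + x.b + B w' x.w = x.b + b' + B x.w w' + -(c : F) + B _ ((0 : W) : V)
      rw [← h.conj x.w w', hy', ← hy]
      simp only [ZeroMemClass.coe_zero, map_zero]
      ring
  have hθ := isCharacter_acStab (ζ := zeta h e he) hχ l
  have e2 := hθ.isClassFunction.apply_conj (jS h he hW l x) (jS h he hW l x')
  rw [← map_mul, e1, map_mul, map_mul, mul_assoc, mul_assoc] at e2
  have e3 : jS h he hW l x' * (jS h he hW l (zH h W c) * (jS h he hW l x')⁻¹) =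
      jS h he hW l (zH h W c) := by
    rw [← mul_assoc, mul_inv_eq_iff_eq_mul]
    apply Subtype.ext
    change jH h he hW x' * jH h he hW (zH h W c) = jH h he hW (zH h W c) * jH h he hW x'
    rw [jH_zH, mul_zeta h he (jH_fix h he hW x')]
  rw [e3] at e2
  change acomp _ χ l (jH h he hW x * jH h he hW (zH h W c)) = acomp _ χ l (jH h he hW x) at e2
  rw [jH_zH, acomp_mul] at e2
  by_contra h0
  exact hc (mul_right_cancel₀ h0 (by rw [e2, one_mul]))

omit [FiniteDimensional F V] [Fintype F] [Fintype (A0 σ)] in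
theorem zH_injective : Function.Injective (zH h W) := fun c d hcd =>
  Subtype.ext (neg_injective (congrArg Heis.b hcd))

include hF hW hWn hχ hl in
theorem exists_degree : ∃ k : ℕ, acomp (zeta h e he) χ l 1 = (k * q ^ finrank F W : ℕ) ∧
    (k = 1 → IsIrrCharacter (Heis h W) fun x => acomp (zeta h e he) χ l (jS h he hW l x)) := by
  have : Finite W := Module.finite_of_finite F
  have : Finite (Heis h W) := Finite.of_equiv _ (Heis.equivSigma h W).symm
  have := Fintype.ofFinite (Heis h W)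
  have hθ := (isCharacter_acStab (ζ := zeta h e he) hχ l).comp (jS h he hW l)
  obtain ⟨k, h1, h2⟩ := heis_degree hθ (zH h W) (zH_injective h) (Q := q ^ finrank F W)
    (by rw [card_Heis hF, card_A0 hF h]) (acomp_jH_eq_zero h he hW hWn hχ hl) (fun c => by
      change ‖acomp _ χ l (jH h he hW (zH h W c))‖ = _
      rw [jH_zH, map_one, ← one_mul (zeta h e he c), acomp_mul, norm_mul, AddChar.norm_apply,
        one_mul]
      rfl)
  refine ⟨k, by simpa using h1, fun hk => hθ.isIrrCharacter_of_classInner_self ?_⟩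
  rw [h2, hk]
  simp

include hF hW hWn hχ in
theorem norm_acomp_T_le [Finite (sIsom B)]
    (hirr : IsIrrCharacter (Heis h W) fun x => acomp (zeta h e he) χ l (jS h he hW l x))
    {v : V} (hvW : v ∈ W) (hv0 : v ≠ 0) (hv : B v v = 0) {c : F} (hc0 : c ≠ 0) (hc : c + σ c = 0) :
    q * ‖acomp (zeta h e he) χ l (T h v hv c hc)‖ ≤ q ^ finrank F W := by
  classical
  have : Finite W := Module.finite_of_finite F
  have : Finite (Heis h W) := Finite.of_equiv _ (Heis.equivSigma h W).symm
  have := Fintype.ofFinite (Heis h W)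
  have hve : B v e = 0 := h.eq_zero_comm.1 (hW v hvW)
  have hte : T h v hv c hc e = e := by rw [T_apply, hve]; simp
  have hθ := isCharacter_acStab (ζ := zeta h e he) hχ l
  let t : acStab (zeta h e he) l := ⟨_, mem_acStab h he hte l⟩
  have hs := sum_mul_conj_translate_self hθ (jS h he hW l) hirr t
  simp only [Complex.mul_conj'] at hs
  have hs' : ∑ x : Heis h W, ‖acomp (zeta h e he) χ l (jH h he hW x * T h v hv c hc)‖ ^ 2 =
      (Nat.card (Heis h W) : ℝ) := by exact_mod_cast hs
  let u : F × A0 σ → Heis h W := fun p => ⟨⟨p.1 • v, W.smul_mem _ hvW⟩, p.2, by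
    simp [map_smulₛₗ, hv, A0.prop]⟩
  have hu : Function.Injective u := by
    rintro ⟨a, b⟩ ⟨a', b'⟩ hab
    have h1 : a • v = a' • v := congrArg (fun x : Heis h W => (x.w : V)) hab
    exact Prod.ext (smul_left_injective F hv0 h1) (Subtype.ext (congrArg Heis.b hab))
  have hval : ∀ p, ‖acomp (zeta h e he) χ l (jH h he hW (u p) * T h v hv c hc)‖ =
      ‖acomp (zeta h e he) χ l (T h v hv c hc)‖ := by
    rintro ⟨a, b⟩
    obtain ⟨w0, hw0, hw0'⟩ := exists_apply_ne hWn hvW hv0 (-a / c)
    obtain ⟨b0, hb0⟩ := h.exists_trace_eq (h.conj w0 w0)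
    let x0 : Heis h W := ⟨⟨w0, hw0⟩, b0, hb0⟩
    have hw0e : B w0 e = 0 := h.eq_zero_comm.1 (hW w0 hw0)
    have htw : T h v hv c hc (-w0) = -w0 + a • v := by
      rw [T_apply, map_neg, hw0']
      congr 2
      field_simp
    have h1 := (isE_jH h he hW x0).mul he hw0e (by
        change B e (T h v hv c hc (-w0)) = 0
        rw [htw]; simp [hW w0 hw0, hW v hvW])
      ((isE_jH h he hW x0⁻¹).conj hte)
    change IsE e (w0 + T h v hv c hc (-w0)) (b0 + σ b0 + B w0 (T h v hv c hc (-w0))) _ at h1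
    rw [htw, add_neg_cancel_left] at h1
    have hav : B (a • v) e = 0 := by simp [map_smulₛₗ, hve]
    have h2 := h1.eq_mul h he hav (isE_jH h he hW (u (a, b))) (by
      change (b : F) - _ + σ ((b : F) - _) = 0
      have hwv : B w0 v = σ (-a / c) := by rw [← hw0', h.conj]
      have hσc : σ c = -c := by linear_combination hc
      simp only [map_add, map_neg, map_smul, smul_eq_mul, map_sub, map_mul, h.invol, hb0, h.conj,
        hwv, map_div₀, hσc]
      have := A0.prop b
      field_simp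
      linear_combination c * this)
    have h3 := hθ.isClassFunction.apply_conj t (jS h he hW l x0)
    rw [← map_inv] at h3
    change acomp _ χ l (jH h he hW x0 * T h v hv c hc * jH h he hW x0⁻¹) =
      acomp _ χ l (T h v hv c hc) at h3
    rw [← h3, show jH h he hW x0 * T h v hv c hc * jH h he hW x0⁻¹ =
      jH h he hW x0 * (T h v hv c hc * jH h he hW x0⁻¹ * (T h v hv c hc)⁻¹) * T h v hv c hc by
        group, h2, mul_assoc, ← mul_zeta h he hte, ← mul_assoc, acomp_mul, norm_mul,
      AddChar.norm_apply, one_mul]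
  have hle : ∑ p : F × A0 σ, ‖acomp (zeta h e he) χ l (jH h he hW (u p) * T h v hv c hc)‖ ^ 2 ≤
      (Nat.card (Heis h W) : ℝ) := by
    rw [← hs', ← Finset.sum_image (s := Finset.univ) (g := u)
      (f := fun x => ‖acomp (zeta h e he) χ l (jH h he hW x * T h v hv c hc)‖ ^ 2) hu.injOn]
    exact Finset.sum_le_univ_sum_of_nonneg fun _ => sq_nonneg _
  simp only [hval, Finset.sum_const, Finset.card_univ, Fintype.card_prod, hF, card_A0 hF h,
    card_Heis hF, nsmul_eq_mul] at hle
  have hq : (0 : ℝ) < q := by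
    have : 0 < q ^ 2 := hF ▸ Fintype.card_pos
    exact_mod_cast pos_of_ne_zero fun h0 => by simp [h0] at this
  push_cast at hle
  refine le_of_sq_le_sq ?_ (by positivity)
  refine le_of_mul_le_mul_right ?_ hq
  nlinarith [hle]

end step

/-- the embedding of the unitary group of the orthogonal complement -/
noncomputable def emb (h : Herm B) {P : Submodule F V} (hP : NondegOn B P) :
    sIsom (restr B (orth B P)) →* sIsom B :=
  ((stab B P).subtype.comp ((h.stabEquivProd hP).symm.toMonoidHom.comp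
    ((MonoidHom.inr _ _).comp (sIsom _).subtype))).codRestrict (sIsom B) fun g => by
      change LinearEquiv.det (h.glue hP (1, g.1) : V ≃ₗ[F] V) = 1
      rw [h.det_glue, mem_sIsom.1 g.2]
      simp

theorem emb_left (h : Herm B) {P : Submodule F V} (hP : NondegOn B P)
    (g : sIsom (restr B (orth B P))) {a : V} (ha : a ∈ P) : emb h hP g a = a :=
  h.glue_apply_left hP (1, g.1) ⟨a, ha⟩

theorem emb_T (h : Herm B) {P : Submodule F V} (hP : NondegOn B P) (v : orth B P)
    (hv : restr B (orth B P) v v = 0) (c : F) (hc : c + σ c = 0) :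
    emb h hP (T (h.restrict (h.nondegOn_orth hP)) v hv c hc) = T h (v : V) hv c hc := by
  refine Subtype.ext (Subtype.ext (h.ext_of_nondegOn hP (fun a ha => ?_) fun b hb => ?_))
  · refine (emb_left h hP _ ha).trans (Eq.trans ?_ (T_apply h _ _ _ _ _).symm)
    rw [h.eq_zero_comm.1 (mem_orth.1 v.2 a ha)]
    simp
  · refine (h.glue_apply_right hP (1, _) ⟨b, hb⟩).trans (Eq.trans ?_ (T_apply h _ _ _ _ _).symm)
    exact congrArg Subtype.val (T_apply (h.restrict (h.nondegOn_orth hP)) v hv c hc ⟨b, hb⟩)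

theorem exists_norm_mul [Finite F] (h : Herm B) {c c' : F} (hc : c + σ c = 0) (hc' : c' + σ c' = 0)
    (hc0 : c ≠ 0) : ∃ a : F, c' = σ a * a * c := by
  obtain ⟨a, ha⟩ := h.exists_norm_eq (μ := c' / c) (by
    rw [map_div₀, show σ c = -c by linear_combination hc, show σ c' = -c' by linear_combination hc',
      neg_div_neg_eq])
  exact ⟨a, by rw [ha]; field_simp⟩

theorem T_smul (h : Herm B) {v : V} (hv : B v v = 0) {a c c' : F} (hc : c + σ c = 0)
    (hc' : c' + σ c' = 0) (hcc : c' = σ a * a * c) (hav : B (a • v) (a • v) = 0) :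
    T h (a • v) hav c hc = T h v hv c' hc' := by
  have := mul_T h 1 hav hv hc hc' rfl hcc
  rwa [one_mul, mul_one] at this

theorem acomp_zero_T [Finite F] [Fintype (A0 σ)] (h : Herm B) {e f : V} (he : B e e = 0)
    (hfe : B f e = 1) {χ : sIsom B → ℂ} (hχ : IsClassFunction (sIsom B) χ) {v v' : V}
    (hv : B v v = 0) (hv' : B v' v' = 0) (hv0 : v ≠ 0) (hv0' : v' ≠ 0) (hev : B e v = 0)
    (hev' : B e v' = 0) (hfv : B f v = 0) (hfv' : B f v' = 0) {c c' : F} (hc : c + σ c = 0)
    (hc' : c' + σ c' = 0) (hc0 : c ≠ 0) (hc0' : c' ≠ 0) :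
    acomp (zeta h e he) χ 0 (T h v' hv' c' hc') = acomp (zeta h e he) χ 0 (T h v hv c hc) := by
  obtain ⟨a, ha⟩ := exists_norm_mul h hc hc' hc0
  have ha0 : a ≠ 0 := by rintro rfl; simp at ha; exact hc0' ha
  have hli : ∀ {u : V}, u ≠ 0 → B f u = 0 → LinearIndependent F ![e, u] := fun {u} hu hfu => by
    rw [LinearIndependent.pair_iff]
    intro s t hst
    have h1 := congrArg (B f) hst
    simp only [map_add, map_smul, hfe, hfu, smul_eq_mul, mul_one, mul_zero, add_zero,
      map_zero] at h1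
    rw [h1, zero_smul, zero_add] at hst
    exact ⟨h1, (smul_eq_zero.1 hst).resolve_right hu⟩
  have hav : B (a • v') (a • v') = 0 := by simp [map_smulₛₗ, hv']
  obtain ⟨g, ⟨r, hr⟩, hg⟩ := h.exists_sIsom_orth he hv hev (hli hv0 hfv) he hav (by simp [hev'])
    (hli (smul_ne_zero ha0 hv0') (by simp [hfv']))
  have hr0 : r ≠ 0 := by
    rintro rfl
    rw [zero_smul, eq_comm, map_eq_zero_iff _ (LinearEquiv.injective _)] at hr
    simp [hr] at hfe
  have hN : σ (σ r * r) = σ r * r := by rw [map_mul, h.invol, mul_comm]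
  have hN0 : σ r * r ≠ 0 := mul_ne_zero ((map_ne_zero σ).2 hr0) hr0
  have hm : ∀ {x : F}, σ x = x → ∀ d : A0 σ, x * d ∈ A0 σ := fun {x} hx d => by
    change _ + σ _ = 0
    rw [map_mul, hx]
    linear_combination x * A0.prop d
  let φ : A0 σ ≃ A0 σ := ⟨fun d => ⟨σ r * r * d, hm hN d⟩,
    fun d => ⟨(σ r * r)⁻¹ * d, hm (by rw [map_inv₀, hN]) d⟩,
    fun d => Subtype.ext (inv_mul_cancel_left₀ hN0 _), fun d => Subtype.ext (mul_inv_cancel_left₀ hN0 _)⟩
  rw [← acomp_conj hχ (l := 0) (l' := 0) (γ := g) φ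
    (fun d => mul_T h g he he _ _ hr.symm rfl) (fun _ => rfl) (T h v hv c hc),
    mul_T h g hv hv' hc hc' hg.symm ha,
    mul_inv_cancel_right]

theorem apply_T_eq [Finite F] (h : Herm B) (hn : 3 ≤ finrank F V) {χ : sIsom B → ℂ}
    (hχ : IsClassFunction (sIsom B) χ) {v v' : V}
    (hv : B v v = 0) (hv' : B v' v' = 0) (hv0 : v ≠ 0) (hv0' : v' ≠ 0) {c c' : F} (hc : c + σ c = 0)
    (hc' : c' + σ c' = 0) (hc0 : c ≠ 0) (hc0' : c' ≠ 0) :
    χ (T h v' hv' c' hc') = χ (T h v hv c hc) := by
  obtain ⟨a, ha⟩ := exists_norm_mul h hc hc' hc0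
  have ha0 : a ≠ 0 := by rintro rfl; simp at ha; exact hc0' ha
  obtain ⟨g, hg⟩ := h.witt_one (y := a • v') hv0 (smul_ne_zero ha0 hv0')
    (by simp [map_smulₛₗ, hv', hv])
  obtain ⟨d, hd, hdd⟩ := h.exists_nonisotropic_orth_of_lt (W := Submodule.span F {v})
    (by rw [finrank_span_singleton hv0]; omega)
  have hd' : B d v = 0 := h.eq_zero_comm.1 (mem_orth_span_singleton.1 hd)
  have hμ : σ ((LinearEquiv.det (g : V ≃ₗ[F] V) : F)⁻¹) * (LinearEquiv.det (g : V ≃ₗ[F] V) : F)⁻¹ = 1 := by
    rw [map_inv₀, ← mul_inv, h.norm_det, inv_one]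
  let g' : sIsom B := ⟨g * h.qrefl d hdd _ hμ, by
    rw [mem_sIsom', Subgroup.coe_mul, map_mul, Units.val_mul, h.det_qrefl]
    exact mul_inv_cancel₀ (Units.ne_zero _)⟩
  have hg' : g' v = a • v' := by
    change (g : V ≃ₗ[F] V) ((h.qrefl d hdd _ hμ : V ≃ₗ[F] V) v) = _
    rw [h.qrefl_apply, hd', mul_zero, zero_smul, add_zero, hg]
  rw [← hχ.apply_conj (T h v hv c hc) g', mul_T h g' hv hv' hc hc' hg' ha, mul_inv_cancel_right]

/-- the Landazuri-Seitz bound -/
def D (q : ℕ) : ℕ → ℕ
  | 0 => 0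
  | 1 => 0
  | m + 2 => D q m + (q - 1) * q ^ m

theorem D_mul (q : ℕ) (hq : 1 ≤ q) :
    ∀ n, (q + 1) * D q n + (if Even n then 1 else q) = q ^ n
  | 0 => by simp [D]
  | 1 => by simp [D]
  | m + 2 => by
    have ih := D_mul q hq m
    obtain ⟨r, rfl⟩ := Nat.exists_eq_add_of_le' hq
    simp only [D, Nat.even_add, even_two, iff_true, Nat.add_sub_cancel]
    rw [mul_add, add_right_comm, ih]
    ring

universe u

theorem bound [Fintype F] {q : ℕ} (hF : Fintype.card F = q ^ 2) (n : ℕ) :
    ∀ {V : Type u} [AddCommGroup V] [Module F V] [FiniteDimensional F V] {B : V →ₛₗ[σ] V →ₗ[F] F}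
      (h : Herm B), finrank F V = n → ∀ {χ : sIsom B → ℂ}, IsCharacter (sIsom B) χ → ∀ {τ : ℂ},
      (∀ v hv c hc, v ≠ 0 → c ≠ 0 → χ (T h v hv c hc) = τ) → τ ≠ χ 1 → (D q n : ℝ) ≤ (χ 1).re := by
  classical
  induction n using Nat.twoStepInduction with
  | zero =>
    intro V _ _ _ B h hn χ hχ τ _ _
    obtain ⟨d, hd⟩ := hχ.exists_nat_degree
    simp [D, hd]
  | one =>
    intro V _ _ _ B h hn χ hχ τ _ _
    obtain ⟨d, hd⟩ := hχ.exists_nat_degree
    simp [D, hd]
  | more m ih _ =>
  intro V _ _ _ B h hn χ hχ τ hτ hτ1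
  have : Finite V := Module.finite_of_finite F
  have : Finite (V ≃ₗ[F] V) := DFunLike.finite _
  have := Fintype.ofFinite (A0 σ)
  have hq : 2 ≤ q := by
    have : 1 < q ^ 2 := hF ▸ Fintype.one_lt_card
    by_contra hcon
    interval_cases q <;> omega
  obtain ⟨e, he0, he⟩ := h.exists_isotropic (by omega)
  obtain ⟨f, hf, hef⟩ := h.exists_hyperbolic he0 he
  have hfe : B f e = 1 := by rw [← h.conj, hef, map_one]
  have hnd : NondegOn B (Submodule.span F {e, f}) := by
    intro u hu hu'
    obtain ⟨a, b, rfl⟩ := Submodule.mem_span_pair.1 hu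
    have h1 := hu' e (Submodule.subset_span (by simp))
    have h2 := hu' f (Submodule.subset_span (by simp))
    simp [map_smulₛₗ, he, hf, hef, hfe] at h1 h2
    simp [h1, h2]
  set W := orth B (Submodule.span F {e, f}) with hWdef
  have hWn : NondegOn B W := h.nondegOn_orth hnd
  have hW : ∀ w ∈ W, B e w = 0 := fun w hw => mem_orth_span.1 hw e (by simp)
  have hW' : ∀ w ∈ W, B f w = 0 := fun w hw => mem_orth_span.1 hw f (by simp)
  have hm : finrank F W = m := by
    have h1 := h.finrank_orth (Submodule.span F {e, f})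
    have h2 := finrank_span_eq_card (linearIndependent_pair_of_hyp he (hef ▸ one_ne_zero))
    rw [Matrix.range_cons_cons_empty, Fintype.card_fin] at h2
    rw [← hWdef] at h1
    omega
  have hconst : ∀ a : A0 σ, a ≠ 0 → χ (zeta h e he a) = τ := fun a ha =>
    hτ _ _ _ _ he0 fun h0 => ha (Subtype.ext h0)
  have hcA := card_A0 hF h
  have hqc : (q : ℂ) ≠ 0 := by exact_mod_cast (show q ≠ 0 by omega)
  have hdeg := fun l => acomp_one_of_const hconst l
  simp only [hcA] at hdeg
  obtain ⟨l0, hl0⟩ : ∃ l0 : AddChar (A0 σ) ℂ, l0 ≠ 0 := by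
    have : Nontrivial (AddChar (A0 σ) ℂ) :=
      Fintype.one_lt_card_iff_nontrivial.1 (by rw [AddChar.card_eq, hcA]; omega)
    exact exists_ne 0
  obtain ⟨k, hk, -⟩ := exists_degree hF h he hW hWn hχ hl0
  rw [hdeg, if_neg hl0, add_zero, hm] at hk
  obtain ⟨a, ha⟩ := exists_acomp_one hχ (zeta h e he) 0
  have ha' := ha
  rw [hdeg, if_pos rfl, hk] at ha'
  have h1 : χ 1 = (a + (q - 1) * (k * q ^ m) : ℕ) := by
    have : χ 1 - τ = q * (k * q ^ m : ℕ) := by rw [← hk]; field_simp
    push_cast [Nat.cast_sub (show 1 ≤ q by omega)] at this ha' ⊢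
    linear_combination this + ha'
  rw [h1, Complex.natCast_re, Nat.cast_le]
  rcases Nat.lt_trichotomy k 1 with hk1 | rfl | hk1
  · exfalso
    obtain rfl : k = 0 := by omega
    apply hτ1
    simp only [zero_mul, Nat.cast_zero, mul_eq_zero, inv_eq_zero, hqc, false_or] at hk
    linear_combination -hk
  · rw [one_mul, D]
    refine Nat.add_le_add_right ?_ _
    rcases Nat.lt_or_ge m 2 with hm2 | hm2
    · interval_cases m <;> simp [D]
    obtain ⟨v, hvW, hv0, hv⟩ := h.exists_isotropic_mem hWn (by omega)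
    obtain ⟨c, hc0, hc⟩ := h.exists_trace_zero
    have hθ := isCharacter_acomp hχ (l := 0) (emb h hnd) fun g => mem_acStab h he
      (emb_left h hnd g (Submodule.subset_span (by simp))) 0
    have := ih (h.restrict hWn) hm hθ (τ := acomp (zeta h e he) χ 0 (T h v hv c hc))
      (fun v' hv' c' hc' hv0' hc0' => by
        refine (congrArg _ (emb_T h hnd v' hv' c' hc')).trans ?_
        exact acomp_zero_T h he hfe hχ.isClassFunction hv hv' hv0 (fun h0 => hv0' (Subtype.ext h0))
          (hW _ hvW) (hW _ v'.2) (hW' _ hvW) (hW' _ v'.2) hc hc' hc0 hc0') ?_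
    · rwa [map_one, ha, Complex.natCast_re, Nat.cast_le] at this
    rw [map_one, ha]
    intro h0
    have h2 := sum_acomp (zeta h e he) χ (T h v hv c hc)
    rw [hτ _ _ _ _ hv0 hc0, ← Finset.add_sum_erase _ _ (Finset.mem_univ 0), h0] at h2
    have h3 : ((q ^ m : ℕ) : ℂ) = -∑ l ∈ Finset.univ.erase 0,
        acomp (zeta h e he) χ l (T h v hv c hc) := by
      rw [one_mul] at ha'
      linear_combination ha' + h2
    have h4 : (q : ℝ) * q ^ m ≤ ∑ l ∈ (Finset.univ : Finset (AddChar (A0 σ) ℂ)).erase 0,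
        (q : ℝ) ^ m := by
      have := congrArg norm h3
      rw [norm_neg, Complex.norm_natCast, Nat.cast_pow] at this
      conv_lhs => rw [this]
      refine (mul_le_mul_of_nonneg_left (norm_sum_le _ _) (Nat.cast_nonneg _)).trans ?_
      rw [Finset.mul_sum]
      refine Finset.sum_le_sum fun l hl => ?_
      have hl' := Finset.ne_of_mem_erase hl
      obtain ⟨k', hk', hirr⟩ := exists_degree hF h he hW hWn hχ hl'
      rw [hdeg, if_neg hl', add_zero, hm, hk, Nat.cast_inj] at hk'
      rw [← hm]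
      exact norm_acomp_T_le hF h he hW hWn hχ
        (hirr (Nat.eq_of_mul_eq_mul_right (by positivity) hk').symm) hvW hv0 hv hc0 hc
    rw [Finset.sum_const, Finset.card_erase_of_mem (Finset.mem_univ _), Finset.card_univ,
      AddChar.card_eq, hcA, nsmul_eq_mul, Nat.cast_sub (by omega)] at h4
    have : (0 : ℝ) < q ^ m := by positivity
    push_cast at h4
    linarith
  · have h2 := D_mul q (by omega) (m + 2)
    have h3 : (q + 1) * D q (m + 2) ≤ (q + 1) * ((q - 1) * (2 * q ^ m)) := by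
      obtain ⟨r, rfl⟩ := Nat.exists_eq_add_of_le' hq
      have : (r + 2) ^ (m + 2) ≤ (r + 2 + 1) * ((r + 2 - 1) * (2 * (r + 2) ^ m)) := by
        rw [show r + 2 - 1 = r + 1 from rfl, pow_add]
        calc _ ≤ (r + 2) ^ m * ((r + 2 + 1) * ((r + 1) * 2)) :=
              Nat.mul_le_mul_left _ (by nlinarith)
          _ = _ := by ring
      omega
    have h4 := Nat.le_of_mul_le_mul_left h3 (by omega)
    have h5 : (q - 1) * (2 * q ^ m) ≤ (q - 1) * (k * q ^ m) := by gcongr; omega
    omega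

theorem D_le_degree [Fintype F] {q : ℕ} (hF : Fintype.card F = q ^ 2) {n : ℕ} (hn : 3 ≤ n)
    (hex : ¬ (n = 3 ∧ q = 2)) (k : ℕ) (ρ : Representation ℂ (SU n F q) (Fin k → ℂ))
    (hρ : ρ.IsIrreducible) (hk : 2 ≤ k) : D q n ≤ k := by
  have h := herm_hermSesq hF n
  have hn' : finrank F (Fin n → F) = n := Module.finrank_fin_fun F
  have : Finite ((Fin n → F) ≃ₗ[F] (Fin n → F)) := DFunLike.finite _
  have hχ : IsIrrCharacter (sIsom (hermSesq hF n))
      fun g => ρ.character ((suEquivSIsom hF n).symm g) :=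
    (isIrrCharacter_rep ρ).comp_equiv (suEquivSIsom hF n).symm
  have h1 : ρ.character ((suEquivSIsom hF n).symm 1) = k := by
    rw [map_one, Representation.char_one, Module.finrank_fin_fun]
  obtain ⟨v, hv0, hv⟩ := h.exists_isotropic (by omega)
  obtain ⟨c, hc0, hc⟩ := h.exists_trace_zero
  have hconst := fun v' hv' c' hc' hv0' hc0' => apply_T_eq h (by omega) hχ.isClassFunction
    (v' := v') hv hv' hv0 hv0' hc (c' := c') hc' hc0 hc0'
  have := bound hF n h hn' hχ.isCharacter hconst ?_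
  · rwa [h1, Complex.natCast_re, Nat.cast_le] at this
  intro h0
  have htop : charKer (fun g => ρ.character ((suEquivSIsom hF n).symm g)) = ⊤ := by
    rw [eq_top_iff, ← h.closure_isTransv_eq_top (hex_std hF hex), Subgroup.closure_le]
    intro g hg
    obtain ⟨v', hv', c', hc', e⟩ := IsTransv.eq_transv h hg
    have e' : g = T h v' hv' c' hc' := Subtype.ext e
    rw [SetLike.mem_coe, hχ.mem_charKer_iff]
    by_cases hv0' : v' = 0
    · rw [show g = 1 from sext fun x => by rw [e', T_apply, hv0']; simp]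
    by_cases hc0' : c' = 0
    · rw [show g = 1 from sext fun x => by rw [e', T_apply, hc0']; simp]
    rw [e', hconst _ _ _ _ hv0' hc0', h0]
  have := congrFun (hχ.charKer_eq_top_iff.1 htop) 1
  rw [h1] at this
  have : k = 1 := by exact_mod_cast this
  omega

end SUDeg

end Cfsg.Lib.Char
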