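import Mathlib.Data.Finset.Card
import Mathlib.Algebra.Group.Int.Defs
import Mathlib.Tactic

/-! # Two involutions with equally many fixed points have a common odd neighbour -/

set_option autoImplicit false

namespace Cfsg.Lib.Char.OddMatch

open Finset

variable {Ω : Type*} [DecidableEq Ω] {S T : Finset Ω} {x y z : Ω → Ω}

/-- `z` is an involution of `S`. -/
def Inv (S : Finset Ω) (z : Ω → Ω) : Prop := ∀ w ∈ S, z w ∈ S ∧ z (z w) = w

/-- The fixed points in `S`. -/
def Fx (S : Finset Ω) (z : Ω → Ω) : Finset Ω := S.filter fun w => z w = w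

/-- The sum of the two permutation matrices is non-singular. -/
def NS (S : Finset Ω) (x z : Ω → Ω) : Prop :=
  ∀ f : Ω → ℤ, (∀ w ∈ S, f (x w) + f (z w) = 0) → ∀ w ∈ S, f w = 0

/-- There is a common neighbour. -/
def Good (S : Finset Ω) (x y : Ω → Ω) : Prop :=
  ∃ z, Inv S z ∧ (Fx S z).card = (Fx S x).card ∧ NS S x z ∧ NS S y z

/-- Redefine `z` so that it exchanges `a` and `b`. -/
def ex (z : Ω → Ω) (a b : Ω) : Ω → Ω := fun w => if w = a then b else if w = b then a else z w

/-- `a` lies in an orbit on which `x`, `y` generate a regular four-group. -/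
def C2 (x y : Ω → Ω) (a : Ω) : Prop := x a ≠ a ∧ y a ≠ a ∧ x a ≠ y a ∧ x (y a) = y (x a)

theorem mem_Fx {w : Ω} : w ∈ Fx S z ↔ w ∈ S ∧ z w = w := mem_filter

theorem card_Fx (h : T ⊆ S) (z : Ω → Ω) : (Fx S z).card = (Fx T z).card + (Fx (S \ T) z).card := by
  rw [← card_union_of_disjoint (by simp [disjoint_left, mem_Fx]; grind)]
  congr 1; ext w; simp [mem_Fx]; grind

theorem Good.symm (h : Good S x y) (hc : (Fx S x).card = (Fx S y).card) : Good S y x :=
  let ⟨z, a, b, c, d⟩ := h; ⟨z, a, b.trans hc, d, c⟩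

theorem good_of_eq (hx : Inv S x) (h : ∀ w ∈ S, x w = y w) : Good S x y := by
  have : NS S x x := fun f hf w hw => by
    have := hf _ (hx w hw).1
    rw [(hx w hw).2] at this; omega
  exact ⟨x, hx, rfl, this, fun f hf => this f fun w hw => by have := hf w hw; rwa [← h w hw] at this⟩

theorem glue (hT : T ⊆ S) (hx : Inv S x) (hy : Inv S y) (hTx : ∀ w ∈ T, x w ∈ T)
    (hTy : ∀ w ∈ T, y w ∈ T) (hc : (Fx S x).card = (Fx S y).card)
    (hcT : (Fx T x).card = (Fx T y).card) (g : Good T x y)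
    (ih : Inv (S \ T) x → Inv (S \ T) y → (Fx (S \ T) x).card = (Fx (S \ T) y).card →
      Good (S \ T) x y) : Good S x y := by
  have h1 : ∀ x, Inv S x → (∀ w ∈ T, x w ∈ T) → Inv (S \ T) x := fun x hx h w hw => by
    have := hx w; have := h (x w); grind
  rw [card_Fx hT, card_Fx hT y] at hc
  obtain ⟨z, a, b, c, d⟩ := g
  obtain ⟨z', a', b', c', d'⟩ := ih (h1 x hx hTx) (h1 y hy hTy) (by omega)
  have h2 : ∀ x, NS T x z → NS (S \ T) x z' → NS S x fun w => if w ∈ T then z w else z' w :=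
    fun x c c' f hf w hw => by
      by_cases h : w ∈ T
      · exact c f (fun w hw => by simpa [hw] using hf w (hT hw)) w h
      · exact c' f (fun w hw => by simpa [(mem_sdiff.1 hw).2] using hf w (mem_sdiff.1 hw).1) w
          (mem_sdiff.2 ⟨hw, h⟩)
  refine ⟨_, fun w hw => ?_, ?_, h2 x c c', h2 y d d'⟩
  · have := a w; have := a' w; grind
  · rw [card_Fx hT, card_Fx hT x, ← b, ← b']
    congr 2 <;> ext w <;> simp only [mem_Fx] <;> grind

theorem ruleC {a : Ω} (hx : Inv S x) (hy : Inv S y) (ha : a ∈ S) (h1 : x a ≠ a) (h2 : y a = a)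
    (h3 : y (x a) ≠ x a) (hc : (Fx S x).card = (Fx S y).card) (hn : ∀ w ∈ S, ¬ C2 x y w)
    (ih : ∀ y, Inv (S \ {a, x a}) x → Inv (S \ {a, x a}) y →
      (Fx (S \ {a, x a}) x).card = (Fx (S \ {a, x a}) y).card → (∀ w ∈ S \ {a, x a}, ¬ C2 x y w) →
      Good (S \ {a, x a}) x y) : Good S x y := by
  obtain ⟨hb, hab⟩ := hx a ha
  obtain ⟨hc', hbc⟩ := hy _ hb
  generalize hb' : x a = b at *
  generalize hc'' : y b = c at *
  have e1 : Fx (S \ {a, b}) x = Fx S x := by ext w; simp only [mem_Fx]; grind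
  obtain ⟨z, i, k, n1, n2⟩ := ih (ex y c c) (fun w hw => by have := hx w; grind)
    (fun w hw => by have := hy w; grind [ex]) (by
      rw [e1, hc, show Fx S y = insert a (Fx (S \ {a, b}) y) by ext w; simp only [mem_Fx, mem_insert]; grind,
        show Fx (S \ {a, b}) (ex y c c) = insert c (Fx (S \ {a, b}) y) by
          ext w; simp only [mem_Fx, mem_insert]; grind [ex],
        card_insert_of_notMem (by simp [mem_Fx]), card_insert_of_notMem (by simp only [mem_Fx]; grind)])
    fun w hw => by have := hn w; have := hx w; have := hx (y w); have := hy w; grind [ex, C2]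
  refine ⟨ex z a b, fun w hw => by have := i w; grind [ex], ?_, fun f hf => ?_, fun f hf => ?_⟩
  · rw [← e1, ← k]; congr 1; ext w; simp only [mem_Fx]; grind [ex]
  · have := n1 f fun w hw => by have := hf w; grind [ex]
    have := hf a; have := hf b; grind [ex]
  · have := hf a; have := hf b; have := hf c
    have := n2 f fun w hw => by have := hf w; grind [ex]
    have := this c
    grind [ex]

theorem ruleB {u a b c d v : Ω} (hx : Inv S x) (hy : Inv S y) (hu : u ∈ S) (e1 : x u = a)
    (e2 : y a = b) (e3 : x b = c) (e4 : y c = d) (e5 : x d = v) (h4 : y (x (y v)) ≠ u)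
    (h0 : ∀ w ∈ S, x w ≠ w ∧ y w ≠ w ∧ x w ≠ y w) (hn : ∀ w ∈ S, ¬ C2 x y w)
    (ih : ∀ x, Inv (S \ {a, b, c, d}) x → Inv (S \ {a, b, c, d}) y →
      (Fx (S \ {a, b, c, d}) x).card = (Fx (S \ {a, b, c, d}) y).card →
      (∀ w ∈ S \ {a, b, c, d}, ¬ C2 x y w) → Good (S \ {a, b, c, d}) x y) : Good S x y := by
  obtain ⟨ha, f1⟩ := e1 ▸ hx u hu
  obtain ⟨hb, f2⟩ := e2 ▸ hy a ha
  obtain ⟨hc, f3⟩ := e3 ▸ hx b hb
  obtain ⟨hd, f4⟩ := e4 ▸ hy c hc
  obtain ⟨hv, f5⟩ := e5 ▸ hx d hd
  have := h0 u hu; have := h0 a ha; have := h0 b hb; have := h0 c hc; have := h0 d hd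
  have := h0 v hv
  have hne : [u, a, b, c, d, v].Nodup := by
    have := hn u hu; have := hy u hu
    simp only [List.nodup_cons, List.mem_cons, List.not_mem_nil, List.nodup_nil]; grind (splits := 40) [C2]
  simp only [List.nodup_cons, List.mem_cons, List.not_mem_nil, List.nodup_nil] at hne
  have hS : ∀ w, w ∈ S \ {a, b, c, d} ↔ w ∈ S ∧ w ≠ a ∧ w ≠ b ∧ w ≠ c ∧ w ≠ d := by simp
  generalize S \ {a, b, c, d} = S' at *
  have e0 : Fx S' (ex x u v) = ∅ := by
    ext w; simp only [mem_Fx]; have := h0 w; grind (splits := 40) [ex]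
  obtain ⟨z, i, k, n1, n2⟩ := ih (ex x u v) (fun w hw => by have := hx w; grind (splits := 40) [ex])
    (fun w hw => by have := hy w; grind (splits := 40)) (by
      rw [e0]; congr 1; ext w; simp only [mem_Fx]; have := h0 w; grind (splits := 40))
    fun w hw => by
      have := hn w; have := hx w; have := hx (y w); have := hy w; have := hy (x w)
      have := hy u; have := hy v; have := hx (y v); have := hy (x (y v)); have := h0 (y v)
      grind (splits := 40) [ex, C2]
  rw [e0, card_empty, card_eq_zero] at k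
  obtain ⟨Z, hZ⟩ : ∃ Z : Ω → Ω, Z a = b ∧ Z b = a ∧ Z c = d ∧ Z d = c ∧ ∀ w ∈ S', Z w = z w :=
    ⟨ex (ex z a b) c d, by grind (splits := 40) [ex]⟩
  refine ⟨Z, fun w hw => by have := i w; grind (splits := 40), ?_, fun f hf => ?_, fun f hf => ?_⟩
  · congr 1; ext w
    have := congrArg (w ∈ ·) k
    simp only [mem_Fx] at this ⊢; have := h0 w; grind (splits := 40)
  · have := hf a ha; have := hf b hb; have := hf c hc; have := hf d hd; have := hf u hu
    have := hf v hv
    have h9 := n1 f fun w hw => by have := hf w; grind (splits := 40) [ex]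
    have := h9 u; have := h9 v
    grind (splits := 40)
  · have := hf a ha; have := hf b hb; have := hf c hc; have := hf d hd
    have := n2 f fun w hw => by have := hf w; grind (splits := 40)
    grind (splits := 40)

theorem ruleF {a b c d u : Ω} (ha : a ∈ S) (hb : b ∈ S) (hc : c ∈ S) (hd : d ∈ S)
    (hne : [a, b, c, d].Nodup) (e1 : x a = b) (e2 : x b = a) (e3 : x c = d) (e4 : x d = c)
    (e5 : y a = c) (e6 : y c = a) (e7 : y b = d) (e8 : y d = b) (hu : u ∈ S \ {a, b, c, d})
    (g : Good (S \ {a, b, c, d}) x y) : Good S x y := by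
  simp only [List.nodup_cons, List.mem_cons, List.not_mem_nil, List.nodup_nil] at hne
  obtain ⟨z, i, k, n1, n2⟩ := g
  obtain ⟨hv, f1⟩ := i u hu
  have hS : ∀ w, w ∈ S \ {a, b, c, d} ↔ w ∈ S ∧ w ≠ a ∧ w ≠ b ∧ w ≠ c ∧ w ≠ d := by simp
  generalize S \ {a, b, c, d} = S' at *
  rw [show Fx S' x = Fx S x by ext w; simp only [mem_Fx]; grind +splitImp (splits := 40) (ematch := 20) (gen := 20)] at k
  have hu' := ((hS u).1 hu).1
  by_cases h : z u = u
  · obtain ⟨Z, z1, z2, z3, z4, z5, hZ⟩ : ∃ Z : Ω → Ω, Z u = a ∧ Z a = u ∧ Z b = c ∧ Z c = b ∧ Z d = d ∧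
      ∀ w ∈ S', w ≠ u → Z w = z w := ⟨ex (ex (ex z u a) b c) d d, by grind +splitImp (splits := 40) (ematch := 20) (gen := 20) [ex]⟩
    refine ⟨Z, fun w hw => by have := i w; grind +splitImp (splits := 40) (ematch := 20) (gen := 20), ?_, fun f hf => ?_, fun f hf => ?_⟩
    · rw [← k, show Fx S' z = insert u (Fx (S'.erase u) z) by
          ext w; simp only [mem_Fx, mem_insert]; grind +splitImp (splits := 40) (ematch := 20) (gen := 20),
        show Fx S Z = insert d (Fx (S'.erase u) z) by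
          ext w; simp only [mem_Fx, mem_insert]; grind +splitImp (splits := 40) (ematch := 20) (gen := 20),
        card_insert_of_notMem (by simp [mem_Fx, hS]), card_insert_of_notMem (by simp [mem_Fx])]
    · have := hf a ha; have := hf b hb; have := hf c hc; have := hf d hd; have := hf u hu'
      have h9 := n1 f fun w hw => by have := hf w; grind +splitImp (splits := 40) (ematch := 20) (gen := 20)
      have := h9 u
      grind +splitImp (splits := 40) (ematch := 20) (gen := 20)
    · have := hf a ha; have := hf b hb; have := hf c hc; have := hf d hd; have := hf u hu'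
      have h9 := n2 f fun w hw => by have := hf w; grind +splitImp (splits := 40) (ematch := 20) (gen := 20)
      have := h9 u
      grind +splitImp (splits := 40) (ematch := 20) (gen := 20)
  generalize hv' : z u = v at *
  have hv'' := ((hS v).1 hv).1
  obtain ⟨Z, z1, z2, z3, z4, z5, z6, hZ⟩ : ∃ Z : Ω → Ω, Z u = a ∧ Z a = u ∧ Z b = c ∧ Z c = b ∧ Z d = v ∧ Z v = d ∧
    ∀ w ∈ S', w ≠ u → w ≠ v → Z w = z w := ⟨ex (ex (ex z u a) b c) d v, by grind +splitImp (splits := 40) (ematch := 20) (gen := 20) [ex]⟩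
  refine ⟨Z, fun w hw => by have := i w; grind +splitImp (splits := 40) (ematch := 20) (gen := 20), ?_, fun f hf => ?_, fun f hf => ?_⟩
  · rw [← k]; congr 1; ext w; simp only [mem_Fx]; grind +splitImp (splits := 40) (ematch := 20) (gen := 20)
  · have := hf a ha; have := hf b hb; have := hf c hc; have := hf d hd; have := hf u hu'
    have := hf v hv''
    have h9 := n1 f fun w hw => by have := hf w; grind +splitImp (splits := 40) (ematch := 20) (gen := 20)
    have := h9 u; have := h9 v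
    grind +splitImp (splits := 40) (ematch := 20) (gen := 20)
  · have := hf a ha; have := hf b hb; have := hf c hc; have := hf d hd; have := hf u hu'
    have := hf v hv''
    have h9 := n2 f fun w hw => by have := hf w; grind +splitImp (splits := 40) (ematch := 20) (gen := 20)
    have := h9 u; have := h9 v
    grind +splitImp (splits := 40) (ematch := 20) (gen := 20)

theorem goodD {a b c d : Ω} (hne : [a, b, c, d].Nodup) (e1 : x a = b) (e2 : x b = a) (e3 : x c = c)
    (e4 : x d = d) (e5 : y a = a) (e6 : y b = b) (e7 : y c = d) (e8 : y d = c) :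
    Good {a, b, c, d} x y := by
  simp only [List.nodup_cons, List.mem_cons, List.not_mem_nil, List.nodup_nil] at hne
  refine ⟨ex id b c, fun w hw => by grind (splits := 40) [ex], ?_, fun f hf => ?_, fun f hf => ?_⟩
  · rw [show Fx {a, b, c, d} (ex id b c) = {a, d} by ext w; simp only [mem_Fx]; grind (splits := 40) [ex],
      show Fx {a, b, c, d} x = {c, d} by ext w; simp only [mem_Fx]; grind (splits := 40),
      card_pair (by grind (splits := 40)), card_pair (by grind (splits := 40))]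
  all_goals
    have := hf a; have := hf b; have := hf c; have := hf d
    grind (splits := 40) [ex]

theorem good8 {a b c d e f g h : Ω} (hne : [a, b, c, d, e, f, g, h].Nodup)
    (e1 : x a = b ∧ x b = a ∧ x c = d ∧ x d = c ∧ x e = f ∧ x f = e ∧ x g = h ∧ x h = g)
    (e2 : (y b = c ∧ y c = b ∧ y d = e ∧ y e = d ∧ y f = g ∧ y g = f ∧ y h = a ∧ y a = h) ∨
      (y a = c ∧ y c = a ∧ y b = d ∧ y d = b ∧ y e = g ∧ y g = e ∧ y f = h ∧ y h = f)) :
    Good {a, b, c, d, e, f, g, h} x y := by
  simp only [List.nodup_cons, List.mem_cons, List.not_mem_nil, List.nodup_nil] at hne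
  have hS : ∀ w, w ∈ ({a, b, c, d, e, f, g, h} : Finset Ω) ↔
    w = a ∨ w = b ∨ w = c ∨ w = d ∨ w = e ∨ w = f ∨ w = g ∨ w = h := by simp
  generalize ({a, b, c, d, e, f, g, h} : Finset Ω) = S at *
  rcases e2 with e2 | e2
  on_goal 1 =>
    obtain ⟨Z, hZ⟩ : ∃ Z : Ω → Ω, Z a = b ∧ Z b = a ∧ Z d = e ∧ Z e = d ∧ Z f = h ∧ Z h = f ∧
      Z c = g ∧ Z g = c := ⟨ex (ex (ex (ex id a b) d e) f h) c g, by grind (splits := 40) [ex]⟩
  on_goal 2 =>
    obtain ⟨Z, hZ⟩ : ∃ Z : Ω → Ω, Z a = b ∧ Z b = a ∧ Z e = g ∧ Z g = e ∧ Z c = f ∧ Z f = c ∧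
      Z d = h ∧ Z h = d := ⟨ex (ex (ex (ex id a b) e g) c f) d h, by grind (splits := 40) [ex]⟩
  all_goals
    refine ⟨Z, fun w hw => by grind (splits := 40), by congr 1; ext w; simp only [mem_Fx]; grind (splits := 40), fun φ hf => ?_,
      fun φ hf => ?_⟩ <;>
    · simp only [hS, forall_eq_or_imp, forall_eq, hZ, e1, e2] at hf ⊢
      omega

theorem good_of_noC2 (S : Finset Ω) : ∀ x y : Ω → Ω, Inv S x → Inv S y →
    (Fx S x).card = (Fx S y).card → (∀ w ∈ S, ¬ C2 x y w) → Good S x y := by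
  induction S using Finset.strongInduction with
  | H S ih =>
  intro x y hx hy hc hn
  have hs : ∀ T : Finset Ω, ∀ a ∈ S, a ∈ T → S \ T ⊂ S := fun T a h h' =>
    ⟨sdiff_subset, fun e => (mem_sdiff.1 (e h)).2 h'⟩
  have hg : ∀ T : Finset Ω, ∀ a ∈ T, T ⊆ S → (∀ w ∈ T, x w ∈ T) → (∀ w ∈ T, y w ∈ T) →
      (Fx T x).card = (Fx T y).card → Good T x y → Good S x y := fun T a ha hT h1 h2 h3 g =>
    glue hT hx hy h1 h2 hc h3 g fun i j k =>
      ih _ (hs T a (hT ha) ha) x y i j k fun w hw => hn w (mem_sdiff.1 hw).1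
  by_cases h1 : ∃ a ∈ S, x a = y a
  · obtain ⟨a, ha, h⟩ := h1
    have := hx a ha; have := hy a ha
    exact hg {a, x a} a (by simp) (by grind (splits := 40)) (by grind (splits := 40)) (by grind (splits := 40))
      (by congr 1; ext w; simp only [mem_Fx]; grind (splits := 40))
      (good_of_eq (fun w hw => by grind (splits := 40)) (by grind (splits := 40)))
  by_cases h2 : ∃ a ∈ S, y a = a ∧ y (x a) ≠ x a
  · obtain ⟨a, ha, h, h'⟩ := h2
    exact ruleC hx hy ha (by grind (splits := 40)) h h' hc hn (ih _ (hs _ a ha (by simp)) x · )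
  by_cases h3 : ∃ a ∈ S, x a = a ∧ x (y a) ≠ y a
  · obtain ⟨a, ha, h, h'⟩ := h3
    refine (ruleC hy hx ha (by grind (splits := 40)) h h' hc.symm (fun w hw => ?_)
      (ih _ (hs _ a ha (by simp)) y · )).symm hc.symm
    have := hn w hw; grind (splits := 40) [C2]
  by_cases h4 : (Fx S x).card = 0
  swap
  · obtain ⟨c, hc'⟩ := card_ne_zero.1 h4
    obtain ⟨a, ha⟩ := card_ne_zero.1 (hc ▸ h4)
    rw [mem_Fx] at hc' ha
    have := hx a ha.1; have := hy c hc'.1
    have hne : [a, x a, c, y c].Nodup := by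
      simp only [List.nodup_cons, List.mem_cons, List.not_mem_nil, List.nodup_nil]; grind (splits := 40)
    refine hg {a, x a, c, y c} a (by simp) (by grind (splits := 40)) (by grind (splits := 40)) (by grind (splits := 40)) ?_
      (goodD hne rfl (by grind (splits := 40)) (by grind (splits := 40)) (by grind (splits := 40)) (by grind (splits := 40)) (by grind (splits := 40)) rfl (by grind (splits := 40)))
    rw [show Fx {a, x a, c, y c} x = {c, y c} by ext w; simp only [mem_Fx]; grind (splits := 40),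
      show Fx {a, x a, c, y c} y = {a, x a} by ext w; simp only [mem_Fx]; grind (splits := 40),
      card_pair (by grind (splits := 40)), card_pair (by grind (splits := 40))]
  have h0 : ∀ w ∈ S, x w ≠ w ∧ y w ≠ w ∧ x w ≠ y w := fun w hw =>
    ⟨fun h => by simpa [card_eq_zero.1 h4] using mem_Fx.2 ⟨hw, h⟩,
      fun h => by simpa [card_eq_zero.1 (hc ▸ h4)] using mem_Fx.2 ⟨hw, h⟩, fun h => h1 ⟨w, hw, h⟩⟩
  rcases S.eq_empty_or_nonempty with rfl | ⟨u, hu⟩
  · exact good_of_eq hx (by simp)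
  by_cases h5 : y (x (y (x (y (x (y (x u))))))) = u
  swap
  · exact ruleB hx hy hu rfl rfl rfl rfl rfl h5 h0 hn
      (ih _ (hs _ (x u) (hx u hu).1 (by simp)) · y)
  obtain ⟨ha, f1⟩ := hx u hu
  generalize e1 : x u = a at *
  obtain ⟨hb, f2⟩ := hy a ha
  generalize e2 : y a = b at *
  obtain ⟨hc', f3⟩ := hx b hb
  generalize e3 : x b = c at *
  obtain ⟨hd, f4⟩ := hy c hc'
  generalize e4 : y c = d at *
  obtain ⟨he, f5⟩ := hx d hd
  generalize e5 : x d = e at *
  obtain ⟨hf, f6⟩ := hy e he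
  generalize e6 : y e = f at *
  obtain ⟨hg', f7⟩ := hx f hf
  generalize e7 : x f = g at *
  have f8 := h5 ▸ (hy g hg').2
  have := h0 u hu; have := h0 a ha; have := h0 b hb; have := h0 c hc'; have := h0 d hd
  have := h0 e he; have := h0 f hf; have := h0 g hg'
  have hne : [u, a, b, c, d, e, f, g].Nodup := by
    have := hn u hu; have := hn b hb
    simp only [List.nodup_cons, List.mem_cons, List.not_mem_nil, List.nodup_nil]; grind (splits := 40) [C2]
  refine hg {u, a, b, c, d, e, f, g} u (by simp) (by simp [insert_subset_iff, *]) (by simp [*])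
    (by simp [*]) ?_ (good8 hne (by simp [*]) (by simp [*]))
  congr 1; ext w; simp only [mem_Fx, mem_insert, mem_singleton]; grind (splits := 40)

theorem good (S : Finset Ω) {x y : Ω → Ω} : Inv S x → Inv S y →
    (Fx S x).card = (Fx S y).card → (S.card = 4 → ∀ w ∈ S, ¬ C2 x y w) → Good S x y := by
  induction S using Finset.strongInduction with
  | H S ih =>
  intro hx hy hc hn
  by_cases h : ∀ w ∈ S, ¬ C2 x y w
  · exact good_of_noC2 S x y hx hy hc h
  have key : ∀ a ∈ S, C2 x y a → ∃ b ∈ S, ∃ c ∈ S, ∃ d ∈ S, [a, b, c, d].Nodup ∧ x a = b ∧ x b = a ∧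
      x c = d ∧ x d = c ∧ y a = c ∧ y c = a ∧ y b = d ∧ y d = b := fun a ha h => by
    have := hx a ha; have := hy a ha; have := hx (y a); have := hy (x a)
    refine ⟨x a, by grind (splits := 40), y a, by grind (splits := 40), x (y a), by grind (splits := 40), ?_, by grind (splits := 40) [C2]⟩
    simp only [List.nodup_cons, List.mem_cons, List.not_mem_nil, List.nodup_nil]; grind (splits := 40) [C2]
  have k4 : ∀ {a b c d : Ω}, [a, b, c, d].Nodup → ({a, b, c, d} : Finset Ω).card = 4 :=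
    fun h => by simpa using List.toFinset_card_of_nodup h
  push Not at h
  obtain ⟨a, ha, h⟩ := h
  obtain ⟨b, hb, c, hc', d, hd, hne, e⟩ := key a ha h
  have hT : {a, b, c, d} ⊆ S := by simp [insert_subset_iff, *]
  have h1 := card_sdiff_add_card_eq_card hT
  rw [k4 hne] at h1
  have hne' := hne
  simp only [List.nodup_cons, List.mem_cons, List.not_mem_nil, List.nodup_nil] at hne'
  replace ih := ih _ ⟨sdiff_subset, fun e => (mem_sdiff.1 (e ha)).2 (mem_insert_self a {b, c, d})⟩
  have hS : ∀ w, w ∈ S \ {a, b, c, d} ↔ w ∈ S ∧ w ≠ a ∧ w ≠ b ∧ w ≠ c ∧ w ≠ d := by simp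
  clear hT
  by_cases h2 : (S \ {a, b, c, d}).card = 4 → ∀ w ∈ S \ {a, b, c, d}, ¬ C2 x y w
  · obtain ⟨u, hu⟩ := card_ne_zero.1 fun e : (S \ {a, b, c, d}).card = 0 => hn (by omega) a ha h
    refine ruleF ha hb hc' hd hne e.1 e.2.1 e.2.2.1 e.2.2.2.1 e.2.2.2.2.1 e.2.2.2.2.2.1
      e.2.2.2.2.2.2.1 e.2.2.2.2.2.2.2 hu (ih
      (fun w hw => by have := hx w; grind (splits := 40)) (fun w hw => by have := hy w; grind (splits := 40)) ?_ h2)
    rw [show Fx (S \ {a, b, c, d}) x = Fx S x by ext w; simp only [mem_Fx]; grind (splits := 40),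
      show Fx (S \ {a, b, c, d}) y = Fx S y by ext w; simp only [mem_Fx]; grind (splits := 40), hc]
  push Not at h2
  obtain ⟨h2, a', ha', h'⟩ := h2
  obtain ⟨b', hb', c', hc'', d', hd', hne2, e'⟩ := key a' (mem_sdiff.1 ha').1 h'
  have hne3 : [a, b, c, d, a', b', c', d'].Nodup := by
    simp only [List.nodup_cons, List.mem_cons, List.not_mem_nil, List.nodup_nil] at hne2 ⊢; grind (splits := 40)
  have : S = {a, b, c, d, a', b', c', d'} := (eq_of_subset_of_card_le
    (by simp [insert_subset_iff, (mem_sdiff.1 ha').1, *])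
    (by rw [← h1, h2]; simpa using (List.toFinset_card_of_nodup hne3).ge)).symm
  exact this ▸ good8 hne3 (by simp [*]) (by simp [*])

end Cfsg.Lib.Char.OddMatch
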