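import Cfsg.Agent.Solv.ElemLift
import Cfsg.Agent.Solv.ClassNumber
import Cfsg.Agent.Solv.PGroupNormal
import Cfsg.Agent.Solv.SchurZassenhaus
import Cfsg.Agent.Char.Central

/-! Fusion in extensions of `SL₂(5)` with few `11`-regular classes. -/

set_option autoImplicit false

namespace Cfsg.Lib.Char.PReg

open Subgroup Cfsg.Lib.Solv
open scoped MatrixGroups Pointwise

variable {G : Type*} [Group G] [Finite G]

theorem isConj_of_coset {K : Subgroup G} [K.Normal] {x y : G}
    (hx : (orderOf x).Coprime (Nat.card K)) (hy : (orderOf y).Coprime (Nat.card K))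
    (h : y * x⁻¹ ∈ K) : IsConj x y := by
  have h1 : Disjoint K (zpowers y) :=
    disjoint_of_coprime_natCard (by rw [Nat.card_zpowers]; exact hy.symm)
  obtain ⟨k, hk, e⟩ := schur_zassenhaus_conj_ambient' K (zpowers x) (zpowers y)
    le_normalizer_of_normal (by rwa [Nat.card_zpowers]) (Or.inl inferInstance)
    (le_antisymm (sup_le le_sup_left (zpowers_le.2 (by
      simpa using mul_mem (mem_sup_left (inv_mem h)) (mem_sup_right (mem_zpowers y)))))
      (sup_le le_sup_left (zpowers_le.2 (by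
        simpa using mul_mem (mem_sup_left h) (mem_sup_right (mem_zpowers x)))))) h1
  have h2 : k * x * k⁻¹ ∈ zpowers y := e ▸ smul_mem_pointwise_smul _ _ _ (mem_zpowers x)
  have h3 := disjoint_def.1 h1 (x := k * x * k⁻¹ * y⁻¹) (by
    have := mul_mem (mul_mem hk (Normal.conj_mem ‹K.Normal› _ (inv_mem hk) x)) (inv_mem h)
    convert this using 1
    group) (mul_mem h2 (inv_mem (mem_zpowers y)))
  exact isConj_iff.2 ⟨k, mul_inv_eq_one.1 h3⟩

theorem card_cent_eq {K : Type*} [Group K] (π : G →* K) (hπ : Function.Surjective π) {g : G}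
    (h : ∀ y, IsConj (π g) (π y) → IsConj g y) :
    Nat.card (centralizer {g}) = Nat.card (centralizer {π g}) := by
  choose σ hσ using hπ
  have h1 : Nat.card {y // IsConj g y} = Nat.card π.ker * Nat.card {y // IsConj (π g) y} := by
    rw [← Nat.card_prod]
    exact Nat.card_congr
      { toFun := fun y => (⟨y.1 * (σ (π y.1))⁻¹, by
          rw [MonoidHom.mem_ker, map_mul, map_inv, hσ, mul_inv_cancel]⟩,
          ⟨π y.1, π.map_isConj y.2⟩)
        invFun := fun a => ⟨a.1.1 * σ a.2.1, h _ (by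
          rw [map_mul, a.1.2, hσ, one_mul]; exact a.2.2)⟩
        left_inv := fun g => by simp
        right_inv := fun a => by
          have : π (a.1.1 * σ a.2.1) = a.2.1 := by rw [map_mul, a.1.2, hσ, one_mul]
          ext <;> simp [this] }
  rw [card_isConj_eq_index, card_isConj_eq_index] at h1
  have h2 := (centralizer {g}).card_mul_index
  have h3 := (centralizer {π g}).card_mul_index
  have h4 := π.ker.card_mul_index
  rw [index_ker, MonoidHom.range_eq_top.2 fun k => ⟨_, hσ k⟩, card_top, ← h3, ← h2, h1] at h4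
  have h5 : (centralizer {g}).index ≠ 0 := index_ne_zero_of_finite
  rw [h1] at h5
  exact Nat.eq_of_mul_eq_mul_right (Nat.pos_of_ne_zero h5) (by rw [← h4]; ring)

theorem exists_elt (card_SL25 : Nat.card SL(2, ZMod 5) = 120) {q : ℕ} (hq : q.Prime) (h : q ∣ 120) : ∃ k : SL(2, ZMod 5), k ≠ 1 ∧
    (∃ i, orderOf k = q ^ i) ∧ ¬ orderOf k * q ∣ Nat.card (centralizer {k}) := by
  have := Fact.mk hq
  by_cases h2 : q = 2
  · subst h2
    let k : SL(2, ZMod 5) := ⟨!![0, -1; 1, 0], by simp⟩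
    have h1 : k ^ 2 ^ 2 = 1 := by decide +kernel
    have h3 : centralizer {k} ≤ zpowers k := fun g hg => by
      rw [mem_centralizer_singleton_iff] at hg
      have h4 : ∀ a b c d : ZMod 5, a * d - b * c = 1 → a = d → b = -c →
          ∃ i ∈ Finset.range 4, !![a, b; c, d] = (k ^ i).1 := by decide +kernel
      have h5 : g.1 * k.1 = k.1 * g.1 := congrArg Subtype.val hg
      obtain ⟨i, -, hi⟩ := h4 (g 0 0) (g 0 1) (g 1 0) (g 1 1) (by rw [← Matrix.det_fin_two, g.2])
        (by simpa [k, Matrix.mul_apply] using (congrFun (congrFun h5 0) 1))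
        (by simpa [k, Matrix.mul_apply] using (congrFun (congrFun h5 0) 0))
      rw [← Matrix.eta_fin_two] at hi
      exact (Subtype.ext hi : g = k ^ i) ▸ npow_mem_zpowers k i
    obtain ⟨i, -, hi⟩ := (Nat.dvd_prime_pow hq).1 (orderOf_dvd_of_pow_eq_one h1)
    refine ⟨k, fun e => absurd (congrArg Subtype.val e) (by decide +kernel), ⟨i, hi⟩, fun e => ?_⟩
    have h4 := (Nat.le_of_dvd Nat.card_pos e).trans (card_le_of_le h3)
    rw [Nat.card_zpowers] at h4
    have := orderOf_pos k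
    omega
  · obtain ⟨k, hk⟩ := exists_prime_orderOf_dvd_card' (G := SL(2, ZMod 5)) q (card_SL25 ▸ h)
    refine ⟨k, fun e => hq.one_lt.ne (by rw [← hk, e, orderOf_one]), ⟨1, by simp [hk]⟩, fun e => ?_⟩
    have h3 := e.trans (card_subgroup_dvd_card _)
    rw [hk, card_SL25] at h3
    have h4 := Nat.le_of_dvd (by norm_num) h3
    have h5 : q ≤ 10 := by nlinarith
    interval_cases q <;> first | omega | exact absurd hq (by norm_num)

theorem no_ext (card_SL25 : Nat.card SL(2, ZMod 5) = 120) (π : G →* SL(2, ZMod 5)) (hπ : Function.Surjective π) (N : Subgroup G) [N.Normal]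
    (hN : N ≠ ⊥) (h11 : ¬ 11 ∣ Nat.card N) (hle : N ≤ π.ker)
    (hM : Nat.card π.ker = Nat.card N * 121)
    (h1 : ∀ a ∈ N, ∀ b ∈ N, a ≠ 1 → b ≠ 1 → IsConj a b)
    (h2 : ∀ g y, π g ≠ 1 → IsConj (π g) (π y) → IsConj g y) : False := by
  have h0 : 1 < Nat.card N := (one_lt_card_iff_ne_bot N).2 hN
  have h3 : ∀ {r : ℕ}, r.Prime → r ∣ Nat.card N → ∀ b ∈ N, b ≠ 1 → orderOf b = r :=
    fun {r} hr h b hb hb1 => by
      have := Fact.mk hr
      obtain ⟨a, ha⟩ := exists_prime_orderOf_dvd_card' r h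
      rw [← orderOf_coe] at ha
      obtain ⟨c, rfl⟩ := isConj_iff.1 (h1 a a.2 b hb
        (fun e => hr.one_lt.ne (by rw [← ha, e, orderOf_one])) hb1)
      rw [← ha]
      exact MulEquiv.orderOf_eq (MulAut.conj c) _
  obtain ⟨q, hq, hqN⟩ := Nat.exists_prime_and_dvd h0.ne'
  have := Fact.mk hq
  have h4 : ∀ n ∈ N, n ≠ 1 → ∀ g, π g ≠ 1 → g * n = n * g →
      orderOf (π g) * q ∣ Nat.card (centralizer {π g}) := fun n hn hn1 g hg e => by
    rw [← card_cent_eq π hπ fun y => h2 g y hg, ClassNum.card_eq_card_map_mul π, ← h3 hq hqN n hn hn1]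
    exact Nat.mul_dvd_mul
      (orderOf_dvd_natCard _ (mem_map_of_mem π (mem_centralizer_singleton_iff.2 rfl)))
      (orderOf_dvd_natCard _ ⟨mem_centralizer_singleton_iff.2 e.symm, hle hn⟩)
  by_cases h5 : q ∣ 120
  · obtain ⟨k, hk, ⟨i, hi⟩, h6⟩ := exists_elt card_SL25 hq h5
    obtain ⟨g, rfl, j, hj⟩ := exists_lift_prime_pow π hπ hq hi
    have h7 : IsPGroup q N := fun b => ⟨1, by
      by_cases hb : b = 1
      · simp [hb]
      · rw [pow_one, ← h3 hq hqN b b.2 fun e => hb (Subtype.ext e), orderOf_coe, pow_orderOf_eq_one]⟩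
    obtain ⟨n, hn⟩ := (ne_bot_iff_exists_ne_one).1 (PG.inf_centralizer_ne_bot (P := zpowers g)
      (IsPGroup.of_card (by rw [Nat.card_zpowers, hj])) h7 le_normalizer_of_normal hN)
    exact h6 (h4 n n.2.1 (fun e => hn (Subtype.ext e)) g hk (n.2.2 g (mem_zpowers g)))
  obtain ⟨⟨n, hn⟩, hn1⟩ := (ne_bot_iff_exists_ne_one).1 hN
  replace hn1 : n ≠ 1 := fun e => hn1 (Subtype.ext e)
  have h6 : centralizer {n} ≤ π.ker := fun g hg => by
    by_contra h6
    exact h5 (card_SL25 ▸ ((dvd_mul_left _ _).trans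
      (h4 n hn hn1 g h6 (mem_centralizer_singleton_iff.1 hg))).trans (card_subgroup_dvd_card _))
  have h7 : (centralizer {n}).index = Nat.card N - 1 := by
    classical
    have := Fintype.ofFinite N
    rw [← card_isConj_eq_index]
    refine (Nat.card_congr (β := {b : N // b ≠ 1})
      ⟨fun y => ⟨⟨y.1, ?_⟩, fun e => hn1 (isConj_one_left.1 ?_)⟩,
        fun b => ⟨b.1, h1 n hn _ b.1.2 hn1 fun e => b.2 (Subtype.ext e)⟩, fun _ => rfl,
        fun _ => rfl⟩).trans (by simp [Nat.card_eq_fintype_card])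
    · obtain ⟨c, hc⟩ := isConj_iff.1 y.2
      exact hc ▸ Normal.conj_mem ‹_› n hn c
    · have e' : y.1 = 1 := congrArg Subtype.val e
      exact e' ▸ y.2
  have h8 := relIndex_mul_index h6
  rw [index_ker, MonoidHom.range_eq_top.2 hπ, card_top, card_SL25, h7] at h8
  have h9 : (centralizer {n}).relIndex π.ker ∣ 11 ^ 2 := by
    have e1 : (centralizer {n}).relIndex π.ker ∣ Nat.card N * 121 := hM ▸ index_dvd_card _
    refine Nat.Coprime.dvd_of_dvd_mul_left ?_ e1
    have e2 : Nat.card N = 1 + (centralizer {n}).relIndex π.ker * 120 := by omega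
    rw [e2]
    simp
  obtain ⟨j, hj, e⟩ := (Nat.dvd_prime_pow (by norm_num)).1 h9
  rw [e] at h8
  interval_cases j
  · omega
  · have e1 : Nat.card N = 1321 := by omega
    have e2 : zpowers n = N := eq_of_le_of_card_ge (zpowers_le.2 hn)
      (by rw [Nat.card_zpowers, h3 (r := 1321) (by norm_num) (by rw [e1]) n hn hn1, e1])
    have e3 : ∀ g : G, ∃ a : ℤ, g * n * g⁻¹ = n ^ a := fun g => by
      obtain ⟨a, ha⟩ := e2.ge (Normal.conj_mem ‹_› n hn g)
      exact ⟨a, ha.symm⟩
    have e4 : ∀ a b : SL(2, ZMod 5), a * b = b * a := fun a b => by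
      obtain ⟨g, rfl⟩ := hπ a
      obtain ⟨k, rfl⟩ := hπ b
      obtain ⟨a, ha⟩ := e3 g
      obtain ⟨b, hb⟩ := e3 k
      have e5 : ∀ {g k : G} {a b : ℤ}, g * n * g⁻¹ = n ^ a → k * n * k⁻¹ = n ^ b →
          g * k * n * (g * k)⁻¹ = n ^ (a * b) := fun {g k a b} ha hb => by
        rw [zpow_mul, ← ha, conj_zpow, ← hb]
        group
      have e6 := h6 (x := (k * g)⁻¹ * (g * k)) (mem_centralizer_singleton_iff.2 (by
        have := (e5 ha hb).trans (mul_comm a b ▸ (e5 hb ha).symm)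
        calc _ = (k * g)⁻¹ * (g * k * n * (g * k)⁻¹) * (g * k) := by group
          _ = _ := by rw [this]; group))
      rw [MonoidHom.mem_ker, map_mul, map_inv, inv_mul_eq_one, map_mul, map_mul] at e6
      exact e6.symm
    exact absurd (e4 ⟨!![0, -1; 1, 0], by simp⟩ ⟨!![1, 1; 0, 1], by simp⟩) (by decide +kernel)
  · have e1 : Nat.card N = 14521 := by omega
    have e2 := h3 (r := 13) (by norm_num) (by rw [e1]; norm_num) n hn hn1
    have e3 := h3 (r := 1117) (by norm_num) (by rw [e1]; norm_num) n hn hn1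
    omega

end Cfsg.Lib.Char.PReg
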