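import Cfsg.Agent.Char.RealDeg
import Cfsg.Agent.Char.GlaubermanRel
import Cfsg.Agent.Char.PermLemma
import Cfsg.Agent.Solv.SylowNumber
import Cfsg.Agent.Solv.RealElements

/-!
# A correspondence of real characters of `G` and of a Sylow normalizer

`K` is a normal subgroup of odd index whose Sylow `p`-subgroup `P ⊓ K` is normal.
-/

set_option autoImplicit false

open scoped ComplexConjugate Pointwise
open Cfsg Cfsg.Lib.Char.Deg

namespace Cfsg.Lib.Char

universe u

variable {p : ℕ} [hp : Fact p.Prime]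

section General

variable {H : Type*} [Group H] [Finite H] (S : Sylow p H) {K : Subgroup H} [K.Normal] [Fintype K]

theorem exists_sylow_le_inertia_of_real (hodd : Odd K.index) {χ : H → ℂ}
    (hχ : IsIrrCharacter H χ) (hr : ∀ g, (χ g).im = 0) (hd : ¬ p ∣ charDegree χ) :
    ∃ θ, IsIrrCharacter K θ ∧ (S : Subgroup H) ≤ inertia K θ ∧
      classInner (fun n : K => χ n) θ ≠ 0 := by
  obtain ⟨θ, h1, h2⟩ := exists_irr_under K hχ
  have h3 : ¬ p ∣ (inertia K θ).index := fun h =>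
    hd (deg_eq_of_real hodd hχ hr h1 h2 ▸ h.mul_right _)
  obtain ⟨Q⟩ : Nonempty (Sylow p (inertia K θ)) := inferInstance
  have h4 : ¬ p ∣ ((Q : Subgroup (inertia K θ)).map (inertia K θ).subtype).index := by
    rw [Subgroup.index_map_subtype, hp.out.dvd_mul]
    exact not_or.2 ⟨Q.not_dvd_index, h3⟩
  obtain ⟨x, hx⟩ := MulAction.exists_smul_eq H S ((Q.isPGroup'.map _).toSylow h4)
  refine ⟨conjChar K θ x, h1.conjChar x, fun s hs => mem_inertia_conjChar.2 ?_,
    by rwa [classInner_res_conjChar hχ.isClassFunction]⟩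
  have h5 : x * s * x⁻¹ ∈ ((x • S : Sylow p H) : Subgroup H) := Solv.conj_mem_conj_smul x hs
  rw [hx] at h5
  exact Subgroup.map_subtype_le _ h5

theorem exists_normalizer_conjChar_of_under {χ : H → ℂ} (hχ : IsIrrCharacter H χ) {θ θ' : K → ℂ}
    (hθ : IsIrrCharacter K θ) (hθ' : IsIrrCharacter K θ') (h1 : (S : Subgroup H) ≤ inertia K θ)
    (h2 : (S : Subgroup H) ≤ inertia K θ') (h3 : classInner (fun n : K => χ n) θ ≠ 0)
    (h4 : classInner (fun n : K => χ n) θ' ≠ 0) :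
    ∃ n ∈ Subgroup.normalizer ((S : Subgroup H) : Set H), conjChar K θ n = θ' := by
  have := Fintype.ofFinite H
  obtain ⟨g, rfl⟩ := exists_conjChar_eq_of_lies_over hχ hθ hθ' h3 h4
  obtain ⟨h, hh, n, hn, rfl⟩ := Solv.exists_mem_mul_normalizer_sylow S h1 (g := g)
    (Solv.conj_smul_le_iff.2 fun s hs => mem_inertia_conjChar.1 (h2 hs))
  exact ⟨n, hn, (conjChar_mul_of_mem hh n).symm⟩

omit [K.Normal] [Fintype K] in
theorem index_modEq_relIndex_normalizer {T : Subgroup H} (hT : (S : Subgroup H) ≤ T) :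
    T.index ≡ T.relIndex (Subgroup.normalizer ((S : Subgroup H) : Set H)) [MOD p] := by
  have h1 := Subgroup.relIndex_mul_index
    (inf_le_left : T ⊓ Subgroup.normalizer ((S : Subgroup H) : Set H) ≤ T)
  have h2 := Subgroup.relIndex_mul_index
    (inf_le_right : T ⊓ Subgroup.normalizer ((S : Subgroup H) : Set H) ≤ _)
  rw [Subgroup.inf_relIndex_left, ← Solv.card_sylow_subgroup_of_le S hT] at h1
  rw [Subgroup.inf_relIndex_right] at h2
  have h3 : Nat.card (Sylow p H) = (Subgroup.normalizer ((S : Subgroup H) : Set H)).index :=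
    S.card_eq_index_normalizer
  have h4 := (card_sylow_modEq_one p T).mul_right T.index
  have h5 := (card_sylow_modEq_one p H).mul_left
    (T.relIndex (Subgroup.normalizer ((S : Subgroup H) : Set H)))
  rw [one_mul, h1] at h4
  rw [mul_one, h3] at h5
  refine h4.symm.trans ?_
  rw [← h2]
  exact h5

end General

section Setup

variable {G : Type u} [Group G] (P : Sylow p G) (K : Subgroup G) [K.Normal]

/-- The normalizer of a Sylow subgroup. -/
abbrev sylN (P : Sylow p G) : Subgroup G := Subgroup.normalizer ((P : Subgroup G) : Set G)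

/-- The inclusion of `K ⊓ N` in `K`. -/
def rcI : K.subgroupOf (sylN P) →* K where
  toFun c := ⟨c.1.1, c.2⟩
  map_one' := rfl
  map_mul' _ _ := rfl

/-- The action of `P` on `K`. -/
def rcAct : P →* MulAut K := (MulAut.conjNormal (H := K)).comp (P : Subgroup G).subtype

/-- The action of `P` on `K ⊓ N`. -/
def rcAct' : P →* MulAut (K.subgroupOf (sylN P)) :=
  (MulAut.conjNormal (H := K.subgroupOf (sylN P))).comp
    (Subgroup.inclusion (Subgroup.le_normalizer (H := (P : Subgroup G))))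

/-- `P` as a Sylow subgroup of its normalizer. -/
abbrev sylS (P : Sylow p G) : Sylow p (sylN P) :=
  P.subtype (Subgroup.le_normalizer (H := (P : Subgroup G)))

variable {P K}

omit hp in
theorem isInv_rcAct_iff {θ : K → ℂ} : IsInv (rcAct P K) θ ↔ (P : Subgroup G) ≤ inertia K θ :=
  ⟨fun h s hs => mem_inertia'.2 fun n => h ⟨s, hs⟩ n, fun h s n => mem_inertia'.1 (h s.2) n⟩

omit hp in
theorem isInv_rcAct'_iff {η : K.subgroupOf (sylN P) → ℂ} :
    IsInv (rcAct' P K) η ↔ (sylS P : Subgroup (sylN P)) ≤ inertia (K.subgroupOf (sylN P)) η :=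
  ⟨fun h s hs => mem_inertia'.2 fun n => h ⟨s, hs⟩ n,
    fun h s n => mem_inertia'.1 (h (x := ⟨s, Subgroup.le_normalizer s.2⟩) s.2) n⟩

theorem relFixed_rc [Finite G] :
    RelFixed p (rcAct P K) ((P : Subgroup G).subgroupOf K) (rcI P K) (rcAct' P K) where
  hP := P.isPGroup'
  hQ := P.isPGroup'.comap_subtype
  hidx := by
    obtain ⟨Q, hQ⟩ := Solv.exists_sylow_eq_subgroupOf_of_isSubnormal
      (Subgroup.Normal.isSubnormal ‹K.Normal›) P
    exact hQ ▸ Q.not_dvd_index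
  inv s g hg := by
    have : (s : G) * g * (s : G)⁻¹ ∈ (P : Subgroup G) :=
      (P : Subgroup G).mul_mem ((P : Subgroup G).mul_mem s.2 hg) ((P : Subgroup G).inv_mem s.2)
    exact this
  inj a b h := Subtype.ext (Subtype.ext (congrArg (fun k : K => (k : G)) h))
  mem_iff k := by
    constructor
    · rintro ⟨c, rfl⟩ s
      have h1 : (c.1 : G) * (s : G)⁻¹ * (c.1 : G)⁻¹ ∈ (P : Subgroup G) :=
        Solv.conj_mem_of_mem_normalizer c.1.2 ((P : Subgroup G).inv_mem s.2)
      have h2 : (s : G) * c.1 * (s : G)⁻¹ * (c.1 : G)⁻¹ ∈ (P : Subgroup G) := by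
        simpa only [mul_assoc] using (P : Subgroup G).mul_mem s.2 h1
      exact h2
    · intro h
      refine ⟨⟨⟨k, ?_⟩, k.2⟩, rfl⟩
      refine Subgroup.mem_normalizer_fintype fun s hs => ?_
      have h1 : s⁻¹ * k * s⁻¹⁻¹ * (k : G)⁻¹ ∈ (P : Subgroup G) :=
        h ⟨s⁻¹, (P : Subgroup G).inv_mem hs⟩
      have h2 := (P : Subgroup G).mul_mem hs h1
      simp only [mul_assoc, inv_inv, mul_inv_cancel_left] at h2
      rw [mul_assoc]
      exact h2
  compat _ _ := rfl

end Setup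

section Corr

variable {G : Type u} [Group G] [Finite G] {P : Sylow p G} {K : Subgroup G} [K.Normal]
  [Fintype K] [Fintype (K.subgroupOf (sylN P))]

variable (P K) in
/-- The relative Glauberman correspondence between `K` and `K ⊓ N`. -/
structure RcLoc (θ : K → ℂ) (η : K.subgroupOf (sylN P) → ℂ) : Prop where
  irr : IsIrrCharacter K θ
  inv : (P : Subgroup G) ≤ inertia K θ
  irr' : IsIrrCharacter _ η
  inv' : (sylS P : Subgroup (sylN P)) ≤ inertia (K.subgroupOf (sylN P)) η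
  mult : ¬ p ∣ resMult (rcI P K) θ η

variable {θ θ' : K → ℂ} {η η' : K.subgroupOf (sylN P) → ℂ}

omit hp [Finite G] [Fintype K] in
theorem RcLoc.conjChar (h : RcLoc P K θ η) (n : sylN P) :
    RcLoc P K (conjChar K θ n) (conjChar _ η n) where
  irr := h.irr.conjChar _
  inv _ hs := mem_inertia_conjChar.2 (h.inv (Solv.conj_mem_of_mem_normalizer n.2 hs))
  irr' := h.irr'.conjChar _
  inv' s hs := by
    have h1 : (n : G) * s * (n : G)⁻¹ ∈ (P : Subgroup G) := Solv.conj_mem_of_mem_normalizer n.2 hs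
    exact mem_inertia_conjChar.2 (h.inv' h1)
  mult := by
    have := resMult_comp_equiv (rcI P K) θ η (MulAut.conjNormal (n : G)) (MulAut.conjNormal n)
      (fun _ => rfl)
    rw [conjChar_eq_comp, conjChar_eq_comp, this]
    exact h.mult

omit hp [Fintype K] in
theorem RcLoc.conj (h : RcLoc P K θ η) :
    RcLoc P K (fun k => conj (θ k)) (fun c => conj (η c)) where
  irr := h.irr.conj
  inv := by rw [inertia_conj]; exact h.inv
  irr' := h.irr'.conj
  inv' := by rw [inertia_conj]; exact h.inv'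
  mult := by
    have h1 := resMult_eq (rcI P K) h.irr.isCharacter h.irr'.isCharacter
    have h2 : classInner (fun c => conj (θ (rcI P K c))) (fun c => conj (η c)) =
        (resMult (rcI P K) θ η : ℂ) := by
      rw [classInner_conj_conj (fun c => θ (rcI P K c)) η,
        ← conj_classInner (fun c => θ (rcI P K c)) η, h1, map_natCast]
    rw [resMult_eq_of_eq (χ := fun k => conj (θ k)) h2]
    exact h.mult

variable [hQ : ((P : Subgroup G).subgroupOf K).Normal]
include hQ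

omit [Fintype K] in
theorem RcLoc.right_unique (h : RcLoc P K θ η) (h' : RcLoc P K θ η') : η = η' := by
  have := Fintype.ofFinite ((P : Subgroup G).subgroupOf K)
  have := Fintype.ofFinite (((P : Subgroup G).subgroupOf K).comap (rcI P K))
  exact relFixed_rc.corr_unique h.irr (isInv_rcAct_iff.2 h.inv) h.irr' (isInv_rcAct'_iff.2 h.inv')
    h'.irr' (isInv_rcAct'_iff.2 h'.inv') h.mult h'.mult

omit [Fintype K] in
theorem RcLoc.left_unique (h : RcLoc P K θ η) (h' : RcLoc P K θ' η) : θ = θ' := by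
  have := Fintype.ofFinite ((P : Subgroup G).subgroupOf K)
  have := Fintype.ofFinite (((P : Subgroup G).subgroupOf K).comap (rcI P K))
  exact relFixed_rc.corr_inj h.irr (isInv_rcAct_iff.2 h.inv) h'.irr (isInv_rcAct_iff.2 h'.inv)
    h.irr' (isInv_rcAct'_iff.2 h.inv') h.mult h'.mult

omit [Fintype K] in
theorem exists_rcLoc_right (hθ : IsIrrCharacter K θ) (hi : (P : Subgroup G) ≤ inertia K θ) :
    ∃ η, RcLoc P K θ η := by
  have := Fintype.ofFinite ((P : Subgroup G).subgroupOf K)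
  have := Fintype.ofFinite (((P : Subgroup G).subgroupOf K).comap (rcI P K))
  obtain ⟨η, h1, h2, h3⟩ := (relFixed_rc (P := P)).exists_corr hθ (isInv_rcAct_iff.2 hi)
  exact ⟨η, hθ, hi, h1, isInv_rcAct'_iff.1 h2, h3⟩

omit [Fintype K] in
theorem exists_rcLoc_left (hη : IsIrrCharacter _ η)
    (hi : (sylS P : Subgroup (sylN P)) ≤ inertia (K.subgroupOf (sylN P)) η) :
    ∃ θ, RcLoc P K θ η := by
  have := Fintype.ofFinite ((P : Subgroup G).subgroupOf K)
  have := Fintype.ofFinite (((P : Subgroup G).subgroupOf K).comap (rcI P K))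
  obtain ⟨θ, h1, h2, h3⟩ := (relFixed_rc (P := P)).exists_corr' hη (isInv_rcAct'_iff.2 hi)
  exact ⟨θ, h1, isInv_rcAct_iff.1 h2, hη, hi, h3⟩

omit [Fintype K] in
theorem RcLoc.deg (h : RcLoc P K θ η) :
    (charDegree η : ZMod p) = charDegree θ ∨ (charDegree η : ZMod p) = -charDegree θ := by
  have := Fintype.ofFinite ((P : Subgroup G).subgroupOf K)
  have := Fintype.ofFinite (((P : Subgroup G).subgroupOf K).comap (rcI P K))
  have h1 := relFixed_rc.corr_degree_modEq h.irr (isInv_rcAct_iff.2 h.inv) h.irr'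
    (isInv_rcAct'_iff.2 h.inv') h.mult (apply_one_eq h.irr.isCharacter)
    (apply_one_eq h.irr'.isCharacter)
  have h2 := relFixed_rc.corr_pm_one h.irr (isInv_rcAct_iff.2 h.inv) h.irr'
    (isInv_rcAct'_iff.2 h.inv') h.mult
  rw [← ZMod.natCast_eq_natCast_iff, Nat.cast_mul] at h1
  rw [← ZMod.intCast_eq_intCast_iff, ← ZMod.intCast_eq_intCast_iff] at h2
  push_cast at h2
  rcases h2 with h2 | h2
  · left; rw [h1, h2, one_mul]
  · right; rw [h1, h2, neg_one_mul, neg_neg]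

omit [Fintype K] in
theorem RcLoc.inertia_eq (h : RcLoc P K θ η) :
    inertia (K.subgroupOf (sylN P)) η = (inertia K θ).subgroupOf (sylN P) := by
  ext n
  rw [Subgroup.mem_subgroupOf, mem_inertia, mem_inertia]
  have h1 := h.conjChar n
  constructor
  · intro e; rw [e] at h1; exact h1.left_unique h
  · intro e; rw [e] at h1; exact h1.right_unique h

omit [Fintype K] in
theorem RcLoc.real_iff (h : RcLoc P K θ η) : (∀ k, (θ k).im = 0) ↔ ∀ c, (η c).im = 0 := by
  have h1 := h.conj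
  constructor
  · intro e; rw [conj_eq_of_real e] at h1; exact real_of_conj_eq (h1.right_unique h)
  · intro e; rw [conj_eq_of_real e] at h1; exact real_of_conj_eq (h1.left_unique h)

variable (P K) in
/-- The correspondence between characters of `G` and of `N`. -/
def RcRel (χ : G → ℂ) (ξ : sylN P → ℂ) : Prop :=
  ∃ θ η, RcLoc P K θ η ∧ classInner (fun n : K => χ n) θ ≠ 0 ∧
    classInner (fun n : K.subgroupOf (sylN P) => ξ n) η ≠ 0

omit hp hQ [Finite G] [Fintype K] [Fintype (K.subgroupOf (sylN P))] in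
theorem odd_index_subgroupOf (hodd : Odd K.index) (N : Subgroup G) : Odd (K.subgroupOf N).index :=
  Odd.of_dvd_nat hodd (Subgroup.relIndex_dvd_index_of_normal K N)

variable (hodd : Odd K.index) {χ χ' : G → ℂ} {ξ ξ' : sylN P → ℂ}
include hodd

theorem RcRel.deg (hχ : IsIrrCharacter G χ) (hr : ∀ g, (χ g).im = 0)
    (hξ : IsIrrCharacter _ ξ) (hr' : ∀ g, (ξ g).im = 0) (h : RcRel P K χ ξ) :
    (charDegree ξ : ZMod p) = charDegree χ ∨ (charDegree ξ : ZMod p) = -charDegree χ := by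
  obtain ⟨θ, η, h, h1, h2⟩ := h
  have h3 := index_modEq_relIndex_normalizer P h.inv
  rw [← ZMod.natCast_eq_natCast_iff] at h3
  rw [deg_eq_of_real hodd hχ hr h.irr h1,
    deg_eq_of_real (odd_index_subgroupOf hodd _) hξ hr' h.irr' h2, h.inertia_eq, Nat.cast_mul,
    Nat.cast_mul, h3]
  rcases h.deg with e | e
  · left; rw [e]; rfl
  · right; rw [e, mul_neg]; rfl

theorem exists_rcRel_right (hχ : IsIrrCharacter G χ) (hr : ∀ g, (χ g).im = 0)
    (hd : ¬ p ∣ charDegree χ) :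
    ∃ ξ, IsIrrCharacter _ ξ ∧ (∀ g, (ξ g).im = 0) ∧ RcRel P K χ ξ := by
  obtain ⟨θ, h1, h2, h3⟩ := exists_sylow_le_inertia_of_real P hodd hχ hr hd
  obtain ⟨η, h⟩ := exists_rcLoc_right h1 h2
  obtain ⟨ξ, h4, h5, h6⟩ := exists_real_over (odd_index_subgroupOf hodd _) h.irr'
    (h.real_iff.1 (real_of_under hodd hχ hr h1 h3))
  exact ⟨ξ, h4, h5, θ, η, h, h3, h6⟩

theorem exists_rcRel_left (hξ : IsIrrCharacter _ ξ) (hr : ∀ g, (ξ g).im = 0)
    (hd : ¬ p ∣ charDegree ξ) :
    ∃ χ, IsIrrCharacter G χ ∧ (∀ g, (χ g).im = 0) ∧ RcRel P K χ ξ := by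
  have ho := odd_index_subgroupOf hodd (sylN P)
  obtain ⟨η, h1, h2, h3⟩ := exists_sylow_le_inertia_of_real (sylS P) ho hξ hr hd
  obtain ⟨θ, h⟩ := exists_rcLoc_left h1 h2
  obtain ⟨χ, h4, h5, h6⟩ := exists_real_over hodd h.irr
    (h.real_iff.2 (real_of_under ho hξ hr h1 h3))
  exact ⟨χ, h4, h5, θ, η, h, h6, h3⟩

theorem RcRel.right_unique (hχ : IsIrrCharacter G χ) (hξ : IsIrrCharacter _ ξ)
    (hr : ∀ g, (ξ g).im = 0) (hξ' : IsIrrCharacter _ ξ') (hr' : ∀ g, (ξ' g).im = 0)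
    (h : RcRel P K χ ξ) (h' : RcRel P K χ ξ') : ξ = ξ' := by
  have ho := odd_index_subgroupOf hodd (sylN P)
  obtain ⟨θ, η, h, h1, h2⟩ := h
  obtain ⟨θ', η', h', h1', h2'⟩ := h'
  obtain ⟨n, hn, rfl⟩ := exists_normalizer_conjChar_of_under P hχ h.irr h'.irr h.inv h'.inv h1 h1'
  obtain rfl := (h.conjChar ⟨n, hn⟩).right_unique h'
  rw [classInner_res_conjChar hξ'.isClassFunction] at h2'
  exact real_over_unique ho h.irr' (real_of_under ho hξ hr h.irr' h2) hξ hr h2 hξ' hr' h2'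

theorem RcRel.left_unique (hξ : IsIrrCharacter _ ξ) (hχ : IsIrrCharacter G χ)
    (hr : ∀ g, (χ g).im = 0) (hχ' : IsIrrCharacter G χ') (hr' : ∀ g, (χ' g).im = 0)
    (h : RcRel P K χ ξ) (h' : RcRel P K χ' ξ) : χ = χ' := by
  have := Fintype.ofFinite (sylN P)
  obtain ⟨θ, η, h, h1, h2⟩ := h
  obtain ⟨θ', η', h', h1', h2'⟩ := h'
  obtain ⟨n, rfl⟩ := exists_conjChar_eq_of_lies_over hξ h.irr' h'.irr' h2 h2'
  obtain rfl := (h.conjChar n).left_unique h'
  rw [classInner_res_conjChar hχ'.isClassFunction] at h1'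
  exact real_over_unique hodd h.irr (real_of_under hodd hχ hr h.irr h1) hχ hr h1 hχ' hr' h1'

end Corr

section Main

variable {G : Type u} [Group G] [Finite G] (P : Sylow p G)

/-- The correspondence of real characters. -/
theorem exists_real_bijection {K : Subgroup G} [K.Normal] (hodd : Odd K.index)
    (hQ : ((P : Subgroup G).subgroupOf K).Normal) (h : RealPP p G) :
    ∃ f : {χ : IrrCharacter G // ∀ g : G, ((χ : G → ℂ) g).im = 0} →
      {ξ : IrrCharacter (sylN P) // (∀ n, ((ξ : sylN P → ℂ) n).im = 0) ∧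
        ¬ p ∣ charDegree (ξ : sylN P → ℂ)}, Function.Bijective f ∧
      ∀ χ, ((charDegree ((f χ).1 : sylN P → ℂ) : ZMod p) = (charDegree (χ.1 : G → ℂ) : ZMod p) ∨
        (charDegree ((f χ).1 : sylN P → ℂ) : ZMod p) = -(charDegree (χ.1 : G → ℂ) : ZMod p)) := by
  have := Fintype.ofFinite K
  have := Fintype.ofFinite (K.subgroupOf (sylN P))
  choose f h1 h2 h3 using fun χ : {χ : IrrCharacter G // ∀ g : G, ((χ : G → ℂ) g).im = 0} =>
    exists_rcRel_right (P := P) hodd χ.1.2 χ.2 (h _ χ.1.2 χ.2)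
  have h4 := fun χ => (h3 χ).deg hodd χ.1.2 χ.2 (h1 χ) (h2 χ)
  have h5 : ∀ χ, ¬ p ∣ charDegree (f χ) := fun χ hd => by
    have h6 := h4 χ
    rw [(ZMod.natCast_eq_zero_iff _ _).2 hd, eq_comm, or_comm, eq_comm, neg_eq_zero, or_self,
      ZMod.natCast_eq_zero_iff] at h6
    exact h _ χ.1.2 χ.2 h6
  refine ⟨fun χ => ⟨⟨f χ, h1 χ⟩, h2 χ, h5 χ⟩, ⟨fun χ χ' e => ?_, fun ξ => ?_⟩, h4⟩
  · have e' : f χ = f χ' := congrArg (fun ξ => ξ.1.1) e
    exact Subtype.ext (Subtype.ext
      ((h3 χ).left_unique hodd (h1 χ) χ.1.2 χ.2 χ'.1.2 χ'.2 (e' ▸ h3 χ')))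
  · obtain ⟨χ, h6, h7, h8⟩ := exists_rcRel_left (K := K) hodd ξ.1.2 ξ.2.1 ξ.2.2
    exact ⟨⟨⟨χ, h6⟩, h7⟩, Subtype.ext (Subtype.ext
      ((h3 ⟨⟨χ, h6⟩, h7⟩).right_unique hodd h6 (h1 _) (h2 _) ξ.1.2 ξ.2.1 h8))⟩

theorem normal_subgroupOf_pGen_two (hs : Group.IsSolvable (pGen p G)) (h : RealPP p G) :
    ((P : Subgroup G).subgroupOf (pGen 2 G)).Normal := by
  obtain ⟨Q, hQ⟩ := Solv.exists_sylow_eq_subgroupOf_of_isSubnormal
    (Subgroup.Normal.isSubnormal (pGen_normal 2 G)) P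
  exact hQ ▸ normal_sylow_of_realPP hs h (pGen 2 G) le_rfl (a := 0)
    (by rw [Subgroup.relIndex_self, pow_zero]) Q

theorem exists_isConj_mem_sylN_of_disjoint {K : Subgroup G} [hK : K.Normal] (hodd : Odd K.index)
    (hd : ∀ s ∈ (P : Subgroup G), s ∈ K → s = 1) (h : RealPP p G) {x : G} (hx : IsConj x x⁻¹) :
    ∃ y ∈ sylN P, IsConj x y := by
  have hbot : (P : Subgroup G).subgroupOf K = ⊥ :=
    eq_bot_iff.2 fun k hk => Subtype.ext (hd k hk k.2)
  have hcomm : ∀ c ∈ sylN P, c ∈ K → ∀ s ∈ (P : Subgroup G), s * c = c * s := by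
    intro c hc hcK s hs
    have h1 : s * (c * s⁻¹ * c⁻¹) ∈ (P : Subgroup G) := (P : Subgroup G).mul_mem hs
      (Solv.conj_mem_of_mem_normalizer hc ((P : Subgroup G).inv_mem hs))
    have h2 : s * (c * s⁻¹ * c⁻¹) ∈ K := by
      simpa only [mul_assoc] using K.mul_mem (hK.conj_mem c hcK s) (K.inv_mem hcK)
    have h3 := hd _ h1 h2
    calc s * c = s * (c * s⁻¹ * c⁻¹) * (c * s) := by group
      _ = c * s := by rw [h3, one_mul]
  have hall : ∀ ξ : sylN P → ℂ, IsIrrCharacter _ ξ → (∀ n, (ξ n).im = 0) → ¬ p ∣ charDegree ξ := by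
    intro ξ hξ hr
    have := Fintype.ofFinite (K.subgroupOf (sylN P))
    obtain ⟨η, h1, h2⟩ := exists_irr_under (K.subgroupOf (sylN P)) hξ
    rw [deg_eq_of_real (odd_index_subgroupOf hodd _) hξ hr h1 h2, hp.out.dvd_mul, not_or]
    constructor
    · refine fun hdv => (sylS P).not_dvd_index (hdv.trans (Subgroup.index_dvd_of_le
        (fun s hs => centralizer_le_inertia η fun c hc => ?_)))
      exact Subtype.ext (hcomm c c.2 hc s hs).symm
    · intro hdv
      have h3 := (relFixed_rc (P := P) (K := K)).hidx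
      rw [hbot, Subgroup.index_bot] at h3
      exact h3 (hdv.trans ((deg_dvd_card h1).trans
        (Subgroup.card_dvd_of_injective _ (relFixed_rc (P := P) (K := K)).inj)))
  obtain ⟨f, hf, -⟩ := exists_real_bijection P hodd (hbot ▸ inferInstance) h
  have h1 := Nat.card_eq_of_bijective f hf
  rw [Nat.card_congr (Equiv.subtypeEquivRight (q := fun ξ : IrrCharacter (sylN P) =>
    ∀ n, ((ξ : sylN P → ℂ) n).im = 0) fun ξ => and_iff_left_of_imp (hall _ ξ.2)),
    card_real_irr_eq, card_real_irr_eq] at h1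
  let F : {C : ConjClasses (sylN P) // ∀ g, ConjClasses.mk g = C → IsConj g g⁻¹} →
      {C : ConjClasses G // ∀ g, ConjClasses.mk g = C → IsConj g g⁻¹} := fun C =>
    ⟨ConjClasses.map (sylN P).subtype C.1, fun g hg => by
      obtain ⟨C, hC⟩ := C
      obtain ⟨n, rfl⟩ := ConjClasses.mk_surjective C
      have h2 : IsConj g (n : G) := ConjClasses.mk_eq_mk_iff_isConj.1 hg
      have h3 : IsConj (n : G) (n : G)⁻¹ := Solv.Real.isConj_inv_map (sylN P).subtype (hC n rfl)
      obtain ⟨c, hc⟩ := isConj_iff.1 h2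
      refine h2.trans (h3.trans (IsConj.symm (isConj_iff.2 ⟨c, ?_⟩)))
      rw [← hc]; group⟩
  have hF : Function.Injective F := by
    rintro ⟨C, hC⟩ ⟨C', hC'⟩ e
    obtain ⟨n, rfl⟩ := ConjClasses.mk_surjective C
    obtain ⟨n', rfl⟩ := ConjClasses.mk_surjective C'
    have h2 : IsConj (n : G) (n' : G) :=
      ConjClasses.mk_eq_mk_iff_isConj.1 (congrArg Subtype.val e)
    obtain ⟨g, hg⟩ := isConj_iff.1 h2
    have h3 : (n : G) ∈ K := (Solv.Real.mem_of_real_of_odd_index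
      (Solv.Real.isConj_inv_map (sylN P).subtype (hC n rfl)) K hodd).1
    have h4 : (n' : G) ∈ K := hg ▸ hK.conj_mem _ h3 g
    obtain ⟨a, ha, m, hm, rfl⟩ := Solv.exists_mem_mul_normalizer_sylow
      (H := Subgroup.centralizer {(n' : G)}) P (g := g)
      (fun s hs => Subgroup.mem_centralizer_singleton_iff.2 (hcomm _ n'.2 h4 s hs))
      (Solv.conj_smul_le_iff.2 fun s hs => Subgroup.mem_centralizer_singleton_iff.2 (by
        have h5 := hcomm _ n.2 h3 s hs
        rw [← hg]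
        calc g * s * g⁻¹ * (g * n * g⁻¹) = g * (s * n) * g⁻¹ := by group
          _ = g * n * g⁻¹ * (g * s * g⁻¹) := by rw [h5]; group))
    refine Subtype.ext (ConjClasses.mk_eq_mk_iff_isConj.2 (isConj_iff.2 ⟨⟨m, hm⟩, Subtype.ext ?_⟩))
    have h5 := Subgroup.mem_centralizer_singleton_iff.1 ha
    calc m * (n : G) * m⁻¹ = a⁻¹ * (a * m * n * (a * m)⁻¹) * a := by group
      _ = n' := by rw [hg, mul_assoc, ← h5, inv_mul_cancel_left]
  obtain ⟨⟨C, hC⟩, e⟩ := (hF.bijective_of_nat_card_le h1.le).2 ⟨ConjClasses.mk x, fun g hg => by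
    obtain ⟨c, hc⟩ := isConj_iff.1 (ConjClasses.mk_eq_mk_iff_isConj.1 hg)
    refine (ConjClasses.mk_eq_mk_iff_isConj.1 hg).trans (hx.trans (IsConj.symm
      (isConj_iff.2 ⟨c, ?_⟩)))
    rw [← hc]; group⟩
  obtain ⟨n, rfl⟩ := ConjClasses.mk_surjective C
  exact ⟨n, n.2, (ConjClasses.mk_eq_mk_iff_isConj.1 (congrArg Subtype.val e)).symm⟩

theorem exists_isConj_mem_sylN (hs : Group.IsSolvable (pGen p G)) (h : RealPP p G) {x : G}
    (hx : IsConj x x⁻¹) : ∃ y ∈ sylN P, IsConj x y := by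
  obtain ⟨Q, hQ⟩ := Solv.exists_sylow_eq_subgroupOf_of_isSubnormal
    (Subgroup.Normal.isSubnormal (pGen_normal 2 G)) P
  have hn : (Q : Subgroup (pGen 2 G)).Normal := hQ ▸ normal_subgroupOf_pGen_two P hs h
  have := Q.characteristic_of_normal hn
  have hM : ((P : Subgroup G) ⊓ pGen 2 G).Normal := by
    rw [← Subgroup.subgroupOf_map_subtype, ← hQ]
    infer_instance
  have hsurj := QuotientGroup.mk'_surjective ((P : Subgroup G) ⊓ pGen 2 G)
  have hKn := (pGen_normal 2 G).map _ hsurj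
  obtain ⟨y, hy, hxy⟩ := exists_isConj_mem_sylN_of_disjoint (P.mapSurjective hsurj)
    (K := (pGen 2 G).map (QuotientGroup.mk' ((P : Subgroup G) ⊓ pGen 2 G)))
    (Odd.of_dvd_nat odd_index_pGen_two (Subgroup.index_map_dvd _ hsurj))
    (by
      rintro _ ⟨s, hs, rfl⟩ ⟨k, hk, e⟩
      have h1 : k⁻¹ * s ∈ (P : Subgroup G) ⊓ pGen 2 G := QuotientGroup.eq.1 e
      have h2 : s ∈ pGen 2 G := by simpa using (pGen 2 G).mul_mem hk h1.2
      exact (QuotientGroup.eq_one_iff s).2 ⟨hs, h2⟩)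
    (h.quotient _) (Solv.Real.isConj_inv_map (QuotientGroup.mk' _) hx)
  obtain ⟨g, hg⟩ := isConj_iff.1 hxy
  obtain ⟨g, rfl⟩ := hsurj g
  refine ⟨g * x * g⁻¹, ?_, isConj_iff.2 ⟨g, rfl⟩⟩
  have h1 := Solv.normalizer_map_mk'_eq (P : Subgroup G) ((P : Subgroup G) ⊓ pGen 2 G)
  rw [sup_inf_self] at h1
  rw [sylN, ← h1, Subgroup.mem_comap, map_mul, map_mul, map_inv, hg]
  exact hy

end Main

end Cfsg.Lib.Char
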