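import Cfsg.Agent.Char.RealOdd
import Cfsg.Agent.Char.DegThompson
import Cfsg.Agent.Char.GagolaSolv
import Cfsg.Agent.Perm.MinNormal
import Cfsg.Agent.Solv.Fitting
import Cfsg.Agent.Solv.Cores

/-!
# Groups whose real irreducible characters have degree prime to `p`
-/

set_option autoImplicit false

open scoped ComplexConjugate commutatorElement
open Cfsg Cfsg.Lib.Char.Deg Cfsg.Lib.Solv

namespace Cfsg.Lib.Char

universe u

/-- All real irreducible characters have degree prime to `p`. -/
def RealPP (p : ℕ) (G : Type*) [Group G] : Prop :=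
  ∀ χ : G → ℂ, IsIrrCharacter G χ → (∀ g, (χ g).im = 0) → ¬ p ∣ charDegree χ

/-- The subgroup generated by the `p`-elements. -/
abbrev pGen (p : ℕ) (G : Type*) [Group G] : Subgroup G :=
  Subgroup.closure {g : G | ∃ k : ℕ, orderOf g = p ^ k}

variable {p : ℕ} {G : Type*} [Group G]

instance pGen_normal (p : ℕ) (G : Type*) [Group G] : (pGen p G).Normal := by
  refine ⟨fun n hn g => ?_⟩
  have : (pGen p G).map (MulAut.conj g).toMonoidHom ≤ pGen p G := by
    rw [MonoidHom.map_closure]
    refine Subgroup.closure_mono ?_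
    rintro _ ⟨x, ⟨k, hk⟩, rfl⟩
    exact ⟨k, by rw [← hk]; exact (MulAut.conj g).orderOf_eq x⟩
  exact this ⟨n, hn, rfl⟩

theorem le_pGen [Finite G] [hp : Fact p.Prime] {P : Subgroup G} (hP : IsPGroup p P) :
    P ≤ pGen p G := by
  intro x hx
  obtain ⟨k, hk⟩ := IsPGroup.iff_orderOf.mp hP ⟨x, hx⟩
  exact Subgroup.subset_closure ⟨k, by rw [← hk, Subgroup.orderOf_mk]⟩

theorem not_dvd_index_pGen [Finite G] [hp : Fact p.Prime] : ¬ p ∣ (pGen p G).index := by
  obtain ⟨P⟩ := (inferInstance : Nonempty (Sylow p G))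
  exact fun h => P.not_dvd_index (h.trans (Subgroup.index_dvd_of_le (le_pGen P.isPGroup')))

theorem mem_of_orderOf_eq_pow [hp : Fact p.Prime] {N : Subgroup G} [N.Normal]
    (hN : ¬ p ∣ N.index) {g : G} {k : ℕ} (hg : orderOf g = p ^ k) : g ∈ N := by
  have h1 : N.index.Coprime (orderOf g) := by
    rw [hg]
    exact Nat.Coprime.pow_right _ ((hp.out.coprime_iff_not_dvd.mpr hN).symm)
  obtain ⟨m, hm⟩ := exists_pow_eq_self_of_coprime h1
  exact hm ▸ N.pow_mem (N.pow_index_mem g) m

theorem odd_index_pGen_two [Finite G] : Odd (pGen 2 G).index :=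
  Nat.not_even_iff_odd.mp fun h => not_dvd_index_pGen (even_iff_two_dvd.mp h)

theorem RealPP.quotient (h : RealPP p G) (M : Subgroup G) [M.Normal] : RealPP p (G ⧸ M) :=
  fun χ hχ hr => by
    have := h _ hχ.inflate fun g => hr _
    rwa [deg_inflate] at this

theorem RealPP.subgroup [Finite G] (h : RealPP p G) (U : Subgroup G) [U.Normal]
    (hodd : Odd U.index) : RealPP p U := fun θ hθ hr hd => by
  have := Fintype.ofFinite U
  obtain ⟨χ, hχ, hχr, ho⟩ := exists_real_over hodd hθ hr
  exact h χ hχ hχr (hd.trans (deg_dvd_of_lies_over hχ hθ ho))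

/-- A normal subgroup inside the derived subgroup of a `p`-subgroup lies in the kernel of every
irreducible character of degree prime to `p`. -/
theorem le_charKer_of_le_commutator [Finite G] [hp : Fact p.Prime] {P M : Subgroup G} [M.Normal]
    (hP : IsPGroup p P) (hM : M ≤ ⁅P, P⁆) {χ : G → ℂ} (hχ : IsIrrCharacter G χ)
    (hd : ¬ p ∣ charDegree χ) : M ≤ charKer χ := by
  have := Fintype.ofFinite G
  have := Fintype.ofFinite P
  have := Fintype.ofFinite M
  have hMP : M ≤ P := hM.trans ((Subgroup.commutator_le_sup P P).trans (sup_idem P).le)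
  obtain ⟨β, hβ, h1, h2⟩ := exists_irr_not_dvd_deg (hχ.isCharacter.res P) (p := p)
    (by rwa [deg_res])
  obtain ⟨n, hn⟩ := hP.exists_card_eq
  obtain ⟨j, -, hj⟩ := (Nat.dvd_prime_pow hp.out).mp (hn ▸ deg_dvd_card hβ)
  have hβ1 : charDegree β = 1 := by
    rcases j with _ | j
    · simpa using hj
    · exact absurd (hj ▸ dvd_pow_self p (Nat.succ_ne_zero j)) h2
  have hk := (commutator_le_charKer_iff hβ).mpr hβ1
  refine (lies_over_one_iff_le_charKer hχ).mp
    (lies_over_trans hMP hχ.isCharacter hβ isCharacter_one h1 ?_)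
  have : (fun n : M => β ⟨n, hMP n.2⟩) = β 1 • fun _ => 1 := by
    funext n
    have h3 := hM n.2
    rw [← Subgroup.map_subtype_commutator] at h3
    obtain ⟨y, hy, he⟩ := h3
    have : (⟨n, hMP n.2⟩ : P) = y := Subtype.ext he.symm
    simp [this, apply_of_mem_charKer (hk hy)]
  rw [this, classInner_smul_left, classInner_one_one, mul_one]
  exact hβ.apply_one_ne_zero

theorem normal_sylow_of_realPP_aux [hp : Fact p.Prime] (n : ℕ) :
    ∀ (G : Type u) [Group G] [Finite G], Nat.card G = n → RealPP p G →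
      (∃ L : Subgroup G, L.Normal ∧ Group.IsSolvable L ∧ ¬ p ∣ L.index) →
      (∀ N : Subgroup G, N.Normal → Odd N.index → ∃ k, N.index = p ^ k) →
      ∀ P : Sylow p G, (P : Subgroup G).Normal := by
  induction n using Nat.strong_induction_on with
  | _ n ih =>
  intro G _ _ hn hH ⟨L, hL, hLs, hLi⟩ hO P
  have IH : ∀ M : Subgroup G, M.Normal → M ≠ ⊥ → ((P : Subgroup G) ⊔ M).Normal := by
    intro M hM hM1
    have hlt : Nat.card (G ⧸ M) < n := by
      rw [← hn, ← M.card_mul_index]
      exact lt_mul_of_one_lt_left (Nat.pos_of_ne_zero Subgroup.index_ne_zero_of_finite)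
        (M.one_lt_card_iff_ne_bot.mpr hM1)
    have hs := QuotientGroup.mk'_surjective M
    have := ih _ hlt (G ⧸ M) rfl (hH.quotient M) ⟨L.map (QuotientGroup.mk' M), hL.map _ hs,
      Group.isSolvable_of_surjective ((QuotientGroup.mk' M).subgroupMap_surjective L),
      fun h => hLi (h.trans (L.index_map_dvd hs))⟩ (fun N hN ho => by
        rw [← N.index_comap_of_surjective hs] at ho ⊢
        exact hO _ (hN.comap _) ho) (P.mapSurjective hs)
    have h2 := this.comap (QuotientGroup.mk' M)
    rwa [Sylow.coe_mapSurjective, Subgroup.comap_map_eq, QuotientGroup.ker_mk'] at h2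
  have hPL : (P : Subgroup G) ≤ L := le_of_coprime_card_index
    (coprime_card_of_isPGroup P.isPGroup' ((hp.out.coprime_iff_not_dvd.mpr hLi).symm))
  by_cases hL1 : L = ⊥
  · rw [hL1, le_bot_iff] at hPL
    rw [hPL]
    infer_instance
  obtain ⟨N, hN, hN1, hNL, hmin⟩ := exists_minimal_normal_le L hL1
  have hNs : Group.IsSolvable N :=
    Group.isSolvable_of_isSolvable_injective (Subgroup.inclusion_injective hNL)
  have hNc : IsMulCommutative N := by
    rcases hmin ⁅N, N⁆ inferInstance (Subgroup.commutator_le_left N N) with h | h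
    · exact Subgroup.le_centralizer_iff_isMulCommutative.mp
        (Subgroup.commutator_eq_bot_iff_le_centralizer.mp h)
    · exfalso
      have : Nontrivial N := (Subgroup.nontrivial_iff_ne_bot N).mpr hN1
      refine (Group.IsSolvable.commutator_lt_top_of_nontrivial N).ne ?_
      apply Subgroup.map_injective N.subtype_injective
      rw [Subgroup.map_subtype_commutator, h, ← MonoidHom.range_eq_map, Subgroup.range_subtype]
  have hc : ∀ a ∈ N, ∀ b ∈ N, a * b = b * a := fun a ha b hb =>
    congrArg Subtype.val (hNc.is_comm.comm (⟨a, ha⟩ : N) ⟨b, hb⟩)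
  obtain ⟨q, hq, hexp⟩ := Perm.exists_prime_pow_eq_one_of_minNormal N hN1 hmin hNc
  have hNq : IsPGroup q N := fun n => ⟨1, Subtype.ext (by simpa using hexp n n.2)⟩
  have hPN := IH N hN hN1
  by_cases hNP : N ≤ P
  · rwa [sup_eq_left.mpr hNP] at hPN
  have hNp : ¬ IsPGroup p N := fun h => hNP (h.le_sylow_of_normal P)
  have hqp : q ≠ p := fun h => hNp (h ▸ hNq)
  set H := Subgroup.normalizer ((P : Subgroup G) : Set G) with hHdef
  have hPH : (P : Subgroup G) ≤ H := Subgroup.le_normalizer
  have frat : ∀ M : Subgroup G, ((P : Subgroup G) ⊔ M).Normal → H ⊔ M = ⊤ := fun M hM => by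
    have := Sylow.normalizer_sup_eq_top' (N := (P : Subgroup G) ⊔ M) P le_sup_left
    rw [← this, ← sup_assoc]
    exact congrArg (· ⊔ M) (sup_eq_left.mpr hPH).symm
  by_contra hnn
  have hHtop : H ≠ ⊤ := fun h => hnn (Subgroup.normalizer_eq_top_iff.mp h)
  have hHN := frat N hPN
  have hdec : ∀ g : G, ∃ n ∈ N, ∃ x ∈ H, n * x = g := fun g => by
    have hs' : g ∈ ((N ⊔ H : Subgroup G) : Set G) := by rw [sup_comm, hHN]; trivial
    rw [Subgroup.normal_mul] at hs'
    exact hs'
  have hNH : ¬ N ≤ H := fun h => hHtop (by rwa [sup_eq_left.mpr h] at hHN)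
  have hdisj : N ⊓ H = ⊥ := by
    refine (hmin (N ⊓ H) ⟨fun m hm g => ?_⟩ inf_le_left).resolve_right
      fun h => hNH (h.ge.trans inf_le_right)
    obtain ⟨a, ha, x, hx, rfl⟩ := hdec g
    have h1 : x * m * x⁻¹ ∈ N := hN.conj_mem m hm.1 x
    have e : a * x * m * (a * x)⁻¹ = x * m * x⁻¹ := by
      calc a * x * m * (a * x)⁻¹ = a * (x * m * x⁻¹) * a⁻¹ := by group
        _ = _ := by rw [hc a ha _ h1]; group
    rw [e]
    exact ⟨h1, H.mul_mem (H.mul_mem hx hm.2) (H.inv_mem hx)⟩
  have hcompl : N.IsComplement' H :=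
    Subgroup.isComplement'_of_disjoint_and_mul_eq_univ (disjoint_iff.mpr hdisj) (by
      rw [← Subgroup.normal_mul, sup_comm, hHN]; rfl)
  have hC : H ⊓ Subgroup.centralizer (N : Set G) = ⊥ := by
    by_contra hne
    have hCn : (H ⊓ Subgroup.centralizer (N : Set G)).Normal := ⟨fun c hcm g => by
      obtain ⟨a, ha, x, hx, rfl⟩ := hdec g
      have h1 : x * c * x⁻¹ ∈ Subgroup.centralizer (N : Set G) :=
        Subgroup.Normal.conj_mem inferInstance c hcm.2 x
      have e : a * x * c * (a * x)⁻¹ = x * c * x⁻¹ := by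
        calc a * x * c * (a * x)⁻¹ = a * (x * c * x⁻¹) * a⁻¹ := by group
          _ = _ := by rw [h1 a ha]; group
      rw [e]
      exact ⟨H.mul_mem (H.mul_mem hx hcm.1) (H.inv_mem hx), h1⟩⟩
    have := frat _ (IH _ hCn hne)
    exact hHtop (by rwa [sup_eq_left.mpr inf_le_left] at this)
  have hD : ⁅N, (P : Subgroup G) ⊔ N⁆ = N := by
    refine (hmin _ inferInstance (Subgroup.commutator_le_left _ _)).resolve_left fun h => hNH ?_
    rw [Subgroup.commutator_eq_bot_iff_le_centralizer] at h
    exact h.trans ((Subgroup.centralizer_le (le_sup_left : (P : Subgroup G) ≤ (P : Subgroup G) ⊔ N)).trans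
      (Subgroup.centralizer_le_normalizer _))
  have hker : ∀ χ : G → ℂ, IsIrrCharacter G χ → (∀ g, (χ g).im = 0) → N ≤ charKer χ := by
    intro χ hχ hr
    have := Fintype.ofFinite G
    have := Fintype.ofFinite N
    obtain ⟨θ, hθ, ho⟩ := exists_irr_under N hχ
    obtain ⟨lam, rfl⟩ := hθ.exists_monoidHom_of_comm fun a b => Subtype.ext (hc a a.2 b b.2)
    have h1 : ¬ p ∣ (inertia N fun g => (lam g : ℂ)).index := fun h => hH χ hχ hr
      ((h.mul_right _).trans (index_inertia_mul_deg_dvd hχ hθ ho))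
    have h2 : (P : Subgroup G) ⊔ N ≤ inertia N fun g => (lam g : ℂ) := by
      rw [← Subgroup.relIndex_eq_one]
      have h3 := relIndex_dvd_index_of_normal_right (inertia N fun g => (lam g : ℂ))
        ((P : Subgroup G) ⊔ N)
      have h4 := Subgroup.relIndex_dvd_of_le_left ((P : Subgroup G) ⊔ N)
        (le_inertia hθ.isClassFunction)
      rw [Subgroup.relIndex_sup_right] at h4
      exact Nat.eq_one_of_dvd_coprimes
        (coprime_card_of_isPGroup P.isPGroup' ((hp.out.coprime_iff_not_dvd.mpr h1).symm))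
        (h4.trans (Subgroup.relIndex_dvd_card _ _)) h3
    have h3 : N ≤ lam.ker.map N.subtype := by
      nth_rewrite 1 [← hD]
      rw [Subgroup.commutator_le]
      intro a ha x hx
      refine ⟨⟨a, ha⟩ * ⟨x * (⟨a, ha⟩ : N)⁻¹ * x⁻¹, hN.conj_mem _ (N.inv_mem ha) x⟩, ?_,
        by simp [commutatorElement_def, mul_assoc]⟩
      have := Units.val_inj.mp (mem_inertia'.mp (h2 hx) (⟨a, ha⟩ : N)⁻¹)
      rw [SetLike.mem_coe, MonoidHom.mem_ker, map_mul]
      erw [this]
      rw [map_inv, mul_inv_cancel]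
    have h4 : (fun g => (lam g : ℂ)) = fun _ => 1 := by
      funext a
      obtain ⟨b, hb, he⟩ := h3 a.2
      rw [← (Subtype.ext he : b = a), MonoidHom.mem_ker.mp hb, Units.val_one]
    rw [h4] at ho
    exact (lies_over_one_iff_le_charKer hχ).mp ho
  have hodd : Odd (Nat.card G) := by
    rw [← Nat.not_even_iff_odd, even_iff_two_dvd, ← hcompl.card_mul_card]
    intro h2
    rcases (Nat.Prime.dvd_mul Nat.prime_two).mp h2 with h | h
    · obtain ⟨m, hm⟩ := exists_prime_orderOf_dvd_card' 2 h
      have h3 : (m : G) * m = 1 := by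
        have := pow_orderOf_eq_one m
        rw [hm, sq] at this
        exact congrArg Subtype.val this
      have h4 := eq_one_of_ker_real hc hcompl hker H.one_mem (one_mul 1) m.2
        (by rw [one_mul, inv_one, mul_one]; exact eq_inv_of_mul_eq_one_left h3)
      rw [(Subtype.ext h4 : m = 1), orderOf_one] at hm
      omega
    · obtain ⟨t, ht⟩ := exists_prime_orderOf_dvd_card' 2 h
      have h3 : (t : G) * t = 1 := by
        have := pow_orderOf_eq_one t
        rw [ht, sq] at this
        exact congrArg Subtype.val this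
      have h4 : (t : G) ∈ H ⊓ Subgroup.centralizer (N : Set G) := by
        refine ⟨t.2, fun a ha => ?_⟩
        have h5 := eq_one_of_ker_real hc hcompl hker t.2 h3
          (N.mul_mem (hN.conj_mem a ha t) (N.inv_mem ha)) (by
            rw [inv_eq_of_mul_eq_one_right h3]
            calc (t : G) * (t * a * t * a⁻¹) * t = (t * t) * a * t * a⁻¹ * t := by group
              _ = a * t * a⁻¹ * t := by rw [h3, one_mul]
              _ = _ := by simp only [mul_inv_rev, inv_inv, inv_eq_of_mul_eq_one_right h3]; group)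
        rw [mul_inv_eq_one, mul_inv_eq_iff_eq_mul] at h5
        exact h5.symm
      rw [hC, Subgroup.mem_bot] at h4
      rw [(Subtype.ext h4 : t = 1), orderOf_one] at ht
      omega
  obtain ⟨k, hk⟩ := hO ⊥ inferInstance (by rwa [Subgroup.index_bot])
  rw [Subgroup.index_bot] at hk
  exact hNp ((IsPGroup.of_card hk).to_subgroup N)

/-- Isaacs–Navarro: normal Sylow subgroups above `O^{2'}(G)`. -/
theorem normal_sylow_of_realPP [Finite G] [hp : Fact p.Prime] (hs : Group.IsSolvable (pGen p G))
    (h : RealPP p G) (U : Subgroup G) [U.Normal] (hKU : pGen 2 G ≤ U) {a : ℕ}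
    (ha : (pGen 2 G).relIndex U = p ^ a) (Q : Sylow p U) : (Q : Subgroup U).Normal := by
  have hodd : Odd U.index := Odd.of_dvd_nat odd_index_pGen_two (Subgroup.index_dvd_of_le hKU)
  refine normal_sylow_of_realPP_aux _ U rfl (h.subgroup U hodd) ⟨(pGen p G).subgroupOf U,
    inferInstance, ?_, fun hd => not_dvd_index_pGen
      (hd.trans (Subgroup.relIndex_dvd_index_of_normal _ U))⟩ (fun N hN ho => ?_) Q
  · exact Group.isSolvable_of_isSolvable_injective (f := U.subtype.subgroupComap (pGen p G))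
      fun a b e => Subtype.ext (Subtype.ext (congrArg (fun x : pGen p G => (x : G)) e))
  · have h0 : pGen 2 G ≤ N.map U.subtype := by
      rw [Subgroup.closure_le]
      rintro g ⟨k, hk⟩
      have hg : g ∈ U := hKU (Subgroup.subset_closure ⟨k, hk⟩)
      exact ⟨⟨g, hg⟩, mem_of_orderOf_eq_pow (p := 2) (k := k)
        (fun h => Nat.not_even_iff_odd.mpr ho (even_iff_two_dvd.mpr h))
        (by rw [← hk, Subgroup.orderOf_mk]), rfl⟩
    have h1 : (pGen 2 G).subgroupOf U ≤ N := by
      intro x hx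
      obtain ⟨y, hy, he⟩ := h0 hx
      exact (Subtype.ext he : y = x) ▸ hy
    have h2 : N.index ∣ p ^ a := ha ▸ Subgroup.index_dvd_of_le h1
    obtain ⟨j, -, hj⟩ := (Nat.dvd_prime_pow hp.out).mp h2
    exact ⟨j, hj⟩

end Cfsg.Lib.Char
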