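import Cfsg.Agent.Block.GalPow
import Cfsg.Agent.Char.FrobSchur
import Cfsg.Agent.Char.DegBasic
import Cfsg.Agent.Char.Linear

/-!
# Real characters and normal subgroups of odd index
-/

set_option autoImplicit false

open scoped ComplexConjugate
open Cfsg Cfsg.Lib.Char.Deg

namespace Cfsg.Lib.Char

variable {G : Type*} [Group G]

omit [Group G] in
theorem conj_eq_of_real {χ : G → ℂ} (h : ∀ g, (χ g).im = 0) : (fun g => conj (χ g)) = χ :=
  funext fun g => Complex.conj_eq_iff_im.mpr (h g)

omit [Group G] in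
theorem real_of_conj_eq {χ : G → ℂ} (h : (fun g => conj (χ g)) = χ) (g : G) : (χ g).im = 0 :=
  Complex.conj_eq_iff_im.mp (congrFun h g)

theorem mem_of_mul_self_mem_of_odd {N T : Subgroup G} [N.Normal] (hodd : Odd N.index) (hNT : N ≤ T)
    {g : G} (hg : g * g ∈ T) : g ∈ T := by
  obtain ⟨k, hk⟩ := hodd
  have h1 : g ^ N.index ∈ T := hNT (N.pow_index_mem g)
  rw [hk, pow_succ, pow_mul, sq] at h1
  exact (T.mul_mem_cancel_left (T.pow_mem hg k)).mp h1

section Odd

variable [Finite G] {N : Subgroup G} [hN : N.Normal] [Fintype N] {χ χ' : G → ℂ} {θ : N → ℂ}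

theorem exists_real_over (hodd : Odd N.index) (hθ : IsIrrCharacter N θ)
    (hr : ∀ n, (θ n).im = 0) : ∃ χ : G → ℂ, IsIrrCharacter G χ ∧ (∀ g, (χ g).im = 0) ∧
      classInner (fun n : N => χ n) θ ≠ 0 := by
  obtain ⟨χ, ⟨h1, h2⟩, -⟩ := Block.existsUnique_barI_eq_over hodd (θ := ⟨θ, hθ⟩) (x := 1)
    (by rw [Block.cjI_one]; exact Subtype.ext (conj_eq_of_real hr))
  exact ⟨χ, χ.2, real_of_conj_eq (congrArg Subtype.val h2), Block.over_iff.mp h1⟩

theorem real_over_unique (hodd : Odd N.index) (hθ : IsIrrCharacter N θ)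
    (hr : ∀ n, (θ n).im = 0) (hχ : IsIrrCharacter G χ) (hχr : ∀ g, (χ g).im = 0)
    (h : classInner (fun n : N => χ n) θ ≠ 0) (hχ' : IsIrrCharacter G χ')
    (hχr' : ∀ g, (χ' g).im = 0) (h' : classInner (fun n : N => χ' n) θ ≠ 0) : χ = χ' := by
  have := (Block.existsUnique_barI_eq_over hodd (θ := ⟨θ, hθ⟩) (x := 1)
    (by rw [Block.cjI_one]; exact Subtype.ext (conj_eq_of_real hr))).unique
    (y₁ := ⟨χ, hχ⟩) (y₂ := ⟨χ', hχ'⟩)
    ⟨Block.over_iff.mpr h, Subtype.ext (conj_eq_of_real hχr)⟩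
    ⟨Block.over_iff.mpr h', Subtype.ext (conj_eq_of_real hχr')⟩
  exact congrArg Subtype.val this

/-- The constituents of a real character on a normal subgroup of odd index are real. -/
theorem real_of_under (hodd : Odd N.index) (hχ : IsIrrCharacter G χ) (hχr : ∀ g, (χ g).im = 0)
    (hθ : IsIrrCharacter N θ) (h : classInner (fun n : N => χ n) θ ≠ 0) (n : N) :
    (θ n).im = 0 := by
  have := Fintype.ofFinite G
  have h1 : classInner (fun n : N => χ n) (fun n => conj (θ n)) ≠ 0 := by
    have e : (fun n : N => χ n) = fun n : N => conj (χ n) :=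
      funext fun n => (Complex.conj_eq_iff_im.mpr (hχr n)).symm
    rw [e, classInner_conj_conj]
    exact fun h0 => h (classInner_eq_zero_comm.mp h0)
  obtain ⟨g, hg⟩ := exists_conjChar_eq_of_lies_over hχ hθ hθ.conj h h1
  have h2 : g * g ∈ inertia N θ := by
    rw [mem_inertia, conjChar_mul, hg, conjChar_conj, hg]
    funext n
    simp
  have h3 := mem_of_mul_self_mem_of_odd hodd (le_inertia hθ.isClassFunction) h2
  rw [mem_inertia] at h3
  exact real_of_conj_eq (hg.symm.trans h3) n

omit [Finite G] [Fintype N] in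
theorem card_sqrt_eq_of_odd_index (hodd : Odd N.index) (n : N) :
    Nat.card {s : G // s * s = n} = Nat.card {s : N // s * s = n} :=
  Nat.card_congr
    { toFun := fun s => ⟨⟨s.1, mem_of_mul_self_mem_of_odd hodd le_rfl (by rw [s.2]; exact n.2)⟩,
        Subtype.ext s.2⟩
      invFun := fun s => ⟨s.1, congrArg Subtype.val s.2⟩
      left_inv := fun _ => rfl
      right_inv := fun _ => rfl }

theorem sum_fsInd_mul_classInner [Fintype G] (hodd : Odd N.index) (hθ : IsIrrCharacter N θ) :
    ∑ χ : IrrCharacter G, fsInd (χ : G → ℂ) * classInner (fun n : N => (χ : G → ℂ) n) θ =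
      fsInd θ := by
  classical
  have h1 : (∑ χ : IrrCharacter G, fsInd (χ : G → ℂ) • fun n : N => (χ : G → ℂ) n) =
      ∑ φ : IrrCharacter N, fsInd (φ : N → ℂ) • (φ : N → ℂ) := by
    funext n
    simp only [Finset.sum_apply, Pi.smul_apply, smul_eq_mul]
    rw [← card_sqrt_eq_sum_fsInd, ← card_sqrt_eq_sum_fsInd, card_sqrt_eq_of_odd_index hodd]
  have h2 := congrArg (fun f => classInner f θ) h1
  simp only [classInner_sum_left, classInner_smul_left] at h2
  rw [h2, Finset.sum_eq_single ⟨θ, hθ⟩]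
  · rw [hθ.classInner_self, mul_one]
  · intro φ _ hne
    rw [φ.2.classInner_of_ne hθ (fun e => hne (Subtype.ext e)), mul_zero]
  · simp

/-- A real character restricts without multiplicity to a normal subgroup of odd index. -/
theorem classInner_eq_one_of_real (hodd : Odd N.index) (hχ : IsIrrCharacter G χ)
    (hχr : ∀ g, (χ g).im = 0) (hθ : IsIrrCharacter N θ)
    (h : classInner (fun n : N => χ n) θ ≠ 0) : classInner (fun n : N => χ n) θ = 1 := by
  classical
  have := Fintype.ofFinite G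
  have hr := real_of_under hodd hχ hχr hθ h
  have h1 := sum_fsInd_mul_classInner hodd hθ
  rw [Finset.sum_eq_single ⟨χ, hχ⟩] at h1
  · obtain ⟨e, he⟩ := (hχ.isCharacter.res N).exists_nat_classInner hθ.isCharacter
    simp only at h1
    rw [he] at h1 ⊢
    have h2 : ∀ {H : Type _} [Group H] [Fintype H] {ψ : H → ℂ}, IsIrrCharacter H ψ →
        (∀ g, (ψ g).im = 0) → ‖fsInd ψ‖ = 1 := by
      intro H _ _ ψ hψ hψr
      rcases hψ.fsInd_cases with h3 | h3 | h3
      · obtain ⟨g, hg⟩ := h3.1
        exact absurd (hψr g) hg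
      · rw [h3.2.1, norm_one]
      · rw [h3.2.1, norm_neg, norm_one]
    have h3 := congrArg norm h1
    rw [norm_mul, h2 hχ hχr, h2 hθ hr, one_mul, Complex.norm_natCast] at h3
    exact_mod_cast h3
  · intro ψ _ hne
    by_cases h2 : ∃ g, ((ψ : G → ℂ) g).im ≠ 0
    · rw [ψ.2.fsInd_eq_zero_iff.mpr h2, zero_mul]
    · push Not at h2
      by_contra h3
      exact hne (Subtype.ext (real_over_unique hodd hθ hr ψ.2 h2 (right_ne_zero_of_mul h3)
        hχ hχr h))
  · simp

theorem deg_eq_of_real (hodd : Odd N.index) (hχ : IsIrrCharacter G χ)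
    (hχr : ∀ g, (χ g).im = 0) (hθ : IsIrrCharacter N θ)
    (h : classInner (fun n : N => χ n) θ ≠ 0) :
    charDegree χ = (inertia N θ).index * charDegree θ := by
  obtain ⟨e, -, h1, h2⟩ := exists_deg_eq_of_lies_over hχ hθ h
  rw [classInner_eq_one_of_real hodd hχ hχr hθ h] at h1
  have : e = 1 := by exact_mod_cast h1.symm
  rw [h2, this, one_mul]

end Odd

section Sqrt

variable [Finite G]

/-- Elements in the kernel of all real irreducible characters do not change numbers of square
roots. -/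
theorem card_sqrt_mul_eq {m : G}
    (hm : ∀ χ : G → ℂ, IsIrrCharacter G χ → (∀ g, (χ g).im = 0) → m ∈ charKer χ) (g : G) :
    Nat.card {s : G // s * s = m * g} = Nat.card {s : G // s * s = g} := by
  have := Fintype.ofFinite G
  apply Nat.cast_injective (R := ℂ)
  rw [card_sqrt_eq_sum_fsInd, card_sqrt_eq_sum_fsInd]
  refine Finset.sum_congr rfl fun χ _ => ?_
  by_cases h2 : ∃ g, ((χ : G → ℂ) g).im ≠ 0
  · rw [χ.2.fsInd_eq_zero_iff.mpr h2, zero_mul, zero_mul]
  · push Not at h2
    rw [hm χ χ.2 h2 g]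

/-- An element of odd order in the kernel of all real irreducible characters commutes with all
`2`-elements. -/
theorem commute_of_mem_ker_real {m : G} (hodd : Odd (orderOf m))
    (hm : ∀ χ : G → ℂ, IsIrrCharacter G χ → (∀ g, (χ g).im = 0) → m ∈ charKer χ) (k : ℕ) :
    ∀ t : G, t ^ 2 ^ k = 1 → Commute t m := by
  induction k with
  | zero =>
    intro t ht
    rw [pow_zero, pow_one] at ht
    rw [ht]
    exact Commute.one_left m
  | succ k ih =>
    intro t ht
    have hu1 : (t * t) ^ 2 ^ k = 1 := by rwa [← sq, ← pow_mul, ← pow_succ']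
    have hu := ih (t * t) hu1
    set u := t * t with hut
    obtain ⟨j, hj⟩ := hodd
    let r := m ^ (j + 1)
    have hr : r * r = m := by
      rw [← pow_add, show j + 1 + (j + 1) = (2 * j + 1) + 1 by ring, pow_succ, ← hj,
        pow_orderOf_eq_one, one_mul]
    have hcomm : ∀ s : G, s * s = m * u → Commute s m := by
      intro s hs
      have h1 : Commute s (m * u) := hs ▸ (Commute.refl s).mul_right (Commute.refl s)
      have h2 : Commute s (m ^ 2 ^ k) := by
        have := h1.pow_right (2 ^ k)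
        rwa [hu.symm.mul_pow, hu1, mul_one] at this
      obtain ⟨i, hi⟩ := exists_pow_eq_self_of_coprime (x := m) (n := 2 ^ k)
        (Nat.Coprime.pow_left k (by rw [hj]; simp))
      exact hi ▸ h2.pow_right i
    let f : {s : G // s * s = m * u} → {s : G // s * s = u} := fun s => ⟨s.1 * r⁻¹, by
      have h1 : Commute s.1 r := (hcomm s.1 s.2).pow_right _
      rw [h1.inv_right.symm.mul_mul_mul_comm, s.2, ← mul_inv_rev, hr, ← hu.eq,
        mul_inv_cancel_right]⟩
    have hf : Function.Injective f := fun a b h =>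
      Subtype.ext (mul_right_cancel (congrArg Subtype.val h))
    obtain ⟨s, hs⟩ := ((Nat.bijective_iff_injective_and_card f).mpr
      ⟨hf, card_sqrt_mul_eq hm u⟩).2 ⟨t, rfl⟩
    have h3 : s.1 * r⁻¹ = t := congrArg Subtype.val hs
    rw [← h3]
    exact (hcomm s.1 s.2).mul_left ((Commute.refl m).pow_left _).inv_left

/-- If a complemented abelian normal subgroup lies in the kernel of all real irreducible
characters then no non-identity element of it is inverted by an element of order at most two of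
the complement. -/
theorem eq_one_of_ker_real {N H : Subgroup G} [hN : N.Normal]
    (hc : ∀ a ∈ N, ∀ b ∈ N, a * b = b * a) (hNH : N.IsComplement' H)
    (hm : ∀ χ : G → ℂ, IsIrrCharacter G χ → (∀ g, (χ g).im = 0) → N ≤ charKer χ)
    {h : G} (hh : h ∈ H) (hh2 : h * h = 1) {m : G} (hmN : m ∈ N) (hinv : h * m * h⁻¹ = m⁻¹) :
    m = 1 := by
  classical
  let φ : H → (N →* N) := fun x =>
    { toFun := fun n => n * ⟨x * n * (x : G)⁻¹, hN.conj_mem n n.2 x⟩
      map_one' := Subtype.ext (by simp)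
      map_mul' := fun a b => Subtype.ext (by
        have := hc b b.2 _ (hN.conj_mem a a.2 x)
        simp only [Subgroup.coe_mul]
        calc (a : G) * b * (x * (a * b) * (x : G)⁻¹)
            = a * (b * (x * a * (x : G)⁻¹)) * (x * b * (x : G)⁻¹) := by group
          _ = _ := by rw [this]; group) }
  have hφ : ∀ (x : H) (n : N), (φ x n : G) = n * (x * n * (x : G)⁻¹) := fun _ _ => rfl
  have hcard : ∀ n : N, Nat.card {s : G // s * s = n} =
      Nat.card (Σ x : {x : H // x * x = 1}, {a : N // φ x a = n}) := by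
    intro n
    symm
    refine Nat.card_congr (Equiv.ofBijective (fun z => ⟨(z.2.1 : G) * z.1.1, by
      have h1 : ((z.1.1 : H) : G) * z.1.1 = 1 := congrArg Subtype.val z.1.2
      refine Eq.trans ?_ (congrArg Subtype.val z.2.2)
      rw [hφ, inv_eq_of_mul_eq_one_right h1]; group⟩) ⟨?_, ?_⟩)
    · rintro ⟨⟨x, hx⟩, a, ha⟩ ⟨⟨y, hy⟩, b, hb⟩ he
      have := hNH.1 (a₁ := (a, x)) (a₂ := (b, y)) (congrArg Subtype.val he)
      obtain ⟨rfl, rfl⟩ := Prod.mk.inj this
      rfl
    · rintro ⟨s, hs⟩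
      obtain ⟨⟨a, x⟩, rfl⟩ := hNH.2 s
      simp only at hs
      have e : (a : G) * x * (a * x) = (φ ⟨x, x.2⟩ ⟨a, a.2⟩ : G) * (x * x) := by rw [hφ]; group
      have h1 : (x : G) * x = 1 := by
        have h2 : (x : G) * x ∈ N := by
          rw [← N.mul_mem_cancel_left (φ ⟨x, x.2⟩ ⟨a, a.2⟩).2, ← e, hs]
          exact n.2
        have := hNH.disjoint.le_bot ⟨h2, H.mul_mem x.2 x.2⟩
        exact this
      rw [e, h1, mul_one] at hs
      exact ⟨⟨⟨⟨x, x.2⟩, Subtype.ext h1⟩, ⟨a, a.2⟩, Subtype.ext hs⟩, rfl⟩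
  have := Fintype.ofFinite {x : H // x * x = 1}
  have hsurj : Function.Surjective (φ ⟨h, hh⟩) := by
    intro n
    by_contra hn
    have h1 := card_sqrt_mul_eq (fun χ hχ hr => hm χ hχ hr n.2) 1
    rw [mul_one, hcard n, ← N.coe_one, hcard 1, Nat.card_sigma, Nat.card_sigma] at h1
    refine (Finset.sum_lt_sum (fun x _ => ?_)
      ⟨⟨⟨h, hh⟩, Subtype.ext hh2⟩, Finset.mem_univ _, ?_⟩).ne h1
    · by_cases h2 : ∃ a, φ x a = n
      · obtain ⟨a, ha⟩ := h2
        exact Nat.card_le_card_of_injective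
          (fun b : {b : N // φ x b = n} => (⟨a⁻¹ * b.1, by rw [map_mul, map_inv, ha, b.2,
            inv_mul_cancel]⟩ : {b : N // φ x b = 1}))
          fun b c e => Subtype.ext (mul_left_cancel (congrArg Subtype.val e))
      · have : IsEmpty {a : N // φ x a = n} := ⟨fun a => h2 ⟨a.1, a.2⟩⟩
        rw [Nat.card_of_isEmpty]
        exact Nat.zero_le _
    · have : IsEmpty {a : N // φ ⟨h, hh⟩ a = n} := ⟨fun a => hn ⟨a.1, a.2⟩⟩
      rw [Nat.card_of_isEmpty]
      have : Nonempty {a : N // φ ⟨h, hh⟩ a = 1} := ⟨⟨1, map_one _⟩⟩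
      exact Nat.card_pos
  have hinj := Finite.injective_iff_surjective.mpr hsurj
  have := (injective_iff_map_eq_one _).mp hinj ⟨m, hmN⟩ (Subtype.ext (by
    rw [hφ]
    simp only [hinv, mul_inv_cancel, OneMemClass.coe_one]))
  exact congrArg Subtype.val this

end Sqrt

end Cfsg.Lib.Char
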