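import Cfsg.Agent.Char.ZornOrd

/-!
# Sylow 2-subgroups of `G₂(q)`, `q` odd
-/

set_option autoImplicit false

namespace Cfsg.Lib.Char

theorem SylEA.of_card {p : ℕ} [hp : Fact p.Prime] {G : Type*} [Group G] [Finite G]
    {S : Subgroup G} (hS : IsPGroup p S) {N n : ℕ} (hN : Nat.card G ∣ N) (h : ¬ p ^ (n + 1) ∣ N)
    (hle : p ^ n ≤ Nat.card S) (hE : EA p S) : SylEA p G := by
  refine SylEA.of_subgroup hS (fun hc => h ?_) hE
  obtain ⟨k, hk⟩ := hS.exists_card_eq
  have h1 : p ^ n ∣ Nat.card S := by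
    rw [hk] at hle ⊢
    exact pow_dvd_pow p ((Nat.pow_le_pow_iff_right hp.out.one_lt).1 hle)
  rw [pow_succ]
  exact (Nat.mul_dvd_mul h1 hc).trans (S.card_mul_index ▸ hN)

namespace Zorn

open Cfsg.Lie Matrix

variable {F : Type*} [Field F]

/-- Coordinates exhibiting the Zorn algebra as a double of the matrix algebra. -/
def co (F : Type*) [Field F] :
    (Fin 8 → F) ≃ₗ[F] (Matrix (Fin 2) (Fin 2) F × Matrix (Fin 2) (Fin 2) F) where
  toFun x := (!![x 0, x 1; x 4, x 7], !![x 6, -x 5; -x 2, -x 3])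
  invFun p := ![p.1 0 0, p.1 0 1, -p.2 1 0, -p.2 1 1, p.1 1 0, -p.2 0 1, p.2 0 0, p.1 1 1]
  map_add' x y := by
    ext i j <;> fin_cases i <;> fin_cases j <;> simp <;> ring
  map_smul' c x := by
    ext i j <;> fin_cases i <;> fin_cases j <;> simp
  left_inv x := by apply vec_ext <;> simp
  right_inv p := by
    ext i j <;> fin_cases i <;> fin_cases j <;> simp

theorem co_apply (x : Fin 8 → F) :
    co F x = (!![x 0, x 1; x 4, x 7], !![x 6, -x 5; -x 2, -x 3]) := rfl

/-- The product in the doubled coordinates. -/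
def pm (p q : Matrix (Fin 2) (Fin 2) F × Matrix (Fin 2) (Fin 2) F) :
    Matrix (Fin 2) (Fin 2) F × Matrix (Fin 2) (Fin 2) F :=
  (p.1 * q.1 - q.2 * adjugate p.2, adjugate p.1 * q.2 + q.1 * p.2)

theorem co_mul (x y : Fin 8 → F) : co F (zornMul x y) = pm (co F x) (co F y) := by
  ext i j <;> fin_cases i <;> fin_cases j <;>
    simp [co_apply, pm, zm_eq, adjugate_fin_two_of] <;> ring

/-- The action of a pair of invertible matrices. -/
def phi (x : GL (Fin 2) F × GL (Fin 2) F) :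
    (Matrix (Fin 2) (Fin 2) F × Matrix (Fin 2) (Fin 2) F) ≃ₗ[F]
      (Matrix (Fin 2) (Fin 2) F × Matrix (Fin 2) (Fin 2) F) where
  toFun p := (x.1.1 * p.1 * x.1⁻¹.1, x.1.1 * p.2 * x.2⁻¹.1)
  invFun p := (x.1⁻¹.1 * p.1 * x.1.1, x.1⁻¹.1 * p.2 * x.2.1)
  map_add' p q := by simp [mul_add, add_mul]
  map_smul' c p := by simp
  left_inv p := by
    simp only [mul_assoc, Units.inv_mul_cancel_left, Units.inv_mul, mul_one]
  right_inv p := by
    simp only [mul_assoc, Units.mul_inv_cancel_left, Units.mul_inv, mul_one]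

theorem phi_apply (x : GL (Fin 2) F × GL (Fin 2) F)
    (p : Matrix (Fin 2) (Fin 2) F × Matrix (Fin 2) (Fin 2) F) :
    phi x p = (x.1.1 * p.1 * x.1⁻¹.1, x.1.1 * p.2 * x.2⁻¹.1) := rfl

/-- The action on the Zorn algebra. -/
def psi (F : Type*) [Field F] :
    GL (Fin 2) F × GL (Fin 2) F →* ((Fin 8 → F) ≃ₗ[F] (Fin 8 → F)) :=
  MonoidHom.mk' (fun x => (co F).trans ((phi x).trans (co F).symm)) fun x y => by
    refine LinearEquiv.ext fun v => ?_
    simp only [LinearEquiv.mul_apply, LinearEquiv.trans_apply, LinearEquiv.apply_symm_apply,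
      phi_apply, Prod.fst_mul, Prod.snd_mul, _root_.mul_inv_rev, Units.val_mul, mul_assoc]

theorem psi_apply (x : GL (Fin 2) F × GL (Fin 2) F) (v : Fin 8 → F) :
    psi F x v = (co F).symm (phi x (co F v)) := rfl

theorem adjugate_unit (x : GL (Fin 2) F) : adjugate x.1 = x.1.det • x⁻¹.1 := by
  have h : x⁻¹.1 * (x.1 * adjugate x.1) = x⁻¹.1 * (x.1.det • (1 : Matrix (Fin 2) (Fin 2) F)) := by
    rw [mul_adjugate]
  rwa [Units.inv_mul_cancel_left, Matrix.mul_smul, mul_one] at h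

theorem adjugate_conj {x y : GL (Fin 2) F} (h : x.1.det = y.1.det) (k : Matrix (Fin 2) (Fin 2) F) :
    adjugate (x.1 * k * y⁻¹.1) = y.1 * adjugate k * x⁻¹.1 := by
  rw [adjugate_mul_distrib, adjugate_mul_distrib, adjugate_unit, adjugate_unit, inv_inv,
    Matrix.smul_mul, Matrix.mul_smul, Matrix.mul_smul, smul_smul, h, ← det_mul, Units.inv_mul,
    det_one, one_smul, mul_assoc]

theorem psi_mem {x : GL (Fin 2) F × GL (Fin 2) F} (h : x.1.1.det = x.2.1.det) :
    psi F x ∈ AutZ F := by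
  refine mem_AutZ.2 fun v w => (co F).injective ?_
  simp only [psi_apply, co_mul, LinearEquiv.apply_symm_apply, phi_apply, pm, adjugate_conj h,
    adjugate_conj rfl]
  simp only [mul_sub, sub_mul, mul_add, add_mul, mul_assoc, Units.inv_mul_cancel_left]

theorem psi_eq_one_iff {x : GL (Fin 2) F × GL (Fin 2) F} :
    psi F x = 1 ↔ x.1 = x.2 ∧ ∃ c : F, x.1.1 = c • (1 : Matrix (Fin 2) (Fin 2) F) := by
  constructor
  · intro h
    have h1 : ∀ p, phi x p = p := fun p => by
      have := congrArg (co F) (LinearEquiv.congr_fun h ((co F).symm p))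
      simpa [psi_apply] using this
    have h2 : ∀ k, x.1.1 * k = k * x.1.1 := fun k => by
      have := congrArg (fun p => p.1 * x.1.1) (h1 (k, 0))
      simpa only [phi_apply, mul_assoc, Units.inv_mul, mul_one] using this
    constructor
    · have := congrArg (fun p => p.2 * x.2.1) (h1 (0, 1))
      simp only [phi_apply, mul_assoc, Units.inv_mul, mul_one, one_mul] at this
      exact Units.ext this
    · refine ⟨x.1.1 0 0, ?_⟩
      have a := h2 !![0, 1; 0, 0]
      have b := h2 !![0, 0; 1, 0]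
      have a0 := congrFun (congrFun a 0) 0
      have a1 := congrFun (congrFun a 0) 1
      have b0 := congrFun (congrFun b 0) 0
      simp [Matrix.mul_apply, Fin.sum_univ_two] at a0 a1 b0
      ext i j
      fin_cases i <;> fin_cases j <;> simp [a1, ← a0, b0]
  · rintro ⟨h1, c, h2⟩
    refine LinearEquiv.ext fun v => (co F).injective ?_
    have h3 : ∀ k, x.1.1 * k * x.1⁻¹.1 = k := fun k => by
      have : x.1.1 * k = k * x.1.1 := by rw [h2]; simp
      rw [this, mul_assoc, Units.mul_inv, mul_one]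
    simp only [psi_apply, LinearEquiv.apply_symm_apply, phi_apply, ← h1, h3]
    rfl

theorem exists_nonsquare_two_elt [Fintype F] (hF : Odd (Fintype.card F)) :
    ∃ (d : F) (k : ℕ), ¬ IsSquare d ∧ d ^ 2 ^ k = 1 := by
  have h2 := Class.two_ne_zero_of_odd_card hF
  obtain ⟨a, ha⟩ := FiniteField.exists_nonsquare (F := F) (fun h => h2 (by
    have := ringChar.Nat.cast_ringChar (R := F)
    rwa [h] at this))
  have ha0 : a ≠ 0 := fun h => ha (h ▸ IsSquare.zero)
  obtain ⟨k, m, hm, e⟩ := Nat.exists_eq_two_pow_mul_odd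
    (n := Fintype.card F - 1) (by have := Fintype.one_lt_card (α := F); omega)
  obtain ⟨r, rfl⟩ := hm
  refine ⟨a ^ (2 * r + 1), k, fun ⟨b, hb⟩ => ha ⟨b / a ^ r, ?_⟩, ?_⟩
  · field_simp
    linear_combination hb
  · rw [← pow_mul, mul_comm, ← e, FiniteField.pow_card_sub_one_eq_one a ha0]

/-- `SL₂` is the kernel of the determinant. -/
noncomputable def slKer (F : Type*) [Field F] : SpecialLinearGroup (Fin 2) F ≃*
      (GeneralLinearGroup.det : GL (Fin 2) F →* Fˣ).ker :=
  (MonoidHom.ofInjective SpecialLinearGroup.toGL_injective).trans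
    (MulEquiv.subgroupCongr (SetLike.coe_injective SpecialLinearGroup.range_toGL))

theorem det_eq_one_of_mem {x : GL (Fin 2) F}
    (hx : x ∈ (GeneralLinearGroup.det : GL (Fin 2) F →* Fˣ).ker) : x.1.det = 1 :=
  congrArg Units.val (MonoidHom.mem_ker.1 hx)

theorem sylEA_AutZ [Fintype F] (hF : Odd (Fintype.card F)) : SylEA 2 (AutZ F) := by
  classical
  have hfin := finite_linearEquiv (F := F) (V := Fin 8 → F)
  have h1 : 1 < Fintype.card F := Fintype.one_lt_card
  obtain ⟨d, k, hd, hk⟩ := exists_nonsquare_two_elt hF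
  have hd0 : d ≠ 0 := fun h => hd (h ▸ IsSquare.zero)
  let s : GL (Fin 2) F := GeneralLinearGroup.mkOfDetNeZero !![0, -d; 1, 0] (by simpa using hd0)
  have hs1 : s.1 = !![0, -d; 1, 0] := rfl
  have hs2 : (s ^ 2).1 = (-d) • (1 : Matrix (Fin 2) (Fin 2) F) := by
    rw [pow_two, Units.val_mul, hs1]
    ext i j; fin_cases i <;> fin_cases j <;> simp
  have hs3 : s ^ 2 ^ (k + 2) = 1 := by
    apply Units.ext
    rw [show 2 ^ (k + 2) = 2 * (2 * 2 ^ k) by ring, pow_mul, Units.val_pow_eq_pow_val, hs2,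
      smul_pow, one_pow, pow_mul, neg_sq, ← pow_mul, mul_comm 2, pow_mul, hk, one_pow, one_smul,
      Units.val_one]
  have hsP : IsPGroup 2 (Subgroup.zpowers s) := by
    obtain ⟨j, -, hj⟩ := (Nat.dvd_prime_pow Nat.prime_two).1 (orderOf_dvd_of_pow_eq_one hs3)
    exact IsPGroup.of_card ((Nat.card_zpowers s).trans hj)
  obtain ⟨D, hD⟩ := hsP.exists_le_sylow
  have hsD : s ∈ D.1 := hD (Subgroup.mem_zpowers s)
  set K := (GeneralLinearGroup.det : GL (Fin 2) F →* Fˣ).ker with hK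
  set Q : Subgroup (GL (Fin 2) F) := D.1 ⊓ K with hQ
  have hQE : EA 2 Q := SylEA.inf_normal D K ((sylEA_SL2 hF).congr (slKer F))
  set n := padicValNat 2 (Fintype.card F ^ 2 - 1) with hn
  have hq2 := V2.pow_sub_one_ne h1 two_ne_zero
  have hQc : Nat.card Q = 2 ^ n := by
    obtain ⟨R, hR⟩ := Solv.exists_sylow_eq_subgroupOf_of_isSubnormal
      (inferInstance : K.Normal).isSubnormal D
    have e := R.card_eq_multiplicity
    rw [hR, ← Subgroup.inf_subgroupOf_right,
      Nat.card_congr (Subgroup.subgroupOfEquivOfLe inf_le_right).toEquiv,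
      ← Nat.card_congr (slKer F).toEquiv, card_SL2_eq, Nat.factorization_def _ Nat.prime_two,
      padicValNat.mul (by omega) hq2, V2.v_odd hF, zero_add] at e
    exact e
  let A := Q.map ((psi F).comp (MonoidHom.inl _ _))
  let B := Q.map ((psi F).comp (MonoidHom.inr _ _))
  let T := (A ⊔ B) ⊔ Subgroup.zpowers (psi F (s, s))
  have hss : psi F (s, s) ^ 2 = 1 := by
    rw [← map_pow]
    exact psi_eq_one_iff.2 ⟨rfl, -d, hs2⟩
  have hTE : EA 2 T := ((hQE.map _).sup (hQE.map _)).sup (EA.of_pow_eq_one (by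
    rintro ⟨_, j, rfl⟩
    apply Subtype.ext
    simp only [Subgroup.coe_pow, Subgroup.coe_one]
    rw [← zpow_natCast, ← _root_.zpow_mul, mul_comm, _root_.zpow_mul, zpow_natCast, hss,
      _root_.one_zpow]))
  have hTA : T ≤ AutZ F := by
    refine sup_le (sup_le ?_ ?_) (Subgroup.zpowers_le.2 (psi_mem rfl))
    · rintro _ ⟨x, hx, rfl⟩
      exact psi_mem (by simpa using det_eq_one_of_mem hx.2)
    · rintro _ ⟨x, hx, rfl⟩
      exact psi_mem (by simpa using (det_eq_one_of_mem hx.2).symm)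
  have hTP : IsPGroup 2 T := by
    have hDD : IsPGroup 2 (D.1.prod D.1) := by
      obtain ⟨j, hj⟩ := D.isPGroup'.exists_card_eq
      refine IsPGroup.of_card (n := j + j) ?_
      rw [Nat.card_congr (Subgroup.prodEquiv _ _).toEquiv, Nat.card_prod, hj, pow_add]
    refine (hDD.map (psi F)).to_le (sup_le (sup_le ?_ ?_) (Subgroup.zpowers_le.2 ?_))
    · rintro _ ⟨x, hx, rfl⟩
      exact ⟨(x, 1), ⟨hx.1, D.1.one_mem⟩, rfl⟩
    · rintro _ ⟨x, hx, rfl⟩
      exact ⟨(1, x), ⟨D.1.one_mem, hx.1⟩, rfl⟩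
    · exact ⟨(s, s), ⟨hsD, hsD⟩, rfl⟩
  let f := (psi F).comp (Q.prod Q).subtype
  have hfT : f.range < T := by
    refine lt_of_le_of_ne ?_ fun h => ?_
    · rintro _ ⟨⟨⟨x, y⟩, hx, hy⟩, rfl⟩
      have : f ⟨(x, y), hx, hy⟩ = psi F (x, 1) * psi F (1, y) := by
        rw [← map_mul]; simp [f]
      rw [this]
      exact Subgroup.mem_sup_left (Subgroup.mul_mem_sup ⟨x, hx, rfl⟩ ⟨y, hy, rfl⟩)
    · obtain ⟨⟨⟨x, y⟩, hx, hy⟩, e⟩ : psi F (s, s) ∈ f.range :=
        h ▸ Subgroup.mem_sup_right (Subgroup.mem_zpowers _)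
      have e2 : psi F ((s, s) * (x, y)⁻¹) = 1 := by
        rw [map_mul, map_inv, ← e]; simp [f]
      obtain ⟨-, c, hc⟩ := psi_eq_one_iff.1 e2
      have e3 := congrArg det hc
      have e4 : x⁻¹.1.det = 1 := det_eq_one_of_mem (K.inv_mem hx.2)
      simp only [Prod.inv_mk, Prod.mk_mul_mk, Units.val_mul, det_mul, e4, hs1] at e3
      exact hd ⟨c, by simpa [pow_two] using e3⟩
  have hker : Nat.card f.ker ≤ 2 := by
    have : Nat.card ({1, -1} : Set (GL (Fin 2) F)) ≤ 2 := by
      rw [Nat.card_coe_set_eq]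
      exact (Set.ncard_insert_le _ _).trans (by simp)
    refine le_trans (Nat.card_le_card_of_injective
      (fun x : f.ker => (⟨x.1.1.1, ?_⟩ : ({1, -1} : Set (GL (Fin 2) F)))) ?_) this
    · obtain ⟨-, c, hc⟩ := psi_eq_one_iff.1 (MonoidHom.mem_ker.1 x.2)
      have e3 := (det_eq_one_of_mem x.1.2.1.2).symm.trans (congrArg det hc)
      have e4 : c * c = 1 := by simpa [pow_two] using e3.symm
      rcases mul_self_eq_one_iff.1 e4 with rfl | rfl
      · exact Or.inl (Units.ext (by simpa using hc))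
      · exact Or.inr (Units.ext (by simpa using hc))
    · intro x y h
      have hx := (psi_eq_one_iff.1 (MonoidHom.mem_ker.1 x.2)).1
      have hy := (psi_eq_one_iff.1 (MonoidHom.mem_ker.1 y.2)).1
      have h' : x.1.1.1 = y.1.1.1 := congrArg Subtype.val h
      exact Subtype.ext (Subtype.ext (Prod.ext h' (hx.symm.trans (h'.trans hy))))
  have hTc : 2 ^ (2 * n) ≤ Nat.card T := by
    have a1 : Nat.card f.ker * Nat.card f.range = 2 ^ (2 * n) := by
      rw [← Subgroup.index_ker, Subgroup.card_mul_index,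
        Nat.card_congr (Subgroup.prodEquiv Q Q).toEquiv, Nat.card_prod, hQc, ← pow_add, two_mul]
    obtain ⟨c, hc⟩ := Subgroup.card_dvd_of_le hfT.le
    have a2 : c ≠ 1 := fun h => hfT.ne (Subgroup.eq_of_le_of_card_ge hfT.le (by simp [hc, h]))
    have a3 : c ≠ 0 := fun h => Nat.card_pos.ne' (by rw [hc, h, mul_zero])
    rw [← a1, hc, mul_comm]
    exact Nat.mul_le_mul_left _ (by omega)
  refine SylEA.of_card (S := T.subgroupOf (AutZ F)) (n := 2 * n)
    (hTP.of_equiv (Subgroup.subgroupOfEquivOfLe hTA).symm) (card_AutZ_dvd rfl) ?_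
    (by rwa [Nat.card_congr (Subgroup.subgroupOfEquivOfLe hTA).toEquiv])
    (hTE.congr (Subgroup.subgroupOfEquivOfLe hTA).symm)
  have hq3 := V2.pow_sub_one_ne h1 three_ne_zero
  have hq0 : Fintype.card F ^ 3 ≠ 0 := by positivity
  have hv := V2.v_sq_sub_one h1 3 three_ne_zero
  rw [V2.v_pow_two_mul h1 hF three_ne_zero, V2.v_odd (n := 3) (by decide)] at hv
  rw [padicValNat_dvd_iff_le (by positivity), padicValNat.mul (by positivity) (by positivity),
    padicValNat.mul hq0 (by positivity), padicValNat.mul (by positivity) hq3,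
    padicValNat.mul hq0 hq2, V2.v_odd hF.pow]
  omega

theorem sylEA_G2 [Fintype F] (hF : Odd (Fintype.card F)) : SylEA 2 (G2 F) := by
  have hfin := finite_linearEquiv (F := F) (V := Fin 8 → F)
  exact (sylEA_AutZ hF).congr (g2Equiv F).symm

end Zorn

end Cfsg.Lib.Char
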