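import Cfsg.Agent.Block.AltHt

/-!
# Characters of symmetric groups labelled by partitions with at most three rows
-/

set_option autoImplicit false

open Equiv Finset Cfsg Cfsg.Lib.Char Cfsg.Lib.Block

namespace Cfsg.Lib.SymChar

variable {ι : Type*} [Fintype ι] [DecidableEq ι] {Ω : Type*} [Fintype Ω] [DecidableEq Ω]
  {p a b c r : ℕ} {β : ι → ℕ}

/-- A character vanishes on elements whose cycles of length divisible by `p` exceed the weight. -/
theorem sum_le_of_F_ne_zero (hp : 0 < p) {ν ρ : Multiset ℕ} (hν : ∀ r ∈ ν, p ∣ r)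
    (h : F (ν + ρ) β ≠ 0) : ν.sum ≤ p * wt p β := by
  induction ν using Multiset.induction_on generalizing β with
  | empty => simp
  | cons r ν ih =>
    obtain ⟨r, rfl⟩ := hν r (Multiset.mem_cons_self _ _)
    have hβ := (anti_F _).injective h
    rw [Multiset.cons_add, F_cons] at h
    obtain ⟨i, h1, h2⟩ := exists_of_A_ne_zero h
    have h3 := ih (fun s hs => hν s (Multiset.mem_cons_of_mem hs)) h2
    have h4 := (isCore_core hp hβ).sum_add hp ((anti_F _).injective h2)
      ((cnt_dn h1).trans (cnt_core β).symm)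
    have h5 := sum_core_add hp hβ
    have h6 := sum_dn β i h1
    rw [Multiset.sum_cons]
    omega

/-- The beta-numbers of the partition `(a, b, c)`. -/
noncomputable def three (ι : Type*) [Fintype ι] (a b c : ℕ) (i : ι) : ℕ :=
  del ι i + if del ι i + 1 = Fintype.card ι then a else if del ι i + 2 = Fintype.card ι then b
    else if del ι i + 3 = Fintype.card ι then c else 0

omit [DecidableEq ι] in
theorem three_injective (h1 : b ≤ a) (h2 : c ≤ b) : Function.Injective (three ι a b c) := by
  intro i k e
  have := del_lt i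
  have := del_lt k
  apply del_injective
  unfold three at e
  split_ifs at e <;> omega

omit [DecidableEq ι] in
theorem exists_three_eq (hN : 3 ≤ Fintype.card ι) {v : ℕ} (h : v + 3 < Fintype.card ι ∨
    v + 3 = Fintype.card ι + c ∨ v + 2 = Fintype.card ι + b ∨ v + 1 = Fintype.card ι + a) :
    ∃ k, three ι a b c k = v := by
  rcases h with h | h | h | h
  · obtain ⟨k, hk⟩ := exists_del_eq (ι := ι) (v := v) (by omega)
    exact ⟨k, by unfold three; split_ifs <;> omega⟩
  · obtain ⟨k, hk⟩ := exists_del_eq (ι := ι) (v := Fintype.card ι - 3) (by omega)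
    exact ⟨k, by unfold three; split_ifs <;> omega⟩
  · obtain ⟨k, hk⟩ := exists_del_eq (ι := ι) (v := Fintype.card ι - 2) (by omega)
    exact ⟨k, by unfold three; split_ifs <;> omega⟩
  · obtain ⟨k, hk⟩ := exists_del_eq (ι := ι) (v := Fintype.card ι - 1) (by omega)
    exact ⟨k, by unfold three; split_ifs <;> omega⟩

omit [DecidableEq ι] in
theorem sum_three (hN : 3 ≤ Fintype.card ι) :
    ∑ i, three ι a b c i = ∑ i, del ι i + (a + b + c) := by
  obtain ⟨N, hN⟩ := Nat.exists_eq_add_of_le' hN
  let g : ℕ → ℕ := fun i => if i + 1 = N + 3 then a else if i + 2 = N + 3 then b else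
    if i + 3 = N + 3 then c else 0
  have : ∑ i, g (del ι i) = ∑ i ∈ range (Fintype.card ι), g i :=
    ((Fintype.equivFin ι).sum_comp fun i => g i).trans (Fin.sum_univ_eq_sum_range g _)
  simp only [three, Finset.sum_add_distrib, hN, g] at this ⊢
  rw [this, sum_range_succ, sum_range_succ, sum_range_succ,
    Finset.sum_eq_zero (s := range N) fun i hi => by
      have := mem_range.1 hi
      split_ifs <;> omega]
  simp
  omega

omit [DecidableEq ι] in
theorem exists_three_sub (hN : 3 ≤ Fintype.card ι) (h1 : c < r) (h2 : b + 2 ≤ r ∨ b + 1 = r + c)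
    {i : ι} (hi : del ι i + 1 ≠ Fintype.card ι ∨ a + 1 = r + b) (hr : r ≤ three ι a b c i) :
    ∃ k, three ι a b c k = three ι a b c i - r := by
  have := del_lt i
  refine exists_three_eq hN ?_
  unfold three at hr ⊢
  split_ifs at hr ⊢ <;> omega

theorem wt_three (hN : 3 ≤ Fintype.card ι) (h0 : c ≤ b) (h1 : c < p)
    (h2 : b + 2 ≤ p ∨ b + 1 = p + c) (h3 : a + 1 = p + b) (w : ℕ) :
    wt p (three ι (a + p * w) b c) = w := by
  have hc : IsCore p (three ι a b c) :=
    ⟨three_injective (by omega) h0, fun i hi => exists_three_sub hN h1 h2 (Or.inr h3) hi⟩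
  have := hc.sum_add (β := three ι (a + p * w) b c) (by omega) (three_injective (by omega) h0)
    (cnt_congr fun i => by
      unfold three
      split_ifs
      · rw [← add_assoc, Nat.add_mul_mod_self_left]
      all_goals rfl)
  rw [sum_three hN, sum_three hN] at this
  exact Nat.eq_of_mul_eq_mul_left (show 0 < p by omega) (by omega)

theorem F_three_ne_zero (hN : 3 ≤ Fintype.card ι) (h0 : c ≤ b) (h1 : c < r)
    (h2 : b + 2 ≤ r ∨ b + 1 = r + c) (h3 : b ≤ a) :
    F (r ::ₘ Multiset.replicate (a + b + c) 1) (three ι (a + r) b c) ≠ 0 := by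
  obtain ⟨i, hi⟩ := exists_del_eq (ι := ι) (v := Fintype.card ι - 1) (by omega)
  have h4 : dn (three ι (a + r) b c) i r = three ι a b c := by
    funext k
    rcases eq_or_ne k i with rfl | hk
    · rw [dn_self]; unfold three; split_ifs <;> omega
    · have := del_injective.ne hk
      rw [dn_of_ne _ hk]; unfold three; split_ifs <;> omega
  have h5 := three_injective (ι := ι) h3 h0
  have h6 := sum_del_add h5
  rw [sum_three hN] at h6
  rw [F_cons, A, Finset.sum_eq_single i (fun k _ hk => ?_) (by simp),
    if_pos (by unfold three; split_ifs <;> omega), h4, ← Nat.add_left_cancel h6]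
  · exact F_replicate_one_ne_zero h5
  split_ifs with h7
  · obtain ⟨l, hl⟩ := exists_three_sub hN h1 h2
      (Or.inl (by have := del_injective.ne hk; omega)) h7
    exact (anti_F _).eq_zero fun e =>
      (injective_dn_iff (three_injective (by omega) h0) (by omega) h7).1 e l hl
  · rfl

/-- A character with a three-row label which restricts irreducibly to the alternating group. -/
theorem exists_alt_three (hN : 3 ≤ Fintype.card Ω) (h0 : c ≤ b) (h1 : c < r)
    (h2 : b + 2 ≤ r ∨ b + 1 = r + c) (h3 : b ≤ a) (hr : Even r)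
    (hs : a + r + b + c = Fintype.card Ω) :
    ∃ (χ : IrrCharacter (alternatingGroup Ω)) (ψ : IrrCharacter (Perm Ω)),
      Lab ψ (three Ω (a + r) b c) ∧
        ∀ x : alternatingGroup Ω, (ψ : Perm Ω → ℂ) x = (χ : alternatingGroup Ω → ℂ) x := by
  obtain ⟨ψ, h⟩ := exists_lab_of_injective (Ω := Ω) le_rfl
    (three_injective (a := a + r) (by omega) h0) (mem_T.2 (by rw [sum_three hN, hs]))
  obtain ⟨g, hg⟩ := exists_parts_eq (Ω := Ω) (μ := r ::ₘ Multiset.replicate (a + b + c) 1)
    (by simp [Multiset.mem_replicate]; omega) (by simp; omega)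
  have : Nontrivial Ω := Fintype.one_lt_card_iff_nontrivial.1 (by omega)
  obtain ⟨χ, hχ⟩ := exists_over_under (alternatingGroup Ω) ψ
  refine ⟨χ, ψ, h, congrFun ((hχ.index_two alternatingGroup.index_eq_two).resolve_right fun e =>
    h.apply_ne_zero (hg ▸ F_three_ne_zero hN h0 h1 h2 h3) (e.1 g fun e => ?_))⟩
  rw [mem_alternatingGroup_iff_parts, hg, Nat.even_iff] at e
  rw [Nat.even_iff] at hr
  simp at e
  omega

end Cfsg.Lib.SymChar
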